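import Cfsg.Agent.H2.SzAut
import Cfsg.Agent.H2.SzIso
import Cfsg.Agent.H2.SpCenter
import Cfsg.Agent.H2.PrimeGraphAff

/-! The group `Sz(8):3` and a module of characteristic two for it. -/

set_option autoImplicit false

namespace CfsgH2

namespace AutSz8

open Cfsg Matrix MulAction

/-- The field with eight elements. -/
def F8 : Type := GaloisField 2 3

noncomputable instance instFieldF8 : Field F8 := inferInstanceAs (Field (GaloisField 2 3))

instance instFiniteF8 : Finite F8 := inferInstanceAs (Finite (GaloisField 2 3))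

instance instCharPF8 : CharP F8 2 := inferInstanceAs (CharP (GaloisField 2 3) 2)

theorem card_F8 : Nat.card F8 = 2 ^ (2 * 1 + 1) := GaloisField.card 2 3 (by norm_num)

instance instSzFieldF8 : SzField F8 1 := by
  have := Fintype.ofFinite F8
  exact szField_of_card le_rfl (by rw [← Nat.card_eq_fintype_card, card_F8])

/-- The Frobenius automorphism. -/
noncomputable def frob : F8 ≃+* F8 := frobeniusEquiv F8 2

theorem frob_apply (x : F8) : frob x = x ^ 2 := rfl

theorem pow_eight (x : F8) : x ^ 8 = x := by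
  have := Fintype.ofFinite F8
  have h := FiniteField.pow_card x
  rwa [← Nat.card_eq_fintype_card, card_F8] at h

theorem eq_of_frob_eq {x : F8} (h : frob x = x) : x = 0 ∨ x = 1 := by
  rw [frob_apply] at h
  by_cases h0 : x = 0
  · exact Or.inl h0
  · right
    apply mul_left_cancel₀ h0
    rw [← sq, h, mul_one]

theorem orderOf_frob : orderOf frob = 3 := by
  have : Fact (Nat.Prime 3) := ⟨Nat.prime_three⟩
  apply orderOf_eq_prime
  · ext x
    change frob (frob (frob x)) = x
    simp only [frob_apply, ← pow_mul]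
    exact pow_eight x
  · intro h
    obtain ⟨x, h0, h1⟩ := instSzFieldF8.exists_ne
    rcases eq_of_frob_eq (x := x) (by rw [h]; rfl) with h | h <;> contradiction

/-- The group of field automorphisms. -/
noncomputable abbrev A3 : Subgroup (F8 ≃+* F8) := Subgroup.zpowers frob

theorem card_A3 : Nat.card A3 = 3 := by rw [Nat.card_zpowers, orderOf_frob]

instance instFiniteA3 : Finite A3 := Nat.finite_of_card_ne_zero (by rw [card_A3]; norm_num)

/-- The group `Sz(8):3`. -/
noncomputable abbrev Gam : Type := Sz F8 1 ⋊[(szAut F8 1).comp A3.subtype] A3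

instance instFiniteGam : Finite Gam := Finite.of_equiv _ SemidirectProduct.equivProd.symm

theorem card_Sz8 : Nat.card (Sz F8 1) = 29120 := by
  rw [card_Sz, card_F8]; norm_num

theorem card_Gam : Nat.card Gam = 29120 * 3 := by
  rw [SemidirectProduct.card, card_Sz8, card_A3]

theorem right_eq_one {x : Gam} (h : ¬ 3 ∣ orderOf x) : x.right = 1 := by
  have h1 : orderOf x.right ∣ orderOf x := orderOf_map_dvd SemidirectProduct.rightHom x
  have h2 : orderOf x.right ∣ 3 := by rw [← card_A3]; exact orderOf_dvd_natCard _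
  rcases (Nat.dvd_prime Nat.prime_three).mp h2 with h3 | h3
  · exact orderOf_eq_one_iff.mp h3
  · exact absurd (h3 ▸ h1) h

theorem eq_inl {x : Gam} (h : ¬ 3 ∣ orderOf x) : x = SemidirectProduct.inl x.left := by
  ext
  · simp
  · simp [right_eq_one h]

theorem orderOf_left {x : Gam} (h : ¬ 3 ∣ orderOf x) : orderOf x.left = orderOf x := by
  conv_rhs => rw [eq_inl h]
  exact (orderOf_injective _ SemidirectProduct.inl_injective _).symm

theorem orderOf_Sz8 (g : Sz F8 1) :
    orderOf g ∣ 4 ∨ orderOf g ∣ 7 ∨ orderOf g ∣ 13 ∨ orderOf g ∣ 5 :=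
  orderOf_cases' card_F8 g

/-- the generator of the group of field automorphisms -/
noncomputable def fr : A3 := ⟨frob, Subgroup.mem_zpowers _⟩

theorem orderOf_fr : orderOf fr = 3 := by rw [fr, Subgroup.orderOf_mk, orderOf_frob]

theorem exists_orderOf_mul {g : Sz F8 1} (hg : szMap 1 (frob : F8 →+* F8) g = g)
    (h3 : Nat.Coprime (orderOf g) 3) : ∃ x : Gam, orderOf x = orderOf g * 3 := by
  let a : Gam := SemidirectProduct.inl g
  let b : Gam := SemidirectProduct.inr fr
  have ha : orderOf a = orderOf g := orderOf_injective _ SemidirectProduct.inl_injective g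
  have hb : orderOf b = 3 :=
    (orderOf_injective _ SemidirectProduct.inr_injective fr).trans orderOf_fr
  have hc : Commute a b := by
    change a * b = b * a
    ext
    · simp only [a, b, SemidirectProduct.mul_left, SemidirectProduct.left_inl,
        SemidirectProduct.left_inr, SemidirectProduct.right_inr, map_one, mul_one, one_mul]
      exact congrArg (fun x : Sz F8 1 => x.1.1 _ _) hg.symm
    · simp [a, b]
  exact ⟨a * b, by rw [hc.orderOf_mul_eq_mul_orderOf_of_coprime (by rwa [ha, hb]), ha, hb]⟩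

theorem exists_orderOf_six : ∃ x : Gam, orderOf x = 6 := by
  have := exists_orderOf_mul (g := T 1 0 1) (by rw [szMap_T]; simp)
    (by rw [orderOf_T01]; norm_num)
  rwa [orderOf_T01] at this

theorem szMap_WT : szMap 1 (frob : F8 →+* F8) (W F8 1 * T 1 0 1) = W F8 1 * T 1 0 1 := by
  rw [map_mul, szMap_T, szMap_W]; simp

theorem exists_orderOf_fifteen : ∃ x : Gam, orderOf x = 15 := by
  have := exists_orderOf_mul szMap_WT (by rw [orderOf_WT]; norm_num)
  rwa [orderOf_WT] at this

theorem dvd_of_orderOf_three_mul {x : Gam} {r : ℕ} (hr : ¬ 3 ∣ r) (hx : orderOf x = 3 * r) :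
    r ∣ 120 := by
  have : Fact (Nat.Prime 3) := ⟨Nat.prime_three⟩
  have hr0 : r ≠ 0 := by rintro rfl; simp at hr
  have hu : orderOf (x ^ r) = 3 := by
    rw [orderOf_pow' _ hr0, hx, Nat.gcd_mul_left_left, Nat.mul_div_cancel _ (by omega)]
  have hy : orderOf (x ^ 3) = r := by
    rw [orderOf_pow' _ (by norm_num), hx, Nat.gcd_mul_right_left,
      Nat.mul_div_cancel_left _ (by norm_num)]
  have hP : Nat.card (SemidirectProduct.inr : A3 →* Gam).range = 3 := by
    rw [← Nat.card_congr (MonoidHom.ofInjective SemidirectProduct.inr_injective).toEquiv, card_A3]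
  let P : Sylow 3 Gam := (IsPGroup.of_card (n := 1) (by rw [hP, pow_one])).toSylow (by
    have := (SemidirectProduct.inr : A3 →* Gam).range.card_mul_index
    rw [hP, card_Gam] at this
    omega)
  have pu : IsPGroup 3 (Subgroup.zpowers (x ^ r)) :=
    IsPGroup.of_card (n := 1) (by rw [Nat.card_zpowers, hu, pow_one])
  obtain ⟨R, hR⟩ := pu.exists_le_sylow
  obtain ⟨k, hk⟩ := exists_smul_eq Gam R P
  have hmem : k * x ^ r * k⁻¹ ∈ P := by
    rw [← hk]
    exact Subgroup.smul_mem_pointwise_smul (x ^ r) (MulAut.conj k) (R : Subgroup Gam)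
      (hR (Subgroup.mem_zpowers _))
  obtain ⟨σ, hσ⟩ : k * x ^ r * k⁻¹ ∈ (SemidirectProduct.inr : A3 →* Gam).range := hmem
  have hy2 : orderOf (k * x ^ 3 * k⁻¹) = r := by
    rw [← hy]; exact (MulAut.conj k).orderOf_eq _
  have hσ1 : σ ≠ 1 := by
    rintro rfl
    have : orderOf (k * x ^ r * k⁻¹) = 3 := by rw [← hu]; exact (MulAut.conj k).orderOf_eq _
    rw [← hσ, map_one, orderOf_one] at this
    exact absurd this (by norm_num)
  set y := k * x ^ 3 * k⁻¹ with hydef
  have hcomm : SemidirectProduct.inr σ * y = y * SemidirectProduct.inr σ := by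
    rw [hσ, hydef]; group
  have hyl := eq_inl (x := y) (hy2 ▸ hr)
  have hfix : szMap 1 ((σ : F8 ≃+* F8) : F8 →+* F8) y.left = y.left := by
    have := congrArg SemidirectProduct.left hcomm
    simpa [szAut_apply] using this
  rw [← hy2, ← orderOf_left (hy2 ▸ hr)]
  apply orderOf_dvd_of_szMap_eq _ _ hfix
  intro a ha
  apply eq_of_frob_eq
  obtain ⟨n, hn⟩ : fr ∈ Submonoid.powers σ :=
    mem_powers_of_prime_card card_A3 hσ1
  have h1 : frob = (σ : F8 ≃+* F8) ^ n := (congrArg Subtype.val hn).symm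
  rw [h1]
  clear hn h1
  induction n with
  | zero => rfl
  | succ n ih =>
    rw [pow_succ]
    change ((σ : F8 ≃+* F8) ^ n) ((σ : F8 ≃+* F8) a) = a
    rw [show (σ : F8 ≃+* F8) a = a from ha, ih]

theorem prime_dvd_card_iff {p : ℕ} (hp : p.Prime) :
    p ∣ Nat.card Gam ↔ p = 2 ∨ p = 3 ∨ p = 5 ∨ p = 7 ∨ p = 13 := by
  rw [card_Gam]
  constructor
  · intro h
    rw [show 29120 * 3 = 2 ^ 6 * 3 * 5 * 7 * 13 by norm_num] at h
    simp only [hp.dvd_mul] at h
    rcases h with (((h | h) | h) | h) | h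
    · exact Or.inl ((Nat.prime_dvd_prime_iff_eq hp Nat.prime_two).mp (hp.dvd_of_dvd_pow h))
    · simp [(Nat.prime_dvd_prime_iff_eq hp (by norm_num)).mp h]
    · simp [(Nat.prime_dvd_prime_iff_eq hp (by norm_num)).mp h]
    · simp [(Nat.prime_dvd_prime_iff_eq hp (by norm_num)).mp h]
    · simp [(Nat.prime_dvd_prime_iff_eq hp (by norm_num)).mp h]
  · rintro (rfl | rfl | rfl | rfl | rfl) <;> norm_num

theorem edge_iff {p q : ℕ} (hp : p.Prime) (hq : q.Prime) (hpq : p ≠ q) :
    (∃ g : Gam, orderOf g = p * q) ↔ p * q = 6 ∨ p * q = 15 := by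
  constructor
  · rintro ⟨x, hx⟩
    have h1 : p ∣ Nat.card Gam := (hx ▸ Dvd.intro _ rfl).trans (orderOf_dvd_natCard x)
    have h2 : q ∣ Nat.card Gam := (hx ▸ Dvd.intro_left _ rfl).trans (orderOf_dvd_natCard x)
    have h3 : ¬ 3 ∣ p * q → p * q ∣ 4 ∨ p * q ∣ 7 ∨ p * q ∣ 13 ∨ p * q ∣ 5 := by
      intro h
      rw [← hx] at h ⊢
      rw [← orderOf_left h]
      exact orderOf_Sz8 _
    have h21 : p * q ≠ 3 * 7 := fun h =>
      absurd (dvd_of_orderOf_three_mul (by norm_num) (hx.trans h)) (by norm_num)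
    have h39 : p * q ≠ 3 * 13 := fun h =>
      absurd (dvd_of_orderOf_three_mul (by norm_num) (hx.trans h)) (by norm_num)
    rcases (prime_dvd_card_iff hp).mp h1 with rfl | rfl | rfl | rfl | rfl <;>
      rcases (prime_dvd_card_iff hq).mp h2 with rfl | rfl | rfl | rfl | rfl <;> omega
  · rintro (h | h) <;> rw [h]
    · exact exists_orderOf_six
    · exact exists_orderOf_fifteen

/-- The module: `4 × 4` matrices with a twisted conjugation action. -/
def Md : Type := Matrix (Fin 4) (Fin 4) F8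

noncomputable instance instAddCommGroupMd : AddCommGroup Md :=
  inferInstanceAs (AddCommGroup (Matrix (Fin 4) (Fin 4) F8))

instance instFiniteMd : Finite Md := inferInstanceAs (Finite (Matrix (Fin 4) (Fin 4) F8))

instance instNontrivialMd : Nontrivial Md :=
  inferInstanceAs (Nontrivial (Matrix (Fin 4) (Fin 4) F8))

/-- the action map -/
noncomputable def act (x : Gam) (M : Matrix (Fin 4) (Fin 4) F8) : Matrix (Fin 4) (Fin 4) F8 :=
  mat x.left * M.map ((x.right : F8 ≃+* F8) : F8 →+* F8) *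
    (mat x.left⁻¹).map (frob : F8 →+* F8)

theorem act_mul (x y : Gam) (M : Matrix (Fin 4) (Fin 4) F8) :
    act (x * y) M = act x (act y M) := by
  have h1 : M.map (((x * y).right : F8 ≃+* F8) : F8 →+* F8) =
      (M.map ((y.right : F8 ≃+* F8) : F8 →+* F8)).map ((x.right : F8 ≃+* F8) : F8 →+* F8) := rfl
  have h2 : (mat ((((szAut F8 1).comp A3.subtype) x.right) y.left⁻¹)).map (frob : F8 →+* F8) =
      ((mat y.left⁻¹).map (frob : F8 →+* F8)).map ((x.right : F8 ≃+* F8) : F8 →+* F8) := by
    generalize y.left⁻¹ = z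
    ext i j
    simp [szAut_apply, frob_apply]
  simp only [act, SemidirectProduct.mul_left, _root_.mul_inv_rev, mat_mul, Matrix.map_mul,
    Matrix.mul_assoc, ← map_inv, h1, h2]
  rfl

theorem act_add (x : Gam) (M N : Matrix (Fin 4) (Fin 4) F8) :
    act x (M + N) = act x M + act x N := by
  simp only [act]
  rw [Matrix.map_add _ (map_add _), Matrix.mul_add, Matrix.add_mul]

noncomputable instance instActionMd : DistribMulAction Gam Md where
  smul := act
  one_smul M := by
    change act 1 M = M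
    simp only [act, SemidirectProduct.one_left, inv_one, mat_one, SemidirectProduct.one_right,
      Matrix.one_mul]
    rw [Matrix.map_one _ (map_zero _) (map_one _), Matrix.mul_one]
    rfl
  mul_smul x y M := act_mul x y M
  smul_zero x := by
    change act x 0 = 0
    simp [act]
  smul_add x M N := act_add x M N

theorem two_smul_Md (v : Md) : 2 • v = 0 := by
  funext i j
  change 2 • v i j = 0
  simp [CharTwo.two_eq_zero]

theorem inl_smul_eq_iff (g : Sz F8 1) (M : Matrix (Fin 4) (Fin 4) F8) :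
    (SemidirectProduct.inl g : Gam) • (show Md from M) = (show Md from M) ↔
      mat g * M = M * (mat g).map (frob : F8 →+* F8) := by
  change act _ M = M ↔ _
  have h1 : (mat g⁻¹).map (frob : F8 →+* F8) * (mat g).map (frob : F8 →+* F8) = 1 := by
    rw [← Matrix.map_mul, ← mat_mul, inv_mul_cancel, mat_one,
      Matrix.map_one _ (map_zero _) (map_one _)]
  have h2 : (mat g).map (frob : F8 →+* F8) * (mat g⁻¹).map (frob : F8 →+* F8) = 1 :=
    mul_eq_one_comm.mp h1
  have h3 : act (SemidirectProduct.inl g) M = mat g * M * (mat g⁻¹).map (frob : F8 →+* F8) := rfl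
  rw [h3]
  constructor
  · intro h
    conv_rhs => rw [← h]
    rw [Matrix.mul_assoc _ _ ((mat g).map _), h1, Matrix.mul_one]
  · intro h
    rw [h, Matrix.mul_assoc, h2, Matrix.mul_one]

theorem exists_fixed_five : ∃ h : Gam, orderOf h = 5 ∧ ∃ v : Md, v ≠ 0 ∧ h • v = v := by
  refine ⟨SemidirectProduct.inl (W F8 1 * T 1 0 1), ?_, (1 : Matrix (Fin 4) (Fin 4) F8),
    one_ne_zero (α := Matrix (Fin 4) (Fin 4) F8), ?_⟩
  · rw [orderOf_injective _ SemidirectProduct.inl_injective, orderOf_WT]
  · rw [inl_smul_eq_iff, Matrix.mul_one, Matrix.one_mul, ← mat_szMap, szMap_WT]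

theorem exists_fixed_seven : ∃ h : Gam, orderOf h = 7 ∧ ∃ v : Md, v ≠ 0 ∧ h • v = v := by
  have : Fact (Nat.Prime 7) := ⟨by norm_num⟩
  obtain ⟨d, hd⟩ := exists_unit_ne_one (F := F8) (m := 1)
  refine ⟨SemidirectProduct.inl (D 1 d), ?_, (Matrix.single 3 1 1 : Matrix (Fin 4) (Fin 4) F8),
    ?_, ?_⟩
  · rw [orderOf_injective _ SemidirectProduct.inl_injective]
    apply orderOf_eq_prime _ (D_ne_one hd)
    have := D_pow_eq_one (m := 1) d
    rwa [card_F8] at this
  · intro h
    have : (Matrix.single 3 1 1 : Matrix (Fin 4) (Fin 4) F8) 3 1 = 0 := congrFun (congrFun h 3) 1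
    simp at this
  · rw [inl_smul_eq_iff, mat_D, Dm_map, Dm, Dm]
    have h8 := pow_eight (d : F8)
    have h0 : (d : F8) ≠ 0 := d.ne_zero
    ext i j
    rw [Matrix.diagonal_mul, Matrix.mul_diagonal]
    by_cases hij : 3 = i ∧ 1 = j
    · obtain ⟨rfl, rfl⟩ := hij
      simp [frob_apply, th_apply]
      field_simp
      apply mul_left_cancel₀ h0
      linear_combination -h8
    · simp [Matrix.single_apply_of_ne _ _ _ _ _ hij]

theorem not_fixed_thirteen {h : Gam} (hh : orderOf h = 13) {v : Matrix (Fin 4) (Fin 4) F8}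
    (hv : h • (show Md from v) = (show Md from v)) : v = 0 := by
  classical
  have := Fintype.ofFinite F8
  have hc : Fintype.card F8 = 8 := by rw [← Nat.card_eq_fintype_card, card_F8]; norm_num
  have h3 : ¬ 3 ∣ orderOf h := by rw [hh]; norm_num
  have hg := orderOf_left h3
  rw [hh] at hg
  rw [eq_inl h3] at hv
  set g := h.left
  replace hv := (inl_smul_eq_iff g v).mp hv
  by_contra hv0
  let K := AlgebraicClosure F8
  let ι := algebraMap F8 K
  obtain ⟨μ, hμ1, hμ2⟩ := exists_common_isEig (A := (mat g).map ι)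
    (B := ((mat g).map (frob : F8 →+* F8)).map ι)
    (M := Matrix.map v ι)
    (by rw [← Matrix.map_mul, hv, Matrix.map_mul]) (by
      intro h0
      apply hv0
      apply Matrix.map_injective ι.injective
      exact h0.trans (Matrix.map_zero _ (map_zero _)).symm)
  obtain ⟨x, rfl⟩ := IsAlgClosed.exists_pow_nat_eq μ (n := 2) (by norm_num)
  have hx : IsEig ((mat g).map ι) x := by
    rw [← isEig_map_iff (frobenius K 2)]
    convert hμ2 using 1
    · ext i j
      simp [frobenius_def, frob_apply]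
    · rfl
  have hx13 : x ^ 13 = 1 := hx.pow_eq_one (by
    rw [← Matrix.map_pow]
    have : mat g ^ 13 = 1 := congrArg mat (hg ▸ pow_orderOf_eq_one g)
    rw [this]; simp)
  have hx1 : x ≠ 1 := by
    rintro rfl
    rw [← map_one ι, isEig_map_iff] at hx
    obtain ⟨w, hw0, hw⟩ := hx
    apply hw0
    apply eq_zero_of_smul_vec_eq (g := g) _ (by rw [sz_smul_vec, hw, one_smul])
    rw [Ne, ← orderOf_dvd_iff_pow_eq_one, hg]
    norm_num
  have : Fact (Nat.Prime 13) := ⟨by norm_num⟩
  have hox : orderOf x = 13 := orderOf_eq_prime hx13 hx1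
  have key := card_le_of_isEig (A := (mat g).map ι)
    (({1, 2, 5, 8, 12} : Finset ℕ).image (x ^ ·)) (by
      intro z hz
      obtain ⟨e, he, rfl⟩ := Finset.mem_image.mp hz
      have hi : ∀ i : ℕ, IsEig ((mat g).map ι) (x ^ (8 ^ i % 13)) := by
        intro i
        rw [← pow_eq_pow_mod _ hx13, ← hc]
        exact hx.pow_card_pow i
      simp only [Finset.mem_insert, Finset.mem_singleton] at he
      rcases he with rfl | rfl | rfl | rfl | rfl
      · exact hi 0
      · exact hμ1
      · exact hi 3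
      · exact hi 1
      · exact hi 2)
  rw [Finset.card_image_of_injOn] at key
  · simp at key
  · intro a ha b hb hab
    simp only [Finset.coe_insert, Finset.coe_singleton, Set.mem_insert_iff,
      Set.mem_singleton_iff] at ha hb
    exact pow_injOn_Iio_orderOf (by rw [hox, Set.mem_Iio]; omega)
      (by rw [hox, Set.mem_Iio]; omega) hab

theorem prime_dvd_card_aff_iff' {p : ℕ} (hp : p.Prime) :
    p ∣ Nat.card (CfsgH7.Aff Gam Md) ↔ p = 2 ∨ p = 3 ∨ p = 5 ∨ p = 7 ∨ p = 13 := by
  rw [prime_dvd_card_aff_iff Nat.prime_two two_smul_Md hp, prime_dvd_card_iff hp]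
  tauto

theorem aff_edge_iff' {p q : ℕ} (hp : p.Prime) (hq : q.Prime) (hpq : p ≠ q) :
    (∃ g : CfsgH7.Aff Gam Md, orderOf g = p * q) ↔
      p * q = 6 ∨ p * q = 10 ∨ p * q = 14 ∨ p * q = 15 := by
  rw [aff_edge_iff Nat.prime_two two_smul_Md hp hq hpq, edge_iff hp hq hpq]
  have key : ∀ r : ℕ, r.Prime → r ≠ 2 → (∃ h : Gam, orderOf h = r ∧ ∃ v : Md, v ≠ 0 ∧ h • v = v) →
      r = 3 ∨ r = 5 ∨ r = 7 := by
    rintro r hr hr2 ⟨h, hh, v, hv, hf⟩
    have := (prime_dvd_card_iff hr).mp (hh ▸ orderOf_dvd_natCard h)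
    have h13 : r ≠ 13 := fun h13 => hv (not_fixed_thirteen (hh.trans h13) hf)
    omega
  constructor
  · rintro (h | ⟨rfl, h⟩ | ⟨rfl, h⟩)
    · omega
    · have := key q hq hpq.symm h
      omega
    · have := key p hp hpq h
      omega
  · have key2 : ∀ r : ℕ, r.Prime → p * q = 2 * r → (p = 2 ∧ q = r) ∨ (q = 2 ∧ p = r) := by
      intro r hr h
      have : 2 ∣ p * q := h ▸ Dvd.intro _ rfl
      rcases Nat.prime_two.dvd_mul.mp this with h2 | h2
      · obtain rfl := (Nat.prime_dvd_prime_iff_eq Nat.prime_two hp).mp h2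
        left; omega
      · obtain rfl := (Nat.prime_dvd_prime_iff_eq Nat.prime_two hq).mp h2
        right; omega
    rintro (h | h | h | h)
    · exact Or.inl (Or.inl h)
    · rcases key2 5 (by norm_num) h with ⟨rfl, rfl⟩ | ⟨rfl, rfl⟩
      · exact Or.inr (Or.inl ⟨rfl, exists_fixed_five⟩)
      · exact Or.inr (Or.inr ⟨rfl, exists_fixed_five⟩)
    · rcases key2 7 (by norm_num) h with ⟨rfl, rfl⟩ | ⟨rfl, rfl⟩
      · exact Or.inr (Or.inl ⟨rfl, exists_fixed_seven⟩)
      · exact Or.inr (Or.inr ⟨rfl, exists_fixed_seven⟩)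
    · exact Or.inl (Or.inr h)

end AutSz8

end CfsgH2
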