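import Cfsg.Agent.H2.BEq
import Cfsg.Agent.H5.NGh
import Cfsg.Agent.H3.AH2
import Cfsg.Agent.H7.SE9

set_option autoImplicit false
set_option linter.unusedSectionVars false
set_option maxHeartbeats 400000

/-! S3332: if the odd core of a point stabiliser moves a point, the involutions at a point
commute (modulo the kernel). -/

namespace CfsgSE

open Subgroup CfsgH5 CfsgH6 CfsgFT CfsgSZ CfsgSZ.PS

universe u

/-- the semiregular case, as a hypothesis. -/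
def AHc : Prop := ∀ (G Ω : Type u) [Group G] [Finite G] [MulAction G Ω] (q : ℕ)
  (A : Ω → Subgroup G), SE G Ω → q.Prime → (∀ a, ElAb q (A a)) → (∀ a, A a ≠ ⊥) →
  (∀ (g : G) a, cj g (A a) = A (g • a)) → (∀ a, A a ≤ St G a) →
  (∀ a b x, x ∈ A a → x • b = b → b ≠ a → x = 1) →
  (∀ a s, Iv s → s • a = a → s ∈ C (A a)) → Four G →
  (∀ g : G, (∀ β : Ω, g • β = β) → g = 1) →
  ∀ (a b : Ω) (s t : G), b ≠ a → Iv s → Iv t → s • a = a → t • a = a → s * t = t * s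

variable {G Ω : Type u} [Group G] [Finite G] [MulAction G Ω]
  {α β γ δ ε : Ω} {X Y R T V : Subgroup G} {u s d t x y z j k g : G} {p r : ℕ}

/-- the statement proved by induction. -/
def BEs (G Ω : Type u) [Group G] [MulAction G Ω] : Prop :=
  SE G Ω → Four G → ∀ (a b : Ω) (x : G), x ∈ Opc 2 (St G a) → x • b ≠ b →
    ∀ s t : G, Iv s → Iv t → s • a = a → t • a = a → ∀ c : Ω, (s * t * s * t) • c = c

namespace SE

variable (S : SE G Ω) (h4 : Four G) (fa : ∀ g : G, (∀ β : Ω, g • β = β) → g = 1)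
include S h4 fa

/-- a normal subgroup of `G_α` fixing a second point is trivial. -/
theorem eq_bot_of_nrm (h : β ≠ α) (h1 : X ≤ St G α) (h2 : Nrm (St G α) X) (h3 : X ≤ St G β) :
    X = ⊥ := by
  refine eq_bot_iff.2 fun x hx => mem_bot.2 (fa x fun γ => ?_)
  by_cases e : γ = α
  · exact e ▸ h1 hx
  obtain ⟨g, a, rfl⟩ := S.two S.ngh h4 h e
  exact le_St_smul h3 (h2.le_N a) hx

/-- the induction step through a proper subgroup. -/
theorem comm_of_sub {M A : Subgroup G} (ih : BEs M (Pts Ω M)) (h : β ≠ α) (hE : EE G α ≤ M)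
    (hE' : EE G β ≤ M) (hA : A ≤ M) (h0 : A ≠ ⊥) (h1 : A ≤ St G α) (h2 : Nrm (St G α) A)
    (ho : Odd (Nat.card A)) (hs : Iv s) (ht : Iv t) (s1 : s • α = α) (t1 : t • α = α) :
    s * t = t * s := by
  obtain ⟨x, x1, x2⟩ : ∃ x ∈ A, x ∉ St G β := SetLike.not_le_iff_exists.1 fun e =>
    h0 (S.eq_bot_of_nrm h4 fa h h1 h2 e)
  obtain ⟨d, d1, d2⟩ := S.ev β
  have sM := hE (mem_EE hs s1)
  have tM := hE (mem_EE ht t1)
  let a : Pts Ω M := ⟨α, s, sM, hs, s1⟩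
  let b : Pts Ω M := ⟨β, d, hE' (mem_EE d1 d2), d1, d2⟩
  have k := ih (S.sub M) (S.sub_four h.symm h4 hE) a b ⟨x, hA x1⟩
    (sub_mem_Opc (a := a) h1 (h2.mono inf_le_left) ho x1) (fun e => x2 (congrArg Subtype.val e))
    ⟨s, sM⟩ ⟨t, tM⟩ (iv_coe.1 hs) (iv_coe.1 ht) (Subtype.ext s1) (Subtype.ext t1)
  -- the kernel of `E_α` on the points of `M`
  let K : Subgroup G := EE G α ⊓ ⨅ c : Pts Ω M, St G (c : Ω)
  have k1 : s * t * s * t ∈ K := ⟨mul_mem (mul_mem (mul_mem (mem_EE hs s1) (mem_EE ht t1))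
    (mem_EE hs s1)) (mem_EE ht t1), mem_iInf.2 fun c => congrArg Subtype.val (k c)⟩
  have k2 : Odd (Nat.card K) := S.odd_of_le h (inf_le_right.trans (iInf_le _ b))
    (inf_le_right.trans (iInf_le _ a))
  have k3 : Nrm (EE G α) K := fun g hg y hy => ⟨(EE G α).mul_mem ((EE G α).mul_mem hg hy.1) ((EE G α).inv_mem hg),
    mem_iInf.2 fun c => by
      have := mem_iInf.1 hy.2 ((⟨g, hE hg⟩ : M)⁻¹ • c)
      have e : (g * y * g⁻¹) • (c : Ω) = g • y • g⁻¹ • (c : Ω) := by rw [mul_smul, mul_smul]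
      rw [mem_St, e, show y • g⁻¹ • (c : Ω) = g⁻¹ • (c : Ω) from this, smul_inv_smul]⟩
  have k4 := S.W_le S.ngh h4 fa hs s1 (Opi_le_Opi_of_normalIn ⟨EE_le, nrm_EE α⟩
    (le_Opc_two inf_le_left k3 k2 k1))
  have k5 : s * (s * t * s * t) * s⁻¹ = (s * t * s * t)⁻¹ := by
    simp only [mul_inv_rev, hs.inv, ht.inv, ← mul_assoc, hs.sq, one_mul]
  rw [← mem_C1.1 k4, mul_inv_cancel_right] at k5
  have k6 : s * t * s * t = 1 :=
    pt_eq_one (pt_odd_mem k2 k1) (by nth_rewrite 1 [k5]; exact inv_mul_cancel _)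
  rw [mul_assoc (s * t), mul_eq_one_iff_eq_inv, mul_inv_rev, hs.inv, ht.inv] at k6
  exact k6

/-- the faithful case of the induction. -/
theorem comm_of_ih (ah : AHc.{u}) (ih : ∀ M : Subgroup G, M ≠ ⊤ → BEs M (Pts Ω M))
    (hx : x ∈ Opc 2 (St G α)) (x1 : x ≠ 1) (h : β ≠ α) (hs : Iv s) (ht : Iv t) (s1 : s • α = α)
    (t1 : t • α = α) : s * t = t * s := by
  by_contra hn
  obtain ⟨r, hr, -, h0⟩ := exists_Op_ne_bot (K := Opc 2 (St G α)) (M := Opc 2 (St G α))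
    ⟨le_rfl, Nrm.self _⟩ (fun e => x1 (mem_bot.1 (e ▸ hx))) (feit_thompson _ (odd_Opc _))
  have := Fact.mk hr
  let P : Ω → Subgroup G := fun a => Op r (Opc 2 (St G a))
  let A : Ω → Subgroup G := fun a => Om1 r (Z (P a))
  have cP : ∀ (g : G) a, cj g (P a) = P (g • a) := fun g a => by
    simp only [P]; rw [cj_Op' hr, cj_Opc, cj_St]
  have cA : ∀ (g : G) a, cj g (A a) = A (g • a) := fun g a => by
    simp only [A]; rw [CfsgFT.cj_Om1, cj_Z, cP]
  have P0 : ∀ a, P a ≠ ⊥ := fun a => by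
    obtain ⟨g, rfl⟩ := S.trans α a
    rw [← cP, Ne, cj_eq_bot]; exact h0
  have pP : ∀ a, IsPGroup r (P a) := fun a => isPGroup_Op' hr _
  have A0 : ∀ a, A a ≠ ⊥ := fun a => Om1_ne_bot_of_isPGroup hr ((pP a).to_le inf_le_left)
    (Z_ne_bot_of_nilpotent (nilpotent_of_isPGroup hr (pP a)) (P0 a))
  have AW : ∀ a, A a ≤ Opc 2 (St G a) := fun a =>
    (CfsgFT.Om1_le _ _).trans (inf_le_left.trans (Op_le _ _))
  have AS : ∀ a, A a ≤ St G a := fun a => (AW a).trans (Opi_le _ _)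
  have nA : ∀ a, Nrm (St G a) (A a) := fun a => nrm_of_le_N fun g hg => by
    rw [CfsgFT.mem_N, cA, show g • a = a from hg]
  have eA : ∀ a, ElAb r (A a) := fun a => elAb_Om1_Z r _
  have oA : ∀ a, Odd (Nat.card (A a)) := fun a => (odd_Opc _).of_dvd_nat (card_dvd_of_le (AW a))
  have EC : ∀ a, EE G a ≤ C (A a) := fun a =>
    (S.EE_le_C_W S.ngh h4 fa a).trans (centralizer_le (AW a))
  have r2 : r ≠ 2 := by
    rintro rfl
    exact Nat.not_even_iff_odd.2 (oA α)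
      (even_iff_two_dvd.2 (prime_dvd_card_of_isPGroup hr (eA α).isPGroup (A0 α)))
  have rm : ¬ r ∣ (C1 s).relIndex (St G α) := fun e => by
    obtain ⟨R, hR⟩ := exists_sylIn r (St G α ⊓ St G β)
    have f := S.fix2_m S.ngh h4 fa hr hs s1 e h.symm hR
    exact A0 α (S.eq_bot_of_nrm h4 fa h (AS α) (nA α) (((f.sylIn hr r2 hR).le_of_nrm le_top
      (eA α).isPGroup ((nA α).mono f.l)).trans f.r))
  have sr0 : ∀ b y, y ∈ A α → y • b = b → b ≠ α → y = 1 := fun b y y1 y2 hb => by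
    by_contra y0
    obtain ⟨R, a1, a2⟩ := exists_sylIn_ge (X := zpowers y) (H := St G α ⊓ St G b)
      (zpowers_le.2 ⟨AS α y1, y2⟩) ((eA α).isPGroup.to_le (zpowers_le.2 y1))
    obtain ⟨j, j1, rfl, j3⟩ := S.syl_J hr hb.symm a2
    have a3 := pt_not_dvd j1.sq (mem_N_D j1.sq α) (S.odd_D hb.symm) hr a2 j3
    have a4 := pt_idx_dvd j1.sq (mem_N_D j1.sq α) (S.odd_D hb.symm) hr a2.le a2.isPGroup j3
    rw [S.idx_D j1 hb hs s1] at a4
    obtain ⟨i, hi⟩ := pt_relIndex_pow hr a2.isPGroup (C1 j)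
    have a5 : (C1 j).relIndex R = 1 := by
      rcases i with _ | i
      · simpa using hi
      · exact (rm ((show r ∣ r ^ (i + 1) from dvd_pow_self r i.succ_ne_zero).trans
          (hi ▸ a4))).elim
    have a6 : j * y * j⁻¹ = y := by
      have := mem_C1.1 (relIndex_eq_one.1 a5 (a1 (mem_zpowers y)))
      rw [← this, mul_inv_cancel_right]
    have a7 : y ∈ A (j • α) := by rw [← cA, ← a6]; exact conj_mem_cj.2 y1
    have a8 : ∀ a, y ∈ A a → C (A a) ≤ C1 y := fun a e => by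
      rw [← C_zpowers]; exact centralizer_le (zpowers_le.2 e)
    refine hn (S.comm_of_sub h4 fa (ih (C1 y) fun e => y0 (fa y fun c => ?_)) hb
      ((EC α).trans (a8 α y1)) ((EC _).trans (a8 _ a7))
      (fun z hz => mem_C1.2 ((eA α).1 z hz y y1)) (A0 α) (AS α) (nA α) (oA α) hs ht s1 t1)
    obtain ⟨g, rfl⟩ := S.trans α c
    exact smul_of_comm (AS α y1) (mem_C1.1 (e.ge (mem_top g)))
  refine hn (ah G Ω r A S hr eA A0 cA AS (fun a b y y1 y2 hb => ?_)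
    (fun a s a1 a2 => EC a (mem_EE a1 a2)) h4 fa α β s t h hs ht s1 t1)
  obtain ⟨g, rfl⟩ := S.trans a α
  refine (MulAut.conj g).injective ?_
  simpa using sr0 (g • b) (g * y * g⁻¹) (by rw [← cA]; exact conj_mem_cj.2 y1) (conj_smul y2 g)
    ((MulAction.injective g).ne hb)

end SE

theorem be_aux (ah : AHc.{u}) (n : ℕ) : ∀ (G Ω : Type u) [Group G] [Finite G] [MulAction G Ω],
    Nat.card G < n → BEs G Ω := by
  induction n with
  | zero => intro G Ω _ _ _ h; omega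
  | succ n ih =>
    intro G Ω _ _ _ hn S h4 a b x hx hb s t hs ht s1 t1 c
    have h : b ≠ a := fun e => hb (e ▸ Opi_le _ (St G a) hx)
    by_cases fa : ∀ g : G, (∀ β : Ω, g • β = β) → g = 1
    · have := S.comm_of_ih h4 fa ah (fun M hM => ih M (Pts Ω M) (by
        have := card_lt_of_lt (lt_top_iff_ne_top.2 hM); rw [card_top] at this; omega)) hx (fun e => hb (by rw [e, one_smul])) h hs ht s1 t1
      rw [mul_assoc (s * t)]
      nth_rewrite 1 [this]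
      rw [mul_assoc, ← mul_assoc s, hs.sq, one_mul, ht.sq, one_smul]
    push Not at fa
    obtain ⟨g, g1, g2⟩ := fa
    have := ih (Img G Ω) Ω (by have := card_img_lt g1 g2; omega) (S.img h) (S.img_four h h4) a b
      _ (imH_mem_Opc hx) hb _ _ (S.iv_imH h hs) (S.iv_imH h ht) s1 t1 c
    rwa [← map_mul, ← map_mul, ← map_mul] at this

/-- (BE1), the semiregular case being a hypothesis. -/
theorem SE.be1_of (S : SE G Ω) (ah : AHc.{u}) (h4 : Four G) (hx : x ∈ Opc 2 (St G α))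
    (hb : x • β ≠ β) (hs : Iv s) (ht : Iv t) (s1 : s • α = α) (t1 : t • α = α) (c : Ω) :
    (s * t * s * t) • c = c :=
  be_aux ah _ G Ω (Nat.lt_succ_self _) S h4 α β x hx hb s t hs ht s1 t1 c

/-- (BE1), faithful form. -/
theorem SE.be1_comm_of (S : SE G Ω) (ah : AHc.{u}) (h4 : Four G)
    (fa : ∀ g : G, (∀ β : Ω, g • β = β) → g = 1) (h0 : Opc 2 (St G α) ≠ ⊥) (a : Ω)
    (hs : Iv s) (ht : Iv t) (s1 : s • a = a) (t1 : t • a = a) : s * t = t * s := by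
  obtain ⟨g, rfl⟩ := S.trans α a
  rw [Ne, ← cj_eq_bot (g := g), cj_Opc, cj_St] at h0
  obtain ⟨x, x1, x2⟩ := exists_mem_ne_one h0
  obtain ⟨b, hb⟩ : ∃ b : Ω, x • b ≠ b := by
    by_contra! e
    exact x2 (fa x e)
  have := fa _ (S.be1_of ah h4 x1 hb hs ht s1 t1)
  rwa [mul_assoc (s * t), mul_eq_one_iff_eq_inv, mul_inv_rev, hs.inv, ht.inv] at this

theorem ahc : AHc.{u} := fun _ _ _ _ _ _ _ S a b c d e f g h4 fa α β s t h hs ht s1 t1 =>
  S.ah_comm ⟨a, b, c, d, e, f, g⟩ h4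
    (fun _ hp _ _ h1 h2 h3 _ _ _ h5 h6 => S.fix2_m S.ngh h4 fa hp h1 h2 h3 h5 h6)
    (fun _ _ _ h1 h2 => S.two S.ngh h4 h1 h2)
    (fun γ => by
      by_cases e : γ = α
      · exact ⟨β, e ▸ h⟩
      · exact ⟨α, Ne.symm e⟩) α s t hs ht s1 t1

/-- (BE1) -/
theorem SE.be1 (S : SE G Ω) (h4 : Four G) (hx : x ∈ Opc 2 (St G α))
    (hb : x • β ≠ β) (hs : Iv s) (ht : Iv t) (s1 : s • α = α) (t1 : t • α = α) (c : Ω) :
    (s * t * s * t) • c = c := S.be1_of ahc h4 hx hb hs ht s1 t1 c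

/-- (BE1), faithful form. -/
theorem SE.be1_comm (S : SE G Ω) (h4 : Four G)
    (fa : ∀ g : G, (∀ β : Ω, g • β = β) → g = 1) (h0 : Opc 2 (St G α) ≠ ⊥) (a : Ω)
    (hs : Iv s) (ht : Iv t) (s1 : s • a = a) (t1 : t • a = a) : s * t = t * s :=
  S.be1_comm_of ahc h4 fa h0 a hs ht s1 t1

/-- (BE1) in the form used by the assembly. -/
theorem be1_final : CfsgH7SE.BE1 G Ω := fun S h4 fa a _ _ hx hb _ _ hs ht s1 t1 =>
  S.be1_comm h4 fa (α := a) (fun e => hb (by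
    rw [e, mem_bot] at hx
    rw [hx, one_smul])) a hs ht s1 t1

end CfsgSE
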