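import Cfsg.Agent.H4.SD1
import Cfsg.Agent.H5.NG

set_option autoImplicit false
set_option linter.unusedSectionVars false
set_option maxHeartbeats 400000

/-! S3332: the faithful image of an `SE` action, transport of odd cores. -/

namespace CfsgSE

open Subgroup CfsgH5 CfsgH6 CfsgFT CfsgSZ CfsgSZ.PS

universe u

/-- the image of `G` in the symmetric group. -/
abbrev Img (G Ω : Type u) [Group G] [MulAction G Ω] : Subgroup (Equiv.Perm Ω) :=
  (MulAction.toPermHom G Ω).range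

/-- the projection onto the image. -/
abbrev imH (G Ω : Type u) [Group G] [MulAction G Ω] : G →* Img G Ω :=
  (MulAction.toPermHom G Ω).rangeRestrict

variable {G Ω : Type u} [Group G] [Finite G] [MulAction G Ω]
  {α β γ δ ε : Ω} {X Y R T V : Subgroup G} {u s d t x y z j k g : G} {p r : ℕ}

theorem imH_smul (g : G) (a : Ω) : imH G Ω g • a = g • a := rfl

theorem imH_surj : Function.Surjective (imH G Ω) := MonoidHom.rangeRestrict_surjective _

instance img_finite : Finite (Img G Ω) := Finite.of_surjective _ imH_surj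

theorem img_faith (g : Img G Ω) (h : ∀ b : Ω, g • b = b) : g = 1 :=
  Subtype.ext (Equiv.ext h)

theorem imH_eq_one : imH G Ω g = 1 ↔ ∀ b : Ω, g • b = b :=
  ⟨fun h b => by rw [← imH_smul, h, one_smul], fun h => img_faith _ h⟩

theorem card_img_lt (h : ∀ b : Ω, g • b = b) (h1 : g ≠ 1) :
    Nat.card (Img G Ω) < Nat.card G := by
  refine lt_of_le_of_ne (Nat.card_le_card_of_surjective _ imH_surj) fun e => h1 ?_
  have := (Nat.bijective_iff_surjective_and_card _).2 ⟨imH_surj (G := G) (Ω := Ω), e.symm⟩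
  exact this.1 (by rw [imH_eq_one.2 h, map_one])

theorem le_Opc_two {A : Subgroup G} (h1 : A ≤ X) (h2 : Nrm X A) (h3 : Odd (Nat.card A)) :
    A ≤ Opc 2 X :=
  le_Opi h1 h2 ((piG_compl_single Nat.prime_two).2 fun e =>
    Nat.not_even_iff_odd.2 h3 (even_iff_two_dvd.2 e))

/-- a normal subgroup of odd order of the stabiliser maps into the odd core. -/
theorem imH_mem_Opc (hx : x ∈ Opc 2 (St G α)) : imH G Ω x ∈ Opc 2 (St (Img G Ω) α) := by
  refine le_Opc_two (A := (Opc 2 (St G α)).map (imH G Ω)) ?_ ?_ ?_ (mem_map_of_mem _ hx)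
  · rintro _ ⟨y, hy, rfl⟩
    exact (Opi_le _ (St G α) hy :)
  · rintro a ha _ ⟨y, hy, rfl⟩
    obtain ⟨a, rfl⟩ := imH_surj a
    exact ⟨a * y * a⁻¹, nrm_Opi _ (St G α) a ha y hy, by simp⟩
  · exact (odd_Opc _).of_dvd_nat (card_map_dvd _ _)

/-- subgroup version: an odd subgroup `A ≤ M` normal in `G_α` lies in the core of `M_α`. -/
theorem sub_mem_Opc {M A : Subgroup G} {a : Pts Ω M} (h1 : A ≤ St G (a : Ω))
    (h2 : Nrm (St G (a : Ω) ⊓ M) A) (h3 : Odd (Nat.card A)) {x : M} (hx : (x : G) ∈ A) :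
    x ∈ Opc 2 (St M a) := by
  refine le_Opc_two (A := A.subgroupOf M) (fun y hy => mem_St_sub.2 (h1 hy))
    (fun g hg y hy => h2 g ⟨mem_St_sub.1 hg, g.2⟩ y hy) ?_ hx
  exact h3.of_dvd_nat (card_comap_dvd_of_injective _ _ M.subtype_injective)

namespace SE

variable (S : SE G Ω)
include S

theorem iv_imH (h : α ≠ β) (ht : Iv t) : Iv (imH G Ω t) :=
  ⟨by rw [← map_mul, ht.sq, map_one], fun e =>
    h (S.uniq t ht _ _ (imH_eq_one.1 e α) (imH_eq_one.1 e β))⟩

theorem imH_lift (h : α ≠ β) {t : Img G Ω} (ht : Iv t) : ∃ s : G, Iv s ∧ imH G Ω s = t := by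
  obtain ⟨g, rfl⟩ := imH_surj t
  have a : ∀ b : Ω, (g * g) • b = b := imH_eq_one.1 (by rw [map_mul, ht.sq])
  obtain ⟨n, hn⟩ := S.odd_of_fix (a α) (a β) h
  have b : imH G Ω (g ^ (2 * n + 1)) = imH G Ω g := by
    rw [map_pow, pow_succ, pow_mul, _root_.sq, ht.sq, one_pow, one_mul]
  refine ⟨g ^ (2 * n + 1), ⟨?_, fun e => ht.ne (by rw [← b, e, map_one])⟩, b⟩
  rw [← hn, ← (Commute.refl g).mul_pow, pow_orderOf_eq_one]

/-- the faithful image. -/
theorem img (h : α ≠ β) : SE (Img G Ω) Ω where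
  ex t ht := by
    obtain ⟨s, a, rfl⟩ := S.imH_lift h ht
    exact S.ex s a
  uniq t ht γ δ a b := by
    obtain ⟨s, c, rfl⟩ := S.imH_lift h ht
    exact S.uniq s c γ δ a b
  ev γ := let ⟨t, a, b⟩ := S.ev γ; ⟨imH G Ω t, S.iv_imH h a, b⟩

theorem img_four (h : α ≠ β) (h4 : Four G) : Four (Img G Ω) := by
  obtain ⟨s, t, a, b, c, d⟩ := h4
  refine ⟨_, _, S.iv_imH h a, S.iv_imH h b, fun e => (S.iv_imH h (b.mul a d c)).ne ?_, by
    rw [← map_mul, d, map_mul]⟩
  rw [map_mul, e, ← map_mul, b.sq, map_one]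

/-- a subgroup containing `E_α` has a four-group. -/
theorem sub_four (h : α ≠ β) (h4 : Four G) {M : Subgroup G} (hM : EE G α ≤ M) : Four M := by
  obtain ⟨s, a, b⟩ := S.ev α
  obtain ⟨t, c, d, e⟩ := S.four_at h4 h a
  exact ⟨⟨t, hM (mem_EE c (S.smul_eq a b e))⟩, ⟨s, hM (mem_EE a b)⟩, iv_coe.1 c, iv_coe.1 a,
    fun f => d (congrArg Subtype.val f), Subtype.ext e⟩

end SE

end CfsgSE
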