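import Cfsg.Agent.H2.FxB

/-! A 2-group with a class of involutions with small centralizers: normal rank at most two. -/

set_option autoImplicit false
set_option linter.style.haveILetI false
set_option linter.unusedSectionVars false

namespace CfsgH2.Fx
open Subgroup CfsgH5 CfsgH6 CfsgFT

universe u
variable {G : Type u} [Group G] [Finite G]

theorem i2_C1 {z v : G} (zz : z * z = 1) (cz : ∀ g, g * z * g⁻¹ = z)
    (cv : ∀ g, g * v * g⁻¹ = v ∨ g * v * g⁻¹ = v * z) : I2 (C1 v) := fun a b ha hb =>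
  mem_C1_iff_conj.mpr (by
    have o : ∀ g, g ∉ C1 v → g * v * g⁻¹ = v * z := fun g hg =>
      (cv g).resolve_left fun e => hg (mem_C1_iff_conj.mpr e)
    calc a * b * v * (a * b)⁻¹ = a * (b * v * b⁻¹) * a⁻¹ := by group
      _ = a * v * a⁻¹ * (a * z * a⁻¹) := by rw [o b hb]; group
      _ = v := by rw [o a ha, cz, mul_assoc, zz, mul_one])

theorem I2.comap {H : Type*} [Group H] {K : Subgroup H} (h : I2 K) (f : G →* H) :
    I2 (K.comap f) := fun a b ha hb => by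
  rw [mem_comap, map_mul]; exact h _ _ ha hb

theorem mul_mem_rel2 {V E : Subgroup G} (h : V.relIndex E ≤ 2) {a b : G} (ha : a ∈ E) (hb : b ∈ E)
    (a1 : a ∉ V) (b1 : b ∉ V) : a * b ∈ V :=
  i2_of_index (H := V.subgroupOf E) h ⟨a, ha⟩ ⟨b, hb⟩ a1 b1

theorem card_le_two_of {Y : Subgroup G} {z : G} (h : ∀ y ∈ Y, y = 1 ∨ y = z) : Nat.card Y ≤ 2 := by
  have : (Y : Set G) ⊆ {1, z} := fun y hy => h y hy
  exact (Set.ncard_le_ncard this (Set.toFinite _)).trans
    ((Set.ncard_insert_le _ _).trans (by simp))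

theorem ab_sup_el {B : Subgroup G} (hB : Ab B) {x : G} (hx : B ≤ C1 x) : Ab (B ⊔ zpowers x) :=
  hB.sup (ab_zpowers x) (by rwa [C_zpowers])

theorem exists_cent (hG : IsPGroup 2 G) {E : Subgroup G} [E.Normal] (h : 1 < Nat.card E) :
    ∃ w ∈ E, w ≠ 1 ∧ w * w = 1 ∧ ∀ g, g * w = w * g := by
  haveI : Fact (Nat.Prime 2) := ⟨Nat.prime_two⟩
  obtain ⟨w, hw, ow, wc⟩ := exists_central_orderOf_eq_of_normal hG E (one_lt_card.mp h)
  exact ⟨w, hw, by rintro rfl; simp at ow, by rw [← pow_two, ← ow, pow_orderOf_eq_one],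
    mem_center_iff.mp wc⟩

/-- a class of involutions with small centralizers meeting every coset condition of transfer. -/
structure TT (T : Set G) : Prop where
  pg : IsPGroup 2 G
  ne : T.Nonempty
  sq : ∀ x ∈ T, x * x = 1
  n1 : ∀ x ∈ T, x ≠ 1
  cj : ∀ x ∈ T, ∀ g, g * x * g⁻¹ ∈ T
  c16 : ∀ x ∈ T, Nat.card (C1 x) ≤ 16
  c8 : ∀ x ∈ T, ∀ Y : Subgroup G, Ab Y → x ∈ Y → Nat.card Y ≤ 8
  tr : ∀ S : Subgroup G, _root_.commutator G ≤ S → ∀ u, (∀ x ∈ T, u⁻¹ * x ∈ S) → u ∈ S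
  nsr : ¬ SR 4 (⊤ : Subgroup G) ⊥

namespace TT
variable {T : Set G} (h : TT T)
include h

theorem i2 {H : Subgroup G} (hH : I2 H) : ∃ x ∈ T, x ∈ H := by
  by_contra c
  push Not at c
  obtain ⟨u, hu⟩ := h.ne
  exact c u hu (h.tr H hH.comm u fun x hx =>
    hH _ _ (fun e => c u hu (inv_mem_iff.mp e)) (c x hx))

theorem c4 {x : G} (hx : x ∈ T) {B : Subgroup G} (hB : Ab B) (h1 : B ≤ C1 x) (h2 : x ∉ B) :
    Nat.card B ≤ 4 := by
  have h3 := h.c8 x hx _ (ab_sup_el hB h1) (mem_sup_right (mem_zpowers x))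
  have h4 : B < B ⊔ zpowers x := lt_of_le_of_ne le_sup_left fun e =>
    h2 (e ▸ mem_sup_right (mem_zpowers x))
  exact pow_down (k := 2) (pow_card h.pg B) (by have := card_lt_of_lt h4; omega)

theorem c4' {x : G} (hx : x ∈ T) {B : Subgroup G} (hB : Ab B) (h2 : x ∉ B) :
    Nat.card ↥(B ⊓ C1 x) ≤ 4 :=
  h.c4 hx (hB.mono inf_le_left) inf_le_right fun e => h2 e.1

theorem not32 : ¬ Nat.card G ≤ 32 := fun c => by
  obtain ⟨h1, h2⟩ := sq_of_not_sr h.pg (by rw [relIndex_bot_left, card_top]; exact c) h.nsr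
  obtain ⟨x, hx⟩ := h.ne
  have := h.c8 x hx ⊤ (ab_of_sq fun y hy => mem_bot.mp (h1 y hy)) (mem_top x)
  rw [relIndex_bot_left] at h2
  omega

theorem notV {z v x : G} (k : N4 z v) (hx : x ∈ T) : x ∉ k.V := fun c => by
  have h1 : C1 v ≤ C1 x := fun g hg => mem_C1.mpr (k.comm hg c)
  have := k.i2.card'
  have := card_le_of_le h1
  have := h.c16 x hx
  exact h.not32 (by omega)

theorem cV {z v x : G} (k : N4 z v) (hx : x ∈ T) (hv : x ∈ C1 v) :
    C1 v ⊓ C1 x ≤ k.V ⊔ zpowers x ∧ Nat.card ↥(C1 v ⊓ C1 x) ≤ 8 := by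
  have a1 : Ab k.V := ab_of_sq fun _ => k.sq
  have a2 := ab_sup_el a1 (k.le_C1 hv)
  have m : x ∈ k.V ⊔ zpowers x := mem_sup_right (mem_zpowers x)
  have l : k.V < k.V ⊔ zpowers x := lt_of_le_of_ne le_sup_left fun e => h.notV k hx (e ▸ m)
  have l2 := pow_up (k := 2) (pow_card h.pg (k.V ⊔ zpowers x))
    (by have := card_lt_of_lt l; rw [k.card] at this; omega)
  have key : C1 v ⊓ C1 x ≤ k.V ⊔ zpowers x := fun g hg => by
    have a3 := ab_sup_el a2 (x := g) (sup_le (k.le_C1 hg.1) (zpowers_le.mpr (mem_C1_comm.mp hg.2)))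
    have := eq_of_le_of_card_le (le_sup_left : _ ≤ k.V ⊔ zpowers x ⊔ zpowers g)
      ((h.c8 x hx _ a3 (mem_sup_left m)).trans l2)
    rw [this]
    exact mem_sup_right (mem_zpowers g)
  exact ⟨key, (card_le_of_le key).trans (h.c8 x hx _ a2 m)⟩

theorem cA {z v x : G} (k : N4 z v) (hx : x ∈ T) (hv : x ∈ C1 v) {A : Subgroup G} (hA : Ab A)
    (hV : k.V ≤ A) (xA : x ∉ A) {a : G} (ha : a ∈ A) (e : x * a * x⁻¹ = a) : a ∈ k.V := by
  have := eq_of_le_of_card_le (le_inf hV (k.le_C1 hv)) (by rw [k.card]; exact h.c4' hx hA xA)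
  rw [this]
  exact ⟨ha, mem_C1_iff_conj'.mpr e⟩

theorem no32 {E : Subgroup G} [hn : E.Normal] (hE : ∀ a ∈ E, a * a = 1) : Nat.card E ≤ 16 := by
  obtain ⟨x, hx⟩ := h.ne
  by_cases c : x ∈ E
  · exact (h.c8 x hx E (ab_of_sq hE) c).trans (by norm_num)
  have h1 := card_le_sq hE (g := x) (fun a ha => hn.conj_mem a ha x)
    (fun a _ => by rw [h.sq x hx]; simp)
  have h2 := h.c4' hx (ab_of_sq hE) c
  nlinarith

theorem s64 (c : Nat.card G ≤ 64) :
    ∃ z : G, ∀ a b : G, a * b * a⁻¹ * b⁻¹ = 1 ∨ a * b * a⁻¹ * b⁻¹ = z := by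
  rcases big2 h.pg (by rw [relIndex_bot_left, card_top]; exact c) h.nsr with
    ⟨Y, -, -, h1, h2, -⟩ | ⟨X, -, -, h1, h2, h3⟩
  · rw [relIndex_bot_left] at h1
    obtain ⟨z, hz⟩ := two_mem h1
    exact ⟨z, fun a b => hz _ (comm_mem h2 (mem_top a) (mem_top b))⟩
  · rw [relIndex_top_right] at h1
    rw [relIndex_bot_left] at h3
    haveI := normal_of_index_eq_two h1
    have := h.no32 (E := X) fun a ha => mem_bot.mp (h2 a ha)
    omega

theorem key {z v x : G} (k : N4 z v) (hx : x ∈ T) (hv : x ∈ C1 v) {A : Subgroup G} [hn : A.Normal]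
    (hA : Ab A) (vA : v ∈ A) (xA : x ∉ A)
    (hr : 2 < Nat.card (nuh hA (fun a ha => hn.conj_mem a ha x)).range) :
    Nat.card G ≤ 4 * Nat.card A := by
  have hD : A ≤ C1 v := fun a ha => mem_C1.mpr (hA.comm ha vA)
  have h1 := lcent hA hD (h.sq x hx)
  have h2 := (h.cV k hx hv).2
  have h3 := pow_up (k := 1) (pow_card h.pg _) hr
  have h4 := card_le_two (h.pg.to_quotient A) (D := (C1 v).map (QuotientGroup.mk' A))
    (x := QuotientGroup.mk' A x) ⟨x, hv, rfl⟩ (fun e => xA ((QuotientGroup.eq_one_iff x).mp e))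
    (by nlinarith)
  have h5 := card_map_mk A _ hD
  have h6 := k.i2.card'
  nlinarith

theorem no16 {E : Subgroup G} [hn : E.Normal] (hE : ∀ a ∈ E, a * a = 1) : Nat.card E ≤ 8 := by
  by_contra c
  have c1 := h.no32 hE
  obtain ⟨w, -, w1, ww, wc⟩ := exists_cent h.pg (E := E) (by omega)
  obtain ⟨v, hv, k⟩ := n4_of h.pg hE w1 wc ww (by omega)
  obtain ⟨x, hx, xv⟩ := h.i2 k.i2
  have xE : x ∉ E := fun e => c (h.c8 x hx E (ab_of_sq hE) e)
  set ν := nuh (ab_of_sq hE) (fun a ha => hn.conj_mem a ha x)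
  have e1 := card_range_mul ν
  have e2 : Nat.card ν.ker ≤ Nat.card ↥(E ⊓ C1 x) := card_ker_le ν fun a ha =>
    ⟨a.2, mem_C1_iff_conj'.mpr (by
      rw [eq_inv_of_mul_eq_one_right ha, inv_self (hE _ a.2)])⟩
  have e3 := h.c4' hx (ab_of_sq hE) xE
  have e4 : 2 < Nat.card ν.range := by nlinarith
  obtain ⟨z, hz⟩ := h.s64 ((h.key k hx xv _ hv xE e4).trans (by omega))
  have := card_le_two_of (Y := ν.range) (z := z) (by
    rintro _ ⟨a, rfl⟩
    have := hz a x
    rw [inv_self (hE _ a.2)] at this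
    change (a : G) * (x * a * x⁻¹) = 1 ∨ (a : G) * (x * a * x⁻¹) = z
    simpa only [mul_assoc] using this)
  omega

theorem sc8 {w v : G} (k : N4 w v) {E : Subgroup G} [hn : E.Normal] (VE : k.V ≤ E)
    (c : Nat.card E = 8) (hC : C E ≤ E) : False := by
  have r : k.V.relIndex E = 2 := relIndex_eq_of_mul VE (by rw [k.card, c])
  obtain ⟨e, he, eV⟩ : ∃ e ∈ E, e ∉ k.V := by
    by_contra q; push Not at q
    rw [relIndex_eq_one.mpr q] at r; omega
  have d : ∀ g, g * e * g⁻¹ * e⁻¹ ∈ k.V := fun g => mul_mem_rel2 r.le (hn.conj_mem e he g)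
    (inv_mem he) (fun q => eV (by simpa [mul_assoc] using k.normal.conj_mem _ q g⁻¹))
    (fun q => eV (inv_mem_iff.mp q))
  let f : C1 v →* G := MonoidHom.mk' (fun g => g * e * (g : G)⁻¹ * e⁻¹) fun a b => by
    simp only [coe_mul]
    calc _ = a * (b * e * (b : G)⁻¹ * e⁻¹) * (a : G)⁻¹ * (a * e * (a : G)⁻¹ * e⁻¹) := by group
      _ = _ := by rw [k.conj a.2 (d b), comm_of_sq (fun _ => k.sq) (d _) (d _)]
  have e1 := card_range_mul f
  have e2 : Nat.card f.ker ≤ Nat.card E := card_ker_le f fun g hg => hC (mem_C.mpr fun a ha => by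
    have ge : g * e = e * g := mul_inv_eq_iff_eq_mul.mp (mul_inv_eq_one.mp hg)
    by_cases q : a ∈ k.V
    · exact (k.comm g.2 q).symm
    · have := k.comm g.2 (mul_mem_rel2 r.le ha he q eV)
      rw [mul_assoc, ← ge, ← mul_assoc, ← mul_assoc] at this
      exact (mul_right_cancel this).symm)
  have e3 : Nat.card f.range ≤ 4 := k.card ▸ card_le_of_le (by rintro _ ⟨g, rfl⟩; exact d g)
  have e4 := k.i2.card'
  obtain ⟨z, hz⟩ := h.s64 (by nlinarith)
  have := card_le_two_of (Y := f.range) (z := z) (by rintro _ ⟨a, rfl⟩; exact hz a e)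
  exact h.not32 (by nlinarith)

theorem no8b {E : Subgroup G} [hn : E.Normal] (hE : ∀ a ∈ E, a * a = 1) (c : Nat.card E = 8)
    (hC : ¬ C E ≤ E) : False := by
  haveI : Fact (Nat.Prime 2) := ⟨Nat.prime_two⟩
  haveI : (C E).Normal := (Nrm.of_normal ⊤ E).C.normal_of_top
  obtain ⟨a, ha, aE, a2, ac⟩ := CfsgH8.exists_central_mod h.pg E (C E) hC
  rw [pow_two] at a2
  have ca : ∀ b ∈ E, b * a = a * b := mem_C.mp ha
  have EC : E ≤ C1 a := fun b hb => mem_C1.mpr (ca b hb)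
  set A := E ⊔ zpowers a with hAd
  have hA : Ab A := ab_sup_el (ab_of_sq hE) EC
  have aA : a ∈ A := mem_sup_right (mem_zpowers a)
  have n0 : Nrm (zpowers a) E := Nrm.of_normal _ _
  have cja : ∀ g, g * a * g⁻¹ = g * a * g⁻¹ * a⁻¹ * a := fun g => by group
  haveI nA : A.Normal := ⟨fun b hb g => by
    obtain ⟨e, he, _, ⟨j, rfl⟩, rfl⟩ := (mem_sup_nrm' n0).mp hb
    have : g * (e * a ^ j) * g⁻¹ = g * e * g⁻¹ * (g * a * g⁻¹) ^ j := by rw [conj_zpow]; group
    rw [this, cja]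
    exact mul_mem (mem_sup_left (hn.conj_mem e he g))
      (zpow_mem (mul_mem (mem_sup_left (ac g)) aA) j)⟩
  have lt : E < A := lt_of_le_of_ne le_sup_left fun e => aE (e ▸ aA)
  have c8 : 8 < Nat.card A := c ▸ card_lt_of_lt lt
  have w1 : a * a ≠ 1 := fun q => by
    have := h.no16 (E := A) fun b hb => by
      obtain ⟨e, he, y, hy, rfl⟩ := (mem_sup_nrm' n0).mp hb
      rcases mem_zpowers_order_two q hy with rfl | rfl
      · simpa using hE e he
      · rw [mul_assoc, ← mul_assoc y, ← ca e he, mul_assoc, q, mul_one, hE e he]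
    omega
  have c16 : Nat.card A ≤ 16 := by
    have q1 := card_sup_mul (X := E) (Y := zpowers a) (Or.inr n0)
    have q2 : 1 < Nat.card ↥(E ⊓ zpowers a) := one_lt_card.mpr fun q => w1 (by
      rw [← mem_bot, ← q]; exact ⟨a2, mul_mem (mem_zpowers a) (mem_zpowers a)⟩)
    have q3 : orderOf a ≤ 4 := orderOf_le_of_pow_eq_one (by norm_num) (by
      rw [← hE _ a2]; simp [pow_succ, mul_assoc])
    rw [Nat.card_zpowers, c] at q1
    nlinarith
  set w := a * a with hw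
  have ww := hE w a2
  have wc : ∀ g, g * w = w * g := fun g => by
    rw [← mul_inv_eq_iff_eq_mul]
    calc g * w * g⁻¹ = g * a * g⁻¹ * (g * a * g⁻¹) := by rw [hw]; group
      _ = g * a * g⁻¹ * a⁻¹ * (a * (g * a * g⁻¹ * a⁻¹)) * a := by group
      _ = w := by rw [← ca _ (ac g), ← mul_assoc, hE _ (ac g), one_mul]
  obtain ⟨v, hv, k⟩ := n4_of h.pg hE w1 wc ww (by omega)
  have VE := k.le a2 hv
  have r : k.V.relIndex E = 2 := relIndex_eq_of_mul VE (by rw [k.card, c])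
  obtain ⟨e, he, eV⟩ : ∃ e ∈ E, e ∉ k.V := by
    by_contra q; push Not at q
    rw [relIndex_eq_one.mpr q] at r; omega
  have d : ∀ g, g * e * g⁻¹ * e⁻¹ ∈ k.V := fun g => mul_mem_rel2 r.le (hn.conj_mem e he g)
    (inv_mem he) (fun q => eV (by simpa [mul_assoc] using k.normal.conj_mem _ q g⁻¹))
    (fun q => eV (inv_mem_iff.mp q))
  haveI := CfsgH8.normal_zpowers_of_mem_center (mem_center_iff.mpr wc)
  set π := QuotientGroup.mk' (zpowers w)
  have πw : π w = 1 := (QuotientGroup.eq_one_iff w).mpr (mem_zpowers w)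
  have i1 : I2 (C1 (π e)) := by
    refine i2_C1 (z := π v) (by rw [← map_mul, k.vv, map_one]) (fun g => ?_) fun g => ?_
    · obtain ⟨g, rfl⟩ := QuotientGroup.mk'_surjective _ g
      rw [← map_inv, ← map_mul, ← map_mul]
      rcases k.cv g with q | q <;> rw [q]
      rw [map_mul, πw, mul_one]
    · obtain ⟨g, rfl⟩ := QuotientGroup.mk'_surjective _ g
      rw [← map_inv, ← map_mul, ← map_mul, show g * e * g⁻¹ = e * (g * e * g⁻¹ * e⁻¹) by
        rw [comm_of_sq hE he (VE (d g))]; group, map_mul]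
      rcases d g with q | q | q | q <;> rw [q]
      · exact Or.inl (by rw [map_one, mul_one])
      · exact Or.inl (by rw [πw, mul_one])
      · exact Or.inr rfl
      · exact Or.inr (by rw [map_mul, πw, mul_one])
  obtain ⟨L, hL, mL⟩ := k.i2.comb (i1.comap π)
  obtain ⟨x, hx, xL⟩ := h.i2 hL
  have m1 : x ∈ (C1 (π e)).comap π ↔ x * e * x⁻¹ * e⁻¹ ∈ zpowers w := by
    rw [mem_comap, mem_C1_iff_conj, ← QuotientGroup.eq_one_iff, ← mul_inv_eq_one]
    rfl
  have xx := h.sq x hx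
  by_cases xv : x ∈ C1 v
  · have xA : x ∉ A := fun q => by have := h.c8 x hx A hA q; omega
    have fx := fun b => h.cA k hx xv hA (VE.trans le_sup_left) xA (a := b)
    have xe : x * e * x⁻¹ * e⁻¹ = w := (mem_zpowers_order_two ww (m1.mp (((mL x).mp xL).mp xv))).resolve_left
      fun q => eV (fx e (mem_sup_left he) (mul_inv_eq_one.mp q))
    have d1 : x * a * x⁻¹ * a⁻¹ ≠ 1 := fun q => aE (VE (fx a aA (mul_inv_eq_one.mp q)))
    have d2 : x * a * x⁻¹ * a⁻¹ ≠ w := fun q => by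
      refine aE ((mul_mem_cancel_right he).mp (VE (fx (a * e) (mul_mem aA (mem_sup_left he)) ?_)))
      calc _ = x * a * x⁻¹ * a⁻¹ * (a * (x * e * x⁻¹ * e⁻¹)) * e := by group
        _ = _ := by rw [q, xe, wc a, ← mul_assoc, ww, one_mul]
    have r1 : e * (x * e * x⁻¹) = w := by
      rw [mul_inv_eq_iff_eq_mul.mp xe, ← wc e, ← mul_assoc, hE e he, one_mul]
    have r2 : a * (x * a * x⁻¹) = w * (x * a * x⁻¹ * a⁻¹) := by
      nth_rewrite 1 [cja x]
      rw [ca _ (ac x), ← mul_assoc]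
    have := h.key k hx xv hA (mem_sup_left hv) xA (three_le (a := w)
      (b := w * (x * a * x⁻¹ * a⁻¹)) ⟨⟨e, mem_sup_left he⟩, r1⟩ ⟨⟨a, aA⟩, r2⟩ w1
      (fun q => d2 (by rw [eq_inv_of_mul_eq_one_right q, inv_self ww]))
      (fun q => d1 (by simpa using q)))
    obtain ⟨z, hz⟩ := h.s64 (by omega)
    exact d2 (((hz x a).resolve_left d1).trans (xe ▸ (hz x e).resolve_left (xe ▸ w1)).symm)
  · have q : x * e * x⁻¹ * e⁻¹ ∉ zpowers w := fun q => xv (((mL x).mp xL).mpr (m1.mpr q))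
    set δ := x * e * x⁻¹ * e⁻¹ with hδ
    have : x * δ * x⁻¹ = δ := by
      calc x * δ * x⁻¹ = x * x * e * (x * x)⁻¹ * (x * e * x⁻¹)⁻¹ := by rw [hδ]; group
        _ = δ⁻¹ := by rw [xx, hδ]; group
        _ = δ := inv_self (k.sq (d x))
    rcases k.fix xv (d x) this with q1 | q1
    · exact q (by rw [hδ, q1]; exact one_mem _)
    · exact q (by rw [hδ, q1]; exact mem_zpowers _)

theorem no8 {E : Subgroup G} [hn : E.Normal] (hE : ∀ a ∈ E, a * a = 1) : Nat.card E ≤ 4 := by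
  by_contra c
  have c1 := h.no16 hE
  have c2 := pow_up (k := 2) (pow_card h.pg E) (by omega)
  by_cases q : C E ≤ E
  · obtain ⟨w, hw, w1, ww, wc⟩ := exists_cent h.pg (E := E) (by omega)
    obtain ⟨v, hv, k⟩ := n4_of h.pg hE w1 wc ww (by omega)
    exact h.sc8 k (k.le hw hv) (by omega) q
  · exact h.no8b hE (by omega) q

end TT

end CfsgH2.Fx
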