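import Cfsg.Agent.H2.FxC

/-! The case of normal rank two. -/

set_option autoImplicit false
set_option linter.style.haveILetI false
set_option linter.unusedSectionVars false

namespace CfsgH2.Fx
open Subgroup CfsgH5 CfsgH6 CfsgFT

section Pure
variable {M : Type*} [AddCommGroup M]

/-- doubles. -/
def Db (a : M) : Prop := ∃ b, b + b = a

theorem Db.add {a b : M} (h : Db a) (k : Db b) : Db (a + b) := by
  obtain ⟨p, rfl⟩ := h; obtain ⟨q, rfl⟩ := k; exact ⟨p + q, by abel⟩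
theorem Db.sub {a b : M} (h : Db a) (k : Db b) : Db (a - b) := by
  obtain ⟨p, rfl⟩ := h; obtain ⟨q, rfl⟩ := k; exact ⟨p - q, by abel⟩
theorem Db.map {a : M} (h : Db a) (f : M →+ M) : Db (f a) := by
  obtain ⟨p, rfl⟩ := h; exact ⟨f p, by rw [map_add]⟩
theorem db_two (a : M) : Db (a + a) := ⟨a, rfl⟩
theorem Db.of_eq {a b : M} (h : Db a) (e : a = b) : Db b := e ▸ h

/-- the quotient by the doubles has at most four elements. -/
def Cos4 (M : Type*) [AddCommGroup M] : Prop :=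
  ∀ p q r : M, ¬ Db p → ¬ Db q → ¬ Db (q - p) → Db r ∨ Db (r - p) ∨ Db (r - q) ∨ Db (r - (p + q))

theorem pure1 [Finite M] (hV : ∀ a : M, a + a = 0 → Db a) {w : M} (w0 : w ≠ 0) (ww : w + w = 0)
    (σ c : M →+ M) (hσ : ∀ a, Db (σ a - a)) (hc : ∀ a, σ (c a) = - c (σ a)) :
    ∃ a, ¬ Db (c a - a) := by
  by_contra q
  push Not at q
  have k : Function.Surjective fun a : M => a + a := fun a => by
    obtain ⟨p, hp⟩ := hσ a
    obtain ⟨r, hr⟩ := q a
    obtain ⟨p', hp'⟩ := hσ r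
    obtain ⟨r', hr'⟩ := q p
    have e1 : σ a = a + (p + p) := by rw [hp]; abel
    have e2 : c a = a + (r + r) := by rw [hr]; abel
    have e3 : σ r = r + (p' + p') := by rw [hp']; abel
    have e4 : c p = p + (r' + r') := by rw [hr']; abel
    have e := hc a
    rw [e1, map_add c, map_add c, e2, e4, map_add σ, map_add σ, e1, e3] at e
    exact ((hV (a + ((p + r + p' + r') + (p + r + p' + r')))
      (by linear_combination (norm := abel) e)).sub (db_two (p + r + p' + r'))).of_eq (by abel)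
  exact w0 (Finite.injective_iff_surjective.mpr k (by simpa using ww))

theorem pure2 (h4 : Cos4 M) (c : M →+ M) (hcc : ∀ a, c (c a) = a) {a b : M} (ha : ¬ Db (c a - a))
    (hb : ¬ Db b) (hcb : Db (b + c b)) : Db (b + c a - a) := by
  have n1 : ¬ Db a := fun q => ha ((q.map c).sub q)
  have n2 : ¬ Db (a - b) := fun q => ha (((((q.map c).sub q).add hcb).sub (db_two b)).of_eq
    (by rw [map_sub]; abel))
  rcases h4 b a (c a) hb n1 n2 with q | q | q | q
  · exact absurd (hcc a ▸ q.map c) n1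
  · exact absurd ((((q.map c).add hcb).sub (db_two b)).of_eq (by rw [map_sub, hcc]; abel)) n2
  · exact absurd q ha
  · exact (q.add (db_two b)).of_eq (by abel)

theorem pure3 {n : ℕ} (hn : ∀ a : M, 2 ^ n • a = 0) (h4 : Cos4 M) (hV : ∀ a : M, a + a = 0 → Db a)
    (σ c : M →+ M) (hσ : ∀ a, Db (σ a - a)) (hc : ∀ a, σ (c a) = - c (σ a))
    (cV : ∀ v, v + v = 0 → c v = v) {u : M} (cu : c u = u) (hu : ¬ Db u) (a : M) :
    c (c a) = a := by
  obtain ⟨e, he⟩ := hσ u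
  have e1 : σ u = u + (e + e) := by rw [he]; abel
  have e2 := hc u
  rw [cu, e1, map_add c, map_add c, cu] at e2
  have e3 : (u + c e + e) + (u + c e + e) = 0 := by linear_combination (norm := abel) e2
  have e4 := cV _ e3
  rw [map_add, map_add, cu] at e4
  have e5 : c (c e) = e := by linear_combination (norm := abel) e4
  have n1 : ¬ Db e := fun q => hu ((((hV _ e3).sub (q.map c)).sub q).of_eq (by abel))
  have n2 : ¬ Db (e - u) := fun q => hu (((((hV _ e3).sub (q.map c)).sub q).sub (db_two u)).of_eq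
    (by rw [map_sub, cu]; abel))
  have k : ∀ a, ∃ r, c (c a) - a = 2 • (c (c r) - r) := fun a => by
    rcases h4 u e a hu n1 n2 with ⟨r, q⟩ | ⟨r, q⟩ | ⟨r, q⟩ | ⟨r, q⟩ <;> refine ⟨r, ?_⟩
    · rw [← q]; simp only [map_add]; abel
    · rw [show a = r + r + u by rw [q]; abel]; simp only [map_add, cu]; abel
    · rw [show a = r + r + e by rw [q]; abel]; simp only [map_add, e5]; abel
    · rw [show a = r + r + (u + e) by rw [q]; abel]; simp only [map_add, cu, e5]; abel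
  have k2 : ∀ m : ℕ, ∀ a, ∃ r, c (c a) - a = 2 ^ m • (c (c r) - r) := fun m => by
    induction m with
    | zero => exact fun a => ⟨a, by simp⟩
    | succ m ih =>
      intro a
      obtain ⟨r, hr⟩ := ih a
      obtain ⟨s, hs⟩ := k r
      exact ⟨s, by rw [hr, hs, smul_smul, pow_succ]⟩
  obtain ⟨r, hr⟩ := k2 n a
  rwa [hn, sub_eq_zero] at hr

end Pure

universe u
variable {G : Type u} [Group G] [Finite G]

theorem q16' (hG : IsPGroup 2 G) (hc : Nat.card G ≤ 16) (h : ¬ SR 2 (⊤ : Subgroup G) ⊥) :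
    ∃ z : G, ∀ y ∈ _root_.commutator G, y = 1 ∨ y = z := by
  obtain ⟨z, hz⟩ := q16 hG hc h
  by_cases c : z * z = 1
  · refine ⟨z, fun y hy => mem_zpowers_order_two c ((?_ : _root_.commutator G ≤ _) hy)⟩
    rw [_root_.commutator_def, commutator_le]
    intro a _ b _
    rcases hz a b with e | e <;> rw [commutatorElement_def, e]
    exacts [one_mem _, mem_zpowers _]
  · refine ⟨z, fun y hy => Or.inl (mem_bot.mp ((?_ : _root_.commutator G ≤ _) hy))⟩
    rw [_root_.commutator_def, commutator_le]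
    intro a _ b _
    rw [commutatorElement_def, mem_bot]
    refine (hz a b).resolve_right fun e => c ?_
    rcases hz b a with e' | e'
    · rw [← e, show a * b * a⁻¹ * b⁻¹ = (b * a * b⁻¹ * a⁻¹)⁻¹ by group, e']; simp
    · nth_rewrite 1 [← e, ← e']; group

theorem cm_mem (a b : G) : a * b * a⁻¹ * b⁻¹ ∈ _root_.commutator G :=
  commutator_mem_commutator (mem_top a) (mem_top b)

theorem comm_bot (h : ∀ a b : G, a * b = b * a) {y : G} (hy : y ∈ _root_.commutator G) : y = 1 := by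
  refine mem_bot.mp ((?_ : _root_.commutator G ≤ _) hy)
  rw [_root_.commutator_def, commutator_le]
  intro a _ b _
  rw [commutatorElement_def, h a b]; simp

/-- the setting of normal rank two. -/
structure R2 (T : Set G) (z v : G) (A : Subgroup G) : Prop where
  t : TT T
  k : N4 z v
  ab : Ab A
  sc : ∀ g, (∀ a ∈ A, a * g = g * a) → g ∈ A
  vA : k.V ≤ A

namespace R2
variable {T : Set G} {z v : G} {A : Subgroup G} [hn : A.Normal] (h : R2 T z v A)
include h hn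

theorem cjA {a : G} (ha : a ∈ A) (g : G) : g * a * g⁻¹ ∈ A := hn.conj_mem a ha g

theorem om {a : G} (ha : a ∈ A) (aa : a * a = 1) : a ∈ h.k.V := by
  let E : Subgroup G :=
    { carrier := {a | a ∈ A ∧ a * a = 1}
      one_mem' := ⟨one_mem _, mul_one 1⟩
      mul_mem' := fun {a b} ha hb => ⟨mul_mem ha.1 hb.1, by
        rw [mul_assoc, ← mul_assoc b, h.ab.comm hb.1 ha.1, mul_assoc, hb.2, mul_one, ha.2]⟩
      inv_mem' := fun {a} ha => by rw [inv_self ha.2]; exact ha }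
  haveI : E.Normal := ⟨fun a ha g => ⟨h.cjA ha.1 g, by
    rw [show g * a * g⁻¹ * (g * a * g⁻¹) = g * (a * a) * g⁻¹ by group, ha.2]; simp⟩⟩
  have := eq_of_le_of_card_le (X := h.k.V) (Y := E) (fun a ha => ⟨h.vA ha, h.k.sq ha⟩)
    (by rw [h.k.card]; exact h.t.no8 fun a ha => ha.2)
  rw [this]
  exact ⟨ha, aa⟩

theorem nq : ¬ SR 2 (⊤ : Subgroup (G ⧸ A)) ⊥ := fun q =>
  h.t.nsr ((sr_ab (k := 2) h.ab h.k.card.le fun _ => h.om).add q.of_quo (Nrm.of_normal _ _) bot_le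
    le_top)

theorem nA {x : G} (hx : x ∈ T) : x ∉ A := fun c => h.t.notV h.k hx (h.om c (h.t.sq x hx))

theorem AC : A ≤ C1 v := fun _ ha => mem_C1.mpr (h.ab.comm ha (h.vA h.k.v_mem))

theorem fx {x a : G} (hx : x ∈ T) (xv : x ∈ C1 v) (ha : a ∈ A) (e : x * a * x⁻¹ = a) :
    a ∈ h.k.V := h.t.cA h.k hx xv h.ab h.vA (h.nA hx) ha e

theorem nuV {x a : G} (hx : x ∈ T) (xv : x ∈ C1 v) (ha : a ∈ A) : a * (x * a * x⁻¹) ∈ h.k.V :=
  h.fx hx xv (mul_mem ha (h.cjA ha x)) (by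
    calc _ = x * a * x⁻¹ * (x * x * a * (x * x)⁻¹) := by group
      _ = _ := by rw [h.t.sq x hx, one_mul, inv_one, mul_one, h.ab.comm (h.cjA ha x) ha])

/-- the norm map. -/
abbrev nu (x : G) : A →* G := nuh h.ab (fun a ha => hn.conj_mem a ha x)

/-- the projection. -/
abbrev pr (_ : R2 T z v A) : G →* G ⧸ A := QuotientGroup.mk' A

theorem pr_eq {a b : G} : h.pr a = h.pr b ↔ a⁻¹ * b ∈ A := QuotientGroup.eq

theorem pr_one {a : G} : h.pr a = 1 ↔ a ∈ A := QuotientGroup.eq_one_iff a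

theorem big4 {x : G} (hx : x ∈ T) : 4 < Nat.card (C1 (h.pr x)) := by
  by_contra c
  exact h.nq (mc0 (h.t.pg.to_quotient A) (by rw [← map_mul, h.t.sq x hx, map_one])
    (fun e => h.nA hx (h.pr_one.mp e)) (not_lt.mp c))

theorem lc1 {x : G} (hx : x ∈ T) :
    Nat.card (C1 (h.pr x)) * Nat.card (h.nu x).range ≤ Nat.card (C1 x) := by
  have := lcent h.ab (le_top : A ≤ ⊤) (h.t.sq x hx)
  rwa [map_top_of_surjective _ (QuotientGroup.mk'_surjective A), top_inf_eq, top_inf_eq] at this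

theorem lc2 {x : G} (hx : x ∈ T) (xv : x ∈ C1 v) :
    Nat.card ↥((C1 v).map h.pr ⊓ C1 (h.pr x)) * Nat.card (h.nu x).range ≤ 8 :=
  (lcent h.ab h.AC (h.t.sq x hx)).trans (h.t.cV h.k hx xv).2

theorem nu2 {x : G} (hx : x ∈ T) : Nat.card (h.nu x).range ≤ 2 := by
  have h1 := h.lc1 hx
  have h2 := h.big4 hx
  have h3 := h.t.c16 x hx
  exact pow_down (k := 1) (pow_card h.t.pg _) (by norm_num only; nlinarith)

theorem invsq {x a : G} (hx : x ∈ T) (ha : a ∈ A) : x * (a * a) * x⁻¹ = (a * a)⁻¹ := by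
  have m : h.nu x ⟨a, ha⟩ ∈ (h.nu x).range := ⟨_, rfl⟩
  have : h.nu x (⟨a, ha⟩ * ⟨a, ha⟩) = 1 := by
    rw [map_mul]
    by_contra c
    have := three_le m (mul_mem m m) (fun e => c (by rw [e, mul_one])) c
      (fun e => c (by rw [show h.nu x ⟨a, ha⟩ = 1 by simpa using e, mul_one]))
    have := h.nu2 hx
    omega
  exact eq_inv_of_mul_eq_one_right this

theorem mem_sq {b : G} : b ∈ (sqh h.ab).range ↔ ∃ a ∈ A, a * a = b :=
  ⟨fun ⟨a, e⟩ => ⟨a, a.2, e⟩, fun ⟨a, ha, e⟩ => ⟨⟨a, ha⟩, e⟩⟩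

theorem sq_cj {b : G} (hb : b ∈ (sqh h.ab).range) (g : G) : g * b * g⁻¹ ∈ (sqh h.ab).range := by
  obtain ⟨a, ha, rfl⟩ := h.mem_sq.mp hb
  exact h.mem_sq.mpr ⟨_, h.cjA ha g, by group⟩

theorem sq_le : (sqh h.ab).range ≤ A := fun _ hb => by
  obtain ⟨a, ha, rfl⟩ := h.mem_sq.mp hb
  exact mul_mem ha ha

theorem card_sq : Nat.card A = 4 * Nat.card (sqh h.ab).range := by
  rw [← card_range_mul (sqh h.ab), ← h.k.card]
  congr 1
  refine le_antisymm (card_ker_le _ fun a ha => h.om a.2 ha) ?_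
  exact Nat.card_le_card_of_injective
    (fun a : h.k.V => (⟨⟨a.1, h.vA a.2⟩, h.k.sq a.2⟩ : (sqh h.ab).ker))
    fun _ _ e => Subtype.ext (congrArg (fun a : (sqh h.ab).ker => (a.1 : G)) e)

theorem vsq : h.k.V ≤ (sqh h.ab).range := by
  by_contra c
  set B := (sqh h.ab).range
  have c2 : Nat.card ↥(h.k.V ⊓ B) ≤ 2 := pow_down (k := 1) (pow_card h.t.pg _) (by
    have := card_lt_of_lt (lt_of_le_of_ne (inf_le_left : h.k.V ⊓ B ≤ _) fun e => c (inf_eq_left.mp e))
    rwa [h.k.card] at this)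
  obtain ⟨ζ, hζ⟩ := two_mem c2
  by_cases q : ∀ b ∈ B, b * b = 1
  · have q1 : Nat.card B ≤ 2 :=
      (card_le_of_le fun b hb => mem_inf.mpr ⟨h.om (h.sq_le hb) (q b hb), hb⟩).trans c2
    have q2 : Nat.card A = 4 * Nat.card B := h.card_sq
    obtain ⟨x, hx, xv⟩ := h.t.i2 h.k.i2
    have q3 : h.k.V < A := lt_of_le_of_ne h.vA fun e => h.nA hx (h.sc x fun a ha =>
      (h.k.comm xv (by rw [e]; exact ha)).symm)
    have q4 := pow_up (k := 2) (pow_card h.t.pg A) (by have := card_lt_of_lt q3; rwa [h.k.card] at this)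
    exact h.t.sc8 h.k h.vA (by omega) fun g hg => h.sc g (mem_C.mp hg)
  push Not at q
  obtain ⟨b, hb, b2⟩ := q
  obtain ⟨w, hw, w2, w4⟩ : ∃ w ∈ B, w * w ≠ 1 ∧ w * w * (w * w) = 1 := by
    obtain ⟨n, hn⟩ := h.t.pg b
    induction n generalizing b with
    | zero => exact absurd (by rw [show b = 1 by simpa using hn, mul_one]) b2
    | succ n ih =>
      by_cases q : b * b * (b * b) = 1
      · exact ⟨b, hb, b2, q⟩
      · exact ih _ (mul_mem hb hb) q (by rw [← pow_two, ← pow_mul, ← pow_succ', hn])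
  have u : ∀ y ∈ B, y * y = 1 → y = 1 ∨ y = w * w := fun y hy yy => by
    rw [(hζ _ ⟨h.om (h.sq_le (mul_mem hw hw)) w4, mul_mem hw hw⟩).resolve_left w2]
    exact hζ y ⟨h.om (h.sq_le hy) yy, hy⟩
  have cz : ∀ g, g * (w * w) * g⁻¹ = w * w := fun g =>
    (u _ (h.sq_cj (mul_mem hw hw) g) (by
      rw [show g * (w * w) * g⁻¹ * (g * (w * w) * g⁻¹) = g * (w * w * (w * w)) * g⁻¹ by group, w4]
      simp)).resolve_left fun e => w2 (by simpa using e)
  obtain ⟨x, hx, xw⟩ := h.t.i2 (i2_C1 (v := w) w4 cz fun g => by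
    have m := h.sq_cj hw g
    rcases u (w⁻¹ * (g * w * g⁻¹)) (mul_mem (inv_mem hw) m) (by
      have := h.ab.comm (h.sq_le m) (inv_mem (h.sq_le hw))
      calc _ = w⁻¹ * (g * w * g⁻¹ * w⁻¹) * (g * w * g⁻¹) := by group
        _ = (w * w)⁻¹ * (g * (w * w) * g⁻¹) := by rw [this]; group
        _ = 1 := by rw [cz, inv_mul_cancel]) with e | e
    · exact Or.inl (inv_mul_eq_one.mp e).symm
    · exact Or.inr (inv_mul_eq_iff_eq_mul.mp e))
  obtain ⟨a, ha, rfl⟩ := h.mem_sq.mp hw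
  have := h.invsq hx ha
  rw [mem_C1_iff_conj.mp xw] at this
  exact w2 (mul_eq_one_iff_eq_inv.mpr this)

theorem TC {x : G} (hx : x ∈ T) : x ∈ C1 v := by
  obtain ⟨a, ha, e⟩ := h.mem_sq.mp (h.vsq h.k.v_mem)
  have := h.invsq hx ha
  rw [e, inv_self h.k.vv] at this
  exact mem_C1_iff_conj.mpr this

/-- elements centralizing all elements of order dividing four. -/
def S2 (_ : R2 T z v A) : Subgroup G := C (closure {a | a ∈ A ∧ a * a * (a * a) = 1})

theorem mem_S2 {c : G} : c ∈ h.S2 ↔ ∀ a ∈ A, a * a * (a * a) = 1 → c * a * c⁻¹ = a := by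
  unfold S2
  rw [C, centralizer_closure, mem_centralizer_iff]
  exact ⟨fun q a ha a4 => by rw [← q a ⟨ha, a4⟩, mul_inv_cancel_right],
    fun q a ha => (mul_inv_eq_iff_eq_mul.mp (q a ha.1 ha.2)).symm⟩

theorem A_S2 : A ≤ h.S2 := fun _ hc => h.mem_S2.mpr fun _ ha _ => by
  rw [h.ab.comm hc ha, mul_inv_cancel_right]

theorem sq_S2 : ∀ c ∈ C1 v, c * c ∈ h.S2 := fun c hc => h.mem_S2.mpr fun a ha a4 => by
  have m := h.om (mul_mem ha ha) a4
  have d : c * a * c⁻¹ * a⁻¹ ∈ h.k.V := h.om (mul_mem (h.cjA ha c) (inv_mem ha)) (by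
    have := h.ab.comm (inv_mem ha) (h.cjA ha c)
    calc _ = c * a * c⁻¹ * (a⁻¹ * (c * a * c⁻¹)) * a⁻¹ := by group
      _ = c * (a * a) * c⁻¹ * (a * a)⁻¹ := by rw [this]; group
      _ = 1 := by rw [h.k.conj hc m, mul_inv_cancel])
  calc _ = c * (c * a * c⁻¹ * a⁻¹) * c⁻¹ * (c * a * c⁻¹ * a⁻¹) * a := by group
    _ = a := by rw [h.k.conj hc d, h.k.sq d, one_mul]

theorem T_S2 {x : G} (hx : x ∈ T) : x ∉ h.S2 := fun c => by
  obtain ⟨a, ha, e⟩ := h.mem_sq.mp (h.vsq h.k.v_mem)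
  exact h.k.v1 (e ▸ h.k.sq (h.fx hx (h.TC hx) ha (h.mem_S2.mp c a ha (by rw [e, h.k.vv]))))

theorem inv_S2 {c g : G} (hc : c ∈ h.S2) (hg : g ∈ A) (e : c * g * c⁻¹ = g⁻¹) : g * g = 1 := by
  obtain ⟨n, hn⟩ := h.t.pg g
  induction n generalizing g with
  | zero => rw [show g = 1 by simpa using hn, mul_one]
  | succ n ih =>
    have := ih (mul_mem hg hg) (by
      rw [show c * (g * g) * c⁻¹ = c * g * c⁻¹ * (c * g * c⁻¹) by group, e]; group)
      (by rw [← pow_two, ← pow_mul, ← pow_succ', hn])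
    rw [h.mem_S2.mp hc g hg this] at e
    exact mul_eq_one_iff_eq_inv.mpr e

theorem cardQ : Nat.card (G ⧸ A) ≤ 2 * Nat.card ((C1 v).map h.pr) := by
  have e1 := card_map_mk A _ h.AC
  have e2 := h.k.i2.card'
  have e3 := card_eq_card_quotient_mul_card_subgroup A
  have := card_pos A
  nlinarith

theorem tr' {S : Subgroup (G ⧸ A)}
    (hS : _root_.commutator (G ⧸ A) ≤ S) (u : G)
    (hu : ∀ x ∈ T, (h.pr u)⁻¹ * h.pr x ∈ S) : h.pr u ∈ S := by
  refine h.t.tr (S.comap h.pr) ?_ u fun x hx => by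
    rw [mem_comap, map_mul, map_inv]; exact hu x hx
  rw [_root_.commutator_def, commutator_le]
  intro a _ b _
  rw [mem_comap, commutatorElement_def]
  simp only [map_mul, map_inv]
  exact hS (cm_mem _ _)

end R2

end CfsgH2.Fx
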