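import Cfsg.Agent.H2.FxD

/-! The case of normal rank two, concluded. -/

set_option autoImplicit false
set_option linter.style.haveILetI false
set_option linter.unusedSectionVars false

namespace CfsgH2.Fx
open Subgroup CfsgH5 CfsgH6 CfsgFT

universe u
variable {G : Type u} [Group G] [Finite G]

/-- an abelian subgroup written additively. -/
def Ad {A : Subgroup G} (_ : Ab A) : Type u := A

namespace Ad
variable {A : Subgroup G} {hA : Ab A}

instance : AddCommGroup (Ad hA) :=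
  { (inferInstance : AddGroup (Additive A)) with
    add_comm := fun a b => Subtype.ext (hA.comm (a : A).2 (b : A).2) }

instance : Finite (Ad hA) := (inferInstance : Finite A)

/-- the underlying element. -/
def val (a : Ad hA) : G := (a : A).1
/-- an element of the subgroup. -/
def mk (hA : Ab A) (a : G) (ha : a ∈ A) : Ad hA := (⟨a, ha⟩ : A)

theorem val_mk (a : G) (ha : a ∈ A) : val (mk hA a ha) = a := rfl
theorem val_mem (a : Ad hA) : val a ∈ A := (a : A).2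
theorem ext {a b : Ad hA} (h : val a = val b) : a = b := Subtype.ext h
theorem val_add (a b : Ad hA) : val (a + b) = val a * val b := rfl
theorem val_neg (a : Ad hA) : val (-a) = (val a)⁻¹ := rfl
theorem val_zero : val (0 : Ad hA) = 1 := rfl
theorem val_sub (a b : Ad hA) : val (a - b) = val a * (val b)⁻¹ := by
  rw [sub_eq_add_neg]; rfl
theorem val_smul (n : ℕ) (a : Ad hA) : val (n • a) = val a ^ n := by
  induction n with
  | zero => rw [zero_smul, pow_zero]; rfl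
  | succ n ih => rw [succ_nsmul, val_add, ih, pow_succ]

/-- conjugation. -/
def ph [hn : A.Normal] (hA : Ab A) (g : G) : Ad hA →+ Ad hA :=
  AddMonoidHom.mk' (fun a => mk hA (g * val a * g⁻¹) (hn.conj_mem _ (val_mem a) g)) fun a b =>
    ext (by simp only [val_add, val_mk]; group)

theorem val_ph [A.Normal] (g : G) (a : Ad hA) : val (ph hA g a) = g * val a * g⁻¹ := rfl

theorem db_iff {a : Ad hA} : Db a ↔ val a ∈ (sqh hA).range :=
  ⟨fun ⟨b, e⟩ => ⟨b, congrArg val e⟩, fun ⟨b, e⟩ => ⟨b, ext e⟩⟩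

end Ad

namespace R2
variable {T : Set G} {z v : G} {A : Subgroup G} [hn : A.Normal] (h : R2 T z v A)
include h hn

theorem hV (a : Ad h.ab) (e : a + a = 0) : Db a :=
  Ad.db_iff.mpr (h.vsq (h.om a.val_mem (congrArg Ad.val e)))

theorem cos4 : Cos4 (Ad h.ab) := by
  intro p q r hp hq hpq
  set B := (sqh h.ab).range
  haveI : B.Normal := ⟨fun _ => h.sq_cj⟩
  have e1 := card_map_mk B A h.sq_le
  have e2 : Nat.card A = 4 * Nat.card B := h.card_sq
  have e3 : Nat.card (A.map (QuotientGroup.mk' B)) ≤ 4 := by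
    have := card_pos B
    nlinarith
  have one : ∀ a : Ad h.ab, QuotientGroup.mk' B a.val = 1 ↔ Db a := fun a =>
    (QuotientGroup.eq_one_iff _).trans Ad.db_iff.symm
  have eq : ∀ a b : Ad h.ab, QuotientGroup.mk' B a.val = QuotientGroup.mk' B b.val ↔ Db (a - b) :=
    fun a b => by rw [← one, Ad.val_sub, map_mul, map_inv, mul_inv_eq_one]
  have := eq_of_four_mem e3 ⟨_, p.val_mem, rfl⟩ ⟨_, q.val_mem, rfl⟩ (fun e => hp ((one p).mp e))
    (fun e => hq ((one q).mp e)) (fun e => hpq ((eq q p).mp e.symm))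
    (fun e => hpq ((((one (p + q)).mp (by rw [Ad.val_add, map_mul, e])).sub (db_two p)).of_eq
      (by abel))) ⟨_, r.val_mem, rfl⟩
  rwa [← map_mul, ← Ad.val_add, one, eq, eq, eq] at this

theorem case1 {t : G} (ht : t ∈ T) (hi : ∀ x ∈ T, h.pr x = h.pr t) : False := by
  have pQ := h.t.pg.to_quotient A
  have tt := h.t.sq t ht
  have tv := h.TC ht
  have t1 : h.pr t ≠ 1 := fun e => h.nA ht (h.pr_one.mp e)
  have cen : C1 (h.pr t) = ⊤ := eq_top_iff.mpr fun g _ => by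
    obtain ⟨g, rfl⟩ := QuotientGroup.mk'_surjective A g
    rw [mem_C1_iff_conj, ← map_inv, ← map_mul, ← map_mul]
    exact hi _ (h.t.cj t ht g)
  have tc : h.pr t ∈ _root_.commutator (G ⧸ A) := h.tr' le_rfl t fun x hx => by
    rw [hi x hx, inv_mul_cancel]; exact one_mem _
  have l1 := h.lc1 ht
  have l2 := h.lc2 ht tv
  rw [cen, card_top] at l1
  rw [cen, inf_top_eq] at l2
  have l3 := h.cardQ
  have l4 := card_pos (h.nu t).range
  have l5 : 8 < Nat.card (G ⧸ A) := by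
    by_contra c
    exact t1 (comm_bot (q8 pQ (not_lt.mp c) h.nq) tc)
  have l6 := pow_up (k := 3) (by simpa using pow_card pQ ⊤) l5
  obtain ⟨ζ, hζ⟩ := q16' pQ (by nlinarith) h.nq
  rw [← (hζ _ tc).resolve_left t1] at hζ
  have l7 : Nat.card (h.nu t).range = 1 := by nlinarith
  have l8 : Nat.card ((C1 v).map h.pr) = 8 := by rw [l7] at l2; omega
  have l9 : Nat.card (C1 v) = 8 * Nat.card A := by rw [← card_map_mk A _ h.AC, l8, mul_comm]
  have ti : ∀ a ∈ A, t * a * t⁻¹ = a⁻¹ := fun a ha => eq_inv_of_mul_eq_one_right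
    (mem_bot.mp (card_eq_one_iff.mp l7 ▸ (⟨⟨a, ha⟩, rfl⟩ : _ ∈ (h.nu t).range)))
  have ti' : ∀ a ∈ A, a * t = t * a⁻¹ := fun a ha => by
    rw [← ti a ha, ← mul_assoc, ← mul_assoc, tt, one_mul, inv_self tt]
  obtain ⟨σ, σt, σv⟩ : ∃ σ ∈ C1 t, σ ∉ C1 v := by
    by_contra c
    push Not at c
    have := (h.t.cV h.k ht tv).2
    rw [inf_eq_right.mpr c] at this
    rw [l7] at l1
    omega
  have cl : ∀ g, t⁻¹ * (g * t * g⁻¹) ∈ A := fun g => h.pr_eq.mp (hi _ (h.t.cj t ht g)).symm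
  have tr : ∀ a ∈ A, ∃ d ∈ C1 v, d * t * d⁻¹ = t * a := fun a ha =>
    cls_onto (C1 v) t (s := (fun a => t * a) '' (A : Set G)) (fun d _ => ⟨_, cl d, by simp⟩)
      (by rw [ncard_coset, l9]; exact Nat.mul_le_mul_right _ (h.t.cV h.k ht tv).2) _ ⟨a, ha, rfl⟩
  -- the preimage of `⟨t⟩`
  set F := (zpowers (h.pr t)).comap h.pr
  have mF : ∀ g, g ∈ F ↔ g ∈ A ∨ t⁻¹ * g ∈ A := fun g => by
    rw [← h.pr_one, ← h.pr_eq, mem_comap]
    exact ⟨fun q => (mem_zpowers_order_two (by rw [← map_mul, tt, map_one]) q).imp id Eq.symm,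
      fun q => q.elim (fun e => e ▸ one_mem _) fun e => e ▸ mem_zpowers _⟩
  have tF : t ∈ F := mem_zpowers _
  have AF : A ≤ F := fun a ha => (mF a).mpr (Or.inl ha)
  have cF : ∀ a b, a * b * a⁻¹ * b⁻¹ ∈ F := fun a b => by
    rw [mem_comap]
    simp only [map_mul, map_inv]
    rcases hζ _ (cm_mem (h.pr a) (h.pr b)) with e | e <;> rw [e]
    exacts [one_mem _, mem_zpowers _]
  have nF : ∀ g ∈ F, ∀ s, s * g * s⁻¹ ∈ F := fun g hg s => by
    simpa using mul_mem (cF s g) hg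
  have F1 : ∀ g ∈ F, t⁻¹ * (g * t * g⁻¹) ∈ (sqh h.ab).range := fun g hg => by
    rcases (mF g).mp hg with q | q
    · exact h.mem_sq.mpr ⟨_, inv_mem q, by rw [ti' g q]; group⟩
    · refine h.mem_sq.mpr ⟨_, q, ?_⟩
      have e1 := ti' _ q
      have e2 := ti _ (inv_mem q)
      calc _ = t * (t⁻¹ * g)⁻¹ * t⁻¹ * (t * (t⁻¹ * g)⁻¹ * t⁻¹) := by rw [e2, inv_inv]
        _ = t * (t⁻¹ * g)⁻¹ * (t⁻¹ * g)⁻¹ * t⁻¹ := by group
        _ = t⁻¹ * g * t * (t⁻¹ * g)⁻¹ * t⁻¹ := by rw [e1]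
        _ = _ := by group
  have F2 : ∀ c ∈ C1 v, t⁻¹ * (c * t * c⁻¹) ∈ (sqh h.ab).range → c ∈ F := fun c hc q => by
    obtain ⟨b, hb, e⟩ := h.mem_sq.mp q
    have : b * c ∈ C1 v ⊓ C1 t := ⟨mul_mem (h.AC hb) hc, mem_C1_iff_conj.mpr (by
      calc _ = b * t * (t⁻¹ * (c * t * c⁻¹)) * b⁻¹ := by group
        _ = t := by rw [← e, ti' b hb]; group)⟩
    exact (mul_mem_cancel_left (AF hb)).mp ((sup_le (h.vA.trans AF) (zpowers_le.mpr tF) :
      _ ≤ F) ((h.t.cV h.k ht tv).1 this))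
  have FS : ∀ g ∈ F, g ∈ h.S2 → g ∈ A := fun g hg q => ((mF g).mp hg).resolve_right fun e =>
    h.T_S2 ht (by simpa using mul_mem q (inv_mem (h.A_S2 e)))
  have hσ : ∀ a : Ad h.ab, Db (Ad.ph h.ab σ a - a) := fun a => by
    obtain ⟨d, -, e⟩ := tr _ a.val_mem
    have := h.sq_cj (F1 _ (cF d⁻¹ σ)) d
    rw [Ad.db_iff, Ad.val_sub, Ad.val_ph, h.ab.comm (h.cjA a.val_mem σ) (inv_mem a.val_mem)]
    have e1 : a.val = t⁻¹ * (d * t * d⁻¹) := by rw [e]; group
    have e2 := mem_C1_iff_conj.mp σt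
    convert this using 1
    calc _ = (t * a.val)⁻¹ * (σ * (σ⁻¹ * t * σ * a.val) * σ⁻¹) := by group
      _ = (t * a.val)⁻¹ * (σ * (t * a.val) * σ⁻¹) := by
        rw [show σ⁻¹ * t * σ = t by nth_rewrite 1 [← e2]; group]
      _ = d * (t⁻¹ * (d⁻¹ * σ * d * σ⁻¹ * (σ * t * σ⁻¹) * (d⁻¹ * σ * d * σ⁻¹)⁻¹)) * d⁻¹ := by
        rw [← e]; group
      _ = _ := by rw [e2, inv_inv]
  -- an element `c` with `[σ, c]` inverting `A`
  obtain ⟨c, hc, cσ⟩ : ∃ c ∈ C1 v, σ * c * σ⁻¹ * c⁻¹ ∉ A := by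
    by_contra q
    push Not at q
    have k1 : ∀ a ∈ C1 v, ∀ b ∈ C1 v, h.pr a * h.pr b = h.pr b * h.pr a := fun a ha b hb => by
      have := h.pr_one.mpr (FS _ (cF a b) (comm_mem h.sq_S2 ha hb))
      simp only [map_mul, map_inv] at this
      exact mul_inv_eq_iff_eq_mul.mp (mul_inv_eq_one.mp this)
    have k2 : ∀ a ∈ C1 v, h.pr σ * h.pr a = h.pr a * h.pr σ := fun a ha => by
      have := h.pr_one.mpr (q a ha)
      simp only [map_mul, map_inv] at this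
      exact mul_inv_eq_iff_eq_mul.mp (mul_inv_eq_one.mp this)
    have k3 : ∀ a ∈ C1 v, ∀ g, h.pr g * h.pr a = h.pr a * h.pr g := fun a ha g => by
      by_cases hg : g ∈ C1 v
      · exact k1 g hg a ha
      · have := k1 _ (h.k.i2 _ _ (fun e => σv (inv_mem_iff.mp e)) hg) a ha
        rw [show g = σ * (σ⁻¹ * g) by group, map_mul, mul_assoc, this, ← mul_assoc, k2 a ha,
          mul_assoc]
    refine t1 (comm_bot (fun a b => ?_) tc)
    obtain ⟨a, rfl⟩ := QuotientGroup.mk'_surjective A a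
    obtain ⟨b, rfl⟩ := QuotientGroup.mk'_surjective A b
    by_cases ha : a ∈ C1 v
    · exact (k3 a ha b).symm
    by_cases hb : b ∈ C1 v
    · exact k3 b hb a
    have := k3 _ (h.k.i2 _ _ (fun e => ha (inv_mem_iff.mp e)) hb) a
    rw [show b = a * (a⁻¹ * b) by group, map_mul, mul_assoc, ← this]
  have cσ' := ((mF _).mp (cF σ c)).resolve_left cσ
  have hc' : ∀ a : Ad h.ab, Ad.ph h.ab σ (Ad.ph h.ab c a) = - Ad.ph h.ab c (Ad.ph h.ab σ a) :=
    fun a => Ad.ext (by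
      simp only [Ad.val_ph, Ad.val_neg]
      have m := h.cjA (h.cjA a.val_mem σ) c
      rw [← ti _ m]
      calc _ = t * (t⁻¹ * (σ * c * σ⁻¹ * c⁻¹) * (c * (σ * a.val * σ⁻¹) * c⁻¹) *
          (t⁻¹ * (σ * c * σ⁻¹ * c⁻¹))⁻¹) * t⁻¹ := by group
        _ = _ := by rw [h.ab.comm cσ' m, mul_inv_cancel_right])
  obtain ⟨a, ha⟩ := pure1 h.hV (w := Ad.mk h.ab v (h.vA h.k.v_mem))
    (fun e => h.k.v1 (congrArg Ad.val e)) (Ad.ext h.k.vv) _ _ hσ hc'
  have cnF : c ∉ F := fun q => ha (by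
    rw [Ad.db_iff, Ad.val_sub, Ad.val_ph]
    rcases (mF c).mp q with e | e
    · rw [h.ab.comm e a.val_mem, mul_inv_cancel_right, mul_inv_cancel]; exact one_mem _
    · refine h.mem_sq.mpr ⟨_, inv_mem a.val_mem, ?_⟩
      calc _ = t * a.val * t⁻¹ * a.val⁻¹ := by rw [ti _ a.val_mem]
        _ = t * (t⁻¹ * c * a.val * (t⁻¹ * c)⁻¹) * t⁻¹ * a.val⁻¹ := by
          rw [h.ab.comm e a.val_mem, mul_inv_cancel_right]
        _ = _ := by group)
  have sq2 : ∀ g, t⁻¹ * (g * t * g⁻¹) * (g * (t⁻¹ * (g * t * g⁻¹)) * g⁻¹) =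
      t⁻¹ * (g * g * t * (g * g)⁻¹) := fun g => by group
  by_cases c2 : c * c ∈ A
  · have := pure2 h.cos4 (Ad.ph h.ab c) (fun a => Ad.ext (by
      simp only [Ad.val_ph]
      calc _ = c * c * a.val * (c * c)⁻¹ := by group
        _ = _ := by rw [h.ab.comm c2 a.val_mem, mul_inv_cancel_right])) ha
      (b := Ad.mk h.ab _ (cl c)) (fun q => cnF (F2 c hc (Ad.db_iff.mp q)))
      (Ad.db_iff.mpr (by rw [Ad.val_add, Ad.val_ph, Ad.val_mk, sq2]; exact F1 _ (AF c2)))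
    rw [Ad.db_iff, Ad.val_sub, Ad.val_add, Ad.val_ph, Ad.val_mk,
      h.ab.comm (mul_mem (cl c) (h.cjA a.val_mem c)) (inv_mem a.val_mem)] at this
    obtain ⟨d, hd, e⟩ := tr _ a.val_mem
    have q := F2 _ (mul_mem (mul_mem (inv_mem hd) hc) hd) (by
      convert h.sq_cj this d⁻¹ using 1
      calc _ = d⁻¹ * ((d * t * d⁻¹)⁻¹ * (c * (d * t * d⁻¹) * c⁻¹)) * d := by group
        _ = _ := by rw [e]; group)
    exact cnF (by simpa [mul_assoc] using nF _ q d)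
  have c2S := h.sq_S2 c hc
  have c2F : c * c ∉ F := fun q => c2 (FS _ q c2S)
  have c4 : c * c * (c * c) ∈ A := by
    refine FS _ ?_ (mul_mem c2S c2S)
    have FC : F ≤ C1 v := fun g hg => ((mF g).mp hg).elim (fun e => h.AC e) fun e =>
      (mul_mem_cancel_left (inv_mem tv)).mp (h.AC e)
    have r1 := card_mul_relIndex FC
    have r2 : Nat.card A < Nat.card F := card_lt_of_lt (lt_of_le_of_ne AF fun e => h.nA ht (e ▸ tF))
    have r3 : F.relIndex (C1 v) ≤ 2 ^ 2 := pow_down (pow_rel h.t.pg _ _) (by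
      norm_num only; have := card_pos A; nlinarith)
    obtain ⟨n, hn'⟩ := pow_rel h.t.pg F (C1 v)
    have r4 := pow_relIndex_mem' hc (K := F) fun s _ g hg => nF g hg s
    rw [hn'] at r3 r4
    obtain ⟨m, hm⟩ := pow_dvd_pow 2 ((Nat.pow_le_pow_iff_right (by norm_num)).mp r3)
    have := pow_mem r4 m
    rw [← pow_mul, ← hm] at this
    simpa [pow_succ, mul_assoc] using this
  set u := c * c * (c * c) with hu
  set b := t⁻¹ * (c * c * t * (c * c)⁻¹) with hb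
  have bA : b ∈ A := cl _
  have g2 := h.inv_S2 c2S (mul_mem bA c4) (eq_inv_of_mul_eq_one_right (by
    have e1 := sq2 (c * c)
    rw [← hb, ← hu, ti' u c4] at e1
    have e2 := h.ab.comm c4 (h.cjA bA (c * c))
    calc _ = b * (u * (c * c * b * (c * c)⁻¹)) * (c * c * u * (c * c)⁻¹) := by group
      _ = b * (c * c * b * (c * c)⁻¹) * u * u := by rw [e2, hu]; group
      _ = 1 := by rw [e1]; group))
  obtain ⟨n, hn'⟩ := pow_card h.t.pg A
  refine c2 (h.sc _ fun a ha => ?_)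
  have := congrArg Ad.val (pure3 (n := n) (fun a => Ad.ext (by
    rw [Ad.val_smul, ← hn']
    exact congrArg Subtype.val (pow_card_eq_one' (x := (⟨_, a.val_mem⟩ : A))))) h.cos4 h.hV _ _ hσ hc'
    (fun w e => Ad.ext (h.k.conj hc (h.om w.val_mem (congrArg Ad.val e))))
    (u := Ad.mk h.ab u c4) (Ad.ext (by rw [Ad.val_ph, Ad.val_mk, hu]; group))
    (fun q => c2F (F2 _ (mul_mem hc hc) ((mul_mem_cancel_right (Ad.db_iff.mp q)).mp
      (h.vsq (h.om (mul_mem bA c4) g2))))) (Ad.mk h.ab a ha))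
  simp only [Ad.val_ph, Ad.val_mk] at this
  nth_rewrite 1 [← this]
  group

theorem act2 {x y a : G} (hx : x ∈ T) (hy : y ∈ T) (ha : a ∈ A) :
    x * y * a * (x * y)⁻¹ = a * (a * (x * a * x⁻¹)) * (a * (y * a * y⁻¹)) := by
  have mx := h.nuV hx (h.TC hx) ha
  have my := h.nuV hy (h.TC hy) ha
  calc _ = (a * (x * a * x⁻¹))⁻¹ * a * (x * (a * (y * a * y⁻¹)) * x⁻¹) := by group
    _ = _ := by rw [h.k.conj (h.TC hx) my, inv_self (h.k.sq mx), h.ab.comm (h.vA mx) ha]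

theorem commT {x y : G} (hx : x ∈ T) (hy : y ∈ T) : h.pr x * h.pr y = h.pr y * h.pr x := by
  rw [← map_mul, ← map_mul, h.pr_eq]
  refine h.sc _ fun a ha => ?_
  have e := h.act2 hx hy ha
  rw [mul_assoc a, h.ab.comm (h.vA (h.nuV hx (h.TC hx) ha)) (h.vA (h.nuV hy (h.TC hy) ha)),
    ← mul_assoc, ← h.act2 hy hx ha] at e
  calc _ = (x * y)⁻¹ * (x * y * a * (x * y)⁻¹) * (y * x) := by group
    _ = _ := by rw [e]; group

theorem nu_fix {x σ a : G} (hx : x ∈ T) (hσ : h.pr σ ∈ C1 (h.pr x)) (ha : a ∈ A) :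
    a * (x * a * x⁻¹) ∈ C1 σ := by
  have m : (σ * x)⁻¹ * (x * σ) ∈ A := h.pr_eq.mp (by rw [map_mul, map_mul]; exact mem_C1.mp hσ)
  obtain ⟨ζ, hζ⟩ := two_mem (h.nu2 hx)
  have e : σ * (a * (x * a * x⁻¹)) * σ⁻¹ = σ * a * σ⁻¹ * (x * (σ * a * σ⁻¹) * x⁻¹) := by
    calc _ = σ * a * σ⁻¹ * (σ * x * a * (σ * x)⁻¹) := by group
      _ = σ * a * σ⁻¹ * (σ * x * ((σ * x)⁻¹ * (x * σ) * a * ((σ * x)⁻¹ * (x * σ))⁻¹) *
        (σ * x)⁻¹) := by rw [h.ab.comm m ha, mul_inv_cancel_right]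
      _ = _ := by group
  rcases hζ (a * (x * a * x⁻¹)) ⟨⟨a, ha⟩, rfl⟩ with q | q
  · rw [q]; exact one_mem _
  rcases hζ (σ * a * σ⁻¹ * (x * (σ * a * σ⁻¹) * x⁻¹)) ⟨⟨_, h.cjA ha σ⟩, rfl⟩ with r | r
  · rw [← e, mul_inv_eq_one, mul_eq_left] at r
    rw [r]; exact one_mem _
  · exact mem_C1_iff_conj'.mpr (by rw [e, r, q])

theorem case2 {x y : G} (hx : x ∈ T) (hy : y ∈ T) (xy : h.pr x ≠ h.pr y)
    (hx2 : 1 < Nat.card (h.nu x).range) : False := by
  have pQ := h.t.pg.to_quotient A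
  have n1 : ∀ w ∈ T, h.pr w ≠ 1 := fun w hw e => h.nA hw (h.pr_one.mp e)
  have s1 : ∀ w ∈ T, h.pr w * h.pr w = 1 := fun w hw => by rw [← map_mul, h.t.sq w hw, map_one]
  have l1 := h.lc1 hx
  have l2 := h.lc2 hx (h.TC hx)
  have l3 := h.t.c16 x hx
  have l4 := h.big4 hx
  have l5 : Nat.card (C1 (h.pr x)) ≤ 8 := by nlinarith
  set H := (C1 v).map h.pr ⊓ C1 (h.pr x)
  have l6 : Nat.card H ≤ 4 := by nlinarith
  have mH : ∀ w ∈ T, h.pr w ∈ H := fun w hw => ⟨⟨w, h.TC hw, rfl⟩, mem_C1.mpr (h.commT hw hx)⟩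
  have xy1 : h.pr x * h.pr y ≠ 1 := fun e => xy (by
    rw [eq_inv_of_mul_eq_one_left e, inv_self (s1 y hy)])
  have e4 : ∀ g ∈ H, g = 1 ∨ g = h.pr x ∨ g = h.pr y ∨ g = h.pr x * h.pr y := fun g hg =>
    eq_of_four_mem l6 (mH x hx) (mH y hy) (n1 x hx) (n1 y hy) xy xy1 hg
  have cjT : ∀ g, ∃ w ∈ T, h.pr w = g * h.pr x * g⁻¹ := fun g => by
    obtain ⟨g, rfl⟩ := QuotientGroup.mk'_surjective A g
    exact ⟨_, h.t.cj x hx g, by simp only [map_mul, map_inv]⟩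
  have l7 : (C1 (h.pr x)).relIndex ⊤ ≤ 2 ^ 1 := pow_down (pow_rel pQ _ _) (by
    rw [rel_C1]
    refine lt_of_le_of_lt (Set.ncard_le_ncard (t := {h.pr x, h.pr y, h.pr x * h.pr y}) ?_
      (Set.toFinite _)) (lt_of_le_of_lt (Set.ncard_insert_le _ _) ?_)
    · rintro _ ⟨g, -, rfl⟩
      obtain ⟨w, hw, e⟩ := cjT g
      rw [← e]
      exact (e4 _ (mH w hw)).resolve_left (n1 w hw)
    · have := Set.ncard_insert_le (h.pr y) {h.pr x * h.pr y}
      rw [Set.ncard_singleton] at this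
      omega)
  have l8 : Nat.card (G ⧸ A) ≤ 16 := by
    have := card_mul_relIndex (le_top : C1 (h.pr x) ≤ ⊤)
    rw [card_top] at this
    nlinarith
  have ab8 : C1 (h.pr x) = ⊤ → ∀ a b : G ⧸ A, a * b = b * a := fun e =>
    q8 pQ (by rwa [e, card_top] at l5) h.nq
  by_cases c : ∃ w ∈ T, h.pr w = h.pr x * h.pr y
  · obtain ⟨w, hw, e⟩ := c
    have a2 : ∀ a ∈ A, a * a = a * (w * a * w⁻¹) *
        ((a * (x * a * x⁻¹)) * (a * (y * a * y⁻¹)))⁻¹ := fun a ha => by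
      have m : (x * y)⁻¹ * w ∈ A := h.pr_eq.mp (by rw [map_mul, e])
      have : w * a * w⁻¹ = x * y * a * (x * y)⁻¹ := by
        calc _ = x * y * ((x * y)⁻¹ * w * a * ((x * y)⁻¹ * w)⁻¹) * (x * y)⁻¹ := by group
          _ = _ := by rw [h.ab.comm m ha, mul_inv_cancel_right]
      rw [this, h.act2 hx hy ha]; group
    have a4 : ∀ a ∈ A, a * a * (a * a) = 1 := fun a ha => h.k.sq (by
      rw [a2 a ha]
      exact mul_mem (h.nuV hw (h.TC hw) ha) (inv_mem (mul_mem (h.nuV hx (h.TC hx) ha)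
        (h.nuV hy (h.TC hy) ha))))
    have H0 : (C1 v).map h.pr ≤ C1 (h.pr x) := by
      rintro _ ⟨c, hc, rfl⟩
      have := h.pr_one.mpr (h.sc _ fun a ha => (mul_inv_eq_iff_eq_mul.mp
        (h.mem_S2.mp (comm_mem h.sq_S2 hc (h.TC hx)) a ha (a4 a ha))).symm)
      simp only [map_mul, map_inv] at this
      exact mem_C1.mpr (mul_inv_eq_iff_eq_mul.mp (mul_inv_eq_one.mp this))
    have l9 := h.cardQ
    rw [← inf_eq_left.mpr H0] at l9
    have ab := q8 pQ (l9.trans (Nat.mul_le_mul_left 2 l6)) h.nq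
    obtain ⟨σ, hσ⟩ : ∃ σ, σ ∉ C1 v := by
      by_contra q
      push Not at q
      have : C1 (h.pr x) ≤ H := fun g hg => by
        obtain ⟨g, rfl⟩ := QuotientGroup.mk'_surjective A g
        exact ⟨⟨g, q g, rfl⟩, hg⟩
      have := card_le_of_le this
      omega
    obtain ⟨a, ha, ea⟩ := h.mem_sq.mp (h.vsq h.k.v_mem)
    refine hσ (mem_C1_comm.mp ?_)
    rw [← ea, a2 a ha]
    exact mul_mem (h.nu_fix hw (mem_C1.mpr (ab _ _)) ha) (inv_mem (mul_mem
      (h.nu_fix hx (mem_C1.mpr (ab _ _)) ha) (h.nu_fix hy (mem_C1.mpr (ab _ _)) ha)))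
  push Not at c
  have T2 : ∀ w ∈ T, h.pr w = h.pr x ∨ h.pr w = h.pr y := fun w hw =>
    ((e4 _ (mH w hw)).resolve_left (n1 w hw)).imp_right fun q => q.resolve_right (c w hw)
  obtain ⟨ζ, hζ⟩ := q16' pQ l8 h.nq
  have hh : h.pr x * h.pr y * (h.pr x * h.pr y) = 1 := by
    rw [mul_assoc, ← mul_assoc (h.pr y), h.commT hy hx, mul_assoc, s1 y hy, mul_one, s1 x hx]
  have m := h.tr' (S := _root_.commutator (G ⧸ A) ⊔ zpowers (h.pr x * h.pr y)) le_sup_left x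
    fun w hw => by
      rcases T2 w hw with e | e <;> rw [e]
      · rw [inv_mul_cancel]; exact one_mem _
      · rw [inv_self (s1 x hx)]; exact mem_sup_right (mem_zpowers _)
  obtain ⟨p, hp, q, hq, e⟩ := (mem_sup_nrm' (Nrm.of_normal _ _)).mp m
  have key : h.pr x ∈ _root_.commutator (G ⧸ A) ∨ h.pr y ∈ _root_.commutator (G ⧸ A) := by
    rcases mem_zpowers_order_two hh hq with r | r <;> rw [r] at e
    · exact Or.inl (by rwa [e, mul_one])
    · refine Or.inr ?_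
      rw [h.commT hx hy, ← mul_assoc, right_eq_mul] at e
      rw [eq_inv_of_mul_eq_one_right e]
      exact inv_mem hp
  have cen : C1 (h.pr x) = ⊤ := eq_top_iff.mpr fun g _ => by
    obtain ⟨w, hw, e⟩ := cjT g
    rw [mem_C1_iff_conj]
    rcases key with k | k
    · have := Normal.conj_mem inferInstance _ k g
      rw [(hζ _ this).resolve_left (e ▸ n1 w hw), (hζ _ k).resolve_left (n1 x hx)]
    · rcases hζ _ (cm_mem g (h.pr x)) with r | r
      · exact mul_inv_eq_one.mp r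
      · rw [← (hζ _ k).resolve_left (n1 y hy), ← e, mul_inv_eq_iff_eq_mul, h.commT hy hx] at r
        exact absurd r (c w hw)
  exact key.elim (fun k => n1 x hx (comm_bot (ab8 cen) k)) fun k => n1 y hy (comm_bot (ab8 cen) k)

theorem false : False := by
  obtain ⟨t, ht⟩ := h.t.ne
  by_cases c : ∀ x ∈ T, h.pr x = h.pr t
  · exact h.case1 ht c
  push Not at c
  obtain ⟨x, hx, xt⟩ := c
  by_cases q : 1 < Nat.card (h.nu x).range
  · exact h.case2 hx ht xt q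
  by_cases r : 1 < Nat.card (h.nu t).range
  · exact h.case2 ht hx xt.symm r
  have k : ∀ w, ¬ 1 < Nat.card (h.nu w).range → ∀ a ∈ A, w * a * w⁻¹ = a⁻¹ := fun w hw a ha =>
    eq_inv_of_mul_eq_one_right (mem_bot.mp (not_not.mp (mt one_lt_card.mpr hw) ▸
      (⟨⟨a, ha⟩, rfl⟩ : _ ∈ (h.nu w).range)))
  refine xt (h.pr_eq.mpr (h.sc _ fun a ha => ?_))
  calc _ = x⁻¹ * (x * a * x⁻¹) * t := by group
    _ = _ := by rw [k x q a ha, ← k t r a ha]; group

end R2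

theorem TT.false {T : Set G} (h : TT T) : False := by
  haveI : Fact (Nat.Prime 2) := ⟨Nat.prime_two⟩
  obtain ⟨z, v, k⟩ : ∃ z v : G, N4 z v := by
    by_contra c
    exact h.nsr ((sr_two_of_no h.pg c).le (by norm_num))
  haveI := k.normal
  obtain ⟨A, h1, h2, h3, h4⟩ := CfsgH8.exists_selfCentralizing_normal_abelian h.pg k.V
    (ab_iff.mp (ab_of_sq fun _ => k.sq))
  exact R2.false (⟨h, k, ab_iff.mpr h3, h4, h1⟩ : R2 T z v A)

end CfsgH2.Fx
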