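import Cfsg.Agent.H2.FxC

/-! Two-groups containing a Sylow subgroup of `L₃(4)` type. -/

set_option autoImplicit false
set_option linter.style.haveILetI false
set_option linter.unusedSectionVars false

namespace CfsgH2.Fx
open Subgroup CfsgH5 CfsgH6 CfsgFT

universe u
variable {G : Type u} [Group G] [Finite G]

theorem rel_le_two {R E : Subgroup G} (h : ∀ a ∈ E, ∀ b ∈ E, a ∉ R → b ∉ R → a * b ∈ R) :
    R.relIndex E ≤ 2 := I2.index (H := R.subgroupOf E) fun a b => h a a.2 b b.2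

theorem half (hG : IsPGroup 2 G) {X Y : Subgroup G} {k : ℕ} (h : X < Y)
    (c : Nat.card Y ≤ 2 ^ (k + 1)) : Nat.card X ≤ 2 ^ k :=
  pow_down (pow_card hG X) (lt_of_lt_of_le (card_lt_of_lt h) c)

theorem half' (hG : IsPGroup 2 G) {Y : Subgroup G} {k : ℕ} {x a : G} (ha : a ∈ Y)
    (h : x * a * x⁻¹ ≠ a) (c : Nat.card Y ≤ 2 ^ (k + 1)) : Nat.card ↥(Y ⊓ C1 x) ≤ 2 ^ k :=
  half hG (lt_of_le_of_ne inf_le_left fun e =>
    h (mem_C1_iff_conj'.mp ((inf_eq_left.mp e) ha))) c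

theorem card_map_mk' (A D : Subgroup G) [A.Normal] :
    Nat.card (D.map (QuotientGroup.mk' A)) = A.relIndex D := by
  rw [← relIndex_ker, QuotientGroup.ker_mk']

/-- commutation with a fixed element when commutators are central. -/
def cmc {X W : Subgroup G} (b : G) (h1 : ∀ y ∈ X, y * b * y⁻¹ * b⁻¹ ∈ W)
    (h2 : ∀ y ∈ X, ∀ w ∈ W, y * w = w * y) (h3 : Ab W) : X →* G :=
  MonoidHom.mk' (fun y => y * b * (y : G)⁻¹ * b⁻¹) fun a c => by
    simp only [coe_mul]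
    calc _ = a * (c * b * (c : G)⁻¹ * b⁻¹) * (a : G)⁻¹ * (a * b * (a : G)⁻¹ * b⁻¹) := by group
      _ = _ := by rw [h2 _ a.2 _ (h1 _ c.2), mul_inv_cancel_right, h3.comm (h1 _ c.2) (h1 _ a.2)]

/-- class two groups with a nonsingular commutator map. -/
structure Core (T B W : Subgroup G) : Prop where
  pg : IsPGroup 2 G
  wb : W ≤ B
  bt : B ≤ T
  cw : ∀ y ∈ T, ∀ w ∈ W, y * w = w * y
  sq : ∀ y ∈ T, y * y ∈ W
  cB : Nat.card B = 16
  cW : Nat.card W = 4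
  cT : Nat.card T ≤ 64
  ns : ∀ y ∈ T, ∀ b ∈ B, y * b = b * y → y ∈ B ∨ b ∈ W

namespace Core
variable {T B W : Subgroup G} (h : Core T B W)
include h

theorem abW : Ab W := ab_iff.mpr fun a ha b hb => h.cw a (h.bt (h.wb ha)) b hb

theorem onto {X Y : Subgroup G} (hX : X ≤ T) {b : G} (hb : b ∈ T) {K : Subgroup G}
    (hK : ∀ y ∈ X, y * b = b * y → y ∈ K) (c : 4 * Nat.card K ≤ Nat.card X)
    (hY : ∀ y ∈ X, y * b * y⁻¹ * b⁻¹ ∈ Y) : W ≤ Y := by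
  set f := cmc (X := X) b (fun y hy => comm_mem h.sq (hX hy) hb) (fun y hy => h.cw y (hX hy)) h.abW
  have e1 := card_range_mul f
  have e2 : Nat.card f.ker ≤ Nat.card K := card_ker_le f fun y hy =>
    hK y y.2 (mul_inv_eq_iff_eq_mul.mp (mul_inv_eq_one.mp hy))
  have e3 : f.range = W := eq_of_le_of_card_le
    (by rintro _ ⟨y, rfl⟩; exact comm_mem h.sq (hX y.2) hb) (by
      rw [h.cW]; have := card_pos f.ker; nlinarith)
  rw [← e3]
  rintro _ ⟨y, rfl⟩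
  exact hY y y.2

theorem k1 {X Y : Subgroup G} (hX : X ≤ T) (hs : ∀ x ∈ X, x * x ∈ Y) (c : 8 ≤ W.relIndex X) :
    W ≤ Y := by
  have n : Nrm X W := fun a ha w hw => by rwa [h.cw a (hX ha) w hw, mul_inv_cancel_right]
  have hX' : X ⊔ W ≤ T := sup_le hX (h.wb.trans h.bt)
  have cm : ∀ a ∈ X ⊔ W, ∀ b ∈ X ⊔ W, a * b * a⁻¹ * b⁻¹ ∈ Y := fun a ha b hb => by
    obtain ⟨x, hx, w, hw, rfl⟩ := (mem_sup_nrm n).mp ha
    obtain ⟨y, hy, w', hw', rfl⟩ := (mem_sup_nrm n).mp hb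
    convert comm_mem hs hx hy using 1
    calc _ = x * (w * (y * w') * w⁻¹) * (x⁻¹ * w'⁻¹) * y⁻¹ := by group
      _ = _ := by
        rw [← h.cw _ (hX' hb) w hw, h.cw _ (hX (inv_mem hx)) _ (inv_mem hw')]; group
  have c1 : 32 ≤ Nat.card ↥(X ⊔ W) := by
    rw [← card_mul_relIndex (le_sup_right : W ≤ X ⊔ W), relIndex_sup' (Or.inl n), h.cW]; omega
  generalize X ⊔ W = Z at hX' cm c1
  have e1 := card_inf_mul_relIndex B Z
  have e2 : B.relIndex Z ≤ 4 := by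
    have := card_mul_relIndex h.bt
    have := h.cT
    have := rel_le_right B hX'
    rw [h.cB] at *
    omega
  by_cases q : B.relIndex Z ≤ 2
  · have BZ : B ≤ Z := inf_eq_left.mp (eq_of_le_of_card_le inf_le_left (by rw [h.cB]; nlinarith))
    obtain ⟨y, hy, yB⟩ : ∃ y ∈ Z, y ∉ B := by
      by_contra r
      push Not at r
      have := card_le_of_le r
      rw [h.cB] at this
      omega
    exact h.onto h.bt (hX' hy) (K := W) (fun b hb e => (h.ns y (hX' hy) b hb e.symm).resolve_left yB)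
      (by rw [h.cW, h.cB]) fun b hb => cm b (BZ hb) y hy
  · have q2 := pow_up (k := 1) (pow_rel h.pg B Z) (by omega)
    obtain ⟨b, hb, bW⟩ : ∃ b ∈ B ⊓ Z, b ∉ W := by
      by_contra r
      push Not at r
      have := card_le_of_le r
      rw [h.cW] at this
      nlinarith
    exact h.onto hX' (h.bt hb.1) (K := B ⊓ Z)
      (fun y hy e => ⟨(h.ns y (hX' hy) b hb.1 e).resolve_right bW, hy⟩)
      (by rw [← e1, mul_comm]; exact Nat.mul_le_mul_left _ q2)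
      fun y hy => cm y hy b hb.2

theorem cardT [W.Normal] : Nat.card (T.map (QuotientGroup.mk' W)) ≤ 16 := by
  have := card_map_mk W T (h.wb.trans h.bt)
  have := h.cT
  rw [h.cW] at *
  omega

theorem sqT [W.Normal] : ∀ a ∈ T.map (QuotientGroup.mk' W), a * a = 1 := by
  rintro _ ⟨a, ha, rfl⟩
  rw [← map_mul]
  exact (QuotientGroup.eq_one_iff _).mpr (h.sq a ha)

theorem est [nT : T.Normal] [nW : W.Normal] {X Y : Subgroup G} (hYX : Y ≤ X)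
    (hs : ∀ x ∈ X, x * x ∈ Y) : ∃ j k m : ℕ, Y.relIndex (X ⊓ T) = j * k ∧
      m = Nat.card ((X ⊓ T).map (QuotientGroup.mk' W)) ∧ (m ≤ 2 ∨ m = 4 ∨ 8 ≤ m) ∧ j ≤ m ∧ k ≤ 4 ∧
      (8 ≤ m → k = 1) ∧ (∀ x ∈ X, j ≤ Nat.card ↥((X ⊓ T).map (QuotientGroup.mk' W) ⊓
        C1 (QuotientGroup.mk' W x))) ∧ (∀ x ∈ X, ∀ a ∈ W, x * a * x⁻¹ ≠ a → k ≤ 2) ∧
      (m ≤ 4 → 8 < j * k → Nat.card ↥(X ⊓ T) = 16 ∧ ∀ y ∈ Y, y ∈ T → y = 1) := by
  set π := QuotientGroup.mk' W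
  have e := split (inf_le_right : Y ⊓ (X ⊓ T) ≤ X ⊓ T) (Nrm.of_normal _ W)
  rw [inf_relIndex_right] at e
  have cm : ∀ x ∈ X, ∀ a ∈ X ⊓ T, x * a * x⁻¹ ∈ X ⊓ T := fun x hx a ha =>
    ⟨X.mul_mem (X.mul_mem hx ha.1) (X.inv_mem hx), nT.conj_mem a ha.2 x⟩
  have cm2 : ∀ x ∈ X, ∀ a ∈ X ⊓ T, x * a * x⁻¹ * a⁻¹ ∈ Y ⊓ (X ⊓ T) := fun x hx a ha =>
    mem_inf.mpr ⟨comm_mem hs hx ha.1, mul_mem (cm x hx a ha) (inv_mem ha)⟩
  have k4 : Nat.card ↥(X ⊓ T ⊓ W) ≤ 4 := h.cW ▸ card_le_of_le inf_le_right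
  have pm := pow_card (h.pg.to_quotient W) ((X ⊓ T).map π)
  refine ⟨_, _, _, e, rfl, ?_, ?_, (rel_le_card _ _).trans k4, fun c => ?_, fun x hx => ?_,
    fun x hx a ha ne => ?_, fun c1 c2 => ?_⟩
  · by_cases c : Nat.card ((X ⊓ T).map π) ≤ 2
    · exact Or.inl c
    have := pow_up (k := 1) pm (by omega)
    by_cases c' : Nat.card ((X ⊓ T).map π) ≤ 4
    · omega
    have := pow_up (k := 2) pm (by omega)
    omega
  · rw [card_map_mk']; exact rel_le_left _ le_sup_right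
  · rw [card_map_mk'] at c
    have := h.k1 (X := X ⊓ T) (Y := Y ⊓ (X ⊓ T)) inf_le_right
      (fun x hx => ⟨hs x hx.1, mul_mem hx hx⟩) c
    exact relIndex_eq_one.mpr (inf_le_right.trans this)
  · refine (rel_le_right _ (le_sup_left : X ⊓ T ≤ X ⊓ T ⊔ W)).trans ?_
    have := relIndex_map_map π (Y ⊓ (X ⊓ T)) (X ⊓ T)
    rw [QuotientGroup.ker_mk'] at this
    rw [← this]
    refine rel_le_cent ((ab_of_sq h.sqT).mono (map_mono inf_le_right)) ?_ ?_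
    · rintro _ ⟨a, ha, rfl⟩
      exact ⟨_, cm x hx a ha, by simp only [map_mul, map_inv]; rfl⟩
    · rintro _ ⟨a, ha, rfl⟩
      exact ⟨_, cm2 x hx a ha, by simp only [map_mul, map_inv]; rfl⟩
  · refine (rel_le_cent (h.abW.mono inf_le_right) (g := x)
      (fun a ha => ⟨cm x hx a ha.1, nW.conj_mem a ha.2 x⟩) fun a ha => cm2 x hx a ha.1).trans
      ((card_le_of_le (inf_le_inf_right _ inf_le_right)).trans
        (half' h.pg (k := 1) ha ne h.cW.le))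
  · rw [← e] at c2
    have c3 := pow_up (k := 3) (pow_rel h.pg _ _) c2
    have c4 := card_inf_mul_relIndex W (X ⊓ T)
    have c5 := card_inf_mul_relIndex Y (X ⊓ T)
    have c6 := card_pos (Y ⊓ (X ⊓ T))
    rw [card_map_mk'] at c1
    rw [inf_comm] at c4
    have c7 : Nat.card ↥(X ⊓ T) ≤ 16 := by nlinarith
    have c8 : Nat.card ↥(Y ⊓ (X ⊓ T)) = 1 := by nlinarith
    refine ⟨by rw [c8] at c5; omega, fun y hy yT => ?_⟩
    rw [← mem_bot, ← card_eq_one_iff.mp c8]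
    exact ⟨hy, hYX hy, yT⟩

theorem cent8 [W.Normal] {x t : G} (ht : t ∈ T) (e : x * t * x⁻¹ * t⁻¹ ∉ W) (X : Subgroup G) :
    Nat.card ↥((X ⊓ T).map (QuotientGroup.mk' W) ⊓ C1 (QuotientGroup.mk' W x)) ≤ 8 :=
  (card_le_of_le (inf_le_inf_right _ (map_mono inf_le_right))).trans
    (half' (h.pg.to_quotient W) (k := 3) (a := QuotientGroup.mk' W t) ⟨t, ht, rfl⟩ (fun q => e (by
      rw [← QuotientGroup.eq_one_iff]
      exact mul_inv_eq_one.mpr q)) h.cardT)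

theorem sr_in [T.Normal] [W.Normal] {X Y : Subgroup G} (hYX : Y ≤ X) (hs : ∀ x ∈ X, x * x ∈ Y)
    (c : X ≤ T) : Y.relIndex X ≤ 2 ^ 4 := by
  obtain ⟨j, k, m, e, em, m1, jm, k4, k1, -⟩ := h.est hYX hs
  rw [inf_eq_left.mpr c] at e em
  have := (card_le_of_le (map_mono (f := QuotientGroup.mk' W) c)).trans h.cardT
  rw [e]
  by_cases q : 8 ≤ m
  · rw [k1 q]; omega
  · have : j ≤ 4 := by omega
    nlinarith

theorem l34b [T.Normal] [W.Normal] (i2 : I2 T) (iv : ∀ x, x * x = 1 → x ∈ T)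
    (nt : ∀ x, x ∉ T → ∃ t ∈ T, x * t * x⁻¹ * t⁻¹ ∉ W) : SR 4 (⊤ : Subgroup G) ⊥ := by
  intro X Y _ hYX _ hs
  by_cases c : X ≤ T
  · exact h.sr_in hYX hs c
  obtain ⟨x, hx, xT⟩ := SetLike.not_le_iff_exists.mp c
  obtain ⟨j, k, m, e, em, m1, jm, k4, k1, jx, -, el⟩ := h.est hYX hs
  have i := (rel_le_left X (le_sup_right : T ≤ Y ⊔ T)).trans (i2.rel X)
  rw [split hYX (Nrm.of_normal X T), e]
  suffices j * k ≤ 8 by nlinarith
  by_cases q : 8 ≤ m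
  · obtain ⟨t, ht, e⟩ := nt x xT
    rw [k1 q, mul_one]
    exact (jx x hx).trans (h.cent8 ht e X)
  · by_contra r
    exact xT (iv x ((el (by omega) (by omega)).2 _ (hs x hx) (i2 x x xT xT)))

end Core

/-- two elementary abelian groups of order 16 interchanged by `w`. -/
structure L34 (B B' : Subgroup G) (w : G) : Prop where
  pg : IsPGroup 2 G
  eB : ∀ b ∈ B, b * b = 1
  cB : Nat.card B = 16
  s1 : cj w B = B'
  s2 : cj w B' = B
  bn : B' ≤ N B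
  nb : N B ≤ N (B ⊔ B')
  cW : Nat.card ↥(B ⊓ B') = 4
  ns : ∀ b ∈ B, ∀ b' ∈ B', b * b' = b' * b → b ∈ B' ∨ b' ∈ B
  r1 : Nat.card (N B) ≤ 128
  r2 : ∀ x ∈ N B, x ∉ B ⊔ B' → ∃ b ∈ B, x * b * x⁻¹ * b⁻¹ ∉ B ⊓ B'

theorem el_cj {B : Subgroup G} (h : ∀ b ∈ B, b * b = 1) (g : G) : ∀ b ∈ cj g B, b * b = 1 := by
  intro b hb
  obtain ⟨c, hc, rfl⟩ := mem_cj'.mp hb
  rw [show g * c * g⁻¹ * (g * c * g⁻¹) = g * (c * c) * g⁻¹ by group, h c hc]; simp

namespace L34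
variable {B B' : Subgroup G} {w : G} (h : L34 B B' w)
include h

theorem eB' : ∀ b ∈ B', b * b = 1 := h.s1 ▸ el_cj h.eB w
theorem cB' : Nat.card B' = 16 := by rw [← h.s1, card_cj, h.cB]
theorem bn' : B ≤ N B' := by
  have := cj_mono (g := w) h.bn
  rwa [h.s2, cj_N, h.s1] at this
theorem ne : B ≠ B' := fun e => by
  have := h.cW
  rw [← e, inf_idem, h.cB] at this
  omega

theorem dec {t : G} (ht : t ∈ B ⊔ B') : ∃ b ∈ B, ∃ b' ∈ B', t = b * b' :=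
  (mem_sup_nrm (nrm_of_le_N h.bn')).mp ht

theorem cmW {b b' : G} (hb : b ∈ B) (hb' : b' ∈ B') : b * b' * b⁻¹ * b'⁻¹ ∈ B ⊓ B' :=
  mem_inf.mpr ⟨by
    simpa only [mul_assoc] using mul_mem hb (conj_mem_of_mem_N (h.bn hb') (inv_mem hb)),
    mul_mem (conj_mem_of_mem_N (h.bn' hb) hb') (inv_mem hb')⟩

theorem cT : Nat.card ↥(B ⊔ B') = 64 := by
  have := card_sup_mul (Or.inl (nrm_of_le_N h.bn'))
  rw [h.cW, h.cB, h.cB'] at this
  omega

theorem core : Core (B ⊔ B') B (B ⊓ B') where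
  pg := h.pg
  wb := inf_le_left
  bt := le_sup_left
  cw := fun y hy a ha => by
    obtain ⟨b, hb, b', hb', rfl⟩ := h.dec hy
    rw [mul_assoc, comm_of_sq h.eB' hb' ha.2, ← mul_assoc, comm_of_sq h.eB hb ha.1, mul_assoc]
  sq := fun y hy => by
    obtain ⟨b, hb, b', hb', rfl⟩ := h.dec hy
    have := h.cmW hb hb'
    rwa [inv_self (h.eB b hb), inv_self (h.eB' b' hb'), mul_assoc] at this
  cB := h.cB
  cW := h.cW
  cT := h.cT.le
  ns := fun y hy a ha e => by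
    obtain ⟨b, hb, b', hb', rfl⟩ := h.dec hy
    rw [← mul_assoc, comm_of_sq h.eB ha hb, mul_assoc, mul_assoc, mul_right_inj] at e
    exact (h.ns a ha b' hb' e.symm).symm.imp (mul_mem hb) fun q => ⟨ha, q⟩

theorem un {E : Subgroup G} (hE : E ≤ B ⊔ B') (e : ∀ a ∈ E, a * a = 1) : E ≤ B ∨ E ≤ B' := by
  have k : ∀ a ∈ E, a ∈ B ∨ a ∈ B' := fun a ha => by
    obtain ⟨b, hb, b', hb', rfl⟩ := h.dec (hE ha)
    have := eq_inv_of_mul_eq_one_left (e _ ha)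
    rw [mul_inv_rev, inv_self (h.eB b hb), inv_self (h.eB' b' hb')] at this
    exact (h.ns b hb b' hb' this).symm.imp (mul_mem hb) fun q => mul_mem q hb'
  by_contra c
  push Not at c
  obtain ⟨a, ha, aB⟩ := SetLike.not_le_iff_exists.mp c.1
  obtain ⟨b, hb, bB⟩ := SetLike.not_le_iff_exists.mp c.2
  rcases k _ (mul_mem ha hb) with q | q
  · exact aB ((mul_mem_cancel_right ((k b hb).resolve_right bB)).mp q)
  · exact bB ((mul_mem_cancel_left ((k a ha).resolve_left aB)).mp q)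

theorem un16 {E : Subgroup G} (hE : E ≤ B ⊔ B') (e : ∀ a ∈ E, a * a = 1) (c : Nat.card E = 16) :
    E = B ∨ E = B' :=
  (h.un hE e).imp (fun q => eq_of_le_of_card_eq q (by rw [c, h.cB]))
    fun q => eq_of_le_of_card_eq q (by rw [c, h.cB'])

theorem pair {g : G} (hg : g ∈ N (B ⊔ B')) :
    (cj g B = B ∧ cj g B' = B') ∨ (cj g B = B' ∧ cj g B' = B) := by
  have e := mem_N.mp hg
  have p1 := h.un16 (E := cj g B) (e ▸ cj_mono le_sup_left) (el_cj h.eB g) (by rw [card_cj, h.cB])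
  have p2 := h.un16 (E := cj g B') (e ▸ cj_mono le_sup_right) (el_cj h.eB' g)
    (by rw [card_cj, h.cB'])
  have p3 : cj g B ≠ cj g B' := fun q => h.ne (cj_inj.mp q)
  rcases p1 with a | a <;> rcases p2 with b | b
  · exact absurd (a.trans b.symm) p3
  · exact Or.inl ⟨a, b⟩
  · exact Or.inr ⟨a, b⟩
  · exact absurd (a.trans b.symm) p3

theorem nn : N B ≤ N B' := fun g hg => mem_N.mpr (by
  rcases h.pair (h.nb hg) with q | q
  · exact q.2
  · exact absurd ((mem_N.mp hg).symm.trans q.1) h.ne)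

theorem nn' : N B' = N B := (eq_of_le_of_card_eq h.nn (by rw [← h.s1, ← cj_N, card_cj])).symm

theorem symm : L34 B' B w where
  pg := h.pg
  eB := h.eB'
  cB := h.cB'
  s1 := h.s2
  s2 := h.s1
  bn := h.bn'
  nb := by rw [h.nn', sup_comm]; exact h.nb
  cW := by rw [inf_comm]; exact h.cW
  ns := fun b hb b' hb' e => (h.ns b' hb' b hb e.symm).symm
  r1 := h.nn' ▸ h.r1
  r2 := fun x hx xT => by
    obtain ⟨b, hb, e⟩ := h.r2 (w⁻¹ * x * w) (by rwa [← mem_cj, cj_N, h.s1])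
      (by rwa [← mem_cj, cj_sup, h.s1, h.s2])
    refine ⟨w * b * w⁻¹, h.s1 ▸ conj_mem_cj.mpr hb, fun q => e ?_⟩
    have : B' ⊓ B = cj w (B ⊓ B') := by rw [cj_inf, h.s1, h.s2]
    rw [this, mem_cj] at q
    convert q using 1
    group

theorem nW {g : G} (hg : g ∈ N (B ⊔ B')) : g ∈ N (B ⊓ B') := by
  rw [mem_N, cj_inf]
  rcases h.pair hg with q | q <;> rw [q.1, q.2]
  exact inf_comm _ _

theorem TR : B ⊔ B' ≤ N B := sup_le (le_N B) h.bn

theorem relT : (B ⊔ B').relIndex (N B) ≤ 2 := by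
  have := card_mul_relIndex h.TR
  have := h.r1
  rw [h.cT] at *
  omega

theorem relR {E : Subgroup G} (hE : E ≤ N (B ⊔ B')) : (N B).relIndex E ≤ 2 :=
  rel_le_two fun a ha b hb a1 b1 => by
    have p := (h.pair (hE ha)).resolve_left fun q => a1 (mem_N.mpr q.1)
    have q := (h.pair (hE hb)).resolve_left fun q => b1 (mem_N.mpr q.1)
    rw [mem_N, ← cj_cj, q.1, p.2]

theorem cmB {x b : G} (hx : x ∈ N B) (hb : b ∈ B) : x * b * x⁻¹ * b⁻¹ ∈ B :=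
  mul_mem (conj_mem_of_mem_N hx hb) (inv_mem hb)

theorem fixd {x b : G} (hx : x ∈ N B) (hb : b ∈ B) :
    x * (x * b * x⁻¹ * b⁻¹) * x⁻¹ * (x * b * x⁻¹ * b⁻¹)⁻¹ ∈ B ⊓ B' := by
  have x2 : x * x ∈ B ⊔ B' := by
    by_cases c : x ∈ B ⊔ B'
    · exact mul_mem c c
    · exact mul_mem_rel2 h.relT hx hx c c
  have m := comm_mem h.core.sq x2 (mem_sup_left hb)
  convert m using 1
  have m1 := conj_mem_of_mem_N hx hb
  calc _ = x * x * b * (x * x)⁻¹ * ((x * b * x⁻¹)⁻¹ * b * (x * b * x⁻¹)⁻¹) := by group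
    _ = _ := by
      rw [comm_of_sq h.eB (inv_mem m1) hb, mul_assoc b, h.eB _ (inv_mem m1), mul_one,
        inv_self (h.eB b hb)]

theorem movW {x : G} (hx : x ∈ N B) (xT : x ∉ B ⊔ B') : ∃ a ∈ B ⊓ B', x * a * x⁻¹ ≠ a := by
  by_contra c
  push Not at c
  obtain ⟨b, hb, e⟩ := h.r2 x hx xT
  obtain ⟨b', hb', e'⟩ := h.symm.r2 x (h.nn hx) (by rwa [sup_comm])
  have m := h.cmB hx hb
  have m' := h.symm.cmB (h.nn hx) hb'
  have f := h.symm.fixd (h.nn hx) hb'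
  rw [inf_comm] at f e'
  generalize x * b' * x⁻¹ * b'⁻¹ = d at m' e' f
  have k := c _ (h.cmW hb m')
  have k1 : ∀ y ∈ B, y * (x * d * x⁻¹) * y⁻¹ * (x * d * x⁻¹)⁻¹ = y * d * y⁻¹ * d⁻¹ := fun y hy => by
    calc _ = y * (x * d * x⁻¹ * d⁻¹) * (d * y⁻¹ * d⁻¹) * (x * d * x⁻¹ * d⁻¹)⁻¹ := by group
      _ = _ := by
        rw [mul_assoc y, ← h.core.cw _ (mul_mem (mul_mem (mem_sup_right m')
          (mem_sup_left (inv_mem hy))) (mem_sup_right (inv_mem m'))) _ f]; group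
  have k2 := k1 _ (conj_mem_of_mem_N hx hb)
  rw [show x * b * x⁻¹ * (x * d * x⁻¹) * (x * b * x⁻¹)⁻¹ * (x * d * x⁻¹)⁻¹ =
    x * (b * d * b⁻¹ * d⁻¹) * x⁻¹ by group, k] at k2
  have k3 : x * b * x⁻¹ * b⁻¹ * d = d * (x * b * x⁻¹ * b⁻¹) := by
    have q := h.core.cw _ (mem_sup_left m) _ (h.cmW hb m')
    generalize hδ : x * b * x⁻¹ * b⁻¹ = δ at q m e
    have e1 : x * b * x⁻¹ = δ * b := by rw [← hδ]; group
    rw [e1] at k2
    have : b * d * b⁻¹ * d⁻¹ * (δ * d * δ⁻¹ * d⁻¹) = b * d * b⁻¹ * d⁻¹ := by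
      calc _ = b * d * b⁻¹ * d⁻¹ * δ * d * δ⁻¹ * d⁻¹ := by group
        _ = δ * b * d * (δ * b)⁻¹ * (δ * (b * d⁻¹ * d * b⁻¹) * δ⁻¹) * (δ * (d⁻¹ * d) * δ⁻¹) *
          (δ * d⁻¹ * d * δ⁻¹) * d⁻¹ := by rw [← q]; group
        _ = δ * b * d * (δ * b)⁻¹ * d⁻¹ := by group
        _ = _ := k2.symm
    exact mul_inv_eq_iff_eq_mul.mp (mul_inv_eq_one.mp (mul_eq_left.mp this))
  rcases h.ns _ m _ m' k3 with q | q
  · exact e ⟨m, q⟩
  · exact e' ⟨q, m'⟩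

theorem cB4 {x : G} (hx : x ∈ N B) (xT : x ∉ B ⊔ B') : Nat.card ↥(B ⊓ C1 x) ≤ 4 := by
  obtain ⟨a, ha, e⟩ := h.movW hx xT
  obtain ⟨b, hb, e'⟩ := h.r2 x hx xT
  have e1 := half' h.pg (k := 1) ha e h.cW.le
  have n : Nrm (B ⊓ C1 x) (B ⊓ B') := nrm_of_le_N fun g hg => h.nW (le_N _ (mem_sup_left hg.1))
  have e2 := card_sup_mul (Or.inl n)
  have e3 : Nat.card ↥(B ⊓ C1 x ⊓ (B ⊓ B')) ≤ Nat.card ↥(B ⊓ B' ⊓ C1 x) :=
    card_le_of_le fun g hg => ⟨hg.2, hg.1.2⟩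
  have e4 := half h.pg (k := 3) (lt_of_le_of_ne (sup_le inf_le_left inf_le_left :
    B ⊓ C1 x ⊔ B ⊓ B' ≤ B) fun q => by
      rw [← q] at hb
      obtain ⟨d, hd, a, ha, rfl⟩ := (mem_sup_nrm n).mp hb
      refine e' ?_
      rw [show x * (d * a) * x⁻¹ * (d * a)⁻¹ = x * d * x⁻¹ * (x * a * x⁻¹ * a⁻¹) * d⁻¹ by group,
        mem_C1_iff_conj'.mp hd.2]
      exact n d hd _ (mul_mem (conj_mem_of_mem_N (h.nW (h.nb hx)) ha) (inv_mem ha))) h.cB.le
  rw [h.cW] at e2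
  nlinarith

theorem swap {e b : G} (he : e ∈ N (B ⊔ B')) (eR : e ∉ N B) (hb : b ∈ B)
    (q : e * b * e⁻¹ * b⁻¹ ∈ B) : b ∈ B ⊓ B' := by
  have p := (h.pair he).resolve_left fun q => eR (mem_N.mpr q.1)
  refine ⟨hb, ?_⟩
  have := (mul_mem_cancel_right (inv_mem hb)).mp q
  rwa [← p.2, conj_mem_cj] at this

theorem el_le0 {E : Subgroup G} (hE : E ≤ N (B ⊔ B')) (e : ∀ a ∈ E, a * a = 1)
    (c : Nat.card E = 16) (h0 : E ⊓ (B ⊔ B') ≤ B) : E ≤ B ⊔ B' := by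
  have e1 := card_inf_mul_relIndex (N B) E
  have e2 := card_inf_mul_relIndex (B ⊔ B') (N B ⊓ E)
  have e3 := h.relR hE
  have e4 := (rel_le_right _ (inf_le_left : N B ⊓ E ≤ _)).trans h.relT
  have e5 : (B ⊔ B') ⊓ (N B ⊓ E) = E ⊓ (B ⊔ B') := by
    rw [← inf_assoc, inf_eq_left.mpr h.TR, inf_comm]
  rw [e5] at e2
  have cx : ∀ x ∈ E, E ⊓ (B ⊔ B') ≤ C1 x := fun x hx a ha => mem_C1.mpr (comm_of_sq e ha.1 hx)
  by_cases q : E ≤ N B
  · intro x hx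
    by_contra xT
    have := (card_le_of_le (le_inf h0 (cx x hx))).trans (h.cB4 (q hx) xT)
    rw [inf_eq_right.mpr q] at e2 e4
    nlinarith
  obtain ⟨y, hy, yR⟩ := SetLike.not_le_iff_exists.mp q
  have w0 : E ⊓ (B ⊔ B') ≤ B ⊓ B' := fun a ha => h.swap (hE hy) yR (h0 ha) (by
    rw [mem_C1_iff_conj'.mp (cx y hy ha), mul_inv_cancel]; exact one_mem _)
  by_cases r : N B ⊓ E ≤ B ⊔ B'
  · have := card_le_of_le w0
    rw [relIndex_eq_one.mpr r] at e2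
    rw [h.cW] at this
    nlinarith
  obtain ⟨x, hx, xT⟩ := SetLike.not_le_iff_exists.mp r
  obtain ⟨a, ha, ne⟩ := h.movW hx.1 xT
  have := (card_le_of_le (le_inf w0 (cx x hx.2))).trans (half' h.pg (k := 1) ha ne h.cW.le)
  nlinarith

theorem el_le {E : Subgroup G} (hE : E ≤ N (B ⊔ B')) (e : ∀ a ∈ E, a * a = 1)
    (c : Nat.card E = 16) : E ≤ B ⊔ B' := by
  rcases h.un (E := E ⊓ (B ⊔ B')) inf_le_right (fun a ha => e a ha.1) with q | q
  · exact h.el_le0 hE e c q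
  · rw [sup_comm] at hE q ⊢
    exact h.symm.el_le0 hE e c q

theorem top : N (B ⊔ B') = ⊤ := by
  haveI : Fact (Nat.Prime 2) := ⟨Nat.prime_two⟩
  by_contra c
  obtain ⟨g, -, g1, g2⟩ := exists_nrm_of_lt (h.pg.to_subgroup ⊤) (lt_top_iff_ne_top.mpr c)
  have k : ∀ E ≤ B ⊔ B', cj g E ≤ N (B ⊔ B') := fun E hE =>
    mem_N.mp g2 ▸ cj_mono (hE.trans (le_N _))
  refine g1 (mem_N_of_cj_le ?_)
  rw [cj_sup]
  exact sup_le (h.el_le (k _ le_sup_left) (el_cj h.eB g) (by rw [card_cj, h.cB]))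
    (h.el_le (k _ le_sup_right) (el_cj h.eB' g) (by rw [card_cj, h.cB']))

theorem sr : SR 4 (⊤ : Subgroup G) ⊥ := by
  have tp : ∀ g, g ∈ N (B ⊔ B') := fun g => h.top ▸ mem_top g
  haveI : (B ⊔ B').Normal := ⟨fun _ ha g => conj_mem_of_mem_N (tp g) ha⟩
  haveI : (B ⊓ B').Normal := ⟨fun _ ha g => conj_mem_of_mem_N (h.nW (tp g)) ha⟩
  intro X Y _ hYX _ hs
  by_cases c : X ≤ B ⊔ B'
  · exact h.core.sr_in hYX hs c
  obtain ⟨j, k, m, e, em, m1, jm, k4, k1, jx, kx, el⟩ := h.core.est hYX hs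
  rw [split hYX (Nrm.of_normal X (B ⊔ B')), e]
  set π := QuotientGroup.mk' (B ⊓ B')
  have pe : ∀ a, π a = 1 ↔ a ∈ B ⊓ B' := fun a => QuotientGroup.eq_one_iff a
  have pc : ∀ x a, π a ∈ C1 (π x) ↔ x * a * x⁻¹ * a⁻¹ ∈ B ⊓ B' := fun x a => by
    rw [mem_C1_iff_conj', ← pe, ← mul_inv_eq_one]; rfl
  obtain ⟨b, hb, bW⟩ : ∃ b ∈ B, b ∉ B ⊓ B' := by
    by_contra r
    push Not at r
    have := card_le_of_le r
    rw [h.cW, h.cB] at this
    omega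
  by_cases i : (Y ⊔ (B ⊔ B')).relIndex X ≤ 2
  · suffices j * k ≤ 8 by nlinarith
    obtain ⟨x, hx, xT⟩ := SetLike.not_le_iff_exists.mp c
    by_cases q : 8 ≤ m
    · rw [k1 q, mul_one]
      by_cases xR : x ∈ N B
      · obtain ⟨t, ht, e⟩ := h.r2 x xR xT
        exact (jx x hx).trans (h.core.cent8 (mem_sup_left ht) e X)
      · exact (jx x hx).trans (h.core.cent8 (mem_sup_left hb)
          (fun q => bW (h.swap (tp x) xR hb q.1)) X)
    by_contra r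
    obtain ⟨c1, c2⟩ := el (by omega) (by omega)
    have cx : ∀ a ∈ X ⊓ (B ⊔ B'), x * a * x⁻¹ * a⁻¹ = 1 := fun a ha => c2 _ (comm_mem hs hx ha.1)
      (mul_mem (conj_mem_of_mem_N (tp x) ha.2) (inv_mem ha.2))
    have fin : ∀ {B B' : Subgroup G}, L34 B B' w → x ∉ B ⊔ B' →
        (∀ a ∈ B, x * a * x⁻¹ * a⁻¹ = 1) → False := fun h xT q => by
      obtain ⟨t, ht, e⟩ := h.r2 x (mem_N_of_conj fun a ha => by
        rwa [mul_inv_eq_one.mp (q a ha)]) xT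
      exact e (by rw [q t ht]; exact one_mem _)
    rcases h.un16 inf_le_right (fun a ha => c2 _ (hs a ha.1) (mul_mem ha.2 ha.2)) c1 with p | p
    · exact fin h xT (p ▸ cx)
    · exact fin h.symm (by rwa [sup_comm]) (p ▸ cx)
  have i1 := rel_le_left X (le_sup_right : B ⊔ B' ≤ Y ⊔ (B ⊔ B'))
  have i2 := relIndex_inf_mul_relIndex (B ⊔ B') (N B) X
  rw [inf_eq_left.mpr h.TR] at i2
  have i3 := h.relR (E := X) fun g _ => tp g
  have i4 := (rel_le_right _ (inf_le_left : N B ⊓ X ≤ _)).trans h.relT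
  suffices j * k ≤ 4 by nlinarith
  obtain ⟨x, hx, xT⟩ : ∃ x ∈ N B ⊓ X, x ∉ B ⊔ B' := by
    by_contra r
    push Not at r
    rw [relIndex_eq_one.mpr r] at i2
    omega
  obtain ⟨y, hy, yR⟩ : ∃ y ∈ X, y ∉ N B := by
    by_contra r
    push Not at r
    rw [relIndex_eq_one.mpr r] at i2
    omega
  obtain ⟨a, ha, ne⟩ := h.movW hx.1 xT
  have k2 := kx x hx.2 a ha ne
  have nB : ∀ D ≤ (B ⊔ B').map π ⊓ C1 (π y), Nat.card D = (B.map π).relIndex D := fun D hD =>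
    (relIndex_of_inf_eq_bot (eq_bot_iff.mpr (by
      rintro _ ⟨⟨d, hd, rfl⟩, h2⟩
      exact (pe d).mpr (h.swap (tp y) yR hd ((pc y d).mp (hD h2).2).1)))).symm
  have ab := ab_of_sq h.core.sqT
  have cB' : Nat.card (B'.map π) ≤ 4 := by
    have : _ * Nat.card (B'.map π) = _ := card_map_mk (B ⊓ B') B' inf_le_right
    rw [h.cW, h.cB'] at this
    omega
  have rs : ∀ D ≤ B'.map π, (B.map π).relIndex (B.map π ⊔ D) ≤ Nat.card D := fun D hD => by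
    rw [relIndex_sup (Or.inr (nrm_of_le_C (le_C_iff.mpr fun p hp q hq =>
      ab.comm (map_mono le_sup_right (hD hp)) (map_mono le_sup_left hq))))]
    exact rel_le_card _ _
  have j4 : j ≤ 4 := by
    refine (jx y hy).trans ?_
    rw [nB _ (inf_le_inf_right _ (map_mono inf_le_right))]
    refine (rel_le_right _ ?_).trans ((rs _ le_rfl).trans cB')
    rw [← Subgroup.map_sup]
    exact inf_le_left.trans (map_mono inf_le_right)
  rcases m1 with q | q | q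
  · nlinarith
  · suffices j ≤ 2 by nlinarith
    by_contra r
    have sub : ∀ g ∈ X, (X ⊓ (B ⊔ B')).map π ≤ C1 (π g) := fun g hg =>
      inf_eq_left.mp (eq_of_le_of_card_le inf_le_left (by
        have := pow_up (k := 1) (pow_card (h.pg.to_quotient _) _)
          (lt_of_lt_of_le (not_le.mp r) (jx g hg))
        omega))
    obtain ⟨b', hb', e'⟩ := h.symm.r2 x (h.nn hx.1) (by rwa [sup_comm])
    rw [inf_comm] at e'
    have d2 := half' (h.pg.to_quotient _) (k := 1) (Y := B'.map π) (x := π x) ⟨b', hb', rfl⟩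
      (fun q => e' ((pc x b').mp (mem_C1_iff_conj'.mpr q))) cB'
    have := nB _ (le_inf (map_mono inf_le_right) (sub y hy))
    have le : (X ⊓ (B ⊔ B')).map π ≤ B.map π ⊔ B'.map π ⊓ C1 (π x) := by
      rintro _ ⟨t, ht, rfl⟩
      have t1 := (pc x t).mp (sub x hx.2 ⟨t, ht, rfl⟩)
      obtain ⟨p, hp, p', hp', rfl⟩ := h.dec ht.2
      rw [map_mul]
      refine mul_mem (mem_sup_left ⟨p, hp, rfl⟩) (mem_sup_right ⟨⟨p', hp', rfl⟩, (pc x p').mpr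
        (mem_inf.mpr ⟨?_, h.symm.cmB (h.nn hx.1) hp'⟩)⟩)
      have := mul_mem (mul_mem (inv_mem (conj_mem_of_mem_N hx.1 hp)) (mem_inf.mp t1).1) hp
      convert this using 1
      group
    have := (rel_le_right (B.map π) le).trans ((rs _ inf_le_left).trans d2)
    omega
  · rw [k1 q]; omega

end L34

end CfsgH2.Fx
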