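import Cfsg.Agent.H2.FxF
import Cfsg.Agent.FT.Base5

/-! Two-groups with a trivial intersection subgroup of order four. -/

set_option autoImplicit false
set_option linter.style.haveILetI false
set_option linter.unusedSectionVars false

namespace CfsgH2.Fx
open Subgroup CfsgH5 CfsgH6 CfsgFT

universe u
variable {G : Type u} [Group G] [Finite G]

theorem ex_fix {p : ℕ} (hp : p.Prime) {K A : Subgroup G} (hK : IsPGroup p K)
    (hA : IsPGroup p A) (hn : Nrm A K) (hne : K ≠ ⊥) :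
    ∃ w ∈ K, w ≠ 1 ∧ w ^ p = 1 ∧ ∀ g ∈ A, g * w = w * g := by
  have h1 := inf_C_ne_bot_of_isPGroup hp hK hA hn hne
  obtain ⟨w, hw, ho⟩ := exists_mem_orderOf_eq hp
    (prime_dvd_card_of_isPGroup hp (hK.to_le (inf_le_left (b := C A))) h1)
  refine ⟨w, hw.1, fun e => ?_, ho ▸ pow_orderOf_eq_one w, fun g hg => mem_C.mp hw.2 g hg⟩
  rw [e, orderOf_one] at ho
  exact hp.one_lt.ne ho

theorem ex_nrm {p : ℕ} [Fact p.Prime] {X P : Subgroup G} (hP : IsPGroup p P) (h : X < P) :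
    ∃ g ∈ P, g ∉ X ∧ g ∈ N X ∧ g ^ p ∈ X := by
  obtain ⟨g, h1, h2, h3⟩ := exists_nrm_of_lt hP h
  obtain ⟨k, k1, k2⟩ := CfsgH8.exists_pow_not_mem_pow_mem hP (X.subgroupOf P) (a := ⟨g, h1⟩) h2
  exact ⟨g ^ p ^ k, pow_mem h1 _, k1, pow_mem h3 _, k2⟩

theorem ab_four {U : Subgroup G} (h : Nat.card U = 4) : Ab U :=
  haveI : Fact (Nat.Prime 2) := ⟨Nat.prime_two⟩
  ab_iff_isMulCommutative.mpr (IsPGroup.isMulCommutative_of_card_eq_prime_sq (p := 2) h)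

theorem pow4 {U : Subgroup G} (h : Nat.card U = 4) {u : G} (hu : u ∈ U) : u * u * (u * u) = 1 := by
  have := congrArg Subtype.val (pow_card_eq_one' (x := (⟨u, hu⟩ : U)))
  rw [h] at this
  simpa [pow_succ, mul_assoc] using this

theorem cyc4 {U : Subgroup G} (h : Nat.card U = 4) {u : G} (hu : u ∈ U) (u2 : u * u ≠ 1) {a : G}
    (ha : a ∈ U) : a = 1 ∨ a = u ∨ a = u * u ∨ a = u * (u * u) :=
  eq_of_four_mem h.le hu (mul_mem hu hu) (fun e => u2 (by rw [e, mul_one])) u2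
    (fun e => u2 (by rw [← e]; simpa using e)) (fun e => u2 (by
      have := pow4 h hu
      rw [mul_assoc, e, mul_one] at this
      rw [this, mul_one])) ha

theorem cyc4' {U : Subgroup G} (h : Nat.card U = 4) {u : G} (hu : u ∈ U) (u2 : u * u ≠ 1) {a : G}
    (ha : a ∈ U) (aa : a * a = 1) : a ∈ zpowers (u * u) := by
  rcases cyc4 h hu u2 ha with e | e | e | e
  · rw [e]; exact one_mem _
  · exact absurd (e ▸ aa) u2
  · rw [e]; exact mem_zpowers _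
  · refine absurd ?_ u2
    rw [e, show u * (u * u) * (u * (u * u)) = u * u * (u * u) * (u * u) by group, pow4 h hu,
      one_mul] at aa
    exact aa

theorem cyc4_le {U : Subgroup G} (h : Nat.card U = 4) {u : G} (hu : u ∈ U) (u2 : u * u ≠ 1) :
    U ≤ zpowers u := fun a ha => by
  have m := mem_zpowers u
  rcases cyc4 h hu u2 ha with e | e | e | e <;> rw [e]
  exacts [one_mem _, m, mul_mem m m, mul_mem m (mul_mem m m)]

theorem card_zp2 {t : G} (h : t * t = 1) : Nat.card (zpowers t) ≤ 2 :=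
  card_le_two_of fun _ hy => mem_zpowers_order_two h hy

theorem om44 {U U' : Subgroup G} (h : Nat.card U = 4) (h' : Nat.card U' = 4) (c : U' ≤ C U)
    (i : U ⊓ U' = ⊥) {u u' : G} (hu : u ∈ U) (u2 : u * u ≠ 1) (hu' : u' ∈ U') (u2' : u' * u' ≠ 1) :
    ∃ V : Subgroup G, Nat.card V ≤ 4 ∧ (∀ b ∈ U ⊔ U', b * b = 1 → b ∈ V) ∧ u * u ∈ V ∧
      u' * u' ∈ V := by
  refine ⟨zpowers (u * u) ⊔ zpowers (u' * u'), ?_, fun b hb bb => ?_, mem_sup_left (mem_zpowers _),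
    mem_sup_right (mem_zpowers _)⟩
  · have := Nat.le_of_dvd (Nat.mul_pos (card_pos _) (card_pos _)) (card_sup_dvd
      (X := zpowers (u * u)) (Y := zpowers (u' * u')) (Or.inr (nrm_of_le_C
      ((zpowers_le.mpr (mul_mem hu' hu')).trans (c.trans (C_anti (zpowers_le.mpr (mul_mem hu hu))))))))
    have := card_zp2 (pow4 h hu)
    have := card_zp2 (pow4 h' hu')
    nlinarith
  · obtain ⟨a, ha, a', ha', rfl⟩ := (mem_sup_nrm' (nrm_of_le_C c)).mp hb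
    have e : a * a * (a' * a') = 1 := by
      rw [← bb, mul_assoc, mul_assoc, ← mul_assoc a' a a', ← mem_C.mp (c ha') a ha, mul_assoc]
    have m : a * a ∈ U ⊓ U' := mem_inf.mpr ⟨mul_mem ha ha, by
      rw [eq_inv_of_mul_eq_one_left e]; exact inv_mem (mul_mem ha' ha')⟩
    rw [i, mem_bot] at m
    rw [m, one_mul] at e
    exact mul_mem (mem_sup_left (cyc4' h hu u2 ha m)) (mem_sup_right (cyc4' h' hu' u2' ha' e))

/-- a non-normal trivial intersection subgroup of order four. -/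
structure A1 (U : Subgroup G) (s : G) : Prop where
  pg : IsPGroup 2 G
  cU : Nat.card U = 4
  ti : ∀ u ∈ U, u ≠ 1 → ∀ g, g * u * g⁻¹ ∈ U → g ∈ N U
  d8 : Nat.card (N U) ≤ 32
  ab4 : ∀ Z ≤ N U, Ab Z → U.relIndex Z ≤ 4
  sn : s ∈ N (N U)
  s1 : s ∉ N U
  s2 : s * s ∈ N U

namespace A1
variable {U : Subgroup G} {s : G} (h : A1 U s)
include h

theorem nn : N (cj s U) = N U := by rw [← cj_N, mem_N.mp h.sn]
theorem un : cj s U ≤ N U := h.nn ▸ le_N _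
theorem ss : cj s (cj s U) = U := by rw [cj_cj, mem_N.mp h.s2]
theorem cU' : Nat.card (cj s U) = 4 := by rw [card_cj, h.cU]
theorem inf : U ⊓ cj s U = ⊥ := eq_bot_iff.mpr fun u hu => by
  by_contra c
  obtain ⟨v, hv, rfl⟩ := mem_cj'.mp hu.2
  exact h.s1 (h.ti v hv (fun e => c (by simp [e])) s hu.1)
theorem cm : cj s U ≤ C U :=
  le_C_of_inf_eq_bot (nrm_of_le_N h.un) (nrm_of_le_N (h.nn ▸ le_N U)) (by rw [inf_comm, h.inf])
theorem ab : Ab (U ⊔ cj s U) := (ab_four h.cU).sup (ab_four h.cU') (le_C_symm h.cm)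
theorem cB : Nat.card ↥(U ⊔ cj s U) = 16 := by
  rw [card_sup_of_inf_eq_bot (Or.inr (nrm_of_le_N h.un)) h.inf, h.cU, h.cU']
theorem BN : U ⊔ cj s U ≤ N U := sup_le (le_N U) h.un
theorem sB : cj s (U ⊔ cj s U) = U ⊔ cj s U := by rw [cj_sup, h.ss, sup_comm]
theorem NR : N U ≤ N (U ⊔ cj s U) := fun g hg => by
  rw [mem_N, cj_sup, mem_N.mp hg, mem_N.mp (h.nn ▸ hg : g ∈ N (cj s U))]
theorem c1 {u : G} (hu : u ∈ U) (u1 : u ≠ 1) : C1 u ≤ N U := fun g hg =>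
  h.ti u hu u1 g (by rwa [mem_C1_iff_conj.mp hg])

theorem cN {g : G} (hg : g ∈ N U) (c : g ∈ C (cj s U)) : g ∈ U ⊔ cj s U := by
  have l : cj s U ⊔ zpowers g ≤ N U := sup_le h.un (zpowers_le.mpr hg)
  have e1 := h.ab4 _ l (ab_sup_el (ab_four h.cU') (le_C1_iff.mpr c))
  rw [← relIndex_sup (Or.inr (nrm_of_le_N l))] at e1
  have e2 := card_mul_relIndex (le_sup_left : U ≤ U ⊔ (cj s U ⊔ zpowers g))
  have := eq_of_le_of_card_le (sup_le_sup_left (le_sup_left : cj s U ≤ cj s U ⊔ zpowers g) U)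
    (by rw [h.cB, ← e2, h.cU]; omega)
  rw [this]
  exact mem_sup_right (mem_sup_right (mem_zpowers g))

theorem cN' {g : G} (hg : g ∈ N U) (c : g ∈ C U) : g ∈ U ⊔ cj s U := by
  have := h.cN (conj_mem_of_mem_N h.sn hg) (by rw [← cj_C]; exact conj_mem_cj.mpr c)
  rwa [← h.sB, conj_mem_cj] at this

theorem relN : (U ⊔ cj s U).relIndex (N U) ≤ 2 := by
  have := card_mul_relIndex h.BN
  have := h.d8
  rw [h.cB] at *
  omega

theorem z4 {u : G} (hu : u ∈ U) (u2 : u * u ≠ 1) : SR 4 (⊤ : Subgroup G) ⊥ := by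
  by_cases c : ∃ z v : G, N4 z v
  swap
  · exact (sr_two_of_no h.pg c).le (by norm_num)
  obtain ⟨z, v, k⟩ := c
  obtain ⟨V, V4, hV, tV, -⟩ := om44 h.cU h.cU' h.cm h.inf hu u2 (conj_mem_cj.mpr hu) (fun e => u2 (by
    simpa using e))
  have tN := h.c1 (mul_mem hu hu) u2
  have VN := (k.le_C1 (k.sq_mem u)).trans tN
  have t1 : u * u ∈ k.V := by
    by_cases q : k.V ≤ U ⊔ cj s U
    · rwa [eq_of_le_of_card_le (X := k.V) (Y := V) (fun a ha => hV a (q ha) (k.sq ha))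
        (by rwa [k.card])]
    obtain ⟨y, hy, yB⟩ := SetLike.not_le_iff_exists.mp q
    have m : y * u * y⁻¹ * u⁻¹ ∈ k.V := by
      simpa only [mul_assoc] using mul_mem hy (k.normal.conj_mem _ (inv_mem hy) u)
    have sq : y * u * y⁻¹ * (y * u * y⁻¹) ≠ 1 := fun e => u2 (by simpa using e)
    rcases cyc4 h.cU hu u2 (conj_mem_of_mem_N (VN hy) hu) with e | e | e | e
    · exact absurd (by rw [e, mul_one]) sq
    · exact absurd (h.cN' (VN hy) (C_anti (cyc4_le h.cU hu u2) (by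
        rw [C_zpowers]; exact mem_C1_iff_conj.mpr e))) yB
    · exact absurd (by rw [e, pow4 h.cU hu]) sq
    · rwa [e, ← mul_assoc, mul_inv_cancel_right] at m
  have i2 : I2 (N U) := fun a b ha hb => tN (mem_C1.mpr (k.comm (k.i2 a b
    (fun e => ha (tN (mem_C1.mpr (k.comm e t1)))) fun e => hb (tN (mem_C1.mpr (k.comm e t1)))) t1))
  refine (sr_ab (k := 2) h.ab V4 hV).add (b := 2) (sr_of_rel ?_) (nrm_of_le_N fun g _ => ?_)
    bot_le le_top
  · rw [← relIndex_mul_relIndex _ _ _ h.BN le_top]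
    exact Nat.mul_le_mul h.relN (i2.rel ⊤)
  · by_cases q : g ∈ N U
    · exact h.NR q
    · have := mul_mem (h.NR (i2 _ _ q fun e => h.s1 (inv_mem_iff.mp e))) (mem_N.mpr h.sB)
      simpa using this

theorem y1 {y : G} (hy : y ∈ N (U ⊔ cj s U)) (yB : y ∉ U ⊔ cj s U) :
    Nat.card ↥((U ⊔ cj s U) ⊓ C1 y) ≤ 4 := by
  by_contra c
  have c8 := pow_up (k := 2) (pow_card h.pg _) (not_le.mp c)
  set D := (U ⊔ cj s U) ⊓ C1 y
  have n : Nrm D U := nrm_of_le_N (inf_le_left.trans h.BN)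
  have e1 := card_sup_mul (Or.inl n)
  have l : D ⊔ U ≤ U ⊔ cj s U := sup_le inf_le_left le_sup_left
  have e2 := card_le_of_le l
  rw [h.cB] at e2
  rw [h.cU] at e1
  obtain ⟨u, hu, u1⟩ : ∃ u ∈ D ⊓ U, u ≠ 1 := by
    by_contra q
    push Not at q
    rw [show D ⊓ U = ⊥ from eq_bot_iff.mpr q, card_bot] at e1
    omega
  have yN := h.c1 hu.2 u1 (mem_C1_comm.mp hu.1.2)
  have e3 := half h.pg (k := 1) (lt_of_le_of_ne (inf_le_right : D ⊓ U ≤ U) fun q =>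
    yB (h.cN' yN (le_C1_iff.mp ((inf_eq_right.mp q).trans inf_le_right)))) h.cU.le
  have e4 := eq_of_le_of_card_le l (by
    have := Nat.mul_le_mul_left (Nat.card ↥(D ⊔ U)) e3
    rw [h.cB]; omega)
  refine yB (h.cN yN (mem_C.mpr fun a ha => ?_))
  have m : y * a * y⁻¹ * a⁻¹ ∈ U ⊓ cj s U := by
    refine mem_inf.mpr ⟨?_, mul_mem (conj_mem_of_mem_N (h.nn ▸ yN) ha) (inv_mem ha)⟩
    obtain ⟨d, hd, b, hb, rfl⟩ := (mem_sup_nrm n).mp (e4.ge (mem_sup_right ha))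
    rw [show y * (d * b) * y⁻¹ * (d * b)⁻¹ = y * d * y⁻¹ * (y * b * y⁻¹ * b⁻¹) * d⁻¹ by group,
      mem_C1_iff_conj'.mp hd.2]
    exact n d hd _ (mul_mem (conj_mem_of_mem_N yN hb) (inv_mem hb))
  rw [h.inf, mem_bot, mul_inv_eq_one, mul_inv_eq_iff_eq_mul] at m
  exact m.symm

theorem ex_t : ∃ t ∈ U, t ≠ 1 ∧ C1 t = N U := by
  obtain ⟨t, ht, t1, -, c⟩ := ex_fix Nat.prime_two (h.pg.to_subgroup U) (h.pg.to_subgroup _)
    (nrm_N U) (one_lt_card.mp (by rw [h.cU]; norm_num))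
  exact ⟨t, ht, t1, le_antisymm (h.c1 ht t1) fun g hg => mem_C1.mpr (c g hg)⟩

theorem rel4 : (N U).relIndex (N (U ⊔ cj s U)) ≤ 4 := by
  obtain ⟨t, ht, t1, ct⟩ := h.ex_t
  obtain ⟨r, hr, r1, rt⟩ : ∃ r ∈ U, r ≠ 1 ∧ r ≠ t := by
    by_contra c
    push Not at c
    have := card_le_two_of (Y := U) (z := t) fun y hy => (em _).imp id (c y hy)
    rw [h.cU] at this
    omega
  have e1 := rel_le_left (N (U ⊔ cj s U)) (h.c1 hr r1)
  have e2 := rel_C1 (N (U ⊔ cj s U)) t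
  rw [rel_C1] at e1
  rw [ct] at e2
  have e3 := Set.ncard_union_eq (s := {y | ∃ g ∈ N (U ⊔ cj s U), g * t * g⁻¹ = y})
    (t := {y | ∃ g ∈ N (U ⊔ cj s U), g * r * g⁻¹ = y}) (Set.disjoint_left.mpr (by
      rintro _ ⟨a, -, rfl⟩ ⟨b, -, e⟩
      have q : b⁻¹ * a * t * (b⁻¹ * a)⁻¹ = r := by
        calc _ = b⁻¹ * (a * t * a⁻¹) * b := by group
          _ = r := by rw [← e]; group
      have := h.ti t ht t1 _ (q ▸ hr)
      rw [← ct, mem_C1_iff_conj, q] at this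
      exact rt this))
  have e4 := Set.ncard_lt_ncard (s := {y | ∃ g ∈ N (U ⊔ cj s U), g * t * g⁻¹ = y} ∪
    {y | ∃ g ∈ N (U ⊔ cj s U), g * r * g⁻¹ = y}) (t := (U ⊔ cj s U : Subgroup G)) ⟨by
      rintro _ (⟨a, ha, rfl⟩ | ⟨a, ha, rfl⟩)
      exacts [conj_mem_of_mem_N ha (mem_sup_left ht), conj_mem_of_mem_N ha (mem_sup_left hr)],
      fun q => by
        rcases q (one_mem (U ⊔ cj s U)) with ⟨a, -, e⟩ | ⟨a, -, e⟩
        exacts [t1 (by simpa using e), r1 (by simpa using e)]⟩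
  have e5 : ((U ⊔ cj s U : Subgroup G) : Set G).ncard = 16 := h.cB
  exact pow_down (k := 2) (pow_rel h.pg _ _) (by omega)

theorem rel8 : (U ⊔ cj s U).relIndex (N (U ⊔ cj s U)) ≤ 8 := by
  rw [← relIndex_mul_relIndex _ _ _ h.BN h.NR]
  exact Nat.mul_le_mul h.relN h.rel4

theorem y2 : SR 2 (N (U ⊔ cj s U)) (U ⊔ cj s U) := by
  by_contra c
  obtain ⟨c1, c2⟩ := sq_of_not_sr h.pg h.rel8 c
  rw [← relIndex_mul_relIndex _ _ _ h.BN h.NR] at c2
  have e1 := h.relN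
  have e2 := h.rel4
  obtain ⟨y, hy, yB⟩ : ∃ y ∈ N U, y ∉ U ⊔ cj s U := by
    by_contra q
    push Not at q
    rw [relIndex_eq_one.mpr q] at c2
    omega
  obtain ⟨t, ht, t1, ct⟩ := h.ex_t
  have e3 := rel_C1 (N (U ⊔ cj s U)) t
  rw [ct] at e3
  have e4 := Set.ncard_lt_ncard (s := {y | ∃ g ∈ N (U ⊔ cj s U), g * t * g⁻¹ = y})
    (t := ((U ⊔ cj s U) ⊓ C1 y : Subgroup G)) ⟨by
      rintro _ ⟨a, ha, rfl⟩
      refine ⟨conj_mem_of_mem_N ha (mem_sup_left ht), mem_C1_iff_conj'.mpr ?_⟩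
      have m : a⁻¹ * y * a ∈ C1 t := by
        rw [ct]
        simpa using mul_mem (h.BN (comm_mem c1 (inv_mem ha) (h.NR hy))) hy
      calc _ = a * (a⁻¹ * y * a * t * (a⁻¹ * y * a)⁻¹) * a⁻¹ := by group
        _ = _ := by rw [mem_C1_iff_conj.mp m],
      fun q => by
        obtain ⟨a, -, e⟩ := q (one_mem ((U ⊔ cj s U) ⊓ C1 y))
        exact t1 (by simpa using e)⟩
  have e5 : (((U ⊔ cj s U) ⊓ C1 y : Subgroup G) : Set G).ncard ≤ 4 := h.y1 (h.NR hy) yB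
  have := Nat.mul_le_mul_right ((N U).relIndex (N (U ⊔ cj s U))) e1
  omega

theorem v4 (hU : ∀ u ∈ U, u * u = 1) : SR 4 (⊤ : Subgroup G) ⊥ := by
  haveI : Fact (Nat.Prime 2) := ⟨Nat.prime_two⟩
  have eB : ∀ b ∈ U ⊔ cj s U, b * b = 1 := fun b hb => by
    obtain ⟨a, ha, a', ha', rfl⟩ := (mem_sup_nrm' (nrm_of_le_C h.cm)).mp hb
    rw [mul_assoc, ← mul_assoc a', ← mem_C.mp (h.cm ha') a ha, mul_assoc, el_cj hU s a' ha',
      mul_one, hU a ha]
  have cB := h.cB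
  have y1 := fun y => h.y1 (y := y)
  have y2 := h.y2
  have r8 := h.rel8
  have BN := h.BN
  have NR := h.NR
  have r4 := h.rel4
  have cN' := fun g => h.cN' (g := g)
  have UB : U ≤ U ⊔ cj s U := le_sup_left
  generalize U ⊔ cj s U = B at *
  by_cases c : N B = ⊤
  · haveI : B.Normal := normalizer_eq_top_iff.mp c
    exact lb (a := 2) (b := 2) (ab_of_sq eB) (c ▸ y2) (sr_of_rel (by rw [relIndex_bot_left, cB]; norm_num))
      fun y hy => y1 y (c ▸ mem_top y) hy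
  obtain ⟨w, -, w1, w2, w3⟩ := ex_nrm (h.pg.to_subgroup ⊤) (lt_top_iff_ne_top.mpr c)
  rw [pow_two] at w3
  have nB' : N (cj w B) = N B := by rw [← cj_N, mem_N.mp w2]
  have bn : cj w B ≤ N B := nB' ▸ le_N _
  have eB' := el_cj eB w
  have cB' : Nat.card (cj w B) = 16 := by rw [card_cj, cB]
  have nb : N B ≤ N (B ⊔ cj w B) := fun g hg => by
    rw [mem_N, cj_sup, mem_N.mp hg, mem_N.mp (nB' ▸ hg : g ∈ N (cj w B))]
  have W4 : 4 ≤ Nat.card ↥(B ⊓ cj w B) := by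
    have := y2.top_part (nrm_N B) (le_N B) (bot_le : ⊥ ≤ cj w B) bn fun x hx => mem_bot.mpr (eB' x hx)
    rw [bot_sup_eq] at this
    have := card_inf_mul_relIndex B (cj w B)
    nlinarith
  have cy : ∀ y ∈ cj w B, y ∉ B → B ⊓ cj w B = B ⊓ C1 y := fun y hy yB =>
    eq_of_le_of_card_le (fun a ha => ⟨ha.1, mem_C1.mpr (comm_of_sq eB' ha.2 hy)⟩)
      ((y1 y (bn hy) yB).trans W4)
  obtain ⟨y, hy, yB⟩ : ∃ y ∈ cj w B, y ∉ B := by
    by_contra q
    push Not at q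
    exact w1 (mem_N_of_cj_le q)
  have cW : Nat.card ↥(B ⊓ cj w B) = 4 := le_antisymm (cy y hy yB ▸ y1 y (bn hy) yB) W4
  have cT : Nat.card ↥(B ⊔ cj w B) = 64 := by
    have := card_sup_mul (Or.inr (nrm_of_le_N bn))
    rw [cW, cB, cB'] at this
    omega
  have ns : ∀ b ∈ B, ∀ b' ∈ cj w B, b * b' = b' * b → b ∈ cj w B ∨ b' ∈ B := fun b hb b' hb' e => by
    by_cases q : b' ∈ B
    · exact Or.inr q
    · exact Or.inl ((cy b' hb' q).symm ▸ mem_inf.mpr ⟨hb, mem_C1.mpr e⟩ : b ∈ B ⊓ cj w B).2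
  have WU : ∀ t ∈ U, t ∈ cj w B → t = 1 := fun t ht q => by
    by_contra t1
    have := card_le_of_le (sup_le BN fun g hg => h.c1 ht t1 (mem_C1.mpr (comm_of_sq eB' hg q)))
    have := h.d8
    omega
  refine L34.sr (B := B) (B' := cj w B) (w := w) ⟨h.pg, eB, cB, rfl, by rw [cj_cj, mem_N.mp w3], bn, nb,
    cW, ns, by rw [← card_mul_relIndex (le_N B), cB]; omega, fun x hx xT => ?_⟩
  obtain ⟨t, ht, t1, ct⟩ := h.ex_t
  have TN : N U ⊓ (B ⊔ cj w B) ≤ B := fun g hg => by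
    obtain ⟨b, hb, b', hb', rfl⟩ := (mem_sup_nrm' (nrm_of_le_N bn)).mp hg.2
    have m : b' ∈ C1 t := ct ▸ (mul_mem_cancel_left (BN hb)).mp hg.1
    exact mul_mem hb ((ns t (UB ht) b' hb' (mem_C1.mp m).symm).resolve_left fun q => t1 (WU t ht q))
  obtain ⟨y, hy, τ, hτ, rfl⟩ := exists_mul_of_card_le NR (sup_le (le_N B) bn) (by
    have := card_le_of_le TN
    have := card_mul_relIndex NR
    rw [cT]
    nlinarith) hx
  have yB : y ∉ B := fun q => xT (mul_mem (mem_sup_left q) hτ)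
  obtain ⟨u, hu, e⟩ : ∃ u ∈ U, u * y ≠ y * u := by
    by_contra q
    push Not at q
    exact yB (cN' y hy (mem_C.mpr q))
  refine ⟨u, UB hu, fun q => e ?_⟩
  have m : τ * u * τ⁻¹ * u⁻¹ ∈ cj w B := by
    obtain ⟨b, hb, b', hb', rfl⟩ := (mem_sup_nrm' (nrm_of_le_N bn)).mp hτ
    have m1 := conj_mem_of_mem_N (bn hb') (UB hu)
    rw [show b * b' * u * (b * b')⁻¹ = b * (b' * u * b'⁻¹) * b⁻¹ by group, comm_of_sq eB hb m1,
      mul_inv_cancel_right]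
    simpa only [mul_assoc] using mul_mem hb' (conj_mem_of_mem_N (nB' ▸ le_N B (UB hu)) (inv_mem hb'))
  have := WU _ (mul_mem (conj_mem_of_mem_N hy hu) (inv_mem hu)) (by
    have := mul_mem (inv_mem (conj_mem_of_mem_N (nB' ▸ NR hy) m)) (mem_inf.mp q).2
    convert this using 1
    group)
  exact (mul_inv_eq_iff_eq_mul.mp (mul_inv_eq_one.mp this)).symm

theorem sr : SR 4 (⊤ : Subgroup G) ⊥ := by
  by_cases c : ∀ u ∈ U, u * u = 1
  · exact h.v4 c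
  · push Not at c
    obtain ⟨u, hu, u2⟩ := c
    exact h.z4 hu u2

end A1

end CfsgH2.Fx
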