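import Cfsg.Agent.H2.FxG

/-! Two-groups with a normal subgroup acted on by a group of order four with small fixed points. -/

set_option autoImplicit false
set_option linter.style.haveILetI false
set_option linter.unusedSectionVars false

namespace CfsgH2.Fx
open Subgroup CfsgH5 CfsgH6 CfsgFT

universe u
variable {G : Type u} [Group G] [Finite G]

/-- the setting of a conjugate of the line kernel acting regularly on the line. -/
structure B2 (U A A' : Subgroup G) : Prop where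
  pg : IsPGroup 2 G
  au : A ≤ U
  cA : Nat.card A = 4
  cA' : Nat.card A' = 4
  i : U ⊓ A' = ⊥
  cm : A' ≤ C A
  cu : ∀ a ∈ A', a ≠ 1 → ∀ u ∈ U, u * a = a * u → u ∈ A
  d8 : Nat.card G ≤ 8 * Nat.card U
  nsr : ¬ SR 2 U ⊥
  iv : (∀ a ∈ A', a * a = 1) → ∀ x, x * x = 1 → x ∈ U ⊔ A'
  nt : ∀ x, x ∉ U ⊔ A' → ∃ a ∈ A', x * a * x⁻¹ * a⁻¹ ∉ U

namespace B2
variable {U A A' : Subgroup G} [nU : U.Normal] (h : B2 U A A')
include h nU

theorem cT : Nat.card ↥(U ⊔ A') = Nat.card U * 4 := by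
  rw [card_sup_of_inf_eq_bot (Or.inr (Nrm.of_normal _ _)) h.i, h.cA']

theorem i2 : I2 (U ⊔ A') := i2_of_index (by
  have := card_mul_index (U ⊔ A')
  have := h.d8
  have := card_pos U
  rw [h.cT] at *
  nlinarith)

theorem nT : (U ⊔ A').Normal := ⟨fun a ha g => by simpa using mul_mem (h.i2.comm_mem g a) ha⟩

theorem ab : Ab (A ⊔ A') := (ab_four h.cA).sup (ab_four h.cA') (le_C_symm h.cm)

theorem cB : Nat.card ↥(A ⊔ A') = 16 := by
  rw [card_sup_of_inf_eq_bot (Or.inr (nrm_of_le_C h.cm))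
    (eq_bot_iff.mpr (h.i ▸ inf_le_inf_right _ h.au)), h.cA, h.cA']

theorem BT : A ⊔ A' ≤ U ⊔ A' := sup_le_sup_right h.au _

theorem decB {b : G} (hb : b ∈ A ⊔ A') : ∃ a ∈ A, ∃ a' ∈ A', b = a * a' :=
  (mem_sup_nrm' (nrm_of_le_C h.cm)).mp hb

theorem decT {b : G} (hb : b ∈ U ⊔ A') : ∃ a ∈ U, ∃ a' ∈ A', b = a * a' :=
  (mem_sup_nrm' (Nrm.of_normal _ _)).mp hb

theorem UB {b : G} (hb : b ∈ A ⊔ A') (hu : b ∈ U) : b ∈ A := by
  obtain ⟨a, ha, a', ha', rfl⟩ := h.decB hb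
  have : a' ∈ U ⊓ A' := ⟨(mul_mem_cancel_left (h.au ha)).mp hu, ha'⟩
  rw [h.i, mem_bot] at this
  rwa [this, mul_one]

theorem cTB {y a : G} (hy : y ∈ U ⊔ A') (ha : a ∈ A') (a1 : a ≠ 1) (e : y * a = a * y) :
    y ∈ A ⊔ A' := by
  obtain ⟨u, hu, a', ha', rfl⟩ := h.decT hy
  rw [mul_assoc, (ab_four h.cA').comm ha' ha, ← mul_assoc, ← mul_assoc, mul_left_inj] at e
  exact mul_mem (mem_sup_left (h.cu a ha a1 u hu e)) (mem_sup_right ha')

theorem ph {u a : G} (hu : u ∈ U) (un : u ∈ N (A ⊔ A')) (ha : a ∈ A') : u * a * u⁻¹ * a⁻¹ ∈ A :=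
  h.UB (mul_mem (conj_mem_of_mem_N un (mem_sup_right ha)) (inv_mem (mem_sup_right ha)))
    (by simpa only [mul_assoc] using mul_mem hu (nU.conj_mem _ (inv_mem hu) a))

theorem ph_mul {u a b : G} (un : u ∈ N (A ⊔ A')) (ha : a ∈ A') (hb : b ∈ A') :
    u * (a * b) * u⁻¹ * (a * b)⁻¹ = u * a * u⁻¹ * a⁻¹ * (u * b * u⁻¹ * b⁻¹) :=
  map_mul (cmh h.ab fun _ hx => conj_mem_of_mem_N un hx) ⟨a, mem_sup_right ha⟩ ⟨b, mem_sup_right hb⟩

theorem ph_ne {u a : G} (hu : u ∈ U) (uA : u ∉ A) (ha : a ∈ A') (a1 : a ≠ 1) :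
    u * a * u⁻¹ * a⁻¹ ≠ 1 := fun e =>
  uA (h.cu a ha a1 u hu (mul_inv_eq_iff_eq_mul.mp (mul_inv_eq_one.mp e)))

theorem ex_u : ∃ u ∈ U, u ∈ N (A ⊔ A') ∧ u ∉ A := by
  haveI : Fact (Nat.Prime 2) := ⟨Nat.prime_two⟩
  obtain ⟨g, g1, g2, g3⟩ := exists_nrm_of_lt (h.pg.to_subgroup _) (lt_of_le_of_ne h.BT fun e =>
    h.nsr (sr_of_rel (by
      have := h.cT
      rw [← e, h.cB] at this
      rw [relIndex_bot_left]; omega)))
  obtain ⟨u, hu, a, ha, rfl⟩ := h.decT g1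
  exact ⟨u, hu, (mul_mem_cancel_right (le_N _ (mem_sup_right ha))).mp g3,
    fun q => g2 (mul_mem (mem_sup_left q) (mem_sup_right ha))⟩

theorem el : ∀ a ∈ A', a * a = 1 := fun a ha => by
  by_contra a2
  obtain ⟨u, hu, un, uA⟩ := h.ex_u
  have m := h.ph hu un ha
  have m2 : u * a * u⁻¹ * a⁻¹ * (u * a * u⁻¹ * a⁻¹) ≠ 1 := by
    rw [← h.ph_mul un ha ha]; exact h.ph_ne hu uA (mul_mem ha ha) a2
  obtain ⟨V, V4, hV, -, xV⟩ := om44 h.cA h.cA' h.cm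
    (eq_bot_iff.mpr (h.i ▸ inf_le_inf_right _ h.au)) m m2 ha a2
  have pT := h.pg.to_subgroup (U ⊔ A')
  obtain ⟨z, v, k⟩ : ∃ z v : ↥(U ⊔ A'), N4 z v := by
    by_contra c
    exact h.nsr ((sr_two_of_no pT c).sub.mono le_sup_left le_rfl)
  have xT : a * a ∈ U ⊔ A' := mem_sup_right (mul_mem ha ha)
  have xv : (⟨a * a, xT⟩ : ↥(U ⊔ A')) ∈ C1 v := k.sq_mem ⟨a, mem_sup_right ha⟩
  have e : k.V.map (U ⊔ A').subtype = V := eq_of_le_of_card_le (by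
    rintro _ ⟨y, hy, rfl⟩
    exact hV _ (h.cTB y.2 (mul_mem ha ha) a2 (congrArg Subtype.val (k.comm xv hy)).symm)
      (congrArg Subtype.val (k.sq hy)))
    (by rwa [card_map_of_injective (subtype_injective _), k.card])
  obtain ⟨y, hy, ey⟩ := e.ge xV
  rw [show y = ⟨a * a, xT⟩ from Subtype.ext ey] at hy
  have e1 := k.i2.card'
  have e2 : Nat.card (C1 v) ≤ _ := card_le_of_le fun g hg => mem_C1.mpr (k.comm hg hy)
  have e3 : Nat.card ↥((U ⊔ A') ⊓ C1 (a * a)) ≤ _ :=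
    card_le_of_le fun g hg => h.cTB hg.1 (mul_mem ha ha) a2 (mem_C1.mp hg.2)
  rw [card_C1_sub xT] at e2
  rw [h.cB] at e3
  rw [h.cT] at e1
  refine h.nsr (sr_two_of_cyc (h.au m) ((rel_le_left U (cyc4_le h.cA m m2)).trans ?_))
  have := card_mul_relIndex h.au
  rw [h.cA] at this
  omega

theorem onto {u : G} (hu : u ∈ U) (un : u ∈ N (A ⊔ A')) (uA : u ∉ A) {b : G} (hb : b ∈ A) :
    ∃ a ∈ A', u * a * u⁻¹ * a⁻¹ = b := by
  let f : A' →* G := (cmh h.ab fun _ hx => conj_mem_of_mem_N un hx).comp (inclusion le_sup_right)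
  have e1 := card_range_mul f
  have e2 : Nat.card f.ker ≤ Nat.card (⊥ : Subgroup G) := card_ker_le f fun a ha => by
    by_contra c
    exact h.ph_ne hu uA a.2 c ha
  have e3 : f.range = A := eq_of_le_of_card_le (by rintro _ ⟨a, rfl⟩; exact h.ph hu un a.2) (by
    rw [card_bot] at e2
    rw [h.cA'] at e1
    rw [h.cA]
    nlinarith)
  obtain ⟨a, e⟩ := e3.ge hb
  exact ⟨a, a.2, e⟩

theorem elA : ∀ a ∈ A, a * a = 1 := fun b hb => by
  obtain ⟨u, hu, un, uA⟩ := h.ex_u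
  obtain ⟨a, ha, rfl⟩ := h.onto hu un uA hb
  rw [← h.ph_mul un ha ha, h.el a ha]; simp

theorem elB : ∀ b ∈ A ⊔ A', b * b = 1 := fun b hb => by
  obtain ⟨a, ha, a', ha', rfl⟩ := h.decB hb
  rw [mul_assoc, ← mul_assoc a', ← mem_C.mp (h.cm ha') a ha, mul_assoc, h.el a' ha', mul_one,
    h.elA a ha]

theorem u2 {u : G} (hu : u ∈ U) (un : u ∈ N (A ⊔ A')) :
    u * u ∈ A ∧ ∀ a ∈ A, u * a = a * u := by
  by_cases uA : u ∈ A
  · exact ⟨mul_mem uA uA, fun a ha => (ab_four h.cA).comm uA ha⟩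
  have k : ∀ a, u * u * a * (u * u)⁻¹ * a⁻¹ =
      u * (u * a * u⁻¹ * a⁻¹) * u⁻¹ * (u * a * u⁻¹ * a⁻¹) := fun a => by group
  obtain ⟨w, hw, w1, w2, c⟩ := ex_fix Nat.prime_two (h.pg.to_subgroup A)
    (h.pg.to_subgroup (zpowers u)) (nrm_zpowers_iff.mpr (mem_N_of_conj fun a ha =>
      h.UB (conj_mem_of_mem_N un (mem_sup_left ha)) (nU.conj_mem a (h.au ha) u)))
    (one_lt_card.mp (by rw [h.cA]; norm_num))
  obtain ⟨a, ha, e⟩ := h.onto hu un uA hw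
  have m : u * u ∈ A := h.cu a ha (fun q => w1 (by rw [← e, q]; simp)) _ (mul_mem hu hu) (by
    have := k a
    rw [e, c u (mem_zpowers u), mul_inv_cancel_right, ← pow_two w, w2] at this
    exact mul_inv_eq_iff_eq_mul.mp (mul_inv_eq_one.mp this))
  refine ⟨m, fun b hb => ?_⟩
  obtain ⟨a, ha, e⟩ := h.onto hu un uA hb
  have := k a
  rw [e, mem_C.mp (h.cm ha) _ m, mul_inv_cancel_right, mul_inv_cancel] at this
  rw [← mul_inv_eq_iff_eq_mul, eq_inv_of_mul_eq_one_left this.symm, inv_self (h.elA b hb)]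

theorem dec1 {y : G} (hy : y ∈ (U ⊔ A') ⊓ N (A ⊔ A')) :
    ∃ u ∈ U, u ∈ N (A ⊔ A') ∧ ∃ a ∈ A', y = u * a := by
  obtain ⟨u, hu, a, ha, rfl⟩ := h.decT hy.1
  exact ⟨u, hu, (mul_mem_cancel_right (le_N _ (mem_sup_right ha))).mp hy.2, a, ha, rfl⟩

theorem ex_a : ∃ a ∈ A', a ≠ 1 := by
  by_contra q
  push Not at q
  have := h.cA'
  rw [show A' = ⊥ from eq_bot_iff.mpr q, card_bot] at this
  omega

theorem core : Core ((U ⊔ A') ⊓ N (A ⊔ A')) (A ⊔ A') A := by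
  have cw : ∀ y ∈ (U ⊔ A') ⊓ N (A ⊔ A'), ∀ w ∈ A, y * w = w * y := fun y hy w hw => by
    obtain ⟨u, hu, un, a, ha, rfl⟩ := h.dec1 hy
    rw [mul_assoc, ← mem_C.mp (h.cm ha) w hw, ← mul_assoc, (h.u2 hu un).2 w hw, mul_assoc]
  refine ⟨h.pg, le_sup_left, le_inf h.BT (le_N _), cw, fun y hy => ?_, h.cB, h.cA, ?_,
    fun y hy b hb e => ?_⟩
  · obtain ⟨u, hu, un, a, ha, rfl⟩ := h.dec1 hy
    have := mul_mem (h.u2 hu un).1 (h.ph (inv_mem hu) (inv_mem un) ha)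
    rw [inv_self (h.el a ha)] at this
    convert this using 1
    group
  · obtain ⟨a, ha, a1⟩ := h.ex_a
    set f := cmc (X := U ⊓ N (A ⊔ A')) a (fun y hy => h.ph hy.1 hy.2 ha)
      (fun y hy => (h.u2 hy.1 hy.2).2) (ab_four h.cA)
    have e1 := card_range_mul f
    have e2 : Nat.card f.ker ≤ Nat.card A := card_ker_le f fun y hy =>
      h.cu a ha a1 y y.2.1 (mul_inv_eq_iff_eq_mul.mp (mul_inv_eq_one.mp hy))
    have e3 : Nat.card f.range ≤ Nat.card A :=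
      card_le_of_le (by rintro _ ⟨y, rfl⟩; exact h.ph y.2.1 y.2.2 ha)
    have e4 := card_inf_mul_relIndex U ((U ⊔ A') ⊓ N (A ⊔ A'))
    have e5 := rel_le_right U (inf_le_left : (U ⊔ A') ⊓ N (A ⊔ A') ≤ _)
    rw [relIndex_sup_left, relIndex_of_inf_eq_bot h.i, h.cA'] at e5
    rw [← inf_assoc, inf_eq_left.mpr (le_sup_left : U ≤ U ⊔ A')] at e4
    rw [h.cA] at e2 e3
    have := Nat.mul_le_mul e2 e3
    nlinarith
  · obtain ⟨a, ha, a', ha', rfl⟩ := h.decB hb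
    rw [← mul_assoc, cw y hy a ha, mul_assoc, mul_assoc, mul_right_inj] at e
    by_cases q : a' = 1
    · exact Or.inr (by rwa [q, mul_one])
    · exact Or.inl (h.cTB hy.1 ha' q e)

theorem sr : SR 4 (⊤ : Subgroup G) ⊥ := by
  haveI : Fact (Nat.Prime 2) := ⟨Nat.prime_two⟩
  haveI := h.nT
  have co := h.core
  have le1 : (U ⊔ A') ⊓ N (A ⊔ A') ≤ U ⊔ A' := inf_le_left
  by_cases c : (U ⊔ A') ⊓ N (A ⊔ A') = U ⊔ A'
  · rw [c] at co
    obtain ⟨u, hu, -, uA⟩ := h.ex_u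
    obtain ⟨a, ha, a1⟩ := h.ex_a
    haveI : A.Normal := ⟨fun b hb g => by
      have m := h.nT.conj_mem b (mem_sup_left (h.au hb)) g
      have k : ∀ y ∈ U ⊔ A', y * (g * b * g⁻¹) = g * b * g⁻¹ * y := fun y hy => by
        have := co.cw _ (h.nT.conj_mem y hy g⁻¹) b hb
        calc _ = g * (g⁻¹ * y * g⁻¹⁻¹ * b) * g⁻¹ := by group
          _ = _ := by rw [this]; group
      exact (co.ns u (mem_sup_left hu) _ (h.cTB m ha a1 (k a (mem_sup_right ha)).symm)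
        (k u (mem_sup_left hu))).resolve_left fun q => uA (h.UB q hu)⟩
    exact co.l34b h.i2 (h.iv h.el) fun x hx => by
      obtain ⟨a, ha, e⟩ := h.nt x hx
      exact ⟨a, mem_sup_right ha, fun q => e (h.au q)⟩
  obtain ⟨v, v0, v1, v2, v3⟩ := ex_nrm (h.pg.to_subgroup _) (lt_of_le_of_ne le1 c)
  rw [pow_two] at v3
  have i2 := h.i2
  have nt := h.nt
  have eB := h.elB
  have aB : A' ≤ A ⊔ A' := le_sup_right
  have au := h.au
  generalize A ⊔ A' = B at *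
  have bn : cj v B ≤ (U ⊔ A') ⊓ N B := mem_N.mp v2 ▸ cj_mono co.bt
  have cB' : Nat.card (cj v B) = 16 := by rw [card_cj, co.cB]
  obtain ⟨y, hy, yB⟩ : ∃ y ∈ cj v B, y ∉ B := by
    by_contra q
    push Not at q
    exact v1 ⟨v0, mem_N_of_cj_le q⟩
  have WA : B ⊓ cj v B ≤ A := fun b hb =>
    (co.ns y (bn hy) b hb.1 (comm_of_sq (el_cj eB v) hy hb.2)).resolve_left yB
  have e1 := card_sup_mul (X := B) (Y := cj v B) (Or.inr (nrm_of_le_N (bn.trans inf_le_right)))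
  have e2 := card_le_of_le WA
  have l : B ⊔ cj v B ≤ (U ⊔ A') ⊓ N B := sup_le co.bt bn
  have e3 := card_le_of_le l
  have e4 := co.cT
  rw [co.cB, cB'] at e1
  rw [co.cW] at e2
  have eT := eq_of_le_of_card_le l (by nlinarith)
  have eW := eq_of_le_of_card_le WA (by rw [co.cW]; nlinarith)
  refine L34.sr (B := B) (B' := cj v B) (w := v) ⟨h.pg, eB, co.cB, rfl, by
    rw [cj_cj, mem_N.mp v3.2], bn.trans inf_le_right, ?_, by rw [eW, co.cW],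
    fun b hb b' hb' e => ?_, ?_, fun x hx xT => ?_⟩
  · rw [eT]
    exact nrm_iff.mp ((Nrm.of_normal _ _).inf (nrm_N B).N)
  · exact (co.ns b' (bn hb') b hb e.symm).symm.imp (fun q => (eW.ge q).2) id
  · have := i2.card (N B)
    rw [inf_comm] at this
    omega
  · rw [eT] at xT
    obtain ⟨a, ha, e⟩ := nt x fun q => xT ⟨q, hx⟩
    exact ⟨a, aB ha, fun q => e (au (WA q))⟩

end B2

end CfsgH2.Fx
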