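import Cfsg.Agent.H2.FxG
import Cfsg.Prelude.Def_CaseTheorems

/-! Transfer, small symmetric groups, lines. -/

set_option autoImplicit false
set_option linter.style.haveILetI false
set_option linter.unusedSectionVars false

namespace CfsgH2.Fx
open Subgroup CfsgH5 CfsgH6 CfsgFT MulAction Equiv
open scoped Pointwise

set_option synthInstance.maxSize 2000 in
theorem s4_ab : ∀ a : Perm (Fin 4), a ≠ 1 → ∀ b : Perm (Fin 4), b ≠ 1 → a ≠ b → a * b = b * a →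
    a * b ≠ 1 → ∀ c : Perm (Fin 4), c * a = a * c → c * b = b * c →
    c = 1 ∨ c = a ∨ c = b ∨ c = a * b := by decide +kernel
theorem s4_c : ∀ x : Perm (Fin 4), x * x = 1 → x ≠ 1 → ∀ d : Perm (Fin 4), d * x = x * d →
    d ^ 4 = 1 := by decide +kernel
theorem s4_s : ∀ x : Perm (Fin 4), x * x = 1 → Perm.sign x = 1 → ∀ i, x i = i → x = 1 := by
  decide +kernel
set_option synthInstance.maxSize 2000 in
theorem s4_v : ∀ a : Perm (Fin 4), a * a = 1 → (∀ i, a i ≠ i) → ∀ b : Perm (Fin 4), b * b = 1 →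
    (∀ i, b i ≠ i) → a ≠ b → ∀ c : Perm (Fin 4), c * c = 1 → (∀ i, c i ≠ i) →
    c = a ∨ c = b ∨ c = a * b := by decide +kernel
theorem s4_l : ∀ l : Perm (Fin 4), l ^ 3 = 1 → l ≠ 1 → ∀ x : Perm (Fin 4), x * x = 1 →
    (∀ i, x i ≠ i) → (l⁻¹ * (x * l * x⁻¹)) ^ 3 ≠ 1 := by decide +kernel
theorem s_t1 {n : ℕ} (h : n ≤ 4) : ∀ t : Perm (Fin n), t ^ 3 = 1 → t ≠ 1 → ∀ s : Perm (Fin n),
    ∃ i j : Fin 3, ∃ k, ((s * t * s⁻¹) ^ j.1 * t ^ i.1 * s) k = k := by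
  interval_cases n <;> decide +kernel
theorem s_t2 {n : ℕ} (h : n ≤ 4) : ∀ t : Perm (Fin n), t ^ 3 = 1 → t ≠ 1 → ∀ s : Perm (Fin n),
    s * t * s⁻¹ = t⁻¹ → s * s = 1 ∧ s ≠ 1 ∧ ∃ k, s k = k := by
  interval_cases n <;> decide +kernel

theorem s4_odd {σ : Perm (Fin 4)} (h : Odd (orderOf σ)) : σ ^ 3 = 1 := by
  have h1 : orderOf σ ∣ 8 * 3 := by
    have := orderOf_dvd_card (x := σ)
    rwa [Fintype.card_perm, Fintype.card_fin] at this
  exact orderOf_dvd_iff_pow_eq_one.mp (Nat.Coprime.dvd_of_dvd_mul_left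
    (Nat.Coprime.pow_right 3 (Nat.coprime_two_right.mpr h)) h1)

theorem s4_abel {Z : Subgroup (Perm (Fin 4))} (h : Ab Z) (h2 : 4 ≤ Nat.card Z) {c : Perm (Fin 4)}
    (hc : c ∈ C Z) : c ∈ Z ∧ Nat.card Z ≤ 4 := by
  obtain ⟨a, ha, a1⟩ : ∃ a ∈ Z, a ≠ 1 := by
    by_contra q
    push Not at q
    rw [show Z = ⊥ from eq_bot_iff.mpr q, card_bot] at h2
    omega
  obtain ⟨b, hb, b1, b2, b3⟩ : ∃ b ∈ Z, b ≠ 1 ∧ a ≠ b ∧ a * b ≠ 1 := by
    by_contra q
    push Not at q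
    have : (Z : Set (Perm (Fin 4))) ⊆ {1, a, a⁻¹} := fun b hb => by
      by_cases e : b = 1
      · exact Or.inl e
      by_cases e' : a = b
      · exact Or.inr (Or.inl e'.symm)
      · exact Or.inr (Or.inr (eq_inv_of_mul_eq_one_right (q b hb e e')))
    have h3 := (Set.ncard_le_ncard this (Set.toFinite _)).trans (Set.ncard_insert_le _ _)
    have := Set.ncard_insert_le a {a⁻¹}
    rw [Set.ncard_singleton] at this
    change Nat.card Z ≤ _ at h3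
    omega
  have k := s4_ab a a1 b b1 b2 (h.comm ha hb) b3
  refine ⟨?_, ?_⟩
  · rcases k c (mem_C.mp hc a ha).symm (mem_C.mp hc b hb).symm with e | e | e | e <;> rw [e]
    exacts [one_mem _, ha, hb, mul_mem ha hb]
  · have : (Z : Set (Perm (Fin 4))) ⊆ {1, a, b, a * b} := fun c hc =>
      k c (h.comm hc ha) (h.comm hc hb)
    refine (Set.ncard_le_ncard this (Set.toFinite _)).trans ((Set.ncard_insert_le _ _).trans ?_)
    have := Set.ncard_insert_le a {b, a * b}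
    have := Set.ncard_insert_le b {a * b}
    rw [Set.ncard_singleton] at this
    omega

universe u
variable {G : Type u} [Group G] [Finite G]

theorem dih {z y : G} (zz : z * z = 1) (yy : y * y = 1) :
    (∃ s, s * z * s⁻¹ = y ∧ s * y * s⁻¹ = z ∧ ∀ H : Subgroup G, z ∈ H → y ∈ H → s ∈ H) ∨
    ∃ w, w ≠ 1 ∧ w * w = 1 ∧ w * z = z * w ∧ w * y = y * w ∧
      (∃ g, w * z = g * z * g⁻¹ ∨ w * z = g * y * g⁻¹) ∧
      ∃ g, w * y = g * z * g⁻¹ ∨ w * y = g * y * g⁻¹ := by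
  have k : ∀ s, s * s = 1 → s * (z * y) * s⁻¹ = (z * y)⁻¹ → ∀ a : ℕ,
      (z * y) ^ a * s * ((z * y) ^ a)⁻¹ = (z * y) ^ (2 * a) * s := fun s ss e a => by
    have : s * ((z * y) ^ a)⁻¹ * s⁻¹ = (z * y) ^ a := by
      rw [← inv_pow, ← e, conj_pow]
      calc _ = s * s * (z * y) ^ a * (s * s)⁻¹ := by group
        _ = _ := by rw [ss]; simp
    rw [two_mul, pow_add, mul_assoc, mul_assoc, mul_right_inj, ← mul_inv_eq_iff_eq_mul, this]
  have kz := k z zz (by rw [← mul_assoc, zz, one_mul, mul_inv_rev, inv_self yy])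
  have ky := k y yy (by
    rw [mul_inv_rev, inv_self yy, inv_self zz, mul_assoc, mul_assoc, yy, mul_one])
  have ry : z * y * y = z := by rw [mul_assoc, yy, mul_one]
  have o := pow_orderOf_eq_one (z * y)
  rcases Nat.even_or_odd' (orderOf (z * y)) with ⟨n, e | e⟩
  · have w2 : (z * y) ^ n * (z * y) ^ n = 1 := by rw [← pow_add, ← two_mul, ← e, o]
    have c : ∀ s, (z * y) ^ n * s * ((z * y) ^ n)⁻¹ = (z * y) ^ (2 * n) * s →
        (z * y) ^ n * s = s * (z * y) ^ n := fun s q => by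
      rwa [← e, o, one_mul, mul_inv_eq_iff_eq_mul] at q
    have p := orderOf_pos (z * y)
    refine Or.inr ⟨(z * y) ^ n, pow_ne_one_of_lt_orderOf (by omega) (by omega), w2, c z (kz n),
      c y (ky n), ?_⟩
    rcases Nat.even_or_odd' n with ⟨j, rfl | rfl⟩
    · exact ⟨⟨_, Or.inl (kz j).symm⟩, ⟨_, Or.inr (ky j).symm⟩⟩
    · refine ⟨⟨(z * y) ^ (j + 1), Or.inr ?_⟩, ⟨(z * y) ^ j, Or.inl ?_⟩⟩
      · rw [ky, mul_add, mul_one, show 2 * j + 2 = 2 * j + 1 + 1 by ring, pow_succ _ (2 * j + 1),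
          mul_assoc _ (z * y) y, ry]
      · rw [kz, pow_succ, mul_assoc _ (z * y) y, ry]
  · have e1 : (z * y) ^ n * z * z * ((z * y) ^ n * z)⁻¹ = y := by
      calc _ = (z * y) ^ n * z * ((z * y) ^ n)⁻¹ := by group
        _ = (z * y) ^ (2 * n) * (z * y * y) := by rw [kz, ry]
        _ = y := by rw [← mul_assoc, ← pow_succ, ← e, o, one_mul]
    have s2 : (z * y) ^ n * z * ((z * y) ^ n * z) = 1 := by
      have := kz n
      rw [two_mul, pow_add, mul_assoc, mul_assoc, mul_right_inj] at this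
      rw [← this]
      nth_rewrite 2 [this]
      calc _ = z * (((z * y) ^ n)⁻¹ * (z * y) ^ n) * z := by group
        _ = 1 := by rw [inv_mul_cancel, mul_one, zz]
    refine Or.inl ⟨(z * y) ^ n * z, e1, ?_, fun H hz hy => mul_mem (pow_mem (mul_mem hz hy) n) hz⟩
    generalize (z * y) ^ n * z = s at e1 s2
    rw [← e1]
    calc _ = s * s * z * (s * s)⁻¹ := by group
      _ = z := by rw [s2]; simp

theorem tr_prod (hG : _root_.commutator G = ⊤) (P : Subgroup G) {A : Type*} [CommGroup A]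
    (φ : P →* A) {p : ℕ} [hp : Fact p.Prime] {u : G} (hu : u ^ p = 1) :
    ∃ (s : Finset (G ⧸ P)) (ψ : G ⧸ P → A), (∀ g : G, (g : G ⧸ P) ∈ s ↔ g⁻¹ * u * g ∈ P) ∧
      (∀ (g : G) (h : g⁻¹ * u * g ∈ P), ψ g = φ ⟨_, h⟩) ∧ ∏ q ∈ s, ψ q = 1 ∧
      s.card ≡ P.index [MOD p] := by
  classical
  letI := P.fintypeQuotientOfFiniteIndex
  have fx : ∀ g : G, u • (g : G ⧸ P) = g ↔ g⁻¹ * u * g ∈ P := fun g => by
    rw [mul_assoc, ← QuotientGroup.eq]
    exact eq_comm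
  let ψ : G ⧸ P → A := fun q => if h : q.out⁻¹ * u * q.out ∈ P then φ ⟨_, h⟩ else 1
  have fx' : ∀ q : G ⧸ P, u • q = q ↔ q.out⁻¹ * u * q.out ∈ P := fun q => by
    rw [← fx, QuotientGroup.out_eq']
  refine ⟨Finset.univ.filter fun q => u • q = q, ψ, fun g => by
    rw [Finset.mem_filter, fx]; simp, fun g h => ?_, ?_, ?_⟩
  · obtain ⟨c, hc⟩ := QuotientGroup.mk_out_eq_mul P g
    have h' := (fx' g).mp ((fx g).mpr h)
    simp only [ψ, dif_pos h']
    have : (⟨_, h'⟩ : P) = c⁻¹ * ⟨_, h⟩ * c := Subtype.ext (by simp [hc, mul_assoc])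
    rw [this, map_mul, map_mul, map_inv, inv_mul_cancel_comm]
  · have e := MonoidHom.transfer_eq_prod_quotient_orbitRel_zpowers_quot φ u
    rw [Abelianization.commutator_subset_ker _ (hG ▸ mem_top u)] at e
    rw [e, Finset.prod_filter, eq_comm]
    refine Finset.prod_of_injOn (fun q => q.out) (fun a _ b _ e => Quotient.out_injective e)
      (fun _ _ => Finset.mem_coe.mpr (Finset.mem_univ _)) (fun q _ hq => if_neg fun c => hq ?_)
      fun q _ => ?_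
    · refine ⟨Quotient.mk _ q, Finset.mem_coe.mpr (Finset.mem_univ _), ?_⟩
      obtain ⟨⟨_, k, rfl⟩, hk⟩ := Quotient.mk_out (s := orbitRel (zpowers u) (G ⧸ P)) q
      exact hk.symm.trans (mem_fixedBy_zpow c k)
    · generalize_proofs _ pf
      have d : Function.minimalPeriod (u • ·) q.out ∣ p :=
        (pow_smul_eq_iff_minimalPeriod_dvd).mp (by rw [hu, one_smul])
      rcases (Nat.dvd_prime hp.out).mp d with r | r
      · have c : u • q.out = q.out := Function.minimalPeriod_eq_one_iff_isFixedPt.mp r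
        rw [if_pos c]
        simp only [ψ, dif_pos ((fx' _).mp c)]
        congr 1
        exact Subtype.ext (by simp [r])
      · have c : ¬ u • q.out = q.out := fun c => hp.out.one_lt.ne
          ((Function.minimalPeriod_eq_one_iff_isFixedPt.mpr c).symm.trans r)
        rw [if_neg c, ← map_one φ]
        congr 1
        exact Subtype.ext (by simp [r, hu])
  · have hz : IsPGroup p (zpowers u) := IsPGroup.of_card_dvd_pow (n := 1) (by
      rw [Nat.card_zpowers, pow_one]; exact orderOf_dvd_of_pow_eq_one hu)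
    have := hz.card_modEq_card_fixedPoints (G ⧸ P)
    rw [index_eq_card]
    refine Nat.ModEq.trans ?_ this.symm
    rw [← Set.ncard_coe_finset, Nat.card_coe_set_eq]
    have : ((Finset.univ.filter fun q : G ⧸ P => u • q = q : Finset _) : Set (G ⧸ P)) =
        fixedPoints (zpowers u) (G ⧸ P) := by
      ext q
      simp only [Finset.coe_filter, Finset.mem_univ, true_and, Set.mem_ofPred_eq, mem_fixedPoints]
      exact ⟨fun c ⟨_, k, rfl⟩ => mem_fixedBy_zpow c k, fun c => c ⟨u, mem_zpowers u⟩⟩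
    rw [this]

theorem tr_const (hG : _root_.commutator G = ⊤) {p : ℕ} [hp : Fact p.Prime] {S : Subgroup G}
    (hS : SylIn p S ⊤) {t : G} (tt : t ^ p = 1) (S0 : Subgroup S) (hc : _root_.commutator S ≤ S0)
    (u : S) (h : ∀ x : S, (∃ g, g * t * g⁻¹ = x) → u⁻¹ * x ∈ S0) : u ∈ S0 := by
  haveI : S0.Normal := ⟨fun a ha g => by simpa using mul_mem (hc (cm_mem' g a)) ha⟩
  letI : CommGroup (S ⧸ S0) := { (inferInstance : Group (S ⧸ S0)) with
    mul_comm := fun a b => by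
      obtain ⟨a, rfl⟩ := QuotientGroup.mk_surjective a
      obtain ⟨b, rfl⟩ := QuotientGroup.mk_surjective b
      rw [← QuotientGroup.mk_mul, ← QuotientGroup.mk_mul, QuotientGroup.eq]
      simpa [mul_assoc] using hc (cm_mem' b⁻¹ a⁻¹) }
  obtain ⟨s, ψ, h1, h2, h3, h4⟩ := tr_prod hG S (QuotientGroup.mk' S0) tt
  have nd : ¬ p ∣ s.card := fun c => hS.not_dvd_relIndex (by
    rw [relIndex_top_right]; exact (h4.dvd_iff dvd_rfl).mp c)
  have k : ∀ q ∈ s, ψ q = QuotientGroup.mk' S0 u ∧ ψ q ^ p = 1 := fun q hq => by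
    obtain ⟨g, rfl⟩ := QuotientGroup.mk_surjective q
    have m := (h1 g).mp hq
    rw [h2 g m]
    refine ⟨(QuotientGroup.eq.mpr (h _ ⟨g⁻¹, by simp⟩)).symm, ?_⟩
    rw [← map_pow, ← map_one (QuotientGroup.mk' S0)]
    congr 1
    refine Subtype.ext ?_
    have := conj_pow (a := g⁻¹) (b := t) (i := p)
    simpa [tt] using this
  rw [Finset.prod_congr rfl fun q hq => (k q hq).1, Finset.prod_const] at h3
  obtain ⟨q, hq⟩ := Finset.card_pos.mp (Nat.pos_of_ne_zero fun e => nd (e ▸ dvd_zero p))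
  have := (k q hq).2
  rw [(k q hq).1] at this
  exact (QuotientGroup.eq_one_iff u).mp ((pow_eq_one_iff_of_coprime
    (hp.out.coprime_iff_not_dvd.mpr nd)).mp ⟨this, h3⟩)
  where
  cm_mem' {H : Type u} [Group H] (a b : H) : a * b * a⁻¹ * b⁻¹ ∈ _root_.commutator H :=
    commutator_mem_commutator (mem_top a) (mem_top b)

theorem thom (hG : _root_.commutator G = ⊤) {S S0 : Subgroup G} (hS : SylIn 2 S ⊤)
    (h : ∀ a ∈ S, ∀ b ∈ S, a ∉ S0 → b ∉ S0 → a * b ∈ S0) {t : G} (ht : t ∈ S) (tt : t * t = 1) :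
    ∃ g, g * t * g⁻¹ ∈ S ∧ g * t * g⁻¹ ∈ S0 := by
  haveI : Fact (Nat.Prime 2) := ⟨Nat.prime_two⟩
  by_contra c
  push Not at c
  have i : I2 (S0.subgroupOf S) := fun a b => h a a.2 b b.2
  have t0 : t ∉ S0 := by simpa using c 1 (by simpa using ht)
  exact t0 (tr_const hG hS (by rw [pow_two, tt]) _ i.comm ⟨t, ht⟩ fun x ⟨g, e⟩ =>
    i _ _ (fun q => t0 (inv_mem_iff.mp q)) fun q => c g (e ▸ x.2) (e ▸ q))

theorem sect_of_sr {S : Subgroup G} (hS : SylIn 2 S ⊤) (h : SR 4 S ⊥) :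
    Cfsg.SectionalPRankLE 2 4 G := by
  haveI : Fact (Nat.Prime 2) := ⟨Nat.prime_two⟩
  intro H K _ A _ hA
  set f := QuotientGroup.mk' K
  obtain ⟨R, hR⟩ := exists_sylIn 2 (A.comap f)
  have h1 := hR.map f
  rw [map_comap_eq_self_of_surjective (QuotientGroup.mk'_surjective K)] at h1
  have h2 := h1.eq_of_le le_rfl (fun a => ⟨1, Subtype.ext (by simpa using hA a a.2)⟩) h1.le
  obtain ⟨g, -, hg⟩ := hS.exists_le_cj (X := R.map H.subtype) le_top (hR.isPGroup.map _)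
  have h3 := h.cjj g (R.map H.subtype) ((K ⊓ R).map H.subtype) (by rw [cj_bot]; exact bot_le)
    (map_mono inf_le_right) hg (by
      rintro _ ⟨x, hx, rfl⟩
      refine ⟨x * x, ⟨?_, mul_mem hx hx⟩, rfl⟩
      have := hA _ (hR.le hx)
      rw [← map_pow, pow_two] at this
      exact (QuotientGroup.eq_one_iff _).mp this)
  rwa [relIndex_map_map_of_injective _ _ (subtype_injective H), inf_relIndex_right,
    ← card_map_mk', ← h2] at h3

theorem dq_congr {P Q : Type*} [Group P] [Group Q] (e : P ≃* Q)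
    (h : (∃ n : ℕ, Nonempty (P ≃* DihedralGroup n)) ∨ Cfsg.IsQuasiDihedral P) :
    (∃ n : ℕ, Nonempty (Q ≃* DihedralGroup n)) ∨ Cfsg.IsQuasiDihedral Q := by
  rcases h with ⟨n, ⟨f⟩⟩ | ⟨n, h1, h2, x, y, h3, h4, h5⟩
  · exact Or.inl ⟨n, ⟨e.symm.trans f⟩⟩
  · refine Or.inr ⟨n, h1, by rw [← h2, Nat.card_congr e.toEquiv], e x, e y,
      by rw [e.orderOf_eq, h3], by rw [e.orderOf_eq, h4], ?_⟩
    rw [← map_inv, ← map_mul, ← map_mul, h5, map_pow]

section Lines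
variable {Ω : Type*} [MulAction G Ω] [Finite Ω]

variable (G) in
/-- pointwise stabilizer. -/
abbrev KK (Γ : Set Ω) : Subgroup G := fixingSubgroup G Γ
variable (G) in
/-- setwise stabilizer. -/
abbrev MM (Γ : Set Ω) : Subgroup G := stabilizer G Γ

theorem mem_KK {Γ : Set Ω} {g : G} : g ∈ KK G Γ ↔ ∀ y ∈ Γ, g • y = y := mem_fixingSubgroup_iff G

theorem mem_KK' {Γ : Set Ω} {g : G} : g ∈ KK G Γ ↔ Γ ⊆ fixedBy Ω g := mem_KK

theorem cj_KK (g : G) (Γ : Set Ω) : cj g (KK G Γ) = KK G (g • Γ) := by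
  ext x
  rw [mem_cj, mem_KK', mem_KK', Set.smul_set_subset_iff_subset_inv_smul_set, smul_fixedBy, inv_inv]

theorem cj_MM (g : G) (Γ : Set Ω) : cj g (MM G Γ) = MM G (g • Γ) := by
  ext x
  rw [mem_cj, mem_stabilizer_iff, mem_stabilizer_iff, mul_smul, mul_smul, inv_smul_eq_iff]

theorem KM (Γ : Set Ω) : KK G Γ ≤ MM G Γ := fun g hg => by
  rw [mem_stabilizer_iff]
  ext y
  constructor
  · rintro ⟨z, hz, rfl⟩
    simpa only [mem_KK.mp hg z hz] using hz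
  · exact fun hy => ⟨y, hy, mem_KK.mp hg y hy⟩

theorem nKM (Γ : Set Ω) : Nrm (MM G Γ) (KK G Γ) :=
  nrm_of_le_N fun g hg => by rw [mem_N, cj_KK, mem_stabilizer_iff.mp hg]

theorem smul_mem_MM {Γ : Set Ω} {g : G} (hg : g ∈ MM G Γ) {y : Ω} (hy : y ∈ Γ) : g • y ∈ Γ :=
  mem_stabilizer_iff.mp hg ▸ Set.smul_mem_smul_set hy

theorem C1_le_MM (x : G) : C1 x ≤ MM G (fixedBy Ω x) := fun g hg => by
  rw [mem_stabilizer_iff, smul_fixedBy, mem_C1_iff_conj.mp hg]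

theorem exists_rho (Γ : Set Ω) {n : ℕ} (h : Γ.ncard = n) :
    ∃ (ρ : MM G Γ →* Perm (Fin n)), (∀ g, ρ g = 1 ↔ (g : G) ∈ KK G Γ) ∧
      (∀ g, (∃ i, ρ g i = i) ↔ ∃ y ∈ Γ, (g : G) • y = y) := by
  haveI := Fintype.ofFinite Γ
  let e : Γ ≃ Fin n := Fintype.equivFinOfCardEq (by rw [← h, Set.ncard_eq_toFinset_card', Set.toFinset_card])
  letI : MulAction (MM G Γ) Γ :=
    { smul := fun g y => ⟨(g : G) • y.1, smul_mem_MM g.2 y.2⟩
      one_smul := fun y => Subtype.ext (one_smul G y.1)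
      mul_smul := fun a b y => Subtype.ext (mul_smul (a : G) (b : G) y.1) }
  have k : ∀ (g : MM G Γ) (i : Fin n), (e.permCongrHom.toMonoidHom.comp (toPermHom (MM G Γ) Γ)) g i = i ↔
      (g : G) • (e.symm i).1 = (e.symm i).1 := fun g i => by
    change e (g • e.symm i) = i ↔ _
    rw [← e.eq_symm_apply, Subtype.ext_iff]
    rfl
  refine ⟨e.permCongrHom.toMonoidHom.comp (toPermHom (MM G Γ) Γ), fun g => ?_, fun g => ?_⟩
  · rw [Equiv.ext_iff, mem_KK]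
    refine ⟨fun q y hy => ?_, fun q i => (k g i).mpr (q _ (e.symm i).2)⟩
    simpa using (k g (e ⟨y, hy⟩)).mp (q _)
  · refine ⟨fun ⟨i, q⟩ => ⟨_, (e.symm i).2, (k g i).mp q⟩, fun ⟨y, hy, q⟩ => ⟨e ⟨y, hy⟩, ?_⟩⟩
    rw [k]; simpa using q

theorem rel_rho {Γ : Set Ω} {H : Type*} [Group H] (ρ : MM G Γ →* H)
    (h : ∀ g, ρ g = 1 ↔ (g : G) ∈ KK G Γ) {X : Subgroup G} (hX : X ≤ MM G Γ) :
    (KK G Γ).relIndex X = Nat.card ((X.subgroupOf (MM G Γ)).map ρ) := by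
  rw [← relIndex_ker, ← relIndex_subgroupOf hX]
  congr 1
  ext g
  exact (h g).symm

theorem rel_dvd {Γ : Set Ω} {X : Subgroup G} (hX : X ≤ MM G Γ) :
    (KK G Γ).relIndex X ∣ Γ.ncard.factorial := by
  obtain ⟨ρ, h, -⟩ := exists_rho (G := G) Γ rfl
  rw [rel_rho ρ h hX]
  have := card_subgroup_dvd_card ((X.subgroupOf (MM G Γ)).map ρ)
  rwa [Nat.card_perm, Nat.card_eq_fintype_card (α := Fin _), Fintype.card_fin] at this

theorem rel_lt {p k : ℕ} (hp : p.Prime) {Γ : Set Ω} {X : Subgroup G} (hX : X ≤ MM G Γ)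
    (h : IsPGroup p X) (hk : ¬ p ^ (k + 1) ∣ Γ.ncard.factorial) : (KK G Γ).relIndex X ≤ p ^ k := by
  haveI := Fact.mk hp
  obtain ⟨n, hn⟩ := IsPGroup.iff_card.mp h
  obtain ⟨m, -, hm⟩ := (Nat.dvd_prime_pow hp).mp (hn ▸ relIndex_dvd_card' (KK G Γ) X)
  have := rel_dvd hX
  rw [hm] at this ⊢
  refine Nat.pow_le_pow_right hp.pos ?_
  by_contra c
  exact hk ((pow_dvd_pow p (by omega)).trans this)

variable (G) in
/-- elements of order `p` fixing the set pointwise fix nothing else. -/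
def Ln (p : ℕ) (Γ : Set Ω) : Prop := ∀ k ∈ KK G Γ, k ≠ 1 → k ^ p = 1 → fixedBy Ω k = Γ

theorem Ln.smul {p : ℕ} {Γ : Set Ω} (h : Ln G p Γ) (g : G) : Ln G p (g • Γ) := fun k hk k1 kp => by
  rw [← cj_KK] at hk
  obtain ⟨y, hy, rfl⟩ := mem_cj'.mp hk
  rw [← smul_fixedBy, h y hy (fun e => k1 (by simp [e])) (by simpa [conj_pow] using kp)]

theorem Ln.eq {p : ℕ} {Γ Γ' : Set Ω} (h : Ln G p Γ) (h' : Ln G p Γ') {k g : G} (hk : k ∈ KK G Γ)
    (k1 : k ≠ 1) (kp : k ^ p = 1) (e : g * k * g⁻¹ ∈ KK G Γ') : g • Γ = Γ' := by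
  rw [← h k hk k1 kp, smul_fixedBy]
  exact h' _ e (by simpa using k1) (by simp [conj_pow, kp])

theorem Ln.eq' {p : ℕ} {Γ Γ' : Set Ω} (h : Ln G p Γ) (h' : Ln G p Γ') {k : G} (hk : k ∈ KK G Γ)
    (k1 : k ≠ 1) (kp : k ^ p = 1) (e : k ∈ KK G Γ') : Γ = Γ' :=
  (h k hk k1 kp).symm.trans (h' k e k1 kp)

theorem Ln.c1 {p : ℕ} {Γ : Set Ω} (h : Ln G p Γ) {k : G} (hk : k ∈ KK G Γ)
    (k1 : k ≠ 1) (kp : k ^ p = 1) : C1 k ≤ MM G Γ := h k hk k1 kp ▸ C1_le_MM k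

theorem Ln.inf {p : ℕ} (hp : p.Prime) {Γ Γ' : Set Ω} (h : Ln G p Γ) (h' : Ln G p Γ') (ne : Γ ≠ Γ')
    {X : Subgroup G} (hX : IsPGroup p X) (h1 : X ≤ KK G Γ) : KK G Γ' ⊓ X = ⊥ := by
  by_contra c
  obtain ⟨k, hk, o⟩ := exists_mem_orderOf_eq hp (prime_dvd_card_of_isPGroup hp hX.to_inf_right c)
  exact ne (h.eq' h' (h1 hk.2) (fun e => hp.one_lt.ne (by rw [← o, e, orderOf_one]))
    (o ▸ pow_orderOf_eq_one k) hk.1)

theorem Ln.semi {p : ℕ} (hp : p.Prime) {Γ Z : Set Ω} (h : Ln G p Γ) {Y : Subgroup G}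
    (hY : IsPGroup p Y) (h1 : Y ≤ KK G Γ) (h2 : Y ≤ MM G Z) {z : Ω} (hz : z ∈ Z) (zΓ : z ∉ Γ) :
    Nat.card Y ≤ (Z \ Γ).ncard := by
  have e : stabilizer G z ⊓ Y = ⊥ := by
    by_contra c
    obtain ⟨k, hk, o⟩ := exists_mem_orderOf_eq hp (prime_dvd_card_of_isPGroup hp hY.to_inf_right c)
    refine zΓ ?_
    rw [← h k (h1 hk.2) (fun e => hp.one_lt.ne (by rw [← o, e, orderOf_one]))
      (o ▸ pow_orderOf_eq_one k)]
    exact hk.1
  rw [← relIndex_of_inf_eq_bot e, show (stabilizer G z).relIndex Y = (stabilizer Y z).index from rfl,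
    index_stabilizer]
  refine Set.ncard_le_ncard ?_ (Set.toFinite _)
  rintro _ ⟨y, rfl⟩
  refine ⟨smul_mem_MM (h2 y.2) hz, fun q => zΓ ?_⟩
  have := mem_KK.mp (h1 (inv_mem y.2)) _ q
  change (y : G)⁻¹ • (y : G) • z = _ at this
  rw [inv_smul_smul] at this
  exact this ▸ q

theorem ln_of_max {p : ℕ} (hp : p.Prime) {u : G}
    (h : ∀ g : G, orderOf g = p → Nat.card (fixedBy Ω g) ≤ Nat.card (fixedBy Ω u)) :
    Ln G p (fixedBy Ω u) := fun k hk k1 kp =>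
  haveI := Fact.mk hp
  (Set.eq_of_subset_of_ncard_le (mem_KK'.mp hk) (h k (orderOf_eq_prime kp k1))).symm

/-- strongly `p`-embedded. -/
def SEp (p : ℕ) (H : Subgroup G) : Prop :=
  H ≠ ⊤ ∧ p ∣ Nat.card H ∧ ∀ g : G, g ∉ H → ¬ p ∣ Nat.card ↥(H ⊓ cj g H)

theorem MM_ne [FaithfulSMul G Ω] [IsPretransitive G Ω] {u : G} (u1 : u ≠ 1)
    (ne : (fixedBy Ω u).Nonempty) : MM G (fixedBy Ω u) ≠ ⊤ := fun e => by
  obtain ⟨a, ha⟩ := ne
  refine u1 (FaithfulSMul.eq_of_smul_eq_smul (α := Ω) fun y => ?_)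
  obtain ⟨g, rfl⟩ := exists_smul_eq G a y
  rw [one_smul]
  exact smul_mem_MM (Γ := fixedBy Ω u) (e.ge (mem_top g)) ha

theorem sep_of {p : ℕ} (hp : p.Prime) {H : Subgroup G} (ne : H ≠ ⊤) {u : G} (hu : u ∈ H)
    (ou : orderOf u = p) (h : ∀ g, ∀ x ∈ H, x ∈ cj g H → x ≠ 1 → x ^ p = 1 → g ∈ H) : SEp p H :=
  ⟨ne, ou ▸ orderOf_dvd_card' hu, fun g hg c => by
    obtain ⟨k, hk, o⟩ := exists_mem_orderOf_eq hp c
    exact hg (h g k hk.1 hk.2 (fun e => hp.one_lt.ne (by rw [← o, e, orderOf_one]))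
      (o ▸ pow_orderOf_eq_one k))⟩

theorem sep_K {p : ℕ} (hp : p.Prime) {Γ : Set Ω} (hL : Ln G p Γ) (ne : MM G Γ ≠ ⊤) {u : G}
    (hu : u ∈ KK G Γ) (ou : orderOf u = p)
    (h : ∀ x ∈ MM G Γ, x ^ p = 1 → x ∈ KK G Γ) : SEp p (MM G Γ) :=
  sep_of hp ne (KM Γ hu) ou fun g x hx hg x1 xp => by
    have := hL.eq hL (h x hx xp) x1 xp (g := g⁻¹) (h _ (by simpa using mem_cj.mp hg)
      (by simp only [conj_pow, xp]; simp))
    exact inv_mem_iff.mp this

end Lines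

end CfsgH2.Fx
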