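import Cfsg.Agent.H2.FxI

/-! Lines: the case of at most three fixed points, and tools for the prime three. -/

set_option autoImplicit false
set_option linter.style.haveILetI false
set_option linter.unusedSectionVars false

namespace CfsgH2.Fx
open Subgroup CfsgH5 CfsgH6 CfsgFT MulAction Equiv
open scoped Pointwise

universe u
variable {G : Type u} [Group G] [Finite G] {Ω : Type*} [MulAction G Ω] [Finite Ω]

theorem pg_zp {p : ℕ} {x : G} (h : x ^ p = 1) : IsPGroup p (zpowers x) :=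
  IsPGroup.of_card_dvd_pow (n := 1) (by
    rw [Nat.card_zpowers, pow_one]; exact orderOf_dvd_of_pow_eq_one h)

theorem setup {p : ℕ} (hp : p.Prime) {Γ : Set Ω} {u : G} (hu : u ∈ KK G Γ) (ou : orderOf u = p)
    {X : Subgroup G} (hX : X ≤ MM G Γ) (pX : IsPGroup p X) :
    ∃ R S : Subgroup G, SylIn p R (MM G Γ) ∧ X ≤ R ∧ SylIn p S ⊤ ∧ S ⊓ MM G Γ = R ∧
      ∃ z ∈ R ⊓ KK G Γ, z ≠ 1 ∧ z ^ p = 1 ∧ ∀ g ∈ R, g * z = z * g := by
  haveI := Fact.mk hp
  obtain ⟨R, h1, h2⟩ := exists_sylIn_ge hX pX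
  obtain ⟨S, h3, h4⟩ := exists_sylIn_ge (le_top : R ≤ ⊤) h2.isPGroup
  refine ⟨R, S, h2, h1, h4, h2.eq_of_le inf_le_right h4.isPGroup.to_inf_left (le_inf h3 h2.le), ?_⟩
  exact ex_fix hp h2.isPGroup.to_inf_left h2.isPGroup ((Nrm.self R).inf ((nKM Γ).mono h2.le))
    ((h2.inf_nrm (KM Γ) (nKM Γ)).ne_bot hp (ou ▸ orderOf_dvd_card' hu))

theorem lt_case {p : ℕ} (hp : p.Prime) {Γ : Set Ω} (hL : Ln G p Γ) {S : Subgroup G}
    (hS : IsPGroup p S) (h : ¬ S ≤ MM G Γ) : ∃ s ∈ S, s ∉ MM G Γ ∧ s ∈ N (S ⊓ MM G Γ) ∧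
      s ^ p ∈ MM G Γ ∧ cj s (S ⊓ KK G Γ) ≤ S ⊓ MM G Γ ∧ KK G Γ ⊓ cj s (S ⊓ KK G Γ) = ⊥ := by
  haveI := Fact.mk hp
  obtain ⟨s, h1, h2, h3, h4⟩ := ex_nrm hS (lt_of_le_of_ne (inf_le_left : S ⊓ MM G Γ ≤ S)
    fun e => h (inf_eq_left.mp e))
  have h5 : s ∉ MM G Γ := fun e => h2 ⟨h1, e⟩
  refine ⟨s, h1, h5, h3, h4.2, mem_N.mp h3 ▸ cj_mono (inf_le_inf_left _ (KM Γ)), ?_⟩
  exact (hL.smul s).inf hp hL h5 (isPGroup_cj hS.to_inf_left s) (cj_KK s Γ ▸ cj_mono inf_le_right)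

theorem semi2 {p : ℕ} (hp : p.Prime) {Γ Γ' : Set Ω} (h : Ln G p Γ) (c : Γ.ncard = Γ'.ncard)
    (ne : Γ ≠ Γ') {Y : Subgroup G} (hY : IsPGroup p Y) (h1 : Y ≤ KK G Γ) (h2 : Y ≤ MM G Γ') :
    Nat.card Y ≤ (Γ' \ Γ).ncard := by
  obtain ⟨z, hz, zΓ⟩ : ∃ z ∈ Γ', z ∉ Γ := by
    by_contra q
    push Not at q
    exact ne (Set.eq_of_subset_of_ncard_le q c.le).symm
  exact h.semi hp hY h1 h2 hz zΓ

theorem semi3 {p : ℕ} (hp : p.Prime) {Γ Γ' : Set Ω} (h : Ln G p Γ) (c : Γ.ncard = Γ'.ncard)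
    (ne : Γ ≠ Γ') {Y : Subgroup G} (hY : IsPGroup p Y) (h1 : Y ≤ KK G Γ) (h2 : Y ≤ MM G Γ') :
    Nat.card Y ≤ Γ.ncard :=
  (semi2 hp h c ne hY h1 h2).trans (c ▸ Set.ncard_le_ncard Set.sdiff_subset (Set.toFinite _))

theorem pow_le_of {p : ℕ} (hp : p.Prime) {Y : Subgroup G} (hY : IsPGroup p Y) {k : ℕ}
    (h : Nat.card Y < p ^ (k + 1)) : Nat.card Y ≤ p ^ k := by
  haveI := Fact.mk hp
  obtain ⟨n, hn⟩ := IsPGroup.iff_card.mp hY
  rw [hn] at h ⊢
  exact Nat.pow_le_pow_right hp.pos (Nat.lt_succ_iff.mp ((Nat.pow_lt_pow_iff_right hp.one_lt).mp h))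

theorem le3 (hG : _root_.commutator G = ⊤) {Γ : Set Ω} (hL : Ln G 2 Γ) (h3 : Γ.ncard ≤ 3)
    (ne : MM G Γ ≠ ⊤) {u : G} (hu : u ∈ KK G Γ) (ou : orderOf u = 2) {P : Subgroup G}
    (hP : SylIn 2 P ⊤) : SEp 2 (MM G Γ) ∨
      (∃ n : ℕ, Nonempty (P ≃* DihedralGroup n)) ∨ Cfsg.IsQuasiDihedral P := by
  haveI : Fact (Nat.Prime 2) := ⟨Nat.prime_two⟩
  by_cases c : ∀ x ∈ MM G Γ, x ^ 2 = 1 → x ∈ KK G Γ
  · exact Or.inl (sep_K Nat.prime_two hL ne hu ou c)
  push Not at c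
  obtain ⟨x, hx, x2, xK⟩ := c
  obtain ⟨R, S, hR, xR, hS, e, z, hz, z1, z2, -⟩ :=
    setup Nat.prime_two hu ou (zpowers_le.mpr hx) (pg_zp x2)
  subst e
  have xS := (xR (mem_zpowers x)).1
  have xz : x ≠ z := fun e => xK (e ▸ hz.2)
  have x1 : x ≠ 1 := fun e => xK (e ▸ one_mem _)
  have r2 : ∀ X ≤ MM G Γ, IsPGroup 2 X → (KK G Γ).relIndex X ≤ 2 := fun X h1 h2 =>
    rel_lt (k := 1) Nat.prime_two h1 h2 fun q => absurd (q.trans (Nat.factorial_dvd_factorial h3))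
      (by decide)
  right
  obtain ⟨g, -, rfl⟩ := hS.conj hP
  refine dq_congr (cjEquiv g S) ?_
  have fin : ∀ a b, a ∈ S → b ∈ S → a ^ 2 = 1 → b ^ 2 = 1 → a ≠ 1 → b ≠ 1 → b ≠ a →
      Nat.card ↥(S ⊓ C1 a) ≤ 4 → (∃ n : ℕ, Nonempty (S ≃* DihedralGroup n)) ∨
      Cfsg.IsQuasiDihedral S := fun a b ha hb a2 b2 a1 b1 ab c =>
    mc_d hS.isPGroup (x := ⟨a, ha⟩) (y := ⟨b, hb⟩) (Subtype.ext ((pow_two a).symm.trans a2))
      (fun e => a1 (congrArg Subtype.val e)) (by rwa [card_C1_sub])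
      (Subtype.ext ((pow_two b).symm.trans b2)) (fun e => b1 (congrArg Subtype.val e))
      fun e => ab (congrArg Subtype.val e)
  by_cases q : S ≤ MM G Γ
  · obtain ⟨g, -, hg⟩ := thom hG hS (S0 := KK G Γ)
      (fun a ha b hb => mul_mem_rel2 (r2 S q hS.isPGroup) ha hb) xS ((pow_two x).symm.trans x2)
    have xK' : x ∈ KK G (g⁻¹ • Γ) := by rw [← cj_KK, mem_cj]; simpa using hg
    have e1 := semi3 Nat.prime_two hL (Set.ncard_smul_set g⁻¹ Γ).symm (fun e => xK (e ▸ xK'))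
      (Y := KK G Γ ⊓ (S ⊓ C1 x)) hS.isPGroup.to_inf_left.to_inf_right inf_le_left
      ((inf_le_right.trans inf_le_right).trans ((hL.smul _).c1 xK' x1 x2))
    have e2 := pow_le_of (k := 1) Nat.prime_two
      (hS.isPGroup.to_inf_left (K := C1 x)).to_inf_right (lt_of_le_of_lt e1 (by omega))
    have e3 := card_inf_mul_relIndex (KK G Γ) (S ⊓ C1 x)
    have e4 := r2 (S ⊓ C1 x) (inf_le_left.trans q) hS.isPGroup.to_inf_left
    exact fin x z xS hz.1.1 x2 z2 x1 z1 xz.symm (by nlinarith)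
  · obtain ⟨s, -, -, -, -, s1, s2⟩ := lt_case Nat.prime_two hL hS.isPGroup q
    have e1 := r2 _ (s1.trans inf_le_right) (isPGroup_cj hS.isPGroup.to_inf_left s)
    rw [relIndex_of_inf_eq_bot s2, card_cj] at e1
    have e2 := r2 _ hR.le hR.isPGroup
    have e3 := card_inf_mul_relIndex (KK G Γ) (S ⊓ MM G Γ)
    rw [inf_left_comm, inf_eq_left.mpr (KM Γ)] at e3
    have e4 := card_le_of_le (inf_le_inf_left S (hL.c1 hz.2 z1 z2))
    exact fin z x hz.1.1 xS z2 x2 z1 x1 xz (by nlinarith)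

theorem eq_of_three {H : Type*} [Group H] [Finite H] {Y : Subgroup H} (h : Nat.card Y ≤ 3) {a b : H}
    (ha : a ∈ Y) (a1 : a ≠ 1) (a3 : a ^ 3 = 1) (hb : b ∈ Y) : b = 1 ∨ b = a ∨ b = a⁻¹ := by
  by_contra c
  push Not at c
  have a2 : a ≠ a⁻¹ := fun e => a1 (by
    rw [pow_succ, pow_two, mul_eq_one_iff_eq_inv.mpr e, one_mul] at a3; exact a3)
  have : ({b, 1, a, a⁻¹} : Set H) ⊆ Y := by
    rintro y (rfl | rfl | rfl | rfl)
    exacts [hb, one_mem _, ha, inv_mem ha]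
  have := Set.ncard_le_ncard this (Set.toFinite _)
  rw [Set.ncard_insert_of_notMem (by simp [c.1, c.2.1, c.2.2]),
    Set.ncard_insert_of_notMem (by simp [a1.symm, a1]), Set.ncard_pair a2] at this
  change 4 ≤ Nat.card Y at this
  omega

theorem ex_normal {p : ℕ} [hp : Fact p.Prime] (hG : IsPGroup p G) (k : ℕ)
    (h : p ^ k ≤ Nat.card G) : ∃ K : Subgroup G, K.Normal ∧ Nat.card K = p ^ k := by
  induction k with
  | zero => exact ⟨⊥, inferInstance, by simp⟩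
  | succ k ih =>
    have l : p ^ k < p ^ (k + 1) := Nat.pow_lt_pow_right hp.out.one_lt (by omega)
    obtain ⟨K, nK, hK⟩ := ih (by omega)
    obtain ⟨w, -, ow, wc⟩ := exists_central_orderOf_eq_of_normal (hG.to_quotient K) ⊤
      (one_lt_card.mp (by
        have := card_eq_card_quotient_mul_card_subgroup K
        rw [card_top]
        by_contra c
        have : Nat.card (G ⧸ K) * Nat.card K ≤ 1 * Nat.card K := Nat.mul_le_mul_right _ (by omega)
        omega))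
    haveI := CfsgH8.normal_zpowers_of_mem_center wc
    refine ⟨(zpowers w).comap (QuotientGroup.mk' K), inferInstance, ?_⟩
    rw [← card_map_mk K _ (QuotientGroup.le_comap_mk' K _),
      map_comap_eq_self_of_surjective (QuotientGroup.mk'_surjective K), Nat.card_zpowers, ow, hK,
      pow_succ]

theorem nine {A : Type*} [CommGroup A] [Finite A] (hA : Nat.card A = 9) (V : Finset A)
    (h : ∀ v ∈ V, v ≠ 1 ∧ v ^ 3 = 1 ∧ v⁻¹ ∉ V) (h3 : ¬ 3 ∣ V.card) (e : ∏ v ∈ V, v = 1) : False := by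
  classical
  haveI := Fintype.ofFinite A
  have d : Disjoint V (V.image fun v => v⁻¹) := Finset.disjoint_left.mpr fun a ha q => by
    obtain ⟨b, hb, rfl⟩ := Finset.mem_image.mp q
    exact (h b hb).2.2 ha
  have s : V ∪ V.image (fun v => v⁻¹) ⊆ Finset.univ.erase 1 := fun a ha => by
    rw [Finset.mem_erase]
    refine ⟨?_, Finset.mem_univ a⟩
    rcases Finset.mem_union.mp ha with q | q
    · exact (h a q).1
    · obtain ⟨b, hb, rfl⟩ := Finset.mem_image.mp q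
      exact inv_ne_one.mpr (h b hb).1
  have c1 := Finset.card_union_of_disjoint d
  rw [Finset.card_image_of_injective _ inv_injective] at c1
  have c2 : (Finset.univ.erase (1 : A)).card = 8 := by
    rw [Finset.card_erase_of_mem (Finset.mem_univ _), Finset.card_univ, ← Nat.card_eq_fintype_card,
      hA]
  have c3 := Finset.card_le_card s
  obtain c | c | c : V.card = 1 ∨ V.card = 2 ∨ V.card = 4 := by omega
  · obtain ⟨a, rfl⟩ := Finset.card_eq_one.mp c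
    exact (h a (by simp)).1 (by simpa using e)
  · obtain ⟨a, b, ab, rfl⟩ := Finset.card_eq_two.mp c
    rw [Finset.prod_pair ab] at e
    exact (h a (by simp)).2.2 (by simp [eq_inv_of_mul_eq_one_right e])
  obtain ⟨a, ha, b, hb, ab⟩ := Finset.one_lt_card.mp (by omega : 1 < V.card)
  have w1 : a * b ≠ 1 := fun q => (h a ha).2.2 (by rwa [← eq_inv_of_mul_eq_one_right q])
  have w3 : (a * b) ^ 3 = 1 := by rw [mul_pow, (h a ha).2.1, (h b hb).2.1, one_mul]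
  have k : ∀ x ∈ V, x ≠ a → x ≠ b → ∃ y ∈ V, y ≠ x ∧ a * b * x * y = 1 := fun x hx xa xb => by
    have m1 : b ∈ V.erase a := Finset.mem_erase.mpr ⟨ab.symm, hb⟩
    have m2 : x ∈ (V.erase a).erase b := Finset.mem_erase.mpr ⟨xb, Finset.mem_erase.mpr ⟨xa, hx⟩⟩
    obtain ⟨y, hy⟩ := (Finset.card_eq_one (s := ((V.erase a).erase b).erase x)).mp (by
      rw [Finset.card_erase_of_mem m2, Finset.card_erase_of_mem m1, Finset.card_erase_of_mem ha, c])
    have m3 : y ∈ ((V.erase a).erase b).erase x := hy ▸ Finset.mem_singleton_self y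
    rw [← Finset.mul_prod_erase _ _ ha, ← Finset.mul_prod_erase _ _ m1,
      ← Finset.mul_prod_erase _ _ m2, hy, Finset.prod_singleton] at e
    exact ⟨y, Finset.mem_of_mem_erase (Finset.mem_of_mem_erase (Finset.mem_of_mem_erase m3)),
      (Finset.mem_erase.mp m3).1, by rw [← e]; group⟩
  have := (Finset.eq_of_subset_of_card_le s (by omega)).ge
    (Finset.mem_erase.mpr ⟨w1, Finset.mem_univ _⟩)
  rcases Finset.mem_union.mp this with q | q
  · obtain ⟨y, -, y1, y2⟩ := k _ q (fun r => (h b hb).1 (by simpa using r))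
      fun r => (h a ha).1 (by simpa using r)
    refine y1 (mul_left_cancel (a := a * b * (a * b)) ?_)
    rw [y2, ← w3, pow_succ, pow_two]
  · obtain ⟨x, hx, r⟩ := Finset.mem_image.mp q
    have t : ∀ {a b : A}, a ^ 3 = 1 → a⁻¹ = a * b → a = b := fun {a b} a3 r => by
      refine mul_left_cancel (a := a * a) ?_
      rw [mul_assoc a a b, ← r, mul_inv_cancel, ← a3, pow_succ, pow_two]
    obtain ⟨y, hy, -, y2⟩ := k x hx (fun q => ab (t (h a ha).2.1 (q ▸ r)))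
      fun q => ab (t (h b hb).2.1 (by rw [mul_comm, ← r, q])).symm
    rw [← r, inv_mul_cancel, one_mul] at y2
    exact (h y hy).1 y2

end CfsgH2.Fx
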