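import Cfsg.Agent.H2.FxJ

/-! Lines for the prime three. -/

set_option autoImplicit false
set_option linter.style.haveILetI false
set_option linter.unusedSectionVars false

namespace CfsgH2.Fx
open Subgroup CfsgH5 CfsgH6 CfsgFT MulAction Equiv
open scoped Pointwise

universe u
variable {G : Type u} [Group G] [Finite G] {Ω : Type*} [MulAction G Ω] [Finite Ω]

theorem mx3 (hG : _root_.commutator G = ⊤) {S : Subgroup G} (hS : SylIn 3 S ⊤)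
    (h9 : 3 < Nat.card S) {z : G} (z3 : z ^ 3 = 1) (z1 : z ≠ 1)
    (hc : ∀ g, Nat.card ↥(S ⊓ C1 (g⁻¹ * z * g)) ≤ 9) (nr : ∀ g, g * z * g⁻¹ ≠ z⁻¹) : False := by
  classical
  haveI : Fact (Nat.Prime 3) := ⟨Nat.prime_three⟩
  obtain ⟨n, hn⟩ := IsPGroup.iff_card.mp hS.isPGroup
  obtain ⟨k, rfl⟩ : ∃ k, n = k + 2 := by
    refine ⟨n - 2, ?_⟩
    have : 1 < n := (Nat.pow_lt_pow_iff_right (a := 3) (by norm_num)).mp (by rwa [pow_one, ← hn])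
    omega
  obtain ⟨Q, nQ, cQ⟩ := ex_normal hS.isPGroup k
    (hn ▸ Nat.pow_le_pow_right (by norm_num) (by omega))
  have cA : Nat.card (S ⧸ Q) = 3 ^ 2 := by
    have := card_eq_card_quotient_mul_card_subgroup Q
    rw [hn, cQ, pow_add, mul_comm] at this
    exact (Nat.eq_of_mul_eq_mul_right (by positivity) this).symm
  letI : CommGroup (S ⧸ Q) := { (inferInstance : Group (S ⧸ Q)) with
    mul_comm := (IsPGroup.isMulCommutative_of_card_eq_prime_sq cA).is_comm.comm }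
  obtain ⟨s, ψ, h1, h2, h3, h4⟩ := tr_prod hG S (QuotientGroup.mk' Q) z3
  have K1 : ∀ (g : G) (h : g⁻¹ * z * g ∈ S), Nat.card ↥(S ⊓ C1 (g⁻¹ * z * g)) = 9 ∧
      ∀ y : S, QuotientGroup.mk' Q y = QuotientGroup.mk' Q ⟨_, h⟩ →
        ∃ d ∈ S, d * (g⁻¹ * z * g) * d⁻¹ = y := fun g h => by
    have a : ∀ d ∈ (⊤ : Subgroup S), d * ⟨_, h⟩ * d⁻¹ ∈ (fun a => (⟨_, h⟩ : S) * a) '' Q :=
      fun d _ => ⟨(⟨_, h⟩ : S)⁻¹ * (d * ⟨_, h⟩ * d⁻¹), QuotientGroup.eq.mp (by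
        change QuotientGroup.mk' Q _ = QuotientGroup.mk' Q _
        rw [map_mul, map_mul, map_inv, mul_inv_cancel_comm]), by simp⟩
    have b := card_le_cls ⊤ _ a
    have c := cls_onto ⊤ _ a
    have := hc g
    rw [top_inf_eq, card_C1_sub, ncard_coset, card_top, hn, cQ, pow_add, mul_comm] at b c
    refine ⟨le_antisymm this (Nat.le_of_mul_le_mul_right b (by positivity)), fun y hy => ?_⟩
    obtain ⟨d, -, e⟩ := c (Nat.mul_le_mul_left _ this) y ⟨_, QuotientGroup.eq.mp hy.symm, by simp⟩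
    exact ⟨d, d.2, congrArg Subtype.val e⟩
  have K2 : ∀ v ∈ s.image ψ, (s.filter fun q => ψ q = v).card * 9 = Nat.card (C1 z) := by
    intro v hv
    obtain ⟨q, hq, rfl⟩ := Finset.mem_image.mp hv
    obtain ⟨g, rfl⟩ := QuotientGroup.mk_surjective q
    have m := (h1 g).mp hq
    have e1 : stabilizer G (g : G ⧸ S) = cj g S := by
      ext x
      rw [mem_stabilizer_iff, mem_cj, eq_comm, mul_assoc, ← QuotientGroup.eq]
      rfl
    have e2 := card_inf_mul_relIndex (cj g S) (C1 z)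
    have e3 : cj g S ⊓ C1 z = cj g (S ⊓ C1 (g⁻¹ * z * g)) := by
      rw [cj_inf, cj_C1]; simp [mul_assoc]
    rw [e3, card_cj, (K1 g m).1, ← e1, show (stabilizer G (g : G ⧸ S)).relIndex (C1 z) =
      (stabilizer (C1 z) (g : G ⧸ S)).index from rfl, index_stabilizer] at e2
    rw [← e2, mul_comm, ← Set.ncard_coe_finset]
    congr 2
    ext q
    obtain ⟨g', rfl⟩ := QuotientGroup.mk_surjective q
    rw [Finset.mem_coe, Finset.mem_filter, h1, h2 g m]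
    constructor
    · rintro ⟨m', e⟩
      rw [h2 g' m'] at e
      obtain ⟨d, hd, e⟩ := (K1 g m).2 _ e
      refine ⟨⟨g' * d * g⁻¹, mem_C1_iff_conj.mpr ?_⟩, QuotientGroup.eq.mpr ?_⟩
      · calc _ = g' * (d * (g⁻¹ * z * g) * d⁻¹) * g'⁻¹ := by group
          _ = z := by rw [e]; simp [mul_assoc]
      · simpa using hd
    · rintro ⟨⟨c, hc⟩, e⟩
      have e : (c * g)⁻¹ * g' ∈ S := QuotientGroup.eq.mp e
      have f : g'⁻¹ * z * g' = ((c * g)⁻¹ * g')⁻¹ * (g⁻¹ * z * g) * ((c * g)⁻¹ * g') := by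
        calc _ = g'⁻¹ * (c * z * c⁻¹) * g' := by rw [mem_C1_iff_conj.mp hc]
          _ = _ := by group
      have m' : g'⁻¹ * z * g' ∈ S := f ▸ mul_mem (mul_mem (inv_mem e) m) e
      refine ⟨m', ?_⟩
      rw [h2 g' m', show (⟨_, m'⟩ : S) = (⟨_, e⟩ : S)⁻¹ * ⟨_, m⟩ * ⟨_, e⟩ from Subtype.ext f,
        map_mul, map_mul, map_inv, inv_mul_cancel_comm]
  have K3 : ∀ v ∈ s.image ψ, (s.filter fun q => ψ q = v).card = Nat.card (C1 z) / 9 :=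
    fun v hv => by rw [← K2 v hv]; simp
  have e1 := Finset.card_eq_sum_card_image ψ s
  have e2 := Finset.prod_comp (s := s) (fun v => v) ψ
  rw [Finset.sum_congr rfl K3, Finset.sum_const, smul_eq_mul] at e1
  rw [h3, Finset.prod_congr rfl fun v hv => by rw [K3 v hv], Finset.prod_pow] at e2
  have nd : ¬ 3 ∣ s.card := fun c => hS.not_dvd_relIndex (by
    rw [relIndex_top_right]; exact (h4.dvd_iff dvd_rfl).mp c)
  have V : ∀ v ∈ s.image ψ, v ≠ 1 ∧ v ^ 3 = 1 ∧ v⁻¹ ∉ s.image ψ := fun v hv => by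
    obtain ⟨q, hq, rfl⟩ := Finset.mem_image.mp hv
    obtain ⟨g, rfl⟩ := QuotientGroup.mk_surjective q
    have m := (h1 g).mp hq
    rw [h2 g m]
    refine ⟨fun e => ?_, ?_, fun e => ?_⟩
    · obtain ⟨d, -, e⟩ := (K1 g m).2 1 (by rw [e, map_one])
      refine z1 ?_
      calc z = g * d⁻¹ * (d * (g⁻¹ * z * g) * d⁻¹) * (g * d⁻¹)⁻¹ := by group
        _ = 1 := by rw [e]; simp
    · rw [← map_pow, ← map_one (QuotientGroup.mk' Q)]
      congr 1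
      refine Subtype.ext ?_
      have := conj_pow (a := g⁻¹) (b := z) (i := 3)
      simpa [z3] using this
    · obtain ⟨q, hq, e⟩ := Finset.mem_image.mp e
      obtain ⟨g', rfl⟩ := QuotientGroup.mk_surjective q
      rw [h2 g' ((h1 g').mp hq), ← map_inv] at e
      obtain ⟨d, -, e⟩ := (K1 g' ((h1 g').mp hq)).2 _ e.symm
      refine nr (g * d * g'⁻¹) ?_
      calc _ = g * (d * (g'⁻¹ * z * g') * d⁻¹) * g⁻¹ := by group
        _ = _ := by rw [e]; simp [mul_assoc]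
  refine nine cA _ V (fun c => nd (e1 ▸ c.mul_right _)) ?_
  refine (pow_eq_one_iff_of_coprime (Nat.prime_three.coprime_iff_not_dvd.mpr
    fun c => nd (e1 ▸ c.mul_left _))).mp ⟨?_, e2.symm⟩
  rw [← Finset.prod_pow]
  exact Finset.prod_eq_one fun v hv => (V v hv).2.1

theorem NR {Γ : Set Ω} (hL : Ln G 3 Γ) (h4 : Γ.ncard ≤ 4)
    (odd : ∀ (g : G) (y : Ω), g • y = y → Odd (orderOf g)) {w c : G} (hw : w ∈ KK G Γ)
    (w1 : w ≠ 1) (w3 : w ^ 3 = 1) (hc : c ∈ C1 w) (c3 : c ^ 3 = 1) (cK : c ∉ KK G Γ) (g : G) :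
    g * w * g⁻¹ ≠ w⁻¹ := fun e => by
  obtain ⟨ρ, h1, h2⟩ := exists_rho (G := G) Γ rfl
  have gM : g ∈ MM G Γ := hL.eq hL hw w1 w3 (e ▸ inv_mem hw)
  have cM : c ∈ MM G Γ := hL.c1 hw w1 w3 hc
  obtain ⟨i, j, k⟩ := s_t1 h4 (ρ ⟨c, cM⟩) (by rw [← map_pow, h1]; simp [c3])
    (fun q => cK ((h1 _).mp q)) (ρ ⟨g, gM⟩)
  rw [← map_inv, ← map_mul, ← map_mul, ← map_pow, ← map_pow, ← map_mul, ← map_mul, h2] at k
  obtain ⟨y, -, hy⟩ := k
  have o := odd _ y hy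
  have c2 : g * c * g⁻¹ ∈ C1 w := by
    rw [← C1_inv, ← e, ← cj_C1]; exact conj_mem_cj.mpr hc
  have c3 := mul_mem (pow_mem c2 j.1) (pow_mem hc i.1)
  simp only [Subgroup.coe_mul, Subgroup.coe_pow, Subgroup.coe_inv] at o
  generalize (g * c * g⁻¹) ^ j.1 * c ^ i.1 = a at c3 o
  have f : a * g * w * (a * g)⁻¹ = w⁻¹ := by
    calc _ = a * (g * w * g⁻¹) * a⁻¹ := by group
      _ = _ := by rw [e, ← mem_C1_iff_conj, C1_inv]; exact c3
  generalize a * g = b at f o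
  have : b ∈ C1 w := mem_of_pow_mem_of_coprime' (n := 2) (Nat.coprime_two_right.mpr o) (by
    rw [mem_C1_iff_conj]
    calc _ = b * (b * w * b⁻¹) * b⁻¹ := by rw [pow_two]; group
      _ = (b * w * b⁻¹)⁻¹ := by nth_rewrite 1 [f]; group
      _ = w := by rw [f, inv_inv])
  rw [mem_C1_iff_conj.mp this] at f
  rw [pow_succ, pow_two, mul_eq_one_iff_eq_inv.mpr f, one_mul] at w3
  exact w1 w3

theorem r3 {Γ : Set Ω} (h4 : Γ.ncard ≤ 4) {X : Subgroup G} (h1 : X ≤ MM G Γ) (h2 : IsPGroup 3 X) :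
    (KK G Γ).relIndex X ≤ 3 :=
  rel_lt (k := 1) Nat.prime_three h1 h2 fun q =>
    absurd (q.trans (Nat.factorial_dvd_factorial h4)) (by decide)

theorem cm3 {Γ : Set Ω} (h4 : Γ.ncard ≤ 4) {X : Subgroup G} (h1 : X ≤ MM G Γ) (h2 : IsPGroup 3 X)
    {a b : G} (ha : a ∈ X) (hb : b ∈ X) : a * b * a⁻¹ * b⁻¹ ∈ KK G Γ := by
  haveI : Fact (Nat.Prime 3) := ⟨Nat.prime_three⟩
  obtain ⟨ρ, k, -⟩ := exists_rho (G := G) Γ rfl
  have r := r3 h4 h1 h2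
  rw [rel_rho ρ k h1] at r
  have : Ab ((X.subgroupOf (MM G Γ)).map ρ) := by
    generalize (X.subgroupOf (MM G Γ)).map ρ = Y at r
    rcases (by have := card_pos Y; omega : Nat.card Y = 1 ∨ Nat.card Y = 2 ∨ Nat.card Y = 3)
      with e | e | e
    · rw [card_eq_one_iff.mp e]; exact ab_bot
    · exact ab_of_isCyclic (isCyclic_of_prime_card' (e ▸ Nat.prime_two))
    · exact ab_of_isCyclic (isCyclic_of_prime_card' (e ▸ Nat.prime_three))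
  have := this.comm (mem_map_of_mem ρ (x := ⟨a, h1 ha⟩) ha) (mem_map_of_mem ρ (x := ⟨b, h1 hb⟩) hb)
  refine (k (⟨a, h1 ha⟩ * ⟨b, h1 hb⟩ * ⟨a, h1 ha⟩⁻¹ * ⟨b, h1 hb⟩⁻¹)).mp ?_
  rw [map_mul, map_mul, map_mul, map_inv, map_inv, this]
  group

theorem tv {Γ Γ' : Set Ω} (hL : Ln G 3 Γ) (hL' : Ln G 3 Γ') (c : Γ.ncard = Γ'.ncard)
    (h4 : Γ.ncard ≤ 4) (ne : Γ ≠ Γ') {z x : G} (hz : z ∈ KK G Γ) (z1 : z ≠ 1) (z3 : z ^ 3 = 1)
    (hx : x ∈ KK G Γ') (x1 : x ≠ 1) (x3 : x ^ 3 = 1) (zx : z * x = x * z) {P : Subgroup G}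
    (hP : IsPGroup 3 P) (PM : P ≤ MM G Γ) (h9 : 9 < Nat.card P) :
    ∃ a, a * z * a⁻¹ = z ∧ a * x * a⁻¹ = z * x := by
  haveI : Fact (Nat.Prime 3) := ⟨Nat.prime_three⟩
  have zx' : zpowers x ≤ C (zpowers z) := by rw [C_zpowers, zpowers_le, mem_C1, zx]
  obtain ⟨R, -, hR, xR, -, -, w, hw, w1, w3, wc⟩ := setup Nat.prime_three hz (orderOf_eq_prime z3 z1)
    (X := zpowers x ⊔ zpowers z) (sup_le (zpowers_le.mpr (hL.c1 hz z1 z3 (mem_C1.mpr zx.symm)))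
      (zpowers_le.mpr (KM Γ hz))) (Nrm.isPGroup_sup (nrm_of_le_C zx') (pg_zp x3) (pg_zp z3))
  have xR' : x ∈ R := xR (mem_sup_left (mem_zpowers x))
  have zR : z ∈ R := xR (mem_sup_right (mem_zpowers z))
  have e1 := semi3 Nat.prime_three hL c ne (Y := KK G Γ ⊓ (R ⊓ C1 x))
    hR.isPGroup.to_inf_left.to_inf_right inf_le_left
    ((inf_le_right.trans inf_le_right).trans (hL'.c1 hx x1 x3))
  have e2 := pow_le_of (k := 1) Nat.prime_three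
    (hR.isPGroup.to_inf_left (K := C1 x)).to_inf_right (lt_of_le_of_lt e1 (by omega))
  have e3 := card_inf_mul_relIndex (KK G Γ) (R ⊓ C1 x)
  have e4 := r3 h4 (X := R ⊓ C1 x) (inf_le_left.trans hR.le) hR.isPGroup.to_inf_left
  have e5 := hR.card_le PM hP
  have k : ∀ b ∈ KK G Γ ⊓ (R ⊓ C1 x), b = 1 ∨ b = z ∨ b = z⁻¹ := fun b hb =>
    eq_of_three e2 ⟨hz, zR, mem_C1.mpr zx⟩ z1 z3 hb
  obtain ⟨a, ha, a1, a2, -⟩ := ex_nrm hR.isPGroup (X := R ⊓ C1 x) (lt_of_le_of_ne inf_le_left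
    fun e => by rw [e] at e3 e4; rw [e] at e2; nlinarith)
  have zc : ∀ g ∈ R, g * z * g⁻¹ = z := fun g hg => by
    rcases k w ⟨hw.2, hw.1, mem_C1.mpr (wc x xR').symm⟩ with e | e | e
    · exact absurd e w1
    · rw [← e, wc g hg]; simp
    · rw [← mem_C1_iff_conj, ← C1_inv, ← e, mem_C1, wc g hg]
  have m : a * x * a⁻¹ * x⁻¹ ∈ R ⊓ C1 x := mul_mem (conj_mem_of_mem_N a2 ⟨xR', self_mem_C1 x⟩)
    (inv_mem ⟨xR', self_mem_C1 x⟩)
  rcases k _ ⟨cm3 h4 hR.le hR.isPGroup ha xR', m⟩ with e | e | e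
  · exact absurd ⟨ha, mem_C1_iff_conj.mpr (mul_inv_eq_one.mp e)⟩ a1
  · exact ⟨a, zc a ha, mul_inv_eq_iff_eq_mul.mp e⟩
  · refine ⟨a⁻¹, zc _ (inv_mem ha), ?_⟩
    calc _ = a⁻¹ * (z * (z⁻¹ * x)) * a := by group
      _ = a⁻¹ * z * a⁻¹⁻¹ * (a⁻¹ * (z⁻¹ * x) * a) := by group
      _ = _ := by rw [zc _ (inv_mem ha), ← mul_inv_eq_iff_eq_mul.mp e]; group

theorem same_ln {p : ℕ} [Fact p.Prime] {Γ : Set Ω} (hL : Ln G p Γ) {S : Subgroup G}
    (hS : SylIn p S ⊤) (SM : S ≤ MM G Γ)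
    (sc : ∀ x ∈ MM G Γ, x ^ p = 1 → ∀ g : G, x ∈ KK G (g • Γ) → x ∈ KK G Γ) {Q : Subgroup G}
    (hQ : IsPGroup p Q) {z g : G} (hz : z ∈ KK G Γ) (z1 : z ≠ 1) (zp : z ^ p = 1) (zQ : z ∈ Q)
    (gQ : g * z * g⁻¹ ∈ Q) : g ∈ MM G Γ := by
  obtain ⟨h, -, e⟩ := hS.exists_le_cj le_top hQ
  have k : ∀ a : G, a * z * a⁻¹ ∈ Q → h⁻¹ * a ∈ MM G Γ := fun a q =>
    hL.eq hL hz z1 zp (sc _ (SM (by simpa [mul_assoc] using mem_cj.mp (e q)))
      (by rw [conj_pow, zp]; simp) (h⁻¹ * a) (cj_KK (h⁻¹ * a) Γ ▸ conj_mem_cj.mpr hz))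
  simpa using mul_mem (inv_mem (k 1 (by simpa using zQ))) (k g gQ)

theorem fuse {p : ℕ} [Fact p.Prime] {Γ : Set Ω} (hL : Ln G p Γ) {S : Subgroup G}
    (hS : SylIn p S ⊤) (SM : S ≤ MM G Γ)
    (sc : ∀ x ∈ MM G Γ, x ^ p = 1 → ∀ g : G, x ∈ KK G (g • Γ) → x ∈ KK G Γ)
    {z x g : G} (hz : z ∈ KK G Γ) (z1 : z ≠ 1) (zp : z ^ p = 1) (h1 : z ∈ C1 x)
    (h2 : z ∈ C1 (g * x * g⁻¹)) : ∃ m ∈ MM G Γ, m * x * m⁻¹ = g * x * g⁻¹ := by
  obtain ⟨Q, q1, q2⟩ := exists_sylIn_ge (zpowers_le.mpr h1) (pg_zp zp)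
  rw [← cj_C1, mem_cj] at h2
  obtain ⟨c, hc, q3⟩ := q2.exists_le_cj (zpowers_le.mpr h2) (pg_zp (p := p) (by
    simpa [zp] using conj_pow (a := g⁻¹) (b := z) (i := p)))
  refine ⟨g * c, inv_mem_iff.mp (same_ln hL hS SM sc q2.isPGroup hz z1 zp (q1 (mem_zpowers z))
    (by simpa [mul_assoc] using mem_cj.mp (q3 (mem_zpowers _)))), ?_⟩
  nth_rewrite 2 [← mem_C1_iff_conj.mp hc]
  group

theorem p3 (hG : _root_.commutator G = ⊤) {Γ : Set Ω} (hL : Ln G 3 Γ) (h4 : Γ.ncard ≤ 4)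
    (ne : MM G Γ ≠ ⊤) {u : G} (hu : u ∈ KK G Γ) (ou : orderOf u = 3)
    (odd : ∀ (g : G) (y : Ω), g • y = y → Odd (orderOf g)) {P : Subgroup G}
    (hP : SylIn 3 P ⊤) : SEp 3 (MM G Γ) ∨ (Nat.card P = 9 ∧ ∀ x ∈ P, x ^ 3 = 1) := by
  haveI : Fact (Nat.Prime 3) := ⟨Nat.prime_three⟩
  by_cases c : ∀ x ∈ MM G Γ, x ^ 3 = 1 → x ∈ KK G Γ
  · exact Or.inl (sep_K Nat.prime_three hL ne hu ou c)
  right
  obtain ⟨x, hx, x3, xK, xt⟩ : ∃ x ∈ MM G Γ, x ^ 3 = 1 ∧ x ∉ KK G Γ ∧ ((∃ g : G, x ∈ KK G (g • Γ)) ∨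
      ∀ x ∈ MM G Γ, x ^ 3 = 1 → ∀ g : G, x ∈ KK G (g • Γ) → x ∈ KK G Γ) := by
    by_cases d : ∀ x ∈ MM G Γ, x ^ 3 = 1 → ∀ g : G, x ∈ KK G (g • Γ) → x ∈ KK G Γ
    · push Not at c
      obtain ⟨x, h1, h2, h3⟩ := c
      exact ⟨x, h1, h2, h3, Or.inr d⟩
    · push Not at d
      obtain ⟨x, h1, h2, g, h3, h4⟩ := d
      exact ⟨x, h1, h2, h4, Or.inl ⟨g, h3⟩⟩
  obtain ⟨R, S, hR, xR, hS, e, z, hz, z1, z3, zc⟩ :=
    setup Nat.prime_three hu ou (zpowers_le.mpr hx) (pg_zp x3)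
  subst e
  replace xR := xR (mem_zpowers x)
  have x1 : x ≠ 1 := fun e => xK (e ▸ one_mem _)
  have zx := zc x xR
  have nr := NR hL h4 odd hz.2 z1 z3 (mem_C1.mpr zx) x3 xK
  by_cases q : S ≤ MM G Γ
  swap
  · exfalso
    obtain ⟨s, s0, s3, -, -, s1, s2⟩ := lt_case Nat.prime_three hL hS.isPGroup q
    have e1 := r3 h4 (s1.trans inf_le_right) (isPGroup_cj hS.isPGroup.to_inf_left s)
    rw [relIndex_of_inf_eq_bot s2, card_cj] at e1
    have e2 := r3 h4 hR.le hR.isPGroup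
    have e3 := card_inf_mul_relIndex (KK G Γ) (S ⊓ MM G Γ)
    rw [inf_left_comm, inf_eq_left.mpr (KM Γ)] at e3
    refine mx3 hG hS ?_ z3 z1 (fun g => ?_) nr
    · have := card_lt_of_lt (lt_of_le_of_ne (inf_le_left : S ⊓ MM G Γ ≤ S)
        fun e => q (inf_eq_left.mp e))
      have := Nat.le_of_dvd (card_pos _) (prime_dvd_card_of_isPGroup Nat.prime_three hR.isPGroup
        fun e => x1 (mem_bot.mp (e ▸ xR)))
      omega
    · have := hR.card_le (X := cj g (S ⊓ C1 (g⁻¹ * z * g))) (by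
        rw [cj_inf, cj_C1]
        exact inf_le_right.trans (by simpa [mul_assoc] using hL.c1 hz.2 z1 z3))
        (isPGroup_cj hS.isPGroup.to_inf_left g)
      rw [card_cj] at this
      nlinarith
  rw [inf_eq_left.mpr q] at *
  rcases xt with ⟨g, hg⟩ | sc
  · have c := (Set.ncard_smul_set g Γ).symm
    have ne : Γ ≠ g • Γ := fun e => xK (e ▸ hg)
    by_cases h9 : 9 < Nat.card S
    · exfalso
      obtain ⟨a, a1, a2⟩ := tv hL (hL.smul g) c h4 ne hz.2 z1 z3 hg x1 x3 zx.symm hS.isPGroup q h9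
      obtain ⟨b, b1, b2⟩ := tv (hL.smul g) hL c.symm (c ▸ h4) ne.symm (inv_mem hg)
        (inv_ne_one.mpr x1) (by rw [inv_pow, x3, inv_one]) hz.2 z1 z3
        (mem_C1.mp (inv_mem (mem_C1.mpr zx))) (isPGroup_cj hS.isPGroup g)
        (cj_MM g Γ ▸ cj_mono q) (by rwa [card_cj])
      have b3 : b * x * b⁻¹ = x := by rw [← inv_inj, ← b1]; group
      have w1 : a * b * a * z * (a * b * a)⁻¹ = x⁻¹ := by
        calc _ = a * (b * (a * z * a⁻¹) * b⁻¹) * a⁻¹ := by group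
          _ = (a * x * a⁻¹)⁻¹ * (a * z * a⁻¹) := by nth_rewrite 1 [a1]; rw [b2]; group
          _ = _ := by rw [a1, a2]; group
      have w2 : a * b * a * x * (a * b * a)⁻¹ = z := by
        calc _ = a * (b * (a * x * a⁻¹) * b⁻¹) * a⁻¹ := by group
          _ = a * ((b * z * b⁻¹) * (b * x * b⁻¹)) * a⁻¹ := by rw [a2]; group
          _ = _ := by rw [b2, b3, mul_assoc x⁻¹, ← zx, inv_mul_cancel_left, a1]
      refine nr (a * b * a * (a * b * a)) ?_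
      generalize a * b * a = w at w1 w2
      calc _ = w * (w * z * w⁻¹) * w⁻¹ := by group
        _ = _ := by rw [w1, ← w2]; group
    · have zx' : zpowers x ≤ C (zpowers z) := by rw [C_zpowers, zpowers_le, mem_C1, zx]
      have cE := card_sup_of_inf_eq_bot (Or.inl (nrm_of_le_C zx')) (by
        rw [inf_comm, eq_bot_iff, ← (hL.smul g).inf Nat.prime_three hL ne.symm (pg_zp x3)
          (zpowers_le.mpr hg)]
        exact inf_le_inf_right _ (zpowers_le.mpr hz.2))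
      rw [Nat.card_zpowers, Nat.card_zpowers, orderOf_eq_prime x3 x1, orderOf_eq_prime z3 z1] at cE
      have e := eq_of_le_of_card_le (sup_le (zpowers_le.mpr xR) (zpowers_le.mpr hz.1)) (by omega)
      obtain ⟨h, -, rfl⟩ := hS.conj hP
      refine ⟨by rw [card_cj, ← e, cE], fun y hy => ?_⟩
      obtain ⟨y, hy', rfl⟩ := mem_cj'.mp hy
      obtain ⟨_, ⟨i, rfl⟩, _, ⟨j, rfl⟩, rfl⟩ := (mem_sup_nrm (nrm_of_le_C zx')).mp (e.ge hy')
      have cm : Commute (x ^ i) (z ^ j) := Commute.zpow_zpow zx i j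
      rw [conj_pow, cm.mul_pow, ← zpow_natCast, ← zpow_natCast, ← zpow_mul, ← zpow_mul,
        mul_comm i, mul_comm j, zpow_mul, zpow_mul, zpow_natCast, zpow_natCast, x3, z3]
      simp
  · exfalso
    obtain ⟨ρ, k1, k2⟩ := exists_rho (G := G) Γ rfl
    have r := r3 h4 q hS.isPGroup
    rw [rel_rho ρ k1 q] at r
    have t1 : ρ ⟨x, hx⟩ ≠ 1 := fun e => xK ((k1 _).mp e)
    have t3 : ρ ⟨x, hx⟩ ^ 3 = 1 := by rw [← map_pow, k1]; simp [x3]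
    refine xK (tr_const hG hS x3 ((KK G Γ).subgroupOf S) (commutator_le.mpr fun a _ b _ =>
      cm3 h4 q hS.isPGroup a.2 b.2) ⟨x, xR⟩ fun y ⟨g, e⟩ => ?_)
    rcases eq_of_three r (mem_map_of_mem ρ (x := ⟨x, hx⟩) xR) t1 t3
      (mem_map_of_mem ρ (x := ⟨y, q y.2⟩) y.2) with f | f | f
    · refine absurd (sc x hx x3 g⁻¹ ?_) xK
      rw [← cj_KK, mem_cj, inv_inv, e]
      exact (k1 _).mp f
    · exact (k1 (⟨x, hx⟩⁻¹ * ⟨y, q y.2⟩)).mp (by rw [map_mul, map_inv, f, inv_mul_cancel])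
    · obtain ⟨m, hm, e'⟩ := fuse hL hS q sc hz.2 z1 z3 (mem_C1.mpr zx.symm) (g := g)
        (e ▸ mem_C1.mpr (zc y y.2).symm)
      obtain ⟨s1, s2, s3⟩ := s_t2 h4 _ t3 t1 (ρ ⟨m, hm⟩) (by
        rw [← f, ← map_inv, ← map_mul, ← map_mul]
        exact congrArg ρ (Subtype.ext (e'.trans e)))
      obtain ⟨w, -, hw⟩ := (k2 _).mp s3
      rw [← map_mul, k1] at s1
      exact absurd ((k1 _).mpr (mem_of_pow_mem_of_coprime' (n := 2)
        (Nat.coprime_two_right.mpr (odd _ w hw)) (by rwa [pow_two]))) s2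

end CfsgH2.Fx
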