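import Cfsg.Agent.H2.FxE
import Cfsg.Agent.H2.FxH
import Cfsg.Agent.H2.FxJ

/-! Involutions with four fixed points. -/

set_option autoImplicit false
set_option linter.style.haveILetI false
set_option linter.unusedSectionVars false

namespace CfsgH2.Fx
open Subgroup CfsgH5 CfsgH6 CfsgFT MulAction Equiv
open scoped Pointwise

universe u
variable {G : Type u} [Group G] [Finite G] {Ω : Type*} [MulAction G Ω] [Finite Ω]

theorem r8 {Γ : Set Ω} (h4 : Γ.ncard = 4) {X : Subgroup G} (h1 : X ≤ MM G Γ) (h2 : IsPGroup 2 X) :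
    (KK G Γ).relIndex X ≤ 8 :=
  rel_lt (k := 3) Nat.prime_two h1 h2 (by rw [h4]; decide)

theorem r4 {Γ : Set Ω} (h4 : Γ.ncard = 4) {X : Subgroup G} (h1 : X ≤ MM G Γ)
    (h2 : ∀ a ∈ X, ∀ b ∈ X, a * b * a⁻¹ * b⁻¹ ∈ KK G Γ) : (KK G Γ).relIndex X ≤ 4 := by
  obtain ⟨ρ, k, -⟩ := exists_rho (G := G) Γ h4
  rw [rel_rho ρ k h1]
  by_contra c
  refine c (s4_abel (ab_iff.mpr ?_) (by omega) (one_mem _)).2
  rintro _ ⟨a, ha, rfl⟩ _ ⟨b, hb, rfl⟩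
  have := (k (a * b * a⁻¹ * b⁻¹)).mpr (h2 _ ha _ hb)
  rwa [map_mul, map_mul, map_mul, map_inv, map_inv, mul_inv_eq_one, mul_inv_eq_iff_eq_mul] at this

theorem r4' {Γ : Set Ω} (h4 : Γ.ncard = 4) {X : Subgroup G} (h1 : X ≤ MM G Γ) (h2 : Ab X) :
    (KK G Γ).relIndex X ≤ 4 :=
  r4 h4 h1 fun a ha b hb => by rw [h2.comm ha hb]; simp

theorem card_sub_of (X S : Subgroup G) : Nat.card (X.subgroupOf S) = Nat.card ↥(X ⊓ S) := by
  rw [← subgroupOf_map_subtype, card_map_of_injective (subtype_injective S)]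

theorem ab_map_sub {S : Subgroup G} {Y : Subgroup S} (h : Ab Y) : Ab (Y.map S.subtype) := by
  rw [ab_iff]
  rintro _ ⟨a, ha, rfl⟩ _ ⟨b, hb, rfl⟩
  rw [← map_mul, h.comm ha hb, map_mul]

variable (G) in
/-- nontrivial elements fixing the set pointwise fix nothing else. -/
def Lz (Γ : Set Ω) : Prop := ∀ k ∈ KK G Γ, k ≠ 1 → fixedBy Ω k = Γ

theorem Lz.ln {Γ : Set Ω} (h : Lz G Γ) (p : ℕ) : Ln G p Γ := fun k hk k1 _ => h k hk k1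

theorem lz_of {Γ : Set Ω} (fix : ∀ g : G, g ≠ 1 → (fixedBy Ω g).ncard ≤ 4) (h4 : Γ.ncard = 4) :
    Lz G Γ := fun k hk k1 =>
  (Set.eq_of_subset_of_ncard_le (mem_KK'.mp hk) (h4 ▸ fix k k1)).symm

theorem Lz.eq {Γ Γ' : Set Ω} (h : Lz G Γ) (h' : Lz G Γ') {k g : G} (hk : k ∈ KK G Γ)
    (k1 : k ≠ 1) (e : g * k * g⁻¹ ∈ KK G Γ') : g • Γ = Γ' :=
  (h.ln 0).eq (h'.ln 0) hk k1 (pow_zero k) e

theorem Lz.c1 {Γ : Set Ω} (h : Lz G Γ) {k : G} (hk : k ∈ KK G Γ) (k1 : k ≠ 1) : C1 k ≤ MM G Γ :=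
  (h.ln 0).c1 hk k1 (pow_zero k)

theorem Lz.one {Γ Γ' : Set Ω} (h : Lz G Γ) (h' : Lz G Γ') (ne : Γ ≠ Γ') {k : G} (hk : k ∈ KK G Γ)
    (hk' : k ∈ KK G Γ') : k = 1 := by
  by_contra c
  exact ne ((h k hk c).symm.trans (h' k hk' c))

theorem Lz.semi {Γ Z : Set Ω} (h : Lz G Γ) {Y : Subgroup G} (h1 : Y ≤ KK G Γ) (h2 : Y ≤ MM G Z)
    {z : Ω} (hz : z ∈ Z) (zΓ : z ∉ Γ) : Nat.card Y ≤ (Z \ Γ).ncard := by
  have e : stabilizer G z ⊓ Y = ⊥ := eq_bot_iff.mpr fun k hk => by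
    by_contra c
    refine zΓ ?_
    rw [← h k (h1 hk.2) c]
    exact hk.1
  rw [← relIndex_of_inf_eq_bot e, show (stabilizer G z).relIndex Y = (stabilizer Y z).index from rfl,
    index_stabilizer]
  refine Set.ncard_le_ncard ?_ (Set.toFinite _)
  rintro _ ⟨y, rfl⟩
  refine ⟨smul_mem_MM (h2 y.2) hz, fun q => zΓ ?_⟩
  have := mem_KK.mp (h1 (inv_mem y.2)) _ q
  change (y : G)⁻¹ • (y : G) • z = _ at this
  rw [inv_smul_smul] at this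
  exact this ▸ q

theorem Lz.four {Γ Γ' : Set Ω} (h : Lz G Γ) (c : Γ.ncard = 4) (c' : Γ'.ncard = 4) (ne : Γ ≠ Γ') :
    Nat.card ↥(KK G Γ ⊓ MM G Γ') ≤ 4 := by
  obtain ⟨z, hz, zΓ⟩ : ∃ z ∈ Γ', z ∉ Γ := by
    by_contra q
    push Not at q
    exact ne (Set.eq_of_subset_of_ncard_le q (by omega)).symm
  exact (h.semi inf_le_left inf_le_right hz zΓ).trans
    (c' ▸ Set.ncard_le_ncard Set.sdiff_subset (Set.toFinite _))

theorem caseA (hG : _root_.commutator G = ⊤) {Γ : Set Ω} (hL : Lz G Γ) (h4 : Γ.ncard = 4)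
    {t : G} (ht : t ∈ KK G Γ) (t1 : t ≠ 1) (tt : t * t = 1) {S : Subgroup G} (hS : SylIn 2 S ⊤)
    (tS : t ∈ S) (h : ∀ Y ≤ KK G Γ, IsPGroup 2 Y → Nat.card Y ≤ 2) : SR 4 S ⊥ := by
  haveI : Fact (Nat.Prime 2) := ⟨Nat.prime_two⟩
  by_contra c
  have k : ∀ (g : G) (Y : Subgroup G), IsPGroup 2 Y → Y ≤ C1 (g * t * g⁻¹) →
      Nat.card Y ≤ 16 ∧ (Ab Y → Nat.card Y ≤ 8) := fun g Y h1 h2 => by
    have h3 : cj g⁻¹ Y ≤ MM G Γ := by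
      rw [← le_cj_iff]; exact h2.trans (cj_C1 g t ▸ cj_mono (hL.c1 ht t1))
    have h5 := isPGroup_cj h1 g⁻¹
    have e1 := card_inf_mul_relIndex (KK G Γ) (cj g⁻¹ Y)
    have e2 := h _ inf_le_left (h5.to_inf_right (H := KK G Γ))
    rw [card_cj] at e1
    exact ⟨by have := r8 h4 h3 h5; nlinarith, fun a => by have := r4' h4 h3 (a.cjj _); nlinarith⟩
  refine TT.false (T := {x : S | ∃ g, g * t * g⁻¹ = x}) ⟨hS.isPGroup, ⟨⟨t, tS⟩, 1, by simp⟩, ?_, ?_,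
    ?_, ?_, ?_, fun S0 h0 u hu => tr_const hG hS (by rw [pow_two, tt]) S0 h0 u hu,
    fun e => c e.sub⟩
  · rintro x ⟨g, e⟩
    refine Subtype.ext ?_
    rw [Subgroup.coe_mul, ← e, conj_mul, tt]; simp
  · rintro x ⟨g, e⟩ rfl
    exact t1 (by simpa using e)
  · rintro x ⟨g, e⟩ a
    exact ⟨a * g, by simp [← e, mul_assoc]⟩
  · rintro ⟨x, hx⟩ ⟨g, rfl⟩
    rw [card_C1_sub]
    exact (k g _ hS.isPGroup.to_inf_left inf_le_right).1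
  · rintro ⟨x, hx⟩ ⟨g, rfl⟩ Y hY m
    have a := ab_map_sub hY
    rw [← card_map_of_injective (subtype_injective S)]
    exact (k g _ (hS.isPGroup.to_le (map_subtype_le Y))
      (a.trans (C_le_C1 (mem_map_of_mem S.subtype m)))).2 a

theorem caseB {Γ : Set Ω} (hL : Lz G Γ) (h4 : Γ.ncard = 4) {S : Subgroup G} (hS : IsPGroup 2 S)
    (q : ¬ S ≤ MM G Γ) (h : 2 < Nat.card ↥(KK G Γ ⊓ S)) : SR 4 S ⊥ := by
  obtain ⟨s, s0, s1, s2, s3, s4, -⟩ := lt_case Nat.prime_two (hL.ln 2) hS q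
  have e1 : Nat.card ↥(KK G Γ ⊓ S) ≤ 4 := by
    have := semi3 Nat.prime_two ((hL.ln 2).smul s) (Set.ncard_smul_set s Γ) s1
      (isPGroup_cj hS.to_inf_left s) (cj_KK s Γ ▸ cj_mono inf_le_right) (s4.trans inf_le_right)
    rwa [card_cj, Set.ncard_smul_set, h4, inf_comm] at this
  have e2 : Nat.card ((KK G Γ).subgroupOf S) = 4 := le_antisymm (card_sub_of _ S ▸ e1)
    (pow_up (k := 1) (pow_card hS _) (card_sub_of _ S ▸ h))
  have ti : ∀ u ∈ (KK G Γ).subgroupOf S, u ≠ 1 → ∀ g : S, g * u * g⁻¹ ∈ (KK G Γ).subgroupOf S →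
      (g : G) ∈ MM G Γ := fun u hu u1 g e => hL.eq hL hu (fun e => u1 (Subtype.ext e)) e
  have e3 : N ((KK G Γ).subgroupOf S) = (MM G Γ).subgroupOf S := by
    refine le_antisymm (fun g hg => ?_) fun g hg => mem_N_of_conj fun x hx => nKM Γ _ hg _ hx
    obtain ⟨u, hu, u1⟩ := ((KK G Γ).subgroupOf S).bot_or_exists_ne_one.resolve_left
      (one_lt_card.mp (by omega))
    exact ti u hu u1 g (conj_mem_of_mem_N hg hu)
  refine (A1.sr (U := (KK G Γ).subgroupOf S) (s := ⟨s, s0⟩) ⟨hS, e2, ?_, ?_, ?_, ?_, ?_, ?_⟩).sub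
  all_goals rw [e3]
  · exact ti
  · have := card_inf_mul_relIndex (KK G Γ) (MM G Γ ⊓ S)
    rw [← inf_assoc, inf_eq_left.mpr (KM Γ)] at this
    have := r8 h4 (X := MM G Γ ⊓ S) inf_le_left hS.to_inf_right
    rw [card_sub_of]
    nlinarith
  · intro Z h1 h2
    rw [subgroupOf, relIndex_comap]
    exact r4' h4 (map_le_iff_le_comap.mpr h1) (ab_map_sub h2)
  · exact mem_N_of_conj fun x hx => (conj_mem_of_mem_N s2 ⟨x.2, hx⟩).2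
  · exact s1
  · exact (pow_two s ▸ s3 : s * s ∈ MM G Γ)

theorem caseC {Γ : Set Ω} (h4 : Γ.ncard = 4) {S : Subgroup G} (hS : IsPGroup 2 S)
    (q : S ≤ MM G Γ) (h : SR 2 (KK G Γ ⊓ S) ⊥) : SR 4 S ⊥ := by
  refine SR.add (a := 2) (b := 2) h ?_ (((nKM Γ).mono q).inf (Nrm.self S)) bot_le inf_le_right
  have : SR 2 (⊤ : Subgroup S) ((KK G Γ).subgroupOf S) := by
    by_contra c
    obtain ⟨e1, e2⟩ := sq_of_not_sr hS (by rw [relIndex_top_right]; exact r8 h4 q hS) c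
    rw [relIndex_top_right] at e2
    have := r4 h4 q fun a ha b hb => comm_mem e1 (mem_top (⟨a, ha⟩ : S)) (mem_top (⟨b, hb⟩ : S))
    change (KK G Γ).relIndex S = _ at e2
    omega
  have := this.map S.subtype le_top
  rwa [← MonoidHom.range_eq_map, range_subtype, subgroupOf_map_subtype] at this

variable (G) in
/-- the main configuration. -/
structure F4 (Γ : Set Ω) : Prop where
  hG : _root_.commutator G = ⊤
  fix : ∀ g : G, g ≠ 1 → (fixedBy Ω g).ncard ≤ 4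
  c4 : Γ.ncard = 4
  sy : ∀ R, SylIn 2 R (MM G Γ) → SylIn 2 R ⊤
  nsr : ∀ R, SylIn 2 R (MM G Γ) → ¬ SR 2 (KK G Γ ⊓ R) ⊥

namespace F4
variable {Γ : Set Ω} (h : F4 G Γ)
include h

theorem lz : Lz G Γ := lz_of h.fix h.c4

theorem smul (g : G) : F4 G (g • Γ) := by
  have k : ∀ R, SylIn 2 R (MM G (g • Γ)) → SylIn 2 (cj g⁻¹ R) (MM G Γ) := fun R hR => by
    have := hR.cjj g⁻¹
    rwa [← cj_MM, cj_inv_cj] at this
  refine ⟨h.hG, h.fix, by rw [Set.ncard_smul_set, h.c4], fun R hR => ?_, fun R hR c => ?_⟩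
  · have := (h.sy _ (k R hR)).cjj g
    rwa [cj_cj_inv, cj_top] at this
  · have := c.cjj g⁻¹
    rw [cj_inf, ← cj_KK, cj_inv_cj, cj_bot] at this
    exact h.nsr _ (k R hR) this

theorem H1 {x : G} (hx : x ∈ MM G Γ) (xx : x * x = 1) (xK : x ∉ KK G Γ) :
    ∃ Y ≤ KK G Γ ⊓ C1 x, IsPGroup 2 Y ∧ 4 ≤ Nat.card Y := by
  haveI : Fact (Nat.Prime 2) := ⟨Nat.prime_two⟩
  obtain ⟨R, h1, hR⟩ := exists_sylIn_ge (zpowers_le.mpr hx) (pg_zp (p := 2) (by rw [pow_two, xx]))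
  have pY := (hR.isPGroup.to_inf_left (K := C1 x)).to_inf_right (H := KK G Γ)
  refine ⟨KK G Γ ⊓ (R ⊓ C1 x), inf_le_inf_left _ inf_le_right, pY, ?_⟩
  refine pow_up (k := 1) (IsPGroup.iff_card.mp pY) (lt_of_not_ge fun c => h.nsr R hR ?_)
  have l : (KK G Γ ⊓ R) ⊔ zpowers x ≤ R := sup_le inf_le_right h1
  refine (mc_sub (hR.isPGroup.to_le l) (mem_sup_right (mem_zpowers x)) xx
    (fun e => xK (e ▸ one_mem _)) ?_).mono le_sup_left le_rfl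
  have e1 := card_inf_mul_relIndex (KK G Γ) (((KK G Γ ⊓ R) ⊔ zpowers x) ⊓ C1 x)
  have e2 := card_le_of_le (inf_le_inf_left (KK G Γ) (inf_le_inf_right (C1 x) l))
  have e3 := rel_le_right (KK G Γ) (inf_le_left : ((KK G Γ ⊓ R) ⊔ zpowers x) ⊓ C1 x ≤ _)
  have e4 := rel_le_left ((KK G Γ ⊓ R) ⊔ zpowers x) (inf_le_left : KK G Γ ⊓ R ≤ _)
  rw [relIndex_sup (Or.inr ((((nKM Γ).mono hR.le).inf (Nrm.self R)).mono h1))] at e4
  have e5 := rel_le_card (KK G Γ ⊓ R) (zpowers x)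
  have e6 := card_zp2 xx
  nlinarith

theorem sub {x : G} (hx : x ∈ MM G Γ) (xx : x * x = 1) (xK : x ∉ KK G Γ)
    (c : (fixedBy Ω x \ Γ).ncard ≤ 3) : fixedBy Ω x ⊆ Γ := fun z hz => by
  by_contra q
  obtain ⟨Y, h1, -, h3⟩ := h.H1 hx xx xK
  have := h.lz.semi (h1.trans inf_le_left) ((h1.trans inf_le_right).trans (C1_le_MM x)) hz q
  omega

theorem b0 {x : G} (hx : x ∈ MM G Γ) (xx : x * x = 1) (xK : x ∉ KK G Γ) {y : Ω} (hy : y ∈ Γ) :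
    x • y ≠ y := fun e => by
  haveI : Fact (Nat.Prime 2) := ⟨Nat.prime_two⟩
  have x1 : x ≠ 1 := fun e => xK (e ▸ one_mem _)
  have e1 := h.sub hx xx xK (by
    have := Set.ncard_lt_ncard (s := fixedBy Ω x \ Γ) (t := fixedBy Ω x)
      ⟨Set.sdiff_subset, fun q => (q e).2 hy⟩ (Set.toFinite _)
    have := h.fix x x1
    omega)
  have e2 := Set.ncard_lt_ncard (lt_of_le_of_ne e1 fun q => xK (mem_KK'.mpr q.ge)) (Set.toFinite _)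
  obtain ⟨R, h1, hR⟩ := exists_sylIn_ge (zpowers_le.mpr hx) (pg_zp (p := 2) (by rw [pow_two, xx]))
  obtain ⟨ρ, k1, k2⟩ := exists_rho (G := G) Γ h.c4
  have mem : ∀ a (ha : a ∈ MM G Γ), a ∈ (Perm.sign.comp ρ).ker.map (MM G Γ).subtype ↔
      Perm.sign (ρ ⟨a, ha⟩) = 1 := fun a ha =>
    mem_map_iff_mem (f := (MM G Γ).subtype) (x := ⟨a, ha⟩) (subtype_injective _)
  obtain ⟨g, g1, g2⟩ := thom h.hG (h.sy R hR) (S0 := (Perm.sign.comp ρ).ker.map (MM G Γ).subtype)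
    (fun a ha b hb a1 b1 => by
      rw [mem a (hR.le ha)] at a1
      rw [mem b (hR.le hb)] at b1
      rw [mem _ (hR.le (mul_mem ha hb))]
      change Perm.sign (ρ (⟨a, hR.le ha⟩ * ⟨b, hR.le hb⟩)) = 1
      rw [map_mul, map_mul, (Int.units_eq_one_or _).resolve_left a1,
        (Int.units_eq_one_or _).resolve_left b1]
      simp) (h1 (mem_zpowers x)) xx
  have e3 : (fixedBy Ω (g * x * g⁻¹)).ncard < Γ.ncard := by
    rwa [← smul_fixedBy, Set.ncard_smul_set]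
  have gK : g * x * g⁻¹ ∉ KK G Γ := fun q => by
    rw [h.lz _ q (by simpa using x1)] at e3
    omega
  have gg : g * x * g⁻¹ * (g * x * g⁻¹) = 1 := by rw [conj_mul, xx]; simp
  have m : g • y ∈ fixedBy Ω (g * x * g⁻¹) := by
    rw [← smul_fixedBy]; exact Set.smul_mem_smul_set e
  obtain ⟨i, hi⟩ := (k2 ⟨_, hR.le g1⟩).mpr ⟨_, h.sub (hR.le g1) gg gK (by
    have := Set.ncard_le_ncard (s := fixedBy Ω (g * x * g⁻¹) \ Γ) Set.sdiff_subset (Set.toFinite _)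
    have := h.c4
    omega) m, m⟩
  exact gK ((k1 ⟨_, hR.le g1⟩).mp (s4_s _ (by
    rw [← map_mul, k1]; exact (gg ▸ one_mem _ : g * x * g⁻¹ * (g * x * g⁻¹) ∈ KK G Γ))
    ((mem _ _).mp g2) i hi))

theorem four {Γ' : Set Ω} (h' : F4 G Γ') (ne : Γ ≠ Γ') {x : G} (hx : x ∈ MM G Γ) (xx : x * x = 1)
    (x1 : x ≠ 1) (xK : x ∈ KK G Γ') :
    Nat.card ↥(KK G Γ ⊓ MM G Γ') = 4 ∧ IsPGroup 2 ↥(KK G Γ ⊓ MM G Γ') := by
  obtain ⟨Y, h1, h2, h3⟩ := h.H1 hx xx fun q => x1 (h.lz.one h'.lz ne q xK)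
  have e := h.lz.four h.c4 h'.c4 ne
  have := eq_of_le_of_card_le (h1.trans (inf_le_inf_left _ (h'.lz.c1 xK x1))) (by omega)
  exact ⟨le_antisymm e (this ▸ h3), this ▸ h2⟩

theorem caseD {Γ' : Set Ω} (h' : F4 G Γ') (ne : Γ ≠ Γ') {x : G} (hx : x ∈ MM G Γ) (xx : x * x = 1)
    (x1 : x ≠ 1) (xK : x ∈ KK G Γ') : ∃ S, SylIn 2 S (⊤ : Subgroup G) ∧ SR 4 S ⊥ := by
  haveI : Fact (Nat.Prime 2) := ⟨Nat.prime_two⟩
  obtain ⟨cA, pA⟩ := h.four h' ne hx xx x1 xK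
  obtain ⟨z, hz, oz⟩ := exists_mem_orderOf_eq (X := KK G Γ ⊓ MM G Γ') Nat.prime_two
    (by rw [cA]; decide)
  obtain ⟨cA', pA'⟩ := h'.four h ne.symm hz.2 (by rw [← pow_two, ← oz, pow_orderOf_eq_one])
    (fun e => by simp [e] at oz) hz.1
  have n1 : Nrm (KK G Γ' ⊓ MM G Γ) (KK G Γ ⊓ MM G Γ') :=
    ((nKM Γ).mono inf_le_right).inf (Nrm.of_le (inf_le_left.trans (KM Γ')))
  have n2 : Nrm (KK G Γ ⊓ MM G Γ') (KK G Γ' ⊓ MM G Γ) :=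
    ((nKM Γ').mono inf_le_right).inf (Nrm.of_le (inf_le_left.trans (KM Γ)))
  have cm := le_C_of_inf_eq_bot n1 n2 (eq_bot_iff.mpr fun a ha => h.lz.one h'.lz ne ha.2.1 ha.1.1)
  obtain ⟨S, h1, hS⟩ := exists_sylIn_ge (sup_le inf_le_right (inf_le_left.trans (KM Γ)))
    (Nrm.isPGroup_sup n1 pA' pA)
  obtain ⟨s1, s2⟩ := sup_le_iff.mp h1
  refine ⟨S, h.sy S hS, SR.sub ?_⟩
  haveI : ((KK G Γ).subgroupOf S).Normal := ((nKM Γ).mono hS.le).normal_subgroupOf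
  obtain ⟨ρ, k1, k2⟩ := exists_rho (G := G) Γ h.c4
  let σ := ρ.comp (inclusion hS.le)
  have k3 : ∀ a : S, σ a = 1 ↔ a ∈ (KK G Γ).subgroupOf S := fun a => k1 _
  have k4 : ∀ a : S, a * a = 1 → a ∉ (KK G Γ).subgroupOf S → ∀ i, σ a i ≠ i := fun a aa aK i e => by
    obtain ⟨y, hy, q⟩ := (k2 _).mp ⟨i, e⟩
    exact h.b0 (hS.le a.2) (congrArg Subtype.val aa) aK hy q
  have k5 : ∀ a b : S, b ∈ (KK G Γ' ⊓ MM G Γ).subgroupOf S → σ a = σ b →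
      a ∈ (KK G Γ).subgroupOf S ⊔ (KK G Γ' ⊓ MM G Γ).subgroupOf S := fun a b hb e => by
    simpa using mul_mem (mem_sup_left ((k3 (a * b⁻¹)).mp (by rw [map_mul, map_inv, e]; simp)))
      (mem_sup_right hb)
  have i : ∀ a ∈ (KK G Γ' ⊓ MM G Γ).subgroupOf S, σ a = 1 → a = 1 := fun a ha e =>
    Subtype.ext (h.lz.one h'.lz ne ((k3 a).mp e) ha.1)
  have c' : Nat.card ((KK G Γ' ⊓ MM G Γ).subgroupOf S) = 4 := by
    rw [card_sub_of, inf_eq_left.mpr s1, cA']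
  refine B2.sr (U := (KK G Γ).subgroupOf S) (A := (KK G Γ ⊓ MM G Γ').subgroupOf S)
    (A' := (KK G Γ' ⊓ MM G Γ).subgroupOf S) ⟨hS.isPGroup, fun a ha => ha.1,
      by rw [card_sub_of, inf_eq_left.mpr s2, cA], c',
      eq_bot_iff.mpr fun a ha => i a ha.2 ((k3 a).mpr ha.1),
      le_C_iff.mpr fun a ha b hb => Subtype.ext (le_C_iff.mp cm _ ha _ hb),
      fun a ha a1 u hu e => ⟨hu, h'.lz.c1 ha.1 (fun q => a1 (Subtype.ext q))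
        (mem_C1.mpr (congrArg Subtype.val e))⟩, ?_, fun c => h.nsr S hS ?_, fun el y yy => ?_,
      fun y hy => ?_⟩
  · have := card_inf_mul_relIndex (KK G Γ) S
    have := r8 h.c4 hS.le hS.isPGroup
    rw [card_sub_of]
    nlinarith
  · have := c.map S.subtype (by rw [ker_subtype]; exact bot_le)
    rwa [subgroupOf_map_subtype, Subgroup.map_bot] at this
  · by_cases yK : y ∈ (KK G Γ).subgroupOf S
    · exact mem_sup_left yK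
    obtain ⟨a, ha, a1, b, hb, b1, ab⟩ : ∃ a ∈ (KK G Γ' ⊓ MM G Γ).subgroupOf S, a ≠ 1 ∧
        ∃ b ∈ (KK G Γ' ⊓ MM G Γ).subgroupOf S, b ≠ 1 ∧ a ≠ b := by
      obtain ⟨a, ha, a1⟩ := ((KK G Γ' ⊓ MM G Γ).subgroupOf S).bot_or_exists_ne_one.resolve_left
        (one_lt_card.mp (by omega))
      by_contra c
      push Not at c
      have := card_le_two_of (z := a) fun b hb => or_iff_not_imp_left.mpr fun b1 =>
        (c a ha a1 b hb b1).symm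
      omega
    have sq : ∀ a : S, a * a = 1 → σ a * σ a = 1 := fun a e => by rw [← map_mul, e, map_one]
    rcases s4_v (σ a) (sq a (el a ha)) (k4 a (el a ha) fun q => a1 (i a ha ((k3 a).mpr q)))
      (σ b) (sq b (el b hb)) (k4 b (el b hb) fun q => b1 (i b hb ((k3 b).mpr q)))
      (fun e => ab (mul_inv_eq_one.mp (i _ (mul_mem ha (inv_mem hb))
        (by rw [map_mul, map_inv, e]; simp)))) (σ y) (sq y yy) (k4 y yy yK) with e | e | e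
    exacts [k5 y a ha e, k5 y b hb e, k5 y _ (mul_mem ha hb) (by rw [e, map_mul])]
  · by_contra c
    push Not at c
    obtain ⟨⟨b, hb, e⟩, -⟩ := s4_abel (Z := ((KK G Γ' ⊓ MM G Γ).subgroupOf S).map σ) (c := σ y)
      (ab_iff.mpr (by
        rintro _ ⟨a, ha, rfl⟩ _ ⟨b, hb, rfl⟩
        rw [← map_mul, (ab_four c').comm ha hb, map_mul]))
      (by rw [← relIndex_ker, relIndex_of_inf_eq_bot (X := σ.ker)
        (eq_bot_iff.mpr fun a ha => i a ha.2 ha.1), c'])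
      (mem_C.mpr (by
        rintro _ ⟨a, ha, rfl⟩
        have := (k3 _).mpr (c a ha)
        rw [map_mul, map_mul, map_mul, map_inv, map_inv, mul_inv_eq_one,
          mul_inv_eq_iff_eq_mul] at this
        exact this.symm))
    exact hy (k5 y b hb e.symm)

variable (sc : ∀ x ∈ MM G Γ, x * x = 1 → ∀ g : G, x ∈ KK G (g • Γ) → x ∈ KK G Γ)
include sc

omit h in
theorem sc_smul (g : G) : ∀ x ∈ MM G (g • Γ), x * x = 1 → ∀ a : G, x ∈ KK G (a • Γ) →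
    x ∈ KK G (g • Γ) := fun x hx xx a e => by
  rw [← cj_MM] at hx
  rw [← cj_KK]
  obtain ⟨y, hy, rfl⟩ := mem_cj'.mp hx
  refine conj_mem_cj.mpr (sc y hy (by simpa [conj_mul] using xx) (g⁻¹ * a) ?_)
  rw [mul_smul, ← cj_KK, mem_cj]
  simpa [mul_assoc] using e

theorem swap {g : G} (ne : Γ ≠ g • Γ) {z y : G} (hz : z ∈ KK G Γ) (zz : z * z = 1) (z1 : z ≠ 1)
    (hy : y ∈ KK G (g • Γ)) (yy : y * y = 1) (y1 : y ≠ 1) : ∃ s, s * z * s⁻¹ = y ∧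
      s • Γ = g • Γ ∧ s • g • Γ = Γ ∧ ∀ H : Subgroup G, z ∈ H → y ∈ H → s ∈ H := by
  have h' := h.smul g
  rcases dih zz yy with ⟨s, s1, s2, s3⟩ | ⟨w, w1, ww, wz, wy, ⟨a, ha⟩, ⟨b, hb⟩⟩
  · exact ⟨s, s1, h.lz.eq h'.lz hz z1 (s1 ▸ hy), h'.lz.eq h.lz hy y1 (s2 ▸ hz), s3⟩
  exfalso
  have k : ∀ v a, v = a * z * a⁻¹ ∨ v = a * y * a⁻¹ → v * v = 1 ∧ ∃ c : G, v ∈ KK G (c • Γ) := by
    rintro _ a (rfl | rfl)
    · exact ⟨by rw [conj_mul, zz]; simp, a, cj_KK a Γ ▸ conj_mem_cj.mpr hz⟩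
    · exact ⟨by rw [conj_mul, yy]; simp, a * g, by
        rw [mul_smul, ← cj_KK]; exact conj_mem_cj.mpr hy⟩
  obtain ⟨e1, c, e2⟩ := k _ a ha
  obtain ⟨e3, d, e4⟩ := k _ b hb
  refine w1 (h.lz.one h'.lz ne ((mul_mem_cancel_right hz).mp (sc _ (mul_mem
    (h.lz.c1 hz z1 (mem_C1.mpr wz)) (KM Γ hz)) e1 c e2)) ((mul_mem_cancel_right hy).mp
    (sc_smul sc g _ (mul_mem (h'.lz.c1 hy y1 (mem_C1.mpr wy)) (KM _ hy)) e3 d e4)))

theorem trans {g : G} (ne : Γ ≠ g • Γ) {z z' y : G} (hz : z ∈ KK G Γ) (zz : z * z = 1) (z1 : z ≠ 1)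
    (hz' : z' ∈ KK G Γ) (zz' : z' * z' = 1) (z1' : z' ≠ 1)
    (hy : y ∈ KK G (g • Γ)) (yy : y * y = 1) (y1 : y ≠ 1) : ∃ d ∈ MM G Γ ⊓ MM G (g • Γ),
      d * z * d⁻¹ = z' ∧ ∀ H : Subgroup G, z ∈ H → z' ∈ H → y ∈ H → d ∈ H := by
  obtain ⟨s, s1, s2, s3, s4⟩ := h.swap sc ne hz zz z1 hy yy y1
  obtain ⟨r, r1, r2, r3, r4⟩ := h.swap sc ne hz' zz' z1' hy yy y1
  refine ⟨r⁻¹ * s, ⟨?_, ?_⟩, ?_, fun H a b c => mul_mem (inv_mem (r4 H b c)) (s4 H a c)⟩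
  · change (r⁻¹ * s) • Γ = Γ
    rw [mul_smul, s2, inv_smul_eq_iff, r2]
  · change (r⁻¹ * s) • g • Γ = g • Γ
    rw [mul_smul, s3, inv_smul_eq_iff, r3]
  · calc _ = r⁻¹ * (s * z * s⁻¹) * r := by group
      _ = _ := by rw [s1, ← r1]; group

theorem uniq {g : G} (ne : Γ ≠ g • Γ) {x : G} (hx : x ∈ MM G Γ) (hx' : x ∈ MM G (g • Γ))
    (xx : x * x = 1) (x1 : x ≠ 1) {z z' : G} (hz : z ∈ KK G Γ) (zz : z * z = 1) (z1 : z ≠ 1)
    (hz' : z' ∈ KK G Γ) (zz' : z' * z' = 1) (z1' : z' ≠ 1) (c : z ∈ C1 x) (c' : z' ∈ C1 x) :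
    z = z' := by
  haveI : Fact (Nat.Prime 2) := ⟨Nat.prime_two⟩
  have h' := h.smul g
  have xK : x ∉ KK G Γ := fun q =>
    x1 (h.lz.one h'.lz ne q (sc_smul sc g x hx' xx 1 (by rwa [one_smul])))
  have xK' : x ∉ KK G (g • Γ) := fun q => xK (sc x hx xx g q)
  obtain ⟨Y, y1, y2, y3⟩ := h'.H1 hx' xx xK'
  obtain ⟨y, hy, oy⟩ := exists_mem_orderOf_eq Nat.prime_two
    (prime_dvd_card_of_isPGroup Nat.prime_two y2 (one_lt_card.mp (by omega)))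
  have k : ∀ Δ : Set Ω, Δ.ncard = 4 → x ∈ MM G Δ → x ∉ KK G Δ → ∀ d ∈ MM G Δ, d ∈ C1 x →
      d ^ 4 ∈ KK G Δ := fun Δ c4 m1 m2 d m3 m4 => by
    obtain ⟨ρ, k1, -⟩ := exists_rho (G := G) Δ c4
    refine (k1 (⟨d, m3⟩ ^ 4)).mp ?_
    rw [map_pow]
    refine s4_c (ρ ⟨x, m1⟩) (by rw [← map_mul, k1]; exact (xx ▸ one_mem _ : x * x ∈ KK G Δ))
      (fun e => m2 ((k1 _).mp e)) _ ?_
    rw [← map_mul, ← map_mul]
    exact congrArg ρ (Subtype.ext (mem_C1.mp m4))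
  have pD : IsPGroup 2 ↥(MM G Γ ⊓ MM G (g • Γ) ⊓ C1 x) := fun d => ⟨2, Subtype.ext
    (h.lz.one h'.lz ne (k _ h.c4 hx xK _ d.2.1.1 d.2.2) (k _ h'.c4 hx' xK' _ d.2.1.2 d.2.2))⟩
  obtain ⟨Q, q1, hQ⟩ := exists_sylIn_ge (H := MM G Γ ⊓ C1 x) (inf_le_inf_right _ inf_le_left) pD
  have n : Nrm (MM G Γ ⊓ C1 x) (KK G Γ ⊓ C1 x) :=
    ((nKM Γ).mono inf_le_left).inf (Nrm.of_le inf_le_right)
  obtain ⟨w, hw, w1, ww, wc⟩ := ex_fix Nat.prime_two hQ.isPGroup.to_inf_left hQ.isPGroup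
    ((Nrm.self Q).inf (n.mono hQ.le)) ((hQ.inf_nrm (inf_le_inf_right _ (KM Γ)) n).ne_bot
      Nat.prime_two (orderOf_eq_prime (by rw [pow_two, zz]) z1 ▸
        orderOf_dvd_card' (X := KK G Γ ⊓ C1 x) ⟨hz, c⟩))
  have f : ∀ v ∈ KK G Γ, v * v = 1 → v ≠ 1 → v ∈ C1 x → v = w := fun v v1 v2 v3 v4 => by
    obtain ⟨d, d1, d2, d3⟩ := h.trans sc ne hw.2.1 (pow_two w ▸ ww) w1 v1 v2 v3 (y1 hy).1
      (by rw [← pow_two, ← oy, pow_orderOf_eq_one]) (fun e => by simp [e] at oy)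
    rw [← d2, wc d (q1 ⟨d1, d3 _ hw.2.2 v4 (y1 hy).2⟩)]
    simp
  rw [f z hz zz z1 c, f z' hz' zz' z1' c']

theorem dk {g : G} (ne : Γ ≠ g • Γ) {x : G} (hx : x ∈ MM G Γ) (hx' : x ∈ MM G (g • Γ))
    (xx : x * x = 1) (xK : x ∉ KK G Γ) : KK G (g • Γ) ⊓ (MM G Γ ⊓ MM G (g • Γ)) = ⊥ := by
  haveI : Fact (Nat.Prime 2) := ⟨Nat.prime_two⟩
  have h' := h.smul g
  obtain ⟨ρ, k1, k2⟩ := exists_rho (G := G) Γ h.c4
  have o : ∀ l ∈ KK G (g • Γ), ∀ hl : l ∈ MM G Γ, ρ ⟨l, hl⟩ ^ 3 = 1 := fun l h1 h2 => by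
    refine s4_odd (Odd.of_dvd_nat ?_ (orderOf_map_dvd ρ _))
    rw [← Nat.not_even_iff_odd, even_iff_two_dvd, orderOf_mk, ← Nat.card_zpowers]
    intro c
    obtain ⟨v, hv, ov⟩ := exists_mem_orderOf_eq Nat.prime_two c
    have v1 := zpowers_le.mpr h1 hv
    have := h.lz.one h'.lz ne (sc v (zpowers_le.mpr h2 hv)
      (by rw [← pow_two, ← ov, pow_orderOf_eq_one]) g v1) v1
    simp [this] at ov
  refine eq_bot_iff.mpr fun l ⟨h1, h2, h3⟩ => ?_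
  by_contra l1
  refine s4_l (ρ ⟨l, h2⟩) (o l h1 h2) (fun e => l1 (h.lz.one h'.lz ne ((k1 _).mp e) h1)) (ρ ⟨x, hx⟩)
    (by rw [← map_mul, k1]; exact (xx ▸ one_mem _ : x * x ∈ KK G Γ)) (fun i e => ?_) ?_
  · obtain ⟨y, hy, q⟩ := (k2 _).mp ⟨i, e⟩
    exact h.b0 hx xx xK hy q
  · rw [← map_inv, ← map_inv, ← map_mul, ← map_mul, ← map_mul]
    exact o _ (mul_mem (inv_mem h1) (nKM _ x hx' l h1)) _

theorem caseE (ne : MM G Γ ≠ ⊤) {t : G} (ht : t ∈ KK G Γ) (ot : orderOf t = 2) :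
    SEp 2 (MM G Γ) := by
  haveI : Fact (Nat.Prime 2) := ⟨Nat.prime_two⟩
  refine sep_of Nat.prime_two ne (KM Γ ht) ot fun g x hx hx' x1 xx => ?_
  by_contra ne
  replace ne : Γ ≠ g • Γ := fun e => ne e.symm
  rw [cj_MM] at hx'
  rw [pow_two] at xx
  have h' := h.smul g
  have xK : x ∉ KK G Γ := fun q =>
    x1 (h.lz.one h'.lz ne q (sc_smul sc g x hx' xx 1 (by rwa [one_smul])))
  obtain ⟨Q, q1, hQ⟩ := exists_sylIn_ge (H := MM G Γ ⊓ MM G (g • Γ)) (zpowers_le.mpr ⟨hx, hx'⟩)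
    (pg_zp (p := 2) (by rw [pow_two, xx]))
  obtain ⟨R, -, hR, q2, -, -, z, hz, z1, zz, zc⟩ := setup Nat.prime_two ht ot
    (hQ.le.trans inf_le_left) hQ.isPGroup
  rw [pow_two] at zz
  have e1 : (C1 z).relIndex (MM G Γ ⊓ MM G (g • Γ)) ≤ 3 := by
    have d1 := rel_dvd (inf_le_right : MM G Γ ⊓ MM G (g • Γ) ≤ _)
    rw [relIndex_of_inf_eq_bot (h.dk sc ne hx hx' xx xK), h'.c4] at d1
    have d2 := (relIndex_dvd_card' (C1 z) _).trans d1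
    have d3 : ¬ 2 ∣ (C1 z).relIndex (MM G Γ ⊓ MM G (g • Γ)) := fun c => hQ.not_dvd_relIndex
      (c.trans (relIndex_dvd_of_le_left _ fun a ha => mem_C1.mpr (zc a (q2 ha))))
    exact Nat.le_of_dvd (by norm_num) ((Nat.Coprime.pow_right 3
      (Nat.prime_two.coprime_iff_not_dvd.mpr d3).symm).dvd_of_dvd_mul_left
        (show _ ∣ 2 ^ 3 * 3 from d2))
  obtain ⟨v, hv, vv, v1, vz⟩ : ∃ v ∈ KK G Γ ⊓ R, v * v = 1 ∧ v ≠ 1 ∧ v ≠ z := by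
    by_contra c
    push Not at c
    refine h.nsr R hR (sr_two_of_no hR.isPGroup.to_inf_right ?_).sub
    rintro ⟨a, b, k⟩
    refine k.vz (Subtype.ext ?_)
    rw [c a a.2 (congrArg Subtype.val k.zz) fun e => k.z1 (Subtype.ext e),
      c b b.2 (congrArg Subtype.val k.vv) fun e => k.v1 (Subtype.ext e)]
  have zv := zc v hv.2
  have e2 : ∀ w ∈ KK G Γ, w * w = 1 → w ≠ 1 → w = z ∨ w = v ∨ w = v * z := by
    have k : ∀ w ∈ KK G Γ, w * w = 1 → w ≠ 1 →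
        w ∈ {y | ∃ d ∈ MM G Γ ⊓ MM G (g • Γ), d * z * d⁻¹ = y} := fun w h1 h2 h3 => by
      obtain ⟨d, d1, d2, -⟩ := h.trans sc ne hz.2 zz z1 h1 h2 h3 (y := g * z * g⁻¹)
        (cj_KK g Γ ▸ conj_mem_cj.mpr hz.2) (by rw [conj_mul, zz]; simp) (by simpa using z1)
      exact ⟨d, d1, d2⟩
    have s : ({z, v, v * z} : Set G) ⊆ {y | ∃ d ∈ MM G Γ ⊓ MM G (g • Γ), d * z * d⁻¹ = y} := by
      rintro _ (rfl | rfl | rfl)
      · exact k _ hz.2 zz z1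
      · exact k _ hv.1 vv v1
      · refine k _ (mul_mem hv.1 hz.2) ?_ fun e => vz ?_
        · rw [mul_assoc, ← mul_assoc z, ← zv, mul_assoc, zz, mul_one, vv]
        · rw [eq_inv_of_mul_eq_one_left e, inv_self zz]
    rw [rel_C1] at e1
    have := Set.eq_of_subset_of_ncard_le s (e1.trans (by
      rw [Set.ncard_insert_of_notMem (by simp [vz.symm, v1]), Set.ncard_pair (by simp [z1])]))
    exact fun w h1 h2 h3 => this.ge (k w h1 h2 h3)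
  have e3 : ∀ a ∈ R, a ∉ C1 v → a * v * a⁻¹ = v * z := fun a ha q => by
    rcases e2 _ (nKM Γ a (hR.le ha) v hv.1) (by rw [conj_mul, vv]; simp) (by simpa using v1)
      with e | e | e
    · refine absurd ?_ vz
      calc v = a⁻¹ * (a * v * a⁻¹) * a := by group
        _ = z := by rw [e, mul_assoc, ← zc a ha]; simp
    · exact absurd (mem_C1_iff_conj.mpr e) q
    · exact e
  obtain ⟨a, a1, a2⟩ := thom h.hG (h.sy R hR) (S0 := C1 v) (fun a ha b hb a1 b1 => by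
    rw [mem_C1_iff_conj]
    calc _ = a * (b * v * b⁻¹) * a⁻¹ := by group
      _ = a * v * a⁻¹ * (a * z * a⁻¹) := by rw [e3 b hb b1]; group
      _ = v := by rw [e3 a ha a1, zc a ha, mul_inv_cancel_right, mul_assoc, zz, mul_one])
    (q2 (q1 (mem_zpowers x))) xx
  obtain ⟨b, b1, b2⟩ : ∃ b : G, Γ ≠ b • Γ ∧ a * x * a⁻¹ ∈ MM G (b • Γ) := by
    by_cases c : Γ = a • Γ
    · refine ⟨a * g, fun e => ne ?_, by rw [mul_smul, ← cj_MM]; exact conj_mem_cj.mpr hx'⟩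
      rw [mul_smul] at e
      exact smul_left_cancel a (c.symm.trans e)
    · exact ⟨a, c, cj_MM a Γ ▸ conj_mem_cj.mpr hx⟩
  exact vz (h.uniq sc b1 (hR.le a1) b2 (by rw [conj_mul, xx]; simp) (by simpa using x1)
    hv.1 vv v1 hz.2 zz z1 (mem_C1_comm.mp a2) (mem_C1.mpr (zc _ a1).symm))

end F4

theorem f4 (hG : _root_.commutator G = ⊤) (fix : ∀ g : G, g ≠ 1 → (fixedBy Ω g).ncard ≤ 4)
    {Γ : Set Ω} (h4 : Γ.ncard = 4) (ne : MM G Γ ≠ ⊤) {t : G} (ht : t ∈ KK G Γ)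
    (ot : orderOf t = 2) : SEp 2 (MM G Γ) ∨ Cfsg.SectionalPRankLE 2 4 G := by
  haveI : Fact (Nat.Prime 2) := ⟨Nat.prime_two⟩
  have hL := lz_of fix h4
  have tt : t ^ 2 = 1 := ot ▸ pow_orderOf_eq_one t
  obtain ⟨R, S, hR, tR, hS, e, -⟩ := setup Nat.prime_two ht ot (zpowers_le.mpr (KM Γ ht)) (pg_zp tt)
  subst e
  by_cases c : Nat.card ↥(KK G Γ ⊓ S) ≤ 2
  · refine Or.inr (sect_of_sr hS (caseA hG hL h4 ht (fun e => by simp [e] at ot) (pow_two t ▸ tt) hS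
      (tR (mem_zpowers t)).1 fun Y h1 h2 => le_trans ?_ c))
    have := (hR.inf_nrm (KM Γ) (nKM Γ)).card_le h1 h2
    rwa [inf_assoc, inf_eq_right.mpr (KM Γ), inf_comm] at this
  by_cases q : S ≤ MM G Γ
  swap
  · exact Or.inr (sect_of_sr hS (caseB hL h4 hS.isPGroup q (by omega)))
  rw [inf_eq_left.mpr q] at hR
  have sy : ∀ R, SylIn 2 R (MM G Γ) → SylIn 2 R ⊤ := fun R h =>
    hS.of_card_le le_top h.isPGroup (hR.card_eq h).le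
  by_cases d : ∃ R, SylIn 2 R (MM G Γ) ∧ SR 2 (KK G Γ ⊓ R) ⊥
  · obtain ⟨R, h1, h2⟩ := d
    exact Or.inr (sect_of_sr (sy R h1) (caseC h4 h1.isPGroup h1.le h2))
  have h : F4 G Γ := ⟨hG, fix, h4, sy, fun R h1 h2 => d ⟨R, h1, h2⟩⟩
  by_cases sc : ∀ x ∈ MM G Γ, x * x = 1 → ∀ g : G, x ∈ KK G (g • Γ) → x ∈ KK G Γ
  · exact Or.inl (h.caseE sc ne ht ot)
  push Not at sc
  obtain ⟨x, h1, h2, g, h3, h5⟩ := sc
  obtain ⟨S, h6, h7⟩ := h.caseD (h.smul g) (fun e => h5 (e ▸ h3)) h1 h2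
    (fun e => h5 (e ▸ one_mem _)) h3
  exact Or.inr (sect_of_sr h6 h7)

end CfsgH2.Fx
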