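import Cfsg.Agent.H2.SpecPSL2
import Cfsg.Agent.H8.Count2
import Cfsg.Agent.H3.PGL2Rec

/-!
# Frobenius' theorem for Hall divisors; counting in sharply 3-transitive groups
-/

set_option autoImplicit false
set_option linter.style.haveILetI false

namespace CfsgH2

open Subgroup CfsgH3 CfsgH8 MulAction

universe u in
theorem frob_hall {n m : ℕ} (hco : n.Coprime m) (N : ℕ) : ∀ (G : Type u) [Group G] [Finite G],
    Nat.card G = N → N ∣ n * m → Nat.gcd n N ∣ Nat.card {g : G // g ^ n = 1} := by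
  induction N using Nat.strong_induction_on with
  | _ N ih =>
  intro G _ _ hn hk
  obtain ⟨e, he1, he2⟩ := Nat.chineseRemainder hco 0 1
  have hG : ∀ g : G, g ^ (n * m) = 1 := fun g =>
    orderOf_dvd_iff_pow_eq_one.1 ((orderOf_dvd_natCard g).trans (hn ▸ hk))
  have he1' : n ∣ e := (Nat.modEq_zero_iff_dvd).1 he1
  have h1 : ∀ g : G, (g ^ e) ^ m = 1 := fun g => by
    obtain ⟨c, rfl⟩ := he1'
    rw [← pow_mul, mul_right_comm, pow_mul, hG, one_pow]
  have h2 : ∀ y : G, y ^ m = 1 → y ^ e = y := fun y hy => by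
    rw [pow_eq_pow_of_modEq he2 hy, pow_one]
  have h3 : ∀ x : G, x ^ n = 1 → x ^ e = 1 := by
    intro x hj
    obtain ⟨c, rfl⟩ := he1'
    rw [pow_mul, hj, one_pow]
  have h4 : ∀ y : G, y ^ m = 1 → Nat.card {g : G // g ^ e = y} =
      Nat.card {x : centralizer ({y} : Set G) // x ^ n = 1} := by
    intro y hy
    refine Nat.card_congr ⟨fun g => ⟨⟨g.1 * y⁻¹, ?_⟩, Subtype.ext ?_⟩,
      fun x => ⟨x.1.1 * y, ?_⟩, fun g => by simp, fun x => by simp⟩
    · obtain ⟨g, rfl⟩ := g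
      rw [mem_centralizer_singleton_iff]
      exact ((Commute.self_pow _ _).mul_left (Commute.refl _).inv_left).eq
    · obtain ⟨g, rfl⟩ := g
      have hc : Commute g (g ^ e)⁻¹ := (Commute.self_pow _ _).inv_right
      change (g * (g ^ e)⁻¹) ^ n = 1
      rw [hc.mul_pow, inv_pow, mul_inv_eq_one, ← pow_mul]
      refine pow_eq_pow_of_modEq ?_ (hG _)
      have := he2.symm.mul_left' (c := n)
      rwa [mul_one, mul_comm _ e] at this
    · have hc : Commute x.1.1 y := mem_centralizer_singleton_iff.1 x.1.2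
      rw [hc.mul_pow, h2 y hy, h3 _ (congrArg Subtype.val x.2), one_mul]
  have h5 : Nat.gcd n N ∣ Nat.card {g : G // ¬ g ^ e ∈ center G} := by
    refine dvd_card_of_fibers (fun g : {g : G // ¬ g ^ e ∈ center G} =>
      ConjClasses.mk (g.1 ^ e)) fun c => ?_
    rcases isEmpty_or_nonempty {g : {g : G // ¬ g ^ e ∈ center G} //
      ConjClasses.mk (g.1 ^ e) = c} with h0 | ⟨⟨x⟩⟩
    · simp
    obtain ⟨y, hy⟩ : ∃ y, y = x.1.1 ^ e := ⟨_, rfl⟩
    have hyc : y ∉ center G := hy ▸ x.1.2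
    have h6 : Nat.card {g : {g : G // ¬ g ^ e ∈ center G} // ConjClasses.mk (g.1 ^ e) = c} =
        Nat.card {g : G // IsConj y g} * Nat.card {g : G // g ^ e = y} := by
      refine card_eq_of_fibers (fun g => ⟨g.1.1 ^ e, by
        rw [← ConjClasses.mk_eq_mk_iff_isConj, hy, x.2, g.2]⟩) ?_
      rintro ⟨y', hy'⟩
      obtain ⟨t, rfl⟩ := isConj_iff.1 hy'
      refine Nat.card_congr ⟨fun g => ⟨t⁻¹ * g.1.1.1 * t, ?_⟩,
        fun g => ⟨⟨⟨t * g.1 * t⁻¹, ?_⟩, ?_⟩, Subtype.ext ?_⟩, fun g => by simp [mul_assoc],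
        fun g => by simp [mul_assoc]⟩
      · have h7 : g.1.1.1 ^ e = t * y * t⁻¹ := congrArg Subtype.val g.2
        have h8 := conj_pow (a := t⁻¹) (b := g.1.1.1) (i := e)
        rw [inv_inv] at h8
        rw [h8, h7]; group
      · rw [conj_pow, g.2]
        intro h7
        apply hyc
        have := (inferInstance : (center G).Normal).conj_mem _ h7 t⁻¹
        simpa [mul_assoc] using this
      · change ConjClasses.mk ((t * g.1 * t⁻¹) ^ e) = c
        rw [conj_pow, g.2, ← x.2, ← hy, ConjClasses.mk_eq_mk_iff_isConj]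
        exact hy'.symm
      · change (t * g.1 * t⁻¹) ^ e = _
        rw [conj_pow, g.2]
    rw [h6, card_isConj_eq, h4 y (hy ▸ h1 _)]
    have h7 := (centralizer ({y} : Set G)).index_mul_card
    rw [hn] at h7
    have h8 : Nat.card (centralizer ({y} : Set G)) < N := by
      rw [← hn]
      refine lt_of_le_of_ne (card_le_card_group _) fun h => hyc ?_
      have := eq_top_of_card_eq _ h
      rw [mem_center_iff]
      intro g
      exact mem_centralizer_singleton_iff.1 (this ▸ mem_top g)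
    have h9 := ih _ h8 _ rfl ((Dvd.intro_left _ h7).trans hk)
    rw [← h7]
    exact (Nat.gcd_mul_right_dvd_mul_gcd _ _ _).trans (Nat.mul_dvd_mul (Nat.gcd_dvd_right _ _) h9)
  have h6 : Nat.card {g : G // g ^ e ∈ center G} =
      Nat.card {y : center G // y ^ m = 1} * Nat.card {g : G // g ^ n = 1} := by
    refine card_eq_of_fibers (fun g => ⟨⟨g.1 ^ e, g.2⟩, Subtype.ext (h1 _)⟩) ?_
    rintro ⟨⟨y, hy⟩, hy'⟩
    have hy'' : y ^ m = 1 := congrArg Subtype.val hy'
    have h7 : ∀ g : G, g ∈ centralizer ({y} : Set G) := fun g =>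
      mem_centralizer_singleton_iff.2 (mem_center_iff.1 hy g)
    refine Eq.trans ?_ ((h4 y hy'').trans ?_)
    · exact Nat.card_congr ⟨fun g => ⟨g.1.1, congrArg (fun z => z.1.1) g.2⟩,
        fun g => ⟨⟨g.1, g.2.symm ▸ hy⟩, Subtype.ext (Subtype.ext g.2)⟩, fun _ => rfl, fun _ => rfl⟩
    · exact Nat.card_congr ⟨fun g => ⟨g.1.1, congrArg Subtype.val g.2⟩,
        fun g => ⟨⟨g.1, h7 _⟩, Subtype.ext g.2⟩, fun _ => rfl, fun _ => rfl⟩
  have h7 := card_add_card_not fun g : G => g ^ e ∈ center G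
  rw [hn, h6] at h7
  have h8 : Nat.gcd n N ∣ Nat.card {y : center G // y ^ m = 1} *
      Nat.card {g : G // g ^ n = 1} := (Nat.dvd_add_left h5).1 (h7 ▸ Nat.gcd_dvd_right _ _)
  refine Nat.Coprime.dvd_of_dvd_mul_left ?_ h8
  refine Nat.Coprime.coprime_dvd_left (Nat.gcd_dvd_left _ _) (Nat.coprime_of_dvd fun p hp h9 h10 => ?_)
  have := Fact.mk hp
  let Z : Subgroup (center G) :=
    { carrier := {y | y ^ m = 1}
      one_mem' := one_pow m
      mul_mem' := fun {x y} hx hy => by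
        have hc : Commute x y := Subtype.ext (mem_center_iff.1 y.2 x)
        change (x * y) ^ m = 1
        rw [hc.mul_pow, hx, hy, one_mul]
      inv_mem' := fun {x} hx => by
        change x⁻¹ ^ m = 1
        rw [inv_pow, hx, inv_one] }
  obtain ⟨y, hy⟩ := exists_prime_orderOf_dvd_card' (G := Z) p h10
  have h11 : p ∣ m := by
    rw [← hy, ← orderOf_coe, orderOf_dvd_iff_pow_eq_one]
    exact y.2
  exact hp.one_lt.ne' (Nat.dvd_one.1 (hco ▸ Nat.dvd_gcd h9 h11))

theorem mul_self_of_orderOf_two {G : Type*} [Group G] {g : G} (h : orderOf g = 2) : g * g = 1 := by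
  rw [← pow_two, ← h, pow_orderOf_eq_one]

/-- a sharply 3-transitive action on `q + 1` points, `q` odd -/
structure S3T (G Ω : Type*) [Group G] [MulAction G Ω] (q : ℕ) : Prop where
  zt : Zt G Ω
  odd : Odd q
  lt : 1 < q
  cΩ : Nat.card Ω = q + 1
  cG : Nat.card G = (q + 1) * (q * (q - 1))

namespace S3T

variable {G Ω : Type*} [Group G] [Finite G] [Finite Ω] [MulAction G Ω] {q : ℕ} (S : S3T G Ω q)
include S

theorem card_st2 {a b : Ω} (hab : a ≠ b) : Nat.card (st2 G a b) = q - 1 := by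
  have h := Zt_card S.zt hab
  rw [S.cG, S.cΩ, Nat.add_sub_cancel] at h
  have := S.lt
  exact (Nat.eq_of_mul_eq_mul_left (by omega) (Nat.eq_of_mul_eq_mul_left (by omega) h)).symm

omit [Finite G] in
theorem exists_ne' (a : Ω) : ∃ b, b ≠ a := by
  haveI : Nontrivial Ω := Finite.one_lt_card_iff_nontrivial.mp (by have := S.cΩ; have := S.lt; omega)
  exact exists_ne a

theorem card_K (a : Ω) : Nat.card (S.zt.K a) = q := by
  obtain ⟨b, hb⟩ := S.exists_ne' a
  have := S.zt.card_K hb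
  have := S.cΩ
  omega

omit [Finite G] in
theorem card_ne (a : Ω) : Nat.card {b // b ≠ a} = q := by
  have h := card_add_card_not fun b : Ω => b = a
  rw [S.cΩ, Nat.card_unique] at h
  have : Nat.card {b // b ≠ a} = Nat.card {b // ¬ b = a} := rfl
  omega

theorem exists_invol {a b : Ω} (hab : a ≠ b) : ∃ j ∈ st2 G a b, j ≠ 1 ∧ j * j = 1 :=
  exists_invol_of_even (by
    rw [S.card_st2 hab]
    exact Nat.Odd.sub_odd S.odd odd_one)

theorem invol_unique {a b : Ω} (hab : a ≠ b) {i j : G} (hi : i ∈ st2 G a b) (hj : j ∈ st2 G a b)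
    (i1 : i ≠ 1) (i2 : i * i = 1) (j1 : j ≠ 1) (j2 : j * j = 1) : i = j := by
  by_contra hne
  have hm := mul_mem hi hj
  obtain ⟨⟨k, hk⟩, k1⟩ := ne_bot_iff_exists_ne_one.mp
    ((one_lt_card_iff_ne_bot (S.zt.K a)).mp (by rw [S.card_K]; exact S.lt))
  refine k1 (Subtype.ext (S.zt.eq_one_of_commute (x := i * j) hm.1 (S.zt.not_mem_K hab.symm hm.2
    fun e => hne ?_) hk ?_))
  · exact (eq_inv_of_mul_eq_one_left e).trans (eq_inv_of_mul_eq_one_left j2).symm
  · have e1 := S.zt.invol_inverts_K hab.symm j1 j2 hj.1 hj.2 hk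
    have e2 := S.zt.invol_inverts_K hab.symm i1 i2 hi.1 hi.2 (inv_mem hk)
    calc i * j * k = i * (j * k * j) * i * (i * j) := by
          rw [show i * (j * k * j) * i * (i * j) = i * j * k * (j * (i * i) * j) by group, i2,
            mul_one, j2, mul_one]
      _ = _ := by rw [e1, e2, inv_inv]

theorem card_fix_invol (a : Ω) : Nat.card {g : {g : G // orderOf g = 2} // g.1 • a = a} = q := by
  rw [← S.card_ne a]
  have h1 : ∀ b : {b // b ≠ a}, ∃ j ∈ st2 G a b, j ≠ 1 ∧ j * j = 1 := fun b =>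
    S.exists_invol b.2.symm
  choose φ hφ φ1 φ2 using h1
  refine (Nat.card_congr (Equiv.ofBijective (fun b : {b // b ≠ a} => (⟨⟨φ b,
    orderOf_eq_prime (by rw [pow_two, φ2]) (φ1 b)⟩, (hφ b).1⟩ :
      {g : {g : G // orderOf g = 2} // g.1 • a = a})) ⟨fun b c e => ?_, fun g => ?_⟩)).symm
  · have e1 : φ b = φ c := congrArg (fun x => x.1.1) e
    by_contra hbc
    exact φ1 b (S.zt.three _ a b c b.2.symm (fun e => hbc (Subtype.ext e)) c.2.symm (hφ b).1
      (hφ b).2 (e1 ▸ (hφ c).2))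
  · obtain ⟨⟨g, hg⟩, ha⟩ := g
    have h1 : g ∉ S.zt.K a := fun h => by
      have := orderOf_dvd_natCard _ h
      rw [hg, S.card_K] at this
      exact (Nat.not_even_iff_odd.2 S.odd) (even_iff_two_dvd.2 this)
    obtain ⟨g1, b, hb, hgb⟩ := S.zt.exists_fix_of_not_mem_K ha h1
    refine ⟨⟨b, hb⟩, Subtype.ext (Subtype.ext ?_)⟩
    exact S.invol_unique hb.symm (hφ ⟨b, hb⟩) ⟨ha, hgb⟩ (φ1 _) (φ2 _) g1
      (mul_self_of_orderOf_two hg)

theorem card_swap (a : Ω) : Nat.card {t : G // t • a ≠ a ∧ t • t • a = a} = q * (q - 1) := by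
  rw [← S.card_ne a]
  refine (card_eq_of_fibers (fun t : {t : G // t • a ≠ a ∧ t • t • a = a} =>
    (⟨t.1 • a, t.2.1⟩ : {b // b ≠ a})) ?_).trans (by rw [S.card_ne])
  rintro ⟨b, hb⟩
  obtain ⟨t, h1, h2⟩ := S.zt.two hb.symm hb
  rw [← S.card_st2 hb.symm]
  refine Nat.card_congr ⟨fun s => ⟨t⁻¹ * s.1.1, ?_, ?_⟩, fun h => ⟨⟨t * h.1, ?_, ?_⟩,
    Subtype.ext ?_⟩, fun s => by simp, fun h => by simp⟩
  · have e : s.1.1 • a = b := congrArg Subtype.val s.2
    change (t⁻¹ * s.1.1) • a = a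
    rw [mul_smul, e, inv_smul_eq_iff, h1]
  · have e : s.1.1 • a = b := congrArg Subtype.val s.2
    change (t⁻¹ * s.1.1) • b = b
    have e' := s.1.2.2
    rw [e] at e'
    rw [mul_smul, inv_smul_eq_iff, h2, e']
  · rw [mul_smul, h.2.1, h1]; exact hb
  · rw [mul_smul t h.1 a, h.2.1, h1, mul_smul, h.2.2, h2]
  · change (t * h.1) • a = b
    rw [mul_smul, h.2.1, h1]

theorem nord_two_iff (a : Ω) :
    nord G 2 = q ^ 2 ↔ ∀ t : G, t • a ≠ a → t • t • a = a → t * t = 1 := by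
  have h1 := card_add_card_not fun g : {g : G // orderOf g = 2} => g.1 • a = a
  rw [S.card_fix_invol] at h1
  have h2 := S.card_swap a
  let f : {g : {g : G // orderOf g = 2} // ¬ g.1 • a = a} → {t : G // t • a ≠ a ∧ t • t • a = a} :=
    fun g => ⟨g.1.1, g.2, by rw [← mul_smul, mul_self_of_orderOf_two g.1.2, one_smul]⟩
  have hf : Function.Injective f := fun g g' e =>
    Subtype.ext (Subtype.ext (congrArg (fun x : {t : G // t • a ≠ a ∧ t • t • a = a} => x.1) e))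
  have hq : q ^ 2 = q + q * (q - 1) := by
    obtain ⟨r, rfl⟩ : ∃ r, q = r + 1 := ⟨q - 1, by have := S.lt; omega⟩
    rw [Nat.add_sub_cancel]; ring
  rw [nord, ← h1, hq, ← h2, add_right_inj]
  refine ⟨fun h t h3 h4 => ?_, fun h => Nat.card_congr (Equiv.ofBijective f ⟨hf, fun t => ?_⟩)⟩
  · obtain ⟨g, hg⟩ := (hf.bijective_of_nat_card_le h.ge).2 ⟨t, h3, h4⟩
    rw [← show g.1.1 = t from congrArg Subtype.val hg]
    exact mul_self_of_orderOf_two g.1.2
  · refine ⟨⟨⟨t.1, orderOf_eq_prime (by rw [pow_two, h _ t.2.1 t.2.2]) fun e => t.2.1 ?_⟩, t.2.1⟩,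
      rfl⟩
    rw [e, one_smul]

variable {p : ℕ} [hp : Fact p.Prime]

theorem K_exp (hq : ∃ k, q = p ^ k) {a : Ω} {u : G} (hu : u ∈ S.zt.K a) : u ^ p = 1 := by
  by_cases u1 : u = 1
  · rw [u1, one_pow]
  obtain ⟨k, hk⟩ := hq
  obtain ⟨b, hb⟩ := S.exists_ne' a
  obtain ⟨v, hv⟩ := exists_prime_orderOf_dvd_card' (G := S.zt.K a) p (by
    rw [S.card_K, hk]
    refine dvd_pow_self p ?_
    rintro rfl
    exact absurd S.lt (by simp [hk]))
  have v1 : (v : G) ≠ 1 := fun e => hp.out.one_lt.ne' (by rw [← hv, ← orderOf_coe, e, orderOf_one])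
  let f : st2 G a b → {x : S.zt.K a // ¬ x = 1} := fun h => ⟨⟨h * v * h⁻¹,
    S.zt.K_conj_of_fix v.2 h.2.1⟩, fun e => v1 (by
      have : (h : G) * v * h⁻¹ = 1 := congrArg Subtype.val e
      simpa using this)⟩
  have hf : Function.Injective f := fun h h' e =>
    Subtype.ext (S.zt.conj_inj hb v.2 v1 h.2 h'.2 (congrArg (fun x => x.1.1) e))
  have h1 := card_add_card_not fun x : S.zt.K a => x = 1
  rw [Nat.card_unique, S.card_K] at h1
  obtain ⟨h, hh⟩ := (hf.bijective_of_nat_card_le (by rw [S.card_st2 hb.symm]; omega)).2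
    ⟨⟨u, hu⟩, fun e => u1 (congrArg Subtype.val e)⟩
  have e : (h : G) * v * (h : G)⁻¹ = u := congrArg (fun x => x.1.1) hh
  rw [← e, conj_pow, ← hv, ← orderOf_coe, pow_orderOf_eq_one, mul_one, mul_inv_cancel]

theorem mem_K_of_orderOf (hq : ∃ k, q = p ^ k) {u : G} (hu : orderOf u = p) :
    ∃ a, u ∈ S.zt.K a := by
  obtain ⟨k, hk⟩ := hq
  have hpq : p ∣ q := by
    rw [hk]
    refine dvd_pow_self p ?_
    rintro rfl
    exact absurd S.lt (by simp [hk])
  have hP : IsPGroup p (zpowers u) := IsPGroup.of_card (n := 1) (by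
    rw [Nat.card_zpowers, hu, pow_one])
  obtain ⟨a, ha⟩ := hP.nonempty_fixed_point_of_prime_not_dvd_card Ω (by
    rw [S.cΩ]
    exact fun h => hp.out.one_lt.ne' (Nat.dvd_one.1 ((Nat.dvd_add_right hpq).1 h)))
  have ha' : u • a = a := ha ⟨u, mem_zpowers u⟩
  refine ⟨a, by_contra fun h => ?_⟩
  obtain ⟨-, b, hb, hub⟩ := S.zt.exists_fix_of_not_mem_K ha' h
  have h1 := orderOf_dvd_natCard (st2 G a b) ⟨ha', hub⟩
  rw [hu, S.card_st2 hb.symm] at h1
  have h2 := (Nat.dvd_sub_iff_right S.lt.le hpq).1 h1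
  exact hp.out.one_lt.ne' (Nat.dvd_one.1 h2)

theorem nord_p (hq : ∃ k, q = p ^ k) : nord G p = (q + 1) * (q - 1) := by
  have h1 := fun g : {g : G // orderOf g = p} => S.mem_K_of_orderOf hq g.2
  choose φ hφ using h1
  rw [← S.cΩ]
  refine card_eq_of_fibers φ fun a => ?_
  have h1 := card_add_card_not fun x : S.zt.K a => x = 1
  rw [Nat.card_unique, S.card_K] at h1
  rw [show q - 1 = Nat.card {x : S.zt.K a // ¬ x = 1} by omega]
  refine Nat.card_congr ⟨fun g => ⟨⟨g.1.1, by have := hφ g.1; rwa [g.2] at this⟩, fun e => ?_⟩,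
    fun x => ⟨⟨x.1.1, orderOf_eq_prime (S.K_exp hq x.1.2) fun e => x.2 (Subtype.ext e)⟩, ?_⟩,
    fun _ => rfl, fun _ => rfl⟩
  · have e1 : g.1.1 = 1 := congrArg Subtype.val e
    exact hp.out.one_lt.ne' (by rw [← g.1.2, e1, orderOf_one])
  · by_contra h
    exact x.2 (Subtype.ext (S.zt.K_eq_one x.1.2 h (S.zt.K_fix (hφ _))))

theorem dvd_nord (hq : ∃ k, q = p ^ k) {n : ℕ} (h1 : n ≠ 1) (h2 : n ≠ p) : q ∣ nord G n := by
  refine dvd_nord_of_index fun g hg => ?_
  have h3 : ¬ p ∣ Nat.card (centralizer ({g} : Set G)) := fun h => by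
    obtain ⟨u, hu⟩ := exists_prime_orderOf_dvd_card' (G := centralizer ({g} : Set G)) p h
    rw [← orderOf_coe] at hu
    obtain ⟨a, ha⟩ := S.mem_K_of_orderOf hq hu
    have h4 := S.K_exp hq (S.zt.mem_K_of_commute (x := g) ha
      (fun e => hp.out.one_lt.ne' (by rw [← hu, e, orderOf_one]))
      (mem_centralizer_singleton_iff.1 u.2).symm)
    rcases (Nat.dvd_prime hp.out).1 (orderOf_dvd_of_pow_eq_one h4) with h5 | h5
    · exact h1 (hg ▸ h5)
    · exact h2 (hg ▸ h5)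
  obtain ⟨k, hk⟩ := hq
  have h4 := (centralizer ({g} : Set G)).index_mul_card
  refine (show Nat.Coprime q _ from hk ▸ ((Nat.Prime.coprime_iff_not_dvd hp.out).2
    h3).pow_left k).dvd_of_dvd_mul_right ?_
  rw [h4, S.cG]
  exact (dvd_mul_right _ _).mul_left _

end S3T

end CfsgH2
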