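import Cfsg.Agent.H2.NseA

/-!
# Recognition of `PGL(2, q)`, `q` odd, by its order and the numbers of elements of each order
-/

set_option autoImplicit false
set_option linter.style.haveILetI false

namespace CfsgH2

open Subgroup CfsgH3 CfsgH5 CfsgH6 CfsgH8 MulAction OnePoint

theorem S3T.pgl2 {G Ω : Type*} [Group G] [Finite G] [Finite Ω] [MulAction G Ω] {q : ℕ}
    (S : S3T G Ω q) (h2 : nord G 2 = q ^ 2) {F : Type*} [Field F] [Fintype F]
    (hF : Fintype.card F = q) :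
    Nonempty (G ≃* GL (Fin 2) F ⧸ Subgroup.center (GL (Fin 2) F)) := by
  classical
  have Z := S.zt
  have hq := S.lt
  have hΩ := S.cΩ
  haveI : Nontrivial Ω := Finite.one_lt_card_iff_nontrivial.mp (by omega)
  obtain ⟨b, a, hb⟩ := exists_pair_ne Ω
  have hsw := (S.nord_two_iff a).1 h2
  have hd := S.card_st2 hb.symm
  obtain ⟨c, hca, hcb⟩ : ∃ c, c ≠ a ∧ c ≠ b := by
    by_contra hcon
    push Not at hcon
    have h1 : (Set.univ : Set Ω) ⊆ {a, b} := fun x _ => by
      by_cases h : x = a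
      · exact Or.inl h
      · exact Or.inr (hcon x h)
    have h2 := Set.ncard_le_ncard h1
    rw [Set.ncard_univ, hΩ] at h2
    have h3 := Set.ncard_insert_le a ({b} : Set Ω)
    rw [Set.ncard_singleton] at h3
    omega
  have hinv : ∀ t : G, t • a = b → t • b = a → ∀ h ∈ st2 G a b, t * h = h⁻¹ * t := by
    intro t h1 h3 h hh
    have e1 := hsw t (h1 ▸ hb) (by rw [h1, h3])
    have e2 := hsw (t * h) (by rw [mul_smul, hh.1, h1]; exact hb)
      (by rw [mul_smul t h a, hh.1, h1, mul_smul, hh.2, h3])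
    rw [eq_inv_of_mul_eq_one_left e2, mul_inv_rev, ← eq_inv_of_mul_eq_one_left e1]
  obtain ⟨j, hj, j1, j2⟩ := S.exists_invol hb.symm
  obtain ⟨E, _, _, P, μ, P1, P2, P3, hμ, hT, hD⟩ := Z.exists_coords hb hca hcb
    (Z.K_comm_of_invol hb j1 j2 hj.1 hj.2)
    (fun x hx y hy => by
      obtain ⟨t, h1, h3⟩ := Z.two hb.symm hb
      have e1 := hinv t h1 h3 _ (mul_mem hx hy)
      rw [← mul_assoc, hinv t h1 h3 x hx, mul_assoc, hinv t h1 h3 y hy, ← mul_assoc,
        mul_left_inj, ← mul_inv_rev, inv_inj] at e1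
      exact e1.symm)
    (Z.irreducible_of_card hb (by omega))
  have hE : Fintype.card E = q := by
    have := Nat.card_congr P
    have h2 : Nat.card (OnePoint E) = Nat.card E + 1 := Finite.card_option
    rw [← Nat.card_eq_fintype_card]
    omega
  suffices h : Nonempty (G ≃* GL (Fin 2) E ⧸ Subgroup.center (GL (Fin 2) E)) from
    h.map fun e => e.trans (quotCenterCongr (glCongr
      (FiniteField.ringEquivOfCardEq (hE.trans hF.symm))))
  have hsurj : ∀ x : E, x ≠ 0 → ∃ h, μ h = x := by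
    have h1 : Function.Bijective μ.toHomUnits :=
      (Nat.bijective_iff_injective_and_card _).2 ⟨fun x y e => hμ (congrArg Units.val e), by
        rw [hd, Nat.card_units, Nat.card_eq_fintype_card, hE]⟩
    intro x hx
    obtain ⟨h, e⟩ := h1.2 (Units.mk0 x hx)
    exact ⟨h, congrArg Units.val e⟩
  have haff : ∀ u v : E, u ≠ 0 → ∃ g : G, g • a = a ∧ ∀ x : E, g • P x = P (u * x + v : E) := by
    intro u v hu
    obtain ⟨k, hk, h1⟩ := hT v
    obtain ⟨h, rfl⟩ := hsurj u hu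
    exact ⟨k * h, by rw [mul_smul, h.2.1, Z.K_fix hk], fun x => by rw [mul_smul, hD, h1]⟩
  obtain ⟨t, hta, htb, htc⟩ : ∃ t : G, t • a = b ∧ t • b = a ∧ t • c = c := by
    obtain ⟨g, h1, h2⟩ := Z.two hb.symm hb
    obtain ⟨y, hy⟩ := P.surjective (g • c)
    have hy1 : y ≠ ∞ := by
      rintro rfl
      rw [P1, ← h2, smul_left_cancel_iff] at hy
      exact hcb hy.symm
    obtain ⟨y, rfl⟩ := OnePoint.ne_infty_iff_exists.1 hy1
    have hy2 : y ≠ 0 := by
      rintro rfl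
      rw [P2, ← h1, smul_left_cancel_iff] at hy
      exact hca hy.symm
    obtain ⟨h, hh⟩ := hsurj y⁻¹ (inv_ne_zero hy2)
    refine ⟨h * g, by rw [mul_smul, h1, h.2.2], by rw [mul_smul, h2, h.2.1], ?_⟩
    rw [mul_smul, ← hy, hD, hh, inv_mul_cancel₀ hy2, P3]
  have hτ : ∀ x : E, x ≠ 0 → t • P x = P (x⁻¹ : E) := by
    intro x hx
    obtain ⟨h, rfl⟩ := hsurj x hx
    have h2 := hD h 1
    have h3 := hD h⁻¹ 1
    rw [mul_one] at h2 h3
    rw [← h2, ← mul_smul, hinv t hta htb h h.2, mul_smul, P3, htc, ← P3]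
    refine h3.trans ?_
    congr 2
    exact eq_inv_of_mul_eq_one_left (by rw [← map_mul, inv_mul_cancel, map_one])
  let Ψ : G →* Equiv.Perm (OnePoint E) :=
    (Equiv.permCongrHom P.symm).toMonoidHom.comp (toPermHom G Ω)
  have hΨ : ∀ g x y, Ψ g x = y ↔ g • P x = P y := fun g x y => by
    change P.symm (g • P x) = y ↔ _
    rw [Equiv.symm_apply_eq]
  refine pgl2_recognition Ψ (fun u v hu => ?_) ⟨t, ?_, ?_, fun x hx => ?_⟩ fun g h1 h2 h3 => ?_
  · obtain ⟨g, h1, h2⟩ := haff u v hu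
    exact ⟨g, (hΨ _ _ _).2 (by rw [P1, h1]), fun x => (hΨ _ _ _).2 (h2 x)⟩
  · rw [hΨ, P1, P2, hta]
  · rw [hΨ, P1, P2, htb]
  · rw [hΨ, hτ x hx]
  · rw [hΨ] at h1 h2 h3
    rw [P1] at h1
    rw [P2] at h2
    rw [P3] at h3
    exact Z.three g a b c hb.symm hcb.symm hca.symm h1 h2 h3

section
variable {F : Type*} [Field F] [DecidableEq F]

theorem gl2_two {a b : OnePoint F} (hab : a ≠ b) :
    ∃ A : GL (Fin 2) F, gl2Perm F A ∞ = a ∧ gl2Perm F A (0 : F) = b := by
  induction a using OnePoint.rec with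
  | infty =>
    obtain ⟨y, rfl⟩ := OnePoint.ne_infty_iff_exists.1 hab.symm
    exact ⟨Matrix.GeneralLinearGroup.mkOfDetNeZero !![1, y; 0, 1] (by simp [Matrix.det_fin_two]),
      by rw [gl2Perm_infty]; simp, by rw [gl2Perm_coe]; simp⟩
  | coe x =>
    induction b using OnePoint.rec with
    | infty =>
      exact ⟨Matrix.GeneralLinearGroup.mkOfDetNeZero !![x, 1; 1, 0] (by simp [Matrix.det_fin_two]),
        by rw [gl2Perm_infty]; simp, by rw [gl2Perm_coe]; simp⟩
    | coe y =>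
      exact ⟨Matrix.GeneralLinearGroup.mkOfDetNeZero !![x, y; 1, 1] (by
        simpa [Matrix.det_fin_two, sub_eq_zero] using hab),
        by rw [gl2Perm_infty]; simp, by rw [gl2Perm_coe]; simp⟩

theorem gl2_three {a b c : OnePoint F} (hab : a ≠ b) (hca : c ≠ a) (hcb : c ≠ b) :
    ∃ A : GL (Fin 2) F, gl2Perm F A ∞ = a ∧ gl2Perm F A (0 : F) = b ∧ gl2Perm F A (1 : F) = c := by
  obtain ⟨A, h1, h2⟩ := gl2_two hab
  obtain ⟨z, hz⟩ := (gl2Perm F A).surjective c
  obtain ⟨z, rfl⟩ := OnePoint.ne_infty_iff_exists.1 (show z ≠ ∞ by rintro rfl; exact hca (hz ▸ h1))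
  have hz0 : z ≠ 0 := by rintro rfl; exact hcb (hz ▸ h2)
  refine ⟨A * Matrix.GeneralLinearGroup.mkOfDetNeZero !![z, 0; 0, 1]
    (by simpa [Matrix.det_fin_two] using hz0), ?_, ?_, ?_⟩
  · rw [map_mul, Equiv.Perm.mul_apply, gl2Perm_infty (Matrix.GeneralLinearGroup.mkOfDetNeZero _ _)]
    simpa using h1
  · rw [map_mul, Equiv.Perm.mul_apply, gl2Perm_coe (Matrix.GeneralLinearGroup.mkOfDetNeZero _ _)]
    simpa using h2
  · rw [map_mul, Equiv.Perm.mul_apply, gl2Perm_coe (Matrix.GeneralLinearGroup.mkOfDetNeZero _ _)]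
    simpa using hz

/-- the action of `PGL(2, F)` on the projective line -/
@[reducible] noncomputable def pglAct (F : Type*) [Field F] [DecidableEq F] :
    MulAction (GL (Fin 2) F ⧸ Subgroup.center (GL (Fin 2) F)) (OnePoint F) :=
  MulAction.compHom _ (QuotientGroup.lift _ (gl2Perm F) gl2Perm_ker.ge)

theorem pgl2_s3t [Fintype F] (hodd : Odd (Fintype.card F)) :
    letI := pglAct F
    S3T (GL (Fin 2) F ⧸ Subgroup.center (GL (Fin 2) F)) (OnePoint F) (Fintype.card F) ∧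
      nord (GL (Fin 2) F ⧸ Subgroup.center (GL (Fin 2) F)) 2 = Fintype.card F ^ 2 := by
  letI := pglAct F
  have hs : ∀ (A : GL (Fin 2) F) (x : OnePoint F),
      (A : GL (Fin 2) F ⧸ Subgroup.center (GL (Fin 2) F)) • x = gl2Perm F A x := fun _ _ => rfl
  have Z : Zt (GL (Fin 2) F ⧸ Subgroup.center (GL (Fin 2) F)) (OnePoint F) := by
    refine ⟨fun {a b c d} hab hcd => ?_, fun g a b c hab hbc hac h1 h2 h3 => ?_⟩
    · obtain ⟨A, h1, h2⟩ := gl2_two hab
      obtain ⟨B, h3, h4⟩ := gl2_two hcd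
      exact ⟨(B * A⁻¹ : GL (Fin 2) F), by rw [hs, ← h1, ← h3]; simp, by rw [hs, ← h2, ← h4]; simp⟩
    · obtain ⟨g, rfl⟩ := QuotientGroup.mk_surjective g
      obtain ⟨A, h4, h5, h6⟩ := gl2_three hab hac.symm hbc.symm
      rw [hs] at h1 h2 h3
      have h8 : ∀ x y, gl2Perm F A x = y → gl2Perm F g y = y → gl2Perm F (A⁻¹ * g * A) x = x := by
        rintro x _ rfl e
        simp [e]
      have h7 := gl2_mem_center_of_fix (A := A⁻¹ * g * A)
        (h8 _ _ h4 h1) (h8 _ _ h5 h2) (h8 _ _ h6 h3)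
      rw [QuotientGroup.eq_one_iff]
      simpa [mul_assoc] using (inferInstance : (center (GL (Fin 2) F)).Normal).conj_mem _ h7 A
  have hΩ : Nat.card (OnePoint F) = Fintype.card F + 1 := by
    rw [← Nat.card_eq_fintype_card]; exact Finite.card_option
  have h01 : ((1 : F) : OnePoint F) ≠ (0 : F) := by simp
  have h1 := Z.card_st2_of_trans (a := ∞) (b := (0 : F)) (c := (1 : F)) (by simp) (by simp) h01
    fun d h1 h2 => by
      obtain ⟨A, h3, h4, h5⟩ := gl2_three (a := ∞) (b := (0 : F)) (by simp) h1 h2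
      exact ⟨A, ⟨h3, h4⟩, h5⟩
  have S : S3T (GL (Fin 2) F ⧸ Subgroup.center (GL (Fin 2) F)) (OnePoint F) (Fintype.card F) :=
    ⟨Z, hodd, Fintype.one_lt_card, hΩ, by
      rw [Zt_card Z (a := ∞) (b := (0 : F)) (by simp), hΩ, Nat.add_sub_cancel]
      congr 2
      omega⟩
  refine ⟨S, (S.nord_two_iff ∞).2 fun t h2 h3 => ?_⟩
  obtain ⟨t, rfl⟩ := QuotientGroup.mk_surjective t
  rw [hs] at h2 h3
  rw [hs] at h3
  rw [gl2Perm_infty] at h2 h3
  have e1 : t 1 0 ≠ 0 := fun h => by simp [h] at h2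
  rw [if_neg e1, gl2Perm_coe] at h3
  have e2 : t 1 1 = -t 0 0 := by
    by_contra h
    rw [if_neg (by
      rw [mul_div_cancel₀ _ e1]
      exact fun e => h (eq_neg_of_add_eq_zero_right e))] at h3
    simp at h3
  rw [← QuotientGroup.mk_mul, QuotientGroup.eq_one_iff,
    Matrix.GeneralLinearGroup.mem_center_iff_val_mem_range_scalar]
  refine ⟨t 0 0 * t 0 0 + t 0 1 * t 1 0, ?_⟩
  ext i j
  fin_cases i <;> fin_cases j <;> simp [Matrix.mul_apply, e2] <;> ring

end

theorem s3t_of_nse {G : Type*} [Group G] [Finite G] {p q : ℕ} [hp : Fact p.Prime]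
    (hq : ∃ k, q = p ^ k) (hodd : Odd q) (hlt : 1 < q)
    (hc : Nat.card G = (q + 1) * (q * (q - 1)))
    (h1 : ∀ n, nord G n = 1 ∨ nord G n = (q + 1) * (q - 1) ∨ q ∣ nord G n)
    (h2 : ∃ n, nord G n = q ^ 2) :
    nord G 2 = q ^ 2 ∧ ∃ P : Sylow p G, S3T G (G ⧸ normalizer ((P : Subgroup G) : Set G)) q := by
  classical
  obtain ⟨k, hk⟩ := hq
  obtain ⟨r, hr⟩ : ∃ r, q = r + 1 := ⟨q - 1, by omega⟩
  have hr' : q - 1 = r := by omega
  rw [hr'] at hc h1
  have hpq : p ∣ q := by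
    rw [hk]
    refine dvd_pow_self p ?_
    rintro rfl
    exact absurd hlt (by simp [hk])
  have hp2 : p ≠ 2 := by
    rintro rfl
    exact (Nat.not_even_iff_odd.2 hodd) (even_iff_two_dvd.2 hpq)
  have hev : ∀ n, Odd (nord G n) → n = 1 ∨ n = 2 := fun n h => by
    by_contra h3
    have h4 : n ≠ 0 := by
      rintro rfl
      rw [nord_eq_zero_iff.2 fun g => (orderOf_pos g).ne'] at h
      simp at h
    exact (Nat.not_even_iff_odd.2 h) (even_iff_two_dvd.2 ((even_iff_two_dvd.1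
      (Nat.totient_even (by omega))).trans (totient_dvd_nord n)))
  have hq2 : 1 < q ^ 2 := by nlinarith
  have e2 : nord G 2 = q ^ 2 := by
    obtain ⟨n, hn⟩ := h2
    rcases hev n (hn ▸ hodd.pow) with rfl | rfl
    · rw [nord_one] at hn; omega
    · exact hn
  have e1 : ∀ n, nord G n = 1 → n = 1 := fun n h => by
    rcases hev n (h ▸ odd_one) with rfl | rfl
    · rfl
    · omega
  have hcop : Nat.Coprime ((q + 1) * r) q := by
    refine Nat.Coprime.mul_left (by simp) ?_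
    rw [hr]; simp
  have ep : nord G p = (q + 1) * r := by
    have h3 := frobenius_pow (G := G) hp.out (k := 1) (by
      rw [pow_one, hc]; exact (hpq.mul_right _).mul_left _)
    rw [pow_one, hp.out.divisors, Finset.sum_pair hp.out.one_lt.ne, nord_one] at h3
    rcases h1 p with h | h | h
    · exact absurd (e1 p h) hp.out.one_lt.ne'
    · exact h
    · exact absurd (Nat.dvd_one.1 ((Nat.dvd_add_left (hpq.trans h)).1 h3)) hp.out.one_lt.ne'
  obtain ⟨D, hD⟩ : ∃ D, D = (Nat.card G).divisors := ⟨_, rfl⟩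
  have hsum : Nat.card G = ∑ d ∈ D, nord G d := hD ▸ card_eq_sum_nord
  have hmem : ∀ n, 0 < nord G n → n ∈ D := fun n hn => by
    obtain ⟨g, rfl⟩ := nord_pos_iff.1 hn
    exact hD ▸ Nat.mem_divisors.2 ⟨orderOf_dvd_natCard g, Nat.card_pos.ne'⟩
  have hpos : 0 < (q + 1) * r := Nat.mul_pos (by omega) (by omega)
  have e3 : ∀ n, n ≠ 1 → n ≠ p → q ∣ nord G n := by
    obtain ⟨J, hJ⟩ : ∃ J, J = (D.erase 1).filter fun n => nord G n = (q + 1) * r := ⟨_, rfl⟩
    have h3 := Finset.add_sum_erase D (nord G) (hmem 1 (by rw [nord_one]; omega))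
    have h3' : ∑ n ∈ J, nord G n = J.card * ((q + 1) * r) := by
      rw [← smul_eq_mul, ← Finset.sum_const]
      refine Finset.sum_congr rfl fun n hn => ?_
      rw [hJ] at hn
      exact (Finset.mem_filter.1 hn).2
    rw [← Finset.sum_filter_add_sum_filter_not (D.erase 1) fun n => nord G n = (q + 1) * r, ← hJ,
      h3', nord_one, ← hsum] at h3
    obtain ⟨s, hs⟩ : q ∣ ∑ n ∈ (D.erase 1).filter fun n => ¬ nord G n = (q + 1) * r, nord G n :=
      Finset.dvd_sum fun n hn => by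
        obtain ⟨h4, h5⟩ := Finset.mem_filter.1 hn
        rcases h1 n with h | h | h
        · exact absurd (e1 n h) (Finset.mem_erase.1 h4).1
        · exact absurd h h5
        · exact h
    rw [hs, hc] at h3
    have hpJ : p ∈ J := hJ ▸ Finset.mem_filter.2 ⟨Finset.mem_erase.2 ⟨hp.out.one_lt.ne',
      hmem p (ep ▸ hpos)⟩, ep⟩
    have h4 : J.card < q := by
      by_contra h
      have := Nat.mul_le_mul_right ((q + 1) * r) (not_lt.1 h)
      nlinarith
    obtain ⟨j, hj⟩ : ∃ j, J.card = j + 1 := ⟨J.card - 1, by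
      have := Finset.card_pos.2 ⟨p, hpJ⟩; omega⟩
    have h5 : q ∣ j := by
      have h6 : ((q : ℤ)) ∣ j := ⟨(j + 1) * q + s - (q + 1) * r, by
        have h7 : ((1 + ((j + 1) * ((q + 1) * r) + q * s) : ℕ) : ℤ) = ((q + 1) * (q * r) : ℕ) := by
          rw [← hj, h3]
        push_cast at h7
        have h8 : (q : ℤ) = r + 1 := by exact_mod_cast hr
        rw [h8] at h7 ⊢
        linear_combination -h7⟩
      exact_mod_cast h6
    have h6 : j = 0 := Nat.eq_zero_of_dvd_of_lt h5 (by omega)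
    rw [h6, zero_add, Finset.card_eq_one] at hj
    obtain ⟨x, hx⟩ := hj
    intro n hn1 hnp
    rcases h1 n with h | h | h
    · exact absurd (e1 n h) hn1
    · have h7 : n ∈ J := hJ ▸ Finset.mem_filter.2 ⟨Finset.mem_erase.2 ⟨hn1, hmem n (h ▸ hpos)⟩, h⟩
      rw [hx, Finset.mem_singleton] at h7 hpJ
      exact absurd (h7.trans hpJ.symm) hnp
    · exact h
  have e4 : ∀ g : G, p ∣ orderOf g → orderOf g = p := by
    have h3 := frob_hall hcop _ G rfl (by rw [hc]; exact dvd_of_eq (by ring))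
    rw [Nat.gcd_eq_left (by rw [hc]; exact ⟨q, by ring⟩), card_pow_eq_one_eq_sum hpos.ne'] at h3
    have h4 : ((q + 1) * r).divisors = D.filter fun n => ¬ p ∣ n := by
      ext n
      rw [hD, Finset.mem_filter, Nat.mem_divisors, Nat.mem_divisors, hc]
      refine ⟨fun h => ⟨⟨h.1.trans ⟨q, by ring⟩, hc ▸ Nat.card_pos.ne'⟩, fun h' => ?_⟩,
        fun h => ⟨?_, hpos.ne'⟩⟩
      · exact hp.out.one_lt.ne' (Nat.dvd_one.1 (hcop ▸ Nat.dvd_gcd (h'.trans h.1) hpq))
      · refine (show Nat.Coprime n q from hk ▸ ((Nat.Prime.coprime_iff_not_dvd hp.out).2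
          h.2).symm.pow_right k).dvd_of_dvd_mul_right (h.1.1.trans (dvd_of_eq (by ring)))
    rw [h4] at h3
    have h5 := Finset.sum_filter_add_sum_filter_not D (fun n => p ∣ n) (nord G)
    have hpD : p ∈ D.filter fun n => p ∣ n := Finset.mem_filter.2 ⟨hmem p (ep ▸ hpos), dvd_rfl⟩
    rw [← Finset.add_sum_erase _ _ hpD, ← hsum, ep, hc] at h5
    obtain ⟨M, hM⟩ : ∃ M, M = ∑ x ∈ (D.filter fun n => p ∣ n).erase p, nord G x := ⟨_, rfl⟩
    rw [← hM] at h5
    have h6 : q ∣ M := hM ▸ Finset.dvd_sum fun n hn => by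
      obtain ⟨h6, h7⟩ := Finset.mem_erase.1 hn
      refine e3 n ?_ h6
      rintro rfl
      exact hp.out.one_lt.ne' (Nat.dvd_one.1 (Finset.mem_filter.1 h7).2)
    have h7 : (q + 1) * r ∣ M := (Nat.dvd_add_right dvd_rfl).1 ((Nat.dvd_add_left h3).1
      (h5 ▸ ⟨q, by ring⟩))
    have h8 : M = 0 := Nat.eq_zero_of_dvd_of_lt (hcop.mul_dvd_of_dvd_of_dvd h7 h6) (by
      have : (q + 1) * r * q = (q + 1) * (q * r) := by ring
      omega)
    intro g hg
    by_contra h
    have h9 := nord_pos_iff.2 ⟨g, rfl⟩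
    rw [hM, Finset.sum_eq_zero_iff] at h8
    exact h9.ne' (h8 _ (Finset.mem_erase.2 ⟨h, Finset.mem_filter.2 ⟨hmem _ h9, hg⟩⟩))
  have hC : CppE p G := ⟨fun x j h => by
      obtain ⟨i, -, hi⟩ := (Nat.dvd_prime_pow hp.out).1 (orderOf_dvd_of_pow_eq_one h)
      rcases i with _ | i
      · rw [orderOf_eq_one_iff.1 hi, one_pow]
      · rw [← e4 x (hi ▸ dvd_pow_self p i.succ_ne_zero), pow_orderOf_eq_one],
    fun x s hs _ h => by
      have := e4 x (h ▸ dvd_mul_right _ _)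
      rw [h] at this
      nlinarith [hs.one_lt, hp.out.pos]⟩
  have hS : ∀ P : Sylow p G, Nat.card P = q := fun P => by
    obtain ⟨j, hj⟩ := P.2.exists_card_eq
    have h3 := (P : Subgroup G).card_mul_index
    rw [hc] at h3
    refine Nat.dvd_antisymm ?_ ?_
    · have h4 : Nat.card P ∣ q * ((q + 1) * r) := ⟨_, by rw [h3]; ring⟩
      exact (show Nat.Coprime (Nat.card P) _ from hj ▸ (hcop.symm.coprime_dvd_left hpq).pow_left
        j).dvd_of_dvd_mul_right h4
    · have h4 : q ∣ Nat.card P * (P : Subgroup G).index := ⟨(q + 1) * r, by rw [h3]; ring⟩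
      exact (show Nat.Coprime q _ from hk ▸ ((Nat.Prime.coprime_iff_not_dvd hp.out).2
        P.not_dvd_index).pow_left k).dvd_of_dvd_mul_right h4
  have hn := nord_eq_of_TI hS (fun P x hx => hC.of_mem P.2 hx) fun P Q x h3 h4 h5 => hC.ti h3 h4 h5
  rw [ep, hr'] at hn
  have hn' := Nat.eq_of_mul_eq_mul_right (by omega) hn
  obtain ⟨P⟩ := (inferInstance : Nonempty (Sylow p G))
  have hΩ : Nat.card (G ⧸ normalizer ((P : Subgroup G) : Set G)) = q + 1 := by
    rw [hn', P.card_eq_card_quotient_normalizer]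
    rfl
  have T := ccf_of_subgroup (K := (P : Subgroup G)) (fun k hk h1 x hx =>
    Sylow.smul_eq_iff_mem_normalizer.1 (hC.ti (x := x * k * x⁻¹)
      (smul_mem_pointwise_smul k (MulAut.conj x) P hk) hx (conj_ne_one h1 x)))
    fun k hk h1 x hx => by
      have hC' : IsPGroup p (centralizer {k}) := fun y => ⟨1, Subtype.ext (by
        simpa using hC.pow_eq_one (hC.of_mem P.2 hk) h1
          (mem_centralizer_singleton_iff.1 y.2).symm)⟩
      obtain ⟨Q, hQ⟩ := hC'.exists_le_sylow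
      rw [hC.ti hk (hQ (mem_centralizer_singleton_iff.2 rfl)) h1]
      exact hQ (mem_centralizer_singleton_iff.2 hx)
  exact ⟨e2, P, T.zt fun a => by rw [card_cj, hΩ, hS], hodd, hlt, hΩ, by rw [hc, hr']⟩

theorem pgl2_of_nse {F : Type*} [Field F] [Fintype F] (hodd : Odd (Fintype.card F))
    {G : Type*} [Group G] [Finite G]
    (hc : Nat.card G = Nat.card (GL (Fin 2) F ⧸ Subgroup.center (GL (Fin 2) F)))
    (h : ∀ c, 0 < c → ((∃ n, c = nord G n) ↔
      ∃ n, c = nord (GL (Fin 2) F ⧸ Subgroup.center (GL (Fin 2) F)) n)) :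
    Nonempty (G ≃* GL (Fin 2) F ⧸ Subgroup.center (GL (Fin 2) F)) := by
  classical
  letI := pglAct F
  obtain ⟨S, h2⟩ := pgl2_s3t hodd
  obtain ⟨p, _, k, hp, hk⟩ := FiniteField.card' F
  haveI := Fact.mk hp
  have hq : ∃ k, Fintype.card F = p ^ k := ⟨k, hk⟩
  obtain ⟨h3, P, S'⟩ := s3t_of_nse (G := G) hq hodd S.lt (hc.trans S.cG) (fun n => by
      rcases Nat.eq_zero_or_pos (nord G n) with h0 | h0
      · exact Or.inr (Or.inr (h0 ▸ dvd_zero _))
      obtain ⟨m, hm⟩ := (h _ h0).1 ⟨n, rfl⟩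
      rw [hm]
      by_cases h1 : m = 1
      · exact Or.inl (by rw [h1, nord_one])
      by_cases h3 : m = p
      · exact Or.inr (Or.inl (h3 ▸ S.nord_p hq))
      exact Or.inr (Or.inr (S.dvd_nord hq h1 h3)))
    (((h _ (by have := S.lt; positivity)).2 ⟨2, h2.symm⟩).imp fun _ e => e.symm)
  exact S'.pgl2 h3 rfl

end CfsgH2
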