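import Cfsg.Agent.H2.FxB

/-! Involutions whose centralizer has shape `2^{1+8}.(S₃ × S₃ × S₃)`: first properties. -/

set_option autoImplicit false
set_option linter.style.haveILetI false
set_option linter.unusedSectionVars false

namespace CfsgH2.O8
open Subgroup CfsgH5 CfsgH6 CfsgFT CfsgH2.Fx

universe u
variable {G : Type u} [Group G]

/-- the symmetric group of degree three -/
abbrev S3 := Equiv.Perm (Fin 3)

/-- its third power -/
abbrev T3 := Fin 3 → S3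

/-- an extraspecial group of order `512` with central involution `z` -/
structure EX (z : G) (Q : Subgroup G) : Prop where
  z1 : z ≠ 1
  zz : z * z = 1
  zQ : z ∈ Q
  card : Nat.card Q = 512
  le : Q ≤ C1 z
  sq : ∀ a ∈ Q, a * a = 1 ∨ a * a = z
  cm : ∀ a ∈ Q, ∀ b ∈ Q, a * b * a⁻¹ = b ∨ a * b * a⁻¹ = b * z
  cen : ∀ g, (∀ a ∈ Q, g * a = a * g) → g = 1 ∨ g = z

/-- the local hypothesis -/
structure LX (z : G) (Q : Subgroup G) (π : G → T3) : Prop extends EX z Q where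
  mul : ∀ a ∈ C1 z, ∀ b ∈ C1 z, π (a * b) = π a * π b
  ker : ∀ a ∈ C1 z, π a = 1 ↔ a ∈ Q
  onto : ∀ s, ∃ a ∈ C1 z, π a = s

theorem two_le [Finite G] {X Y : Subgroup G} (h : X ≤ Y) {a : G} (ha : a ∈ Y) (hx : a ∉ X) :
    2 * Nat.card X ≤ Nat.card Y := by
  obtain ⟨k, hk⟩ := card_dvd_of_le' h
  have h0 := card_pos Y
  rcases k with _ | _ | k
  · omega
  · exact absurd (eq_of_le_of_card_le h (by omega) ▸ ha) hx
  · rw [hk]; nlinarith

theorem card_zp {z : G} (z1 : z ≠ 1) (zz : z * z = 1) : Nat.card (zpowers z) = 2 := by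
  rw [Nat.card_zpowers]
  exact orderOf_eq_prime (by rw [pow_two, zz]) z1

theorem mem_zp {z a : G} (zz : z * z = 1) : a ∈ zpowers z ↔ a = 1 ∨ a = z := by
  constructor
  · rintro ⟨k, rfl⟩
    have h2 : z ^ (2 : ℤ) = 1 := by rw [zpow_two, zz]
    rcases Int.even_or_odd' k with ⟨m, rfl | rfl⟩
    · left; simp only [zpow_mul, h2, one_zpow]
    · right; simp only [zpow_add, zpow_mul, h2, one_zpow, one_mul, zpow_one]
  · rintro (rfl | rfl)
    exacts [one_mem _, mem_zpowers _]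

theorem card_filter [Fintype G] (X : Subgroup G) [DecidablePred (· ∈ X)] :
    (Finset.univ.filter (· ∈ X)).card = Nat.card X := by
  rw [Nat.card_eq_fintype_card, Fintype.card_subtype]

namespace EX
variable {z : G} {Q : Subgroup G} (h : EX z Q)
include h

theorem zc {a : G} (ha : a ∈ Q) : a * z = z * a := mem_C1.1 (h.le ha)

theorem four {a : G} (ha : a ∈ Q) : a ^ 4 = 1 := by
  rw [show a ^ 4 = (a * a) * (a * a) by simp only [pow_succ, pow_zero, one_mul, mul_assoc]]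
  rcases h.sq a ha with e | e <;> rw [e]
  exacts [one_mul 1, h.zz]

theorem ne_mul (a : G) : a * z ≠ a := fun e => h.z1 (mul_left_cancel (e.trans (mul_one a).symm))

theorem nc {a b : G} (ha : a ∈ Q) (hb : b ∈ Q) (e : a * b ≠ b * a) : a * b * a⁻¹ = b * z :=
  (h.cm a ha b hb).resolve_left fun e' => e (mul_inv_eq_iff_eq_mul.1 e')

theorem ex_nc {a : G} (a1 : a ≠ 1) (az : a ≠ z) : ∃ b ∈ Q, b * a ≠ a * b := by
  by_contra hc
  push Not at hc
  exact (h.cen a fun b hb => (hc b hb).symm).elim a1 az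

variable [Finite G]

theorem le_half {X : Subgroup G} (hX : X ≤ Q) {q : G} (hq : q ∈ Q) :
    Nat.card X ≤ 2 * Nat.card ↥(X ⊓ C1 q) := by
  have h1 := card_le_cls X q (s := {q, q * z}) fun d hd => by
    rcases h.cm d (hX hd) q hq with e | e <;> simp [e]
  have h2 : ({q, q * z} : Set G).ncard ≤ 2 := (Set.ncard_insert_le _ _).trans (by simp)
  nlinarith

theorem half {X : Subgroup G} (hX : X ≤ Q) {q a : G} (hq : q ∈ Q) (ha : a ∈ X)
    (e : a * q ≠ q * a) : 2 * Nat.card ↥(X ⊓ C1 q) = Nat.card X :=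
  le_antisymm (two_le inf_le_left ha fun hc => e (mem_C1.1 hc.2)) (h.le_half hX hq)

theorem card_C1 {a : G} (ha : a ∈ Q) (a1 : a ≠ 1) (az : a ≠ z) : Nat.card ↥(Q ⊓ C1 a) = 256 := by
  obtain ⟨b, hb, e⟩ := h.ex_nc a1 az
  have := h.half le_rfl ha hb e
  rw [h.card] at this
  omega

theorem count {A : Subgroup G} (hA : A ≤ Q) (hz : z ∈ A) :
    Nat.card A * Nat.card ↥(Q ⊓ C A) = 1024 := by
  classical
  have := Fintype.ofFinite G
  let FA := Finset.univ.filter (· ∈ A)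
  let FQ := Finset.univ.filter (· ∈ Q)
  have e0 : ∑ a ∈ FA, (FQ.filter fun q => q * a = a * q).card =
      ∑ q ∈ FQ, (FA.filter fun a => q * a = a * q).card := by
    simp only [Finset.card_filter]
    exact Finset.sum_comm
  have e1 : ∀ a ∈ FA, (FQ.filter fun q => q * a = a * q).card =
      256 + if a ∈ zpowers z then 256 else 0 := by
    intro a ha
    have ha' : a ∈ A := (Finset.mem_filter.1 ha).2
    have : (FQ.filter fun q => q * a = a * q) = Finset.univ.filter (· ∈ Q ⊓ C1 a) := by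
      ext q; simp [FQ, mem_C1]
    rw [this, card_filter]
    split_ifs with hz
    · rw [inf_eq_left.2, h.card]
      rcases (mem_zp h.zz).1 hz with rfl | rfl
      · rw [C1_one]; exact le_top
      · exact h.le
    · exact h.card_C1 (hA ha') (fun e => hz (e ▸ one_mem _)) (fun e => hz (e ▸ mem_zpowers _))
  have e2 : ∀ q ∈ FQ, 2 * (FA.filter fun a => q * a = a * q).card =
      Nat.card A + if q ∈ C A then Nat.card A else 0 := by
    intro q hq
    have hq' : q ∈ Q := (Finset.mem_filter.1 hq).2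
    have : (FA.filter fun a => q * a = a * q) = Finset.univ.filter (· ∈ A ⊓ C1 q) := by
      ext a; simp [FA, mem_C1, eq_comm]
    rw [this, card_filter]
    split_ifs with hc
    · rw [inf_eq_left.2 (le_C1_iff.2 hc)]; omega
    · rw [mem_C] at hc
      push Not at hc
      obtain ⟨a, ha, e⟩ := hc
      exact h.half hA hq' ha e
  have e3 : 2 * ∑ q ∈ FQ, (FA.filter fun a => q * a = a * q).card =
      512 * Nat.card A + Nat.card ↥(Q ⊓ C A) * Nat.card A := by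
    rw [Finset.mul_sum, Finset.sum_congr rfl e2, Finset.sum_add_distrib, Finset.sum_const,
      card_filter, h.card, ← Finset.sum_filter, Finset.sum_const]
    have : FQ.filter (· ∈ C A) = Finset.univ.filter (· ∈ Q ⊓ C A) := by
      ext q; simp [FQ]
    rw [this, card_filter]; simp
  have e4 : ∑ a ∈ FA, (FQ.filter fun q => q * a = a * q).card = Nat.card A * 256 + 2 * 256 := by
    rw [Finset.sum_congr rfl e1, Finset.sum_add_distrib, Finset.sum_const, card_filter,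
      ← Finset.sum_filter, Finset.sum_const]
    have : FA.filter (· ∈ zpowers z) = Finset.univ.filter (· ∈ zpowers z) := by
      ext q
      simp only [FA, Finset.mem_filter, Finset.mem_univ, true_and, and_iff_right_iff_imp]
      exact fun hq => (zpowers_le.2 hz) hq
    rw [this, card_filter, card_zp h.z1 h.zz]; simp
  rw [← e0, e4] at e3
  nlinarith

theorem ab_le {A : Subgroup G} (hA : A ≤ Q) (hz : z ∈ A) (ab : Ab A) : Nat.card A ≤ 32 := by
  have h1 := h.count hA hz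
  have h2 : Nat.card A ≤ Nat.card ↥(Q ⊓ C A) := card_le_of_le (le_inf hA ab)
  nlinarith

theorem self_cent {A : Subgroup G} (hA : A ≤ Q) (hz : z ∈ A) (ab : Ab A) (c : Nat.card A = 32) :
    Q ⊓ C A = A := by
  have h1 := h.count hA hz
  exact (eq_of_le_of_card_le (le_inf hA ab) (by rw [c] at h1 ⊢; omega)).symm

theorem ex_sq {X : Subgroup G} (hX : X ≤ Q) (hz : z ∈ X) (c : 32 < Nat.card X) :
    ∃ a ∈ X, a * a = z := by
  by_contra hc
  push Not at hc
  have := h.ab_le hX hz (ab_of_sq fun a ha => (h.sq a (hX ha)).resolve_right (hc a ha))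
  omega

end EX

theorem s3_four (a : S3) (h : a ^ 4 = 1) : a * a = 1 := by revert a; decide

theorem s3_sign (a : S3) (h : a * a = 1) (hs : Equiv.Perm.sign a = 1) : a = 1 := by
  revert a; decide

/-- componentwise sign -/
def sg : T3 →* (Fin 3 → ℤˣ) where
  toFun a i := Equiv.Perm.sign (a i)
  map_one' := by funext i; simp
  map_mul' a b := by funext i; simp

theorem sg_one {a : T3} (h : a * a = 1) (hs : sg a = 1) : a = 1 :=
  funext fun i => s3_sign (a i) (congrFun h i) (congrFun hs i)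

theorem card_sgn : Nat.card (Fin 3 → ℤˣ) = 8 := by
  rw [Nat.card_eq_fintype_card]; decide

theorem card_T3 : Nat.card T3 = 216 := by
  rw [Nat.card_eq_fintype_card, Fintype.card_fun, Fintype.card_perm]; simp [Nat.factorial]

namespace LX
variable {z : G} {Q : Subgroup G} {π : G → T3} (h : LX z Q π)
include h

theorem one : π 1 = 1 := (h.ker 1 (one_mem _)).2 (one_mem _)

/-- the projection as a homomorphism -/
def hom (X : Subgroup G) (hX : X ≤ C1 z) : X →* T3 where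
  toFun a := π a
  map_one' := h.one
  map_mul' a b := h.mul a (hX a.2) b (hX b.2)

theorem inv {a : G} (ha : a ∈ C1 z) : π a⁻¹ = (π a)⁻¹ :=
  map_inv (h.hom _ le_rfl) ⟨a, ha⟩

theorem pow {a : G} (ha : a ∈ C1 z) (n : ℕ) : π (a ^ n) = π a ^ n :=
  map_pow (h.hom _ le_rfl) ⟨a, ha⟩ n

theorem cj {a b : G} (ha : a ∈ C1 z) (hb : b ∈ C1 z) : π (a * b * a⁻¹) = π a * π b * (π a)⁻¹ := by
  rw [h.mul _ (mul_mem ha hb) _ (inv_mem ha), h.mul _ ha _ hb, h.inv ha]

theorem kq {a : G} (ha : a ∈ Q) : π a = 1 := (h.ker a (h.le ha)).2 ha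

theorem nrm {g a : G} (hg : g ∈ C1 z) (ha : a ∈ Q) : g * a * g⁻¹ ∈ Q := by
  rw [← h.ker _ (mul_mem (mul_mem hg (h.le ha)) (inv_mem hg)), h.cj hg (h.le ha), h.kq ha]
  simp

theorem eq_iff {a b : G} (ha : a ∈ C1 z) (hb : b ∈ C1 z) : π a = π b ↔ a * b⁻¹ ∈ Q := by
  rw [← h.ker _ (mul_mem ha (inv_mem hb)), h.mul _ ha _ (inv_mem hb), h.inv hb, mul_inv_eq_one]

theorem eq_iff' {a b : G} (ha : a ∈ C1 z) (hb : b ∈ C1 z) : π a = π b ↔ a⁻¹ * b ∈ Q := by
  rw [← h.ker _ (mul_mem (inv_mem ha) hb), h.mul _ (inv_mem ha) _ hb, h.inv ha, inv_mul_eq_one]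

theorem sq_one {a : G} (ha : a ∈ C1 z) (h4 : a ^ 4 = 1) : π a * π a = 1 :=
  funext fun i => s3_four _ (by
    have := h.pow ha 4
    rw [h4, h.one] at this
    exact (congrFun this i).symm)

theorem sq_mem {a : G} (ha : a ∈ C1 z) (h4 : a ^ 4 = 1) : a * a ∈ Q := by
  rw [← h.ker _ (mul_mem ha ha), h.mul _ ha _ ha, h.sq_one ha h4]

theorem mem_of_sg {a : G} (ha : a ∈ C1 z) (h4 : a ^ 4 = 1) (hs : sg (π a) = 1) : a ∈ Q :=
  (h.ker a ha).1 (sg_one (h.sq_one ha h4) hs)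

variable [Finite G]

theorem card_C : Nat.card (C1 z) = 110592 := by
  have h1 := card_range_mul (h.hom _ le_rfl)
  have h2 : (h.hom _ le_rfl).range = ⊤ := MonoidHom.range_eq_top.2 fun s => by
    obtain ⟨a, ha, e⟩ := h.onto s
    exact ⟨⟨a, ha⟩, e⟩
  have h3 : (h.hom _ le_rfl).ker = Q.subgroupOf (C1 z) := by
    ext a; exact h.ker a a.2
  rw [h2, h3, card_top, card_T3,
    Nat.card_congr (subgroupOfEquivOfLe h.le).toEquiv, h.card] at h1
  omega

theorem sg_count {X : Subgroup G} (hX : X ≤ C1 z) (h4 : ∀ a ∈ X, a ^ 4 = 1) :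
    Nat.card ↥(X ⊓ Q) * Nat.card (sg.comp (h.hom X hX)).range = Nat.card X := by
  rw [← card_range_mul (sg.comp (h.hom X hX))]
  congr 1
  have : (sg.comp (h.hom X hX)).ker = (X ⊓ Q).subgroupOf X := by
    ext a
    rw [mem_subgroupOf, mem_inf, MonoidHom.mem_ker]
    refine ⟨fun e => ⟨a.2, h.mem_of_sg (hX a.2) (h4 a a.2) e⟩, fun e => ?_⟩
    change sg (π a) = 1
    rw [h.kq e.2, map_one]
  rw [this, Nat.card_congr (subgroupOfEquivOfLe inf_le_left).toEquiv]

theorem le_eight {X : Subgroup G} (hX : X ≤ C1 z) (h4 : ∀ a ∈ X, a ^ 4 = 1) :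
    Nat.card X ≤ 8 * Nat.card ↥(X ⊓ Q) := by
  have h1 := h.sg_count hX h4
  have h2 : Nat.card (sg.comp (h.hom X hX)).range ≤ 8 :=
    card_sgn ▸ Nat.card_le_card_of_injective _ Subtype.val_injective
  nlinarith

theorem sg_onto {X : Subgroup G} (hX : X ≤ C1 z) (h4 : ∀ a ∈ X, a ^ 4 = 1)
    (c : 8 * Nat.card ↥(X ⊓ Q) ≤ Nat.card X) (e : Fin 3 → ℤˣ) : ∃ a ∈ X, sg (π a) = e := by
  have h1 := h.sg_count hX h4
  have h0 := card_pos (X ⊓ Q)
  have h2 : (sg.comp (h.hom X hX)).range = ⊤ :=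
    eq_top_of_le_card _ (by rw [card_sgn]; nlinarith)
  obtain ⟨a, ha⟩ := MonoidHom.range_eq_top.1 h2 e
  exact ⟨a, a.2, ha⟩

theorem comp (σ : T3) : LX z Q fun a => σ * π a * σ⁻¹ where
  toEX := h.toEX
  mul a ha b hb := by rw [h.mul a ha b hb]; group
  ker a ha := by rw [← h.ker a ha, mul_inv_eq_one, mul_eq_left]
  onto s := by
    obtain ⟨a, ha, e⟩ := h.onto (σ⁻¹ * s * σ)
    exact ⟨a, ha, by rw [e]; group⟩

theorem conj (g : G) : LX (g * z * g⁻¹) (CfsgH5.cj g Q) fun a => π (g⁻¹ * a * g) := by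
  have hc : ∀ a, a ∈ C1 (g * z * g⁻¹) ↔ g⁻¹ * a * g ∈ C1 z := fun a => by
    rw [← cj_C1, mem_cj]
  refine ⟨⟨fun e => h.z1 (by simpa using e), ?_, conj_mem_cj.2 h.zQ, by rw [card_cj, h.card],
    fun a ha => (hc a).2 (h.le (mem_cj.1 ha)), fun a ha => ?_, fun a ha b hb => ?_,
    fun a ha => ?_⟩, fun a ha b hb => ?_, fun a ha => ?_, fun s => ?_⟩
  · rw [show g * z * g⁻¹ * (g * z * g⁻¹) = g * (z * z) * g⁻¹ by group, h.zz]; group
  · obtain ⟨a, ha', rfl⟩ := mem_cj'.1 ha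
    rw [show g * a * g⁻¹ * (g * a * g⁻¹) = g * (a * a) * g⁻¹ by group]
    rcases h.sq a ha' with e | e <;> rw [e] <;> simp
  · obtain ⟨a, ha', rfl⟩ := mem_cj'.1 ha
    obtain ⟨b, hb', rfl⟩ := mem_cj'.1 hb
    rw [show g * a * g⁻¹ * (g * b * g⁻¹) * (g * a * g⁻¹)⁻¹ = g * (a * b * a⁻¹) * g⁻¹ by group]
    rcases h.cm a ha' b hb' with e | e <;> rw [e]
    · exact Or.inl rfl
    · exact Or.inr (by group)
  · rcases h.cen (g⁻¹ * a * g) (fun b hb => by
      have := ha _ (conj_mem_cj.2 hb)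
      calc _ = g⁻¹ * (a * (g * b * g⁻¹)) * g := by group
        _ = _ := by rw [this]; group) with e | e
    · left; calc a = g * (g⁻¹ * a * g) * g⁻¹ := by group
        _ = 1 := by rw [e]; group
    · right; rw [← e]; group
  · rw [← h.mul _ ((hc a).1 ha) _ ((hc b).1 hb)]; congr 1; group
  · rw [h.ker _ ((hc a).1 ha), mem_cj]
  · obtain ⟨a, ha, e⟩ := h.onto s
    exact ⟨g * a * g⁻¹, (hc _).2 (by simpa [mul_assoc] using ha), by simpa [mul_assoc] using e⟩

end LX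

/-- the class of the involution with the attached extraspecial groups -/
structure Sys (D : Set G) (Q : G → Subgroup G) : Prop where
  cj : ∀ y ∈ D, ∀ g, g * y * g⁻¹ ∈ D
  one : ∀ y ∈ D, ∀ y' ∈ D, ∃ g, g * y * g⁻¹ = y'
  lx : ∀ y ∈ D, ∃ π, LX y (Q y) π
  eqv : ∀ y ∈ D, ∀ g, ∀ a ∈ Q y, g * a * g⁻¹ ∈ Q (g * y * g⁻¹)

theorem LX.sys [Finite G] {z : G} {Q : Subgroup G} {π : G → T3} (h : LX z Q π) :
    ∃ Q' : G → Subgroup G, Sys {y | ∃ g, g * z * g⁻¹ = y} Q' := by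
  let Q' : G → Subgroup G := fun y => ⨅ g : {g : G // g * z * g⁻¹ = y}, CfsgH5.cj g.1 Q
  have e : ∀ g, Q' (g * z * g⁻¹) = CfsgH5.cj g Q := fun g => by
    refine le_antisymm (iInf_le (fun k : {k : G // k * z * k⁻¹ = g * z * g⁻¹} => CfsgH5.cj k.1 Q) ⟨g, rfl⟩)
      (le_iInf fun ⟨k, hk'⟩ a ha => ?_)
    have hk : k⁻¹ * g ∈ C1 z := by
      rw [mem_C1_iff_conj]
      calc _ = k⁻¹ * (g * z * g⁻¹) * k := by group
        _ = _ := by rw [← hk']; group
    have := h.nrm hk (mem_cj.1 ha)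
    rw [mem_cj]
    simpa [mul_assoc] using this
  refine ⟨Q', ?_, ?_, ?_, ?_⟩
  · rintro _ ⟨k, rfl⟩ g
    exact ⟨g * k, by group⟩
  · rintro _ ⟨k, rfl⟩ _ ⟨l, rfl⟩
    exact ⟨l * k⁻¹, by group⟩
  · rintro _ ⟨k, rfl⟩
    rw [e k]
    exact ⟨_, h.conj k⟩
  · rintro _ ⟨k, rfl⟩ g a ha
    rw [show g * (k * z * k⁻¹) * g⁻¹ = (g * k) * z * (g * k)⁻¹ by group, e, ← cj_cj]
    exact conj_mem_cj.2 (e k ▸ ha)

namespace Sys
variable {D : Set G} {Q : G → Subgroup G} (h : Sys D Q)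
include h

theorem ex {y : G} (hy : y ∈ D) : EX y (Q y) := (h.lx y hy).choose_spec.toEX

theorem nrm {y g a : G} (hy : y ∈ D) (hg : g ∈ C1 y) (ha : a ∈ Q y) : g * a * g⁻¹ ∈ Q y :=
  (h.lx y hy).choose_spec.nrm hg ha

theorem inv {y : G} (hy : y ∈ D) : y⁻¹ = y := inv_self (h.ex hy).zz

variable [Finite G]

theorem sym {z u : G} (hz : z ∈ D) (hu : u ∈ D) (hq : u ∈ Q z) (ne : u ≠ z) : z ∈ Q u := by
  have e := h.ex hz
  obtain ⟨π, l⟩ := h.lx u hu
  obtain ⟨a, ha, ea⟩ := e.ex_sq (X := Q z ⊓ C1 u) inf_le_left ⟨e.zQ, mem_C1_comm.1 (e.le hq)⟩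
    (by rw [e.card_C1 hq l.z1 ne]; norm_num)
  exact ea ▸ l.sq_mem ha.2 (e.four ha.1)

theorem mul_mem {z u : G} (hz : z ∈ D) (hu : u ∈ D) (hq : u ∈ Q z) (ne : u ≠ z) : u * z ∈ D := by
  obtain ⟨b, hb, e⟩ := (h.ex hz).ex_nc (h.ex hu).z1 ne
  exact (h.ex hz).nc hb hq e ▸ h.cj u hu b

end Sys

end CfsgH2.O8
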