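import Cfsg.Agent.H2.O8A

/-! Commuting conjugates outside the extraspecial group. -/

set_option autoImplicit false
set_option linter.style.haveILetI false
set_option linter.unusedSectionVars false

namespace CfsgH2.O8
open Subgroup CfsgH5 CfsgH6 CfsgFT CfsgH2.Fx

universe u
variable {G : Type u} [Group G]

theorem card_le_two' [Finite G] {X : Subgroup G} {a : G} (h : ∀ b ∈ X, b = 1 ∨ b = a) :
    Nat.card X ≤ 2 := by
  have : (X : Set G) ⊆ {1, a} := fun b hb => h b hb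
  exact (Set.ncard_le_ncard this).trans ((Set.ncard_insert_le _ _).trans (by simp))

theorem tw {x z c d : G} (h1 : c * z = z * c) (h2 : c * d = d * c) (h3 : d * x = x * d)
    (h4 : d * z = z * d) (h5 : d * d = 1) :
    x * c * (z * d) * (x * c)⁻¹ * (z * d) = x * z * x⁻¹ * z := by
  have e1 : c * (z * d) * c⁻¹ = z * d := by
    rw [← mul_assoc, h1, mul_assoc z, h2]; group
  have e2 : d * x⁻¹ = x⁻¹ * d := by
    rw [mul_inv_eq_iff_eq_mul, mul_assoc, h3]; group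
  calc _ = x * (c * (z * d) * c⁻¹) * x⁻¹ * (z * d) := by group
    _ = x * z * (d * x⁻¹) * z * d := by rw [e1]; group
    _ = x * z * x⁻¹ * (d * z) * d := by rw [e2]; group
    _ = x * z * x⁻¹ * z * (d * d) := by rw [h4]; group
    _ = _ := by rw [h5, mul_one]

/-- `u` commutes with `z` and is far from it -/
structure Far (D : Set G) (Q : G → Subgroup G) (z u : G) : Prop where
  sys : Sys D Q
  hz : z ∈ D
  hu : u ∈ D
  cm : u ∈ C1 z
  nu : u ∉ Q z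
  h1 : ∀ x ∈ Q u, x * z * x⁻¹ * z ∈ Q z → x * z * x⁻¹ * z = 1

namespace Far
variable {D : Set G} {Q : G → Subgroup G} {z u : G} (h : Far D Q z u)
include h

theorem eu : EX u (Q u) := h.sys.ex h.hu

theorem ez : EX z (Q z) := h.sys.ex h.hz

theorem uz : u * z = z * u := mem_C1.1 h.cm

theorem el {a : G} (ha : a ∈ Q u ⊓ C1 z) : a * a = 1 := by
  obtain ⟨π, l⟩ := h.sys.lx z h.hz
  exact (h.eu.sq a ha.1).resolve_right fun e => h.nu (e ▸ l.sq_mem ha.2 (h.eu.four ha.1))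

theorem uA : u ∈ Q u ⊓ C1 z := ⟨h.eu.zQ, h.cm⟩

theorem sP {x : G} (hx : x ∈ Q u) : x * z * x⁻¹ * z ∈ Q u := by
  have := h.sys.nrm h.hu (mem_C1_comm.1 h.cm) (inv_mem hx)
  rw [h.sys.inv h.hz] at this
  simpa only [mul_assoc] using mul_mem hx this

/-- the preimage of the fixed points on the Frattini quotient -/
def B : Subgroup G where
  carrier := {x | x ∈ Q u ∧ (x * z * x⁻¹ = z ∨ x * z * x⁻¹ = z * u)}
  one_mem' := ⟨one_mem _, Or.inl (by simp)⟩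
  mul_mem' := by
    rintro x y ⟨hx, ex⟩ ⟨hy, ey⟩
    refine ⟨mul_mem hx hy, ?_⟩
    have e0 : x * u * x⁻¹ = u := by rw [h.eu.zc hx]; group
    rw [show x * y * z * (x * y)⁻¹ = x * (y * z * y⁻¹) * x⁻¹ by group]
    rcases ey with ey | ey <;> rw [ey]
    · exact ex
    · rw [show x * (z * u) * x⁻¹ = x * z * x⁻¹ * (x * u * x⁻¹) by group, e0]
      rcases ex with ex | ex <;> rw [ex]
      · exact Or.inr rfl
      · left; rw [mul_assoc, h.eu.zz, mul_one]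
  inv_mem' := by
    rintro x ⟨hx, ex⟩
    refine ⟨inv_mem hx, ex.imp (fun e => ?_) fun e => ?_⟩
    · conv_lhs => rw [← e]
      group
    · have e0 : x⁻¹ * u * x = u := by rw [mul_assoc, ← h.eu.zc hx]; group
      have e1 : z = x * z * x⁻¹ * u := by rw [e, mul_assoc, h.eu.zz, mul_one]
      calc x⁻¹ * z * x⁻¹⁻¹ = x⁻¹ * (x * z * x⁻¹ * u) * x⁻¹⁻¹ := by rw [← e1]
        _ = z * (x⁻¹ * u * x) := by group
        _ = _ := by rw [e0]

theorem AB : Q u ⊓ C1 z ≤ h.B := fun _ ha => ⟨ha.1, Or.inl (mem_C1_iff_conj.1 ha.2)⟩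

theorem sB {x : G} (hx : x ∈ Q u) : x * z * x⁻¹ * z ∈ h.B := by
  refine ⟨h.sP hx, ?_⟩
  have zz := h.ez.zz
  have e : ∀ s, s = x * z * x⁻¹ * z → s * z * s⁻¹ = z * (s * s)⁻¹ := by
    rintro _ rfl
    simp only [mul_inv_rev, inv_inv, h.sys.inv h.hz]
    calc _ = x * z * x⁻¹ * (z * z) * z * x * z * x⁻¹ := by group
      _ = (z * z) * x * z * x⁻¹ * z * x * z * x⁻¹ := by rw [zz]; group
      _ = _ := by group
  rw [e _ rfl]
  rcases h.eu.sq _ (h.sP hx) with e | e <;> rw [e]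
  · simp
  · right; rw [h.sys.inv h.hu]

theorem sC {x : G} (hx : x ∈ Q u) : x * z * x⁻¹ * z ∈ C h.B := by
  rw [mem_C]
  rintro b ⟨hb, eb⟩
  rw [← mul_inv_eq_iff_eq_mul, show b * (x * z * x⁻¹ * z) * b⁻¹ =
    (b * x * b⁻¹) * (b * z * b⁻¹) * (b * x * b⁻¹)⁻¹ * (b * z * b⁻¹) by group]
  have e1 := (h.eu.zc hx).symm
  rcases h.eu.cm b hb x hx with ex | ex <;> rcases eb with eb | eb <;> rw [ex, eb]
  · simpa using tw (x := x) (c := 1) (by simp) (by simp) e1 h.uz h.eu.zz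
  · simpa using tw (x := x) (d := 1) h.uz (by simp) (by simp) (by simp) (by simp)
  · exact tw h.uz rfl e1 h.uz h.eu.zz

variable [Finite G]

theorem cardS : Nat.card ↥(Q u ⊓ C1 z) * {s | ∃ x ∈ Q u, x * z * x⁻¹ * z = s}.ncard = 512 := by
  have e : {s | ∃ x ∈ Q u, x * z * x⁻¹ * z = s} =
      (· * z) '' {y | ∃ x ∈ Q u, x * z * x⁻¹ = y} := by
    ext s
    constructor
    · rintro ⟨x, hx, rfl⟩
      exact ⟨_, ⟨x, hx, rfl⟩, rfl⟩
    · rintro ⟨_, ⟨x, hx, rfl⟩, rfl⟩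
      exact ⟨x, hx, rfl⟩
  rw [e, Set.ncard_image_of_injective _ (mul_left_injective z), ← rel_C1, inf_comm,
    card_inf_mul_relIndex, h.eu.card]

theorem le32 : Nat.card ↥(Q u ⊓ C1 z) ≤ 32 :=
  h.eu.ab_le inf_le_left h.uA (ab_of_sq fun _ => h.el)

theorem halfB {W : Subgroup G} (hW : W ≤ h.B) : Nat.card W ≤ 2 * Nat.card ↥(W ⊓ C1 z) := by
  have h1 := card_le_cls W z (s := {z, z * u}) fun d hd => (hW hd).2
  have h2 : ({z, z * u} : Set G).ncard ≤ 2 := (Set.ncard_insert_le _ _).trans (by simp)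
  nlinarith

theorem nb {x : G} (hx : x ∈ Q u) : x * z * x⁻¹ ≠ z * u := by
  intro e
  obtain ⟨π, l⟩ := h.sys.lx z h.hz
  have c1 : 2 * Nat.card ↥(Q u ⊓ C1 z) ≤ Nat.card h.B :=
    two_le h.AB (a := x) ⟨hx, Or.inr e⟩ fun hc => h.eu.ne_mul z (e.symm.trans (mem_C1_iff_conj.1 hc.2))
  have c2 := h.eu.count (A := h.B) (fun _ ha => ha.1) (h.AB h.uA)
  have c3 := h.cardS
  have c4 := h.le32
  have hS : {s | ∃ x ∈ Q u, x * z * x⁻¹ * z = s} = ((Q u ⊓ C h.B : Subgroup G) : Set G) := by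
    refine Set.eq_of_subset_of_ncard_le ?_ ?_
    · rintro _ ⟨y, hy, rfl⟩
      exact ⟨h.sP hy, h.sC hy⟩
    · change Nat.card ↥(Q u ⊓ C h.B) ≤ _
      have := card_pos (Q u ⊓ C1 z)
      nlinarith
  rw [hS] at c3
  change _ * Nat.card ↥(Q u ⊓ C h.B) = _ at c3
  have c5 : Nat.card ↥(Q u ⊓ C h.B ⊓ C1 z) ≤ 8 := by
    have := l.le_eight (X := Q u ⊓ C h.B ⊓ C1 z) inf_le_right fun a ha => h.eu.four ha.1.1
    have e1 : Q u ⊓ C h.B ⊓ C1 z ⊓ Q z = ⊥ := by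
      rw [eq_bot_iff]
      rintro a ⟨⟨ha, -⟩, ha'⟩
      obtain ⟨y, hy, rfl⟩ : a ∈ {s | ∃ x ∈ Q u, x * z * x⁻¹ * z = s} := hS ▸ ha
      exact h.h1 y hy ha'
    rwa [e1, card_bot] at this
  have c6 := h.halfB (W := Q u ⊓ C h.B) fun a ha => by
    obtain ⟨y, hy, rfl⟩ : a ∈ {s | ∃ x ∈ Q u, x * z * x⁻¹ * z = s} := hS ▸ ha
    exact h.sB hy
  have c7 : Nat.card ↥(Q u ⊓ C1 z) = 32 := by nlinarith
  have c8 := h.eu.self_cent inf_le_left h.uA (ab_of_sq fun _ => h.el) c7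
  have c9 : Q u ⊓ C h.B ⊓ C1 z = Q u ⊓ C h.B := inf_eq_left.2 fun a ha =>
    (c8.le ⟨ha.1, C_anti h.AB ha.2⟩).2
  rw [c9] at c5
  rw [c7] at c3
  omega

theorem sA {x : G} (hx : x ∈ Q u) : x * z * x⁻¹ * z ∈ Q u ⊓ C1 z :=
  ⟨h.sP hx, mem_C1_iff_conj.2 ((h.sB hx).2.resolve_right (h.nb (h.sP hx)))⟩

theorem split : Nat.card ↥(Q u ⊓ C1 z) = 32 ∧ ∀ a ∈ Q u ⊓ C1 z, ∃ x ∈ Q u,
    a = x * z * x⁻¹ * z ∨ a = u * (x * z * x⁻¹ * z) := by
  set S := {s | ∃ x ∈ Q u, x * z * x⁻¹ * z = s} with hS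
  have c3 := h.cardS
  have c4 := h.le32
  have hd : Disjoint S ((u * ·) '' S) := by
    rw [Set.disjoint_left]
    rintro _ ⟨x, hx, rfl⟩ ⟨_, ⟨y, hy, rfl⟩, e⟩
    refine h.nb (mul_mem (inv_mem hy) hx) ?_
    have e1 : x * z * x⁻¹ = u * (y * z * y⁻¹) := mul_right_cancel (b := z) (by
      rw [← e]; group)
    have e0 : y⁻¹ * u * y = u := by rw [mul_assoc, ← h.eu.zc hy]; group
    calc _ = y⁻¹ * (x * z * x⁻¹) * y := by group
      _ = y⁻¹ * u * y * z := by rw [e1]; group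
      _ = _ := by rw [e0, h.uz]
  have hs : S ∪ (u * ·) '' S ⊆ ((Q u ⊓ C1 z : Subgroup G) : Set G) := by
    rintro _ (⟨x, hx, rfl⟩ | ⟨_, ⟨x, hx, rfl⟩, rfl⟩)
    exacts [h.sA hx, mul_mem h.uA (h.sA hx)]
  have hc : (S ∪ (u * ·) '' S).ncard = 2 * S.ncard := by
    rw [Set.ncard_union_eq hd, Set.ncard_image_of_injective _ (mul_right_injective u)]; ring
  have c5 : 2 * S.ncard ≤ Nat.card ↥(Q u ⊓ C1 z) := hc ▸ Set.ncard_le_ncard hs
  have c6 : Nat.card ↥(Q u ⊓ C1 z) = 32 := by nlinarith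
  refine ⟨c6, fun a ha => ?_⟩
  have := Set.eq_of_subset_of_ncard_le hs (by
    change Nat.card ↥(Q u ⊓ C1 z) ≤ _
    rw [c6, ← hS] at c3; rw [hc, c6]; omega)
  rcases (this.ge ha : a ∈ S ∪ (u * ·) '' S) with ⟨x, hx, rfl⟩ | ⟨_, ⟨x, hx, rfl⟩, rfl⟩
  exacts [⟨x, hx, Or.inl rfl⟩, ⟨x, hx, Or.inr rfl⟩]

theorem le4 : Nat.card ↥(Q u ⊓ C1 z ⊓ Q z) ≤ 4 := by
  have key : ∀ a ∈ Q u ⊓ C1 z ⊓ Q z, a ≠ 1 → ∃ x ∈ Q u, a = u * (x * z * x⁻¹ * z) := by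
    intro a ha a1
    obtain ⟨x, hx, e | e⟩ := h.split.2 a ha.1
    · exact absurd (e.trans (h.h1 x hx (e ▸ ha.2))) a1
    · exact ⟨x, hx, e⟩
  by_cases hb : ∀ a ∈ Q u ⊓ C1 z ⊓ Q z, a = 1
  · exact (card_le_two' (a := 1) fun b hb' => Or.inl (hb b hb')).trans (by norm_num)
  push Not at hb
  obtain ⟨a, ha, a1⟩ := hb
  obtain ⟨x, hx, ea⟩ := key a ha a1
  have h1 := h.eu.le_half (X := Q u ⊓ C1 z ⊓ Q z) (fun _ hb => hb.1.1) hx
  have h2 : Nat.card ↥(Q u ⊓ C1 z ⊓ Q z ⊓ C1 x) ≤ 2 := card_le_two' (a := a) fun b hb => by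
    by_cases b1 : b = 1
    · exact Or.inl b1
    right
    obtain ⟨y, hy, eb⟩ := key b hb.1 b1
    have e0 : x * u * x⁻¹ = u := by rw [h.eu.zc hx]; group
    have e1 : x * (y * z * y⁻¹ * z) * x⁻¹ = y * z * y⁻¹ * z := by
      have := mem_C1_iff_conj'.1 hb.2
      rw [eb, show x * (u * (y * z * y⁻¹ * z)) * x⁻¹ =
        x * u * x⁻¹ * (x * (y * z * y⁻¹ * z) * x⁻¹) by group, e0] at this
      exact mul_left_cancel this
    have e2 : b * a = (x * y) * z * (x * y)⁻¹ * z := by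
      have e3 := h.eu.zc (h.sP hy)
      calc b * a = u * (y * z * y⁻¹ * z * u) * (x * z * x⁻¹ * z) := by rw [ea, eb]; group
        _ = (u * u) * (x * (y * z * y⁻¹ * z) * x⁻¹) * (x * z * x⁻¹ * z) := by rw [e3, e1]; group
        _ = x * y * z * y⁻¹ * (z * z) * x⁻¹ * z := by rw [h.eu.zz]; group
        _ = _ := by rw [h.ez.zz]; group
    have e4 := h.h1 _ (mul_mem hx hy) (e2 ▸ mul_mem hb.1.2 ha.2)
    rw [← e2, ← h.el ha.1] at e4
    exact mul_right_cancel e4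
  omega

end Far

/-- a three-cycle -/
def c3 : S3 := Equiv.swap 0 1 * Equiv.swap 1 2

theorem s3_nc (e : S3) (h : Equiv.Perm.sign e = -1) :
    c3 * e * c3⁻¹ * e ≠ 1 ∧ c3 * c3 * e * (c3 * c3)⁻¹ * e ≠ 1 := by revert e; decide

theorem Far.wt [Finite G] {D : Set G} {Q : G → Subgroup G} {z u : G} (h : Far D Q z u)
    (k : Far D Q u z) {π : G → T3} (l : LX z (Q z) π) : sg (π u) = -1 := by
  funext i
  refine (Int.units_eq_one_or (sg (π u) i)).resolve_left fun hi => ?_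
  have u4 := h.eu.four h.eu.zQ
  have ui : π u i = 1 := s3_sign _ (congrFun (l.sq_one h.cm u4) i) hi
  obtain ⟨d, hd, ed⟩ := l.onto (Pi.mulSingle i c3)
  have e1 : d * u * d⁻¹ * u⁻¹ ∈ Q z := by
    rw [← l.eq_iff (mul_mem (mul_mem hd h.cm) (inv_mem hd)) h.cm, l.cj hd h.cm, ed]
    funext j
    by_cases hj : j = i
    · subst hj; simp [ui]
    · simp [hj]
  rw [h.sys.inv h.hu] at e1
  have uu := h.eu.zz
  have e2 : d * u * d⁻¹ * u ∈ C1 u := by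
    have e : d * u * d⁻¹ * u * u * (d * u * d⁻¹ * u)⁻¹ =
        (d * u * d⁻¹ * u) * (d * u * d⁻¹ * u) * u := by
      simp only [mul_inv_rev, inv_inv, h.sys.inv h.hu]
      calc _ = d * u * d⁻¹ * (u * u) * u * d * u * d⁻¹ := by group
        _ = d * u * d⁻¹ * u * d * u * d⁻¹ * (u * u) := by rw [uu]; group
        _ = _ := by group
    rw [mem_C1_iff_conj, e]
    rcases h.ez.sq _ e1 with e3 | e3
    · rw [e3, one_mul]
    · exact absurd (e.trans (by rw [e3, h.uz])) (k.nb e1)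
  obtain ⟨g, hg, hgu, eg⟩ : ∃ g ∈ C1 z, g ∈ C1 u ∧ (π g i = c3 ∨ π g i = c3 * c3) := by
    obtain ⟨y, hy, e | e⟩ := k.split.2 _ ⟨e1, e2⟩
    · refine ⟨y⁻¹ * d, mul_mem (inv_mem (l.le hy)) hd, mem_C1_iff_conj.2 ?_, Or.inl ?_⟩
      · calc _ = y⁻¹ * (d * u * d⁻¹) * y := by group
          _ = _ := by rw [mul_right_cancel e]; group
      · rw [l.mul _ (inv_mem (l.le hy)) _ hd, l.kq (inv_mem hy), ed]; simp
    · have hy' : d * y * d⁻¹ * y ∈ Q z := mul_mem (l.nrm hd hy) hy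
      have e3 : d * u * d⁻¹ = z * (y * u * y⁻¹) := mul_right_cancel (b := u) (by rw [e]; group)
      have e4 : d * z * d⁻¹ = z := mem_C1_iff_conj.1 hd
      have e5 : d * y * d⁻¹ * z * (d * y * d⁻¹)⁻¹ = z := mem_C1_iff_conj.1 (l.le (l.nrm hd hy))
      refine ⟨(d * y * d⁻¹ * y)⁻¹ * (d * d), mul_mem (inv_mem (l.le hy')) (mul_mem hd hd),
        mem_C1_iff_conj.2 ?_, Or.inr ?_⟩
      · have e6 : d * d * u * (d * d)⁻¹ = (d * y * d⁻¹ * y) * u * (d * y * d⁻¹ * y)⁻¹ := by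
          calc _ = d * (d * u * d⁻¹) * d⁻¹ := by group
            _ = (d * z * d⁻¹) * (d * y * d⁻¹) * (d * u * d⁻¹) * (d * y * d⁻¹)⁻¹ := by
              conv_lhs => rw [e3]
              group
            _ = z * (d * y * d⁻¹ * z * (d * y * d⁻¹)⁻¹) *
                ((d * y * d⁻¹ * y) * u * (d * y * d⁻¹ * y)⁻¹) := by rw [e4, e3]; group
            _ = _ := by rw [e5, l.zz, one_mul]
        calc _ = (d * y * d⁻¹ * y)⁻¹ * (d * d * u * (d * d)⁻¹) * (d * y * d⁻¹ * y) := by group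
          _ = _ := by rw [e6]; group
      · rw [l.mul _ (inv_mem (l.le hy')) _ (mul_mem hd hd), l.kq (inv_mem hy'), l.mul _ hd _ hd, ed]
        simp
  obtain ⟨a, ha, ea⟩ := l.sg_onto (X := Q u ⊓ C1 z) inf_le_right (fun a ha => h.eu.four ha.1)
    (by have := h.le4; have := h.split.1; omega) (-1)
  have ha' : g * a * g⁻¹ * a ∈ Q u ⊓ C1 z :=
    mul_mem (⟨h.sys.nrm h.hu hgu ha.1, Subgroup.mul_mem _ (Subgroup.mul_mem _ hg ha.2)
      (Subgroup.inv_mem _ hg)⟩ : _ ∈ Q u ⊓ C1 z) ha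
  have e7 : π (g * a * g⁻¹ * a) = π g * π a * (π g)⁻¹ * π a := by
    rw [l.mul _ (mul_mem (mul_mem hg ha.2) (inv_mem hg)) _ ha.2, l.cj hg ha.2]
  have e8 := l.kq (l.mem_of_sg ha'.2 (h.eu.four ha'.1) (by
    rw [e7]; simp only [map_mul, map_inv, ea]
    rw [mul_comm (sg (π g))]; simp))
  have e9 := congrFun (e7.symm.trans e8) i
  simp only [Pi.mul_apply, Pi.inv_apply, Pi.one_apply] at e9
  have := s3_nc (π a i) (congrFun ea i)
  rcases eg with eg | eg <;> rw [eg] at e9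
  exacts [this.1 e9, this.2 e9]

namespace Sys
variable [Finite G] {D : Set G} {Q : G → Subgroup G} (h : Sys D Q)
include h

theorem far_or1 {z u : G} (hz : z ∈ D) (hu : u ∈ D) (cm : u ∈ C1 z) (nu : u ∉ Q z) :
    Far D Q z u ∨ ∃ y ∈ D, y ∈ Q z ∧ y ∈ Q u ∧ y ≠ z ∧ y ≠ u := by
  by_cases h1 : ∀ x ∈ Q u, x * z * x⁻¹ * z ∈ Q z → x * z * x⁻¹ * z = 1
  · exact Or.inl ⟨h, hz, hu, cm, nu, h1⟩
  push Not at h1
  obtain ⟨x, hx, e, ne⟩ := h1
  have e1 := h.ex hz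
  have e2 : x * z * x⁻¹ ∈ Q z := (mul_mem_cancel_right e1.zQ).1 e
  refine Or.inr ⟨_, h.mul_mem hz (h.cj z hz x) e2 fun e3 => ne (by rw [e3, e1.zz]), e, ?_,
    fun e3 => e1.z1 ?_, fun e3 => nu (e3 ▸ e)⟩
  · have := h.nrm hu (mem_C1_comm.1 cm) (inv_mem hx)
    rw [h.inv hz] at this
    simpa only [mul_assoc] using Subgroup.mul_mem _ hx this
  · simpa using e3

theorem far_or {z u : G} (hz : z ∈ D) (hu : u ∈ D) (cm : u ∈ C1 z) (nu : u ∉ Q z) :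
    (Far D Q z u ∧ Far D Q u z) ∨ ∃ y ∈ D, y ∈ Q z ∧ y ∈ Q u ∧ y ≠ z ∧ y ≠ u := by
  rcases h.far_or1 hz hu cm nu with h1 | h1
  · rcases h.far_or1 hu hz (mem_C1_comm.1 cm) (fun e => nu (h.sym hu hz e fun e' =>
      nu (e' ▸ (h.ex hz).zQ))) with h2 | ⟨y, a, b, c, d, e⟩
    exacts [Or.inl ⟨h1, h2⟩, Or.inr ⟨y, a, c, b, e, d⟩]
  · exact Or.inr h1

theorem exq {z u : G} (hz : z ∈ D) (hu : u ∈ D) (cm : u ∈ C1 z) (ne : u ≠ z) :
    ∃ x ∈ D, x ∈ Q z ∧ x ≠ z := by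
  by_contra hc
  push Not at hc
  obtain ⟨π, l⟩ := h.lx z hz
  have far : ∀ y ∈ D, y ∈ C1 z → y ≠ z → Far D Q z y ∧ Far D Q y z := fun y hy c n =>
    (h.far_or hz hy c fun e => n (hc y hy e)).resolve_right fun ⟨w, a, b, _, d, _⟩ => d (hc w a b)
  have f := (far u hu cm ne).1
  have wt : ∀ y ∈ Q u, y * z * y⁻¹ * z ≠ 1 → sg (π (y * z * y⁻¹ * z)) = -1 := by
    intro y hy n
    have c : y * z * y⁻¹ ∈ C1 z := (mul_mem_cancel_right (self_mem_C1 z)).1 (f.sA hy).2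
    obtain ⟨f1, f2⟩ := far _ (h.cj z hz y) c fun e => n (by rw [e, l.zz])
    rw [l.mul _ c _ (self_mem_C1 z), l.kq l.zQ, mul_one, f1.wt f2 l]
  obtain ⟨x, hx, e⟩ := f.eu.ex_nc l.z1 ne.symm
  have n : x * z * x⁻¹ * z ≠ 1 := fun e' => e (by
    rw [← l.zz] at e'
    exact mul_inv_eq_iff_eq_mul.1 (mul_right_cancel e'))
  have c1 := f.eu.le_half le_rfl (f.sP hx)
  have c2 := card_le_cls (Q u ⊓ C1 (x * z * x⁻¹ * z)) z (s := {z, x * z * x⁻¹}) fun y hy => by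
    by_cases n' : y * z * y⁻¹ * z = 1
    · left
      rw [← l.zz] at n'
      exact mul_right_cancel n'
    right
    have e1 : (y * x) * z * (y * x)⁻¹ * z = (x * z * x⁻¹ * z) * (y * z * y⁻¹ * z) := by
      conv_rhs => rw [← mem_C1_iff_conj.1 hy.2]
      calc _ = y * x * z * x⁻¹ * (z * z) * y⁻¹ * z := by rw [l.zz]; group
        _ = _ := by group
    have hA := Subgroup.mul_mem _ (f.sA hx) (f.sA hy.1)
    have e2 := f.h1 _ (Subgroup.mul_mem _ hy.1 hx) (e1 ▸ l.mem_of_sg hA.2 (f.eu.four hA.1) (by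
      rw [l.mul _ (f.sA hx).2 _ (f.sA hy.1).2, map_mul, wt x hx n, wt y hy.1 n']; simp))
    rw [e1, ← f.el (f.sA hx)] at e2
    exact mul_right_cancel (mul_left_cancel e2)
  have c3 : ({z, x * z * x⁻¹} : Set G).ncard ≤ 2 := (Set.ncard_insert_le _ _).trans (by simp)
  have c4 : Nat.card ↥(Q u ⊓ C1 (x * z * x⁻¹ * z) ⊓ C1 z) ≤ 32 :=
    (card_le_of_le (inf_le_inf_right _ inf_le_left)).trans f.le32
  rw [f.eu.card] at c1
  nlinarith

end Sys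

end CfsgH2.O8
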