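import Cfsg.Agent.H2.O8B

/-! The Frattini quotient is the tensor product of three natural modules. -/

set_option autoImplicit false
set_option linter.style.haveILetI false
set_option linter.unusedSectionVars false

namespace CfsgH2.O8
open Subgroup CfsgH5 CfsgH6 CfsgFT CfsgH2.Fx

universe u

/-- a transposition -/
def t0 : S3 := Equiv.swap 0 1

/-- three-cycles in the factors -/
def δ (i : Fin 3) : T3 := Pi.mulSingle i c3

/-- transpositions in the factors -/
def τ (i : Fin 3) : T3 := Pi.mulSingle i t0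

/-- other transpositions in the factors -/
def ω (i : Fin 3) : T3 := Pi.mulSingle i (c3 * t0 * c3⁻¹)

/-- the standard Sylow subgroup -/
def E0 (σ : T3) : Prop := ∀ i, σ i = 1 ∨ σ i = t0

theorem δ_cj (i : Fin 3) (σ : T3) : σ⁻¹ * δ i * σ = δ i ∨ σ⁻¹ * δ i * σ = δ i * δ i := by
  have : ∀ a : S3, a⁻¹ * c3 * a = c3 ∨ a⁻¹ * c3 * a = c3 * c3 := by decide
  refine (this (σ i)).imp (fun e => funext fun j => ?_) (fun e => funext fun j => ?_) <;>
    by_cases hj : j = i
  · subst hj; simpa [δ] using e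
  · simp [δ, hj]
  · subst hj; simpa [δ] using e
  · simp [δ, hj]

theorem δ3 (i : Fin 3) : δ i * δ i * δ i = 1 := by revert i; decide

theorem E0_τ (i : Fin 3) : E0 (τ i) := by unfold E0; revert i; decide

theorem not_E0_δ (i : Fin 3) : ¬ E0 (δ i) := by unfold E0; revert i; decide

theorem ω_eq (i : Fin 3) : ω i = δ i * δ i * τ i ∧ τ i * ω i = δ i ∧
    ω i = δ i * τ i * (δ i)⁻¹ := by revert i; decide

theorem ω_comm (i j : Fin 3) (h : i ≠ j) : τ j * ω i = ω i * τ j ∧ ω j * ω i = ω i * ω j := by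
  revert i j; decide

section Mod
variable {W : Type u} [CommGroup W] [MulDistribMulAction T3 W]

theorem nrmW (X Y : Subgroup W) : Nrm X Y := fun a _ x hx => by
  rwa [mul_comm a, mul_inv_cancel_right]

/-- the norm map -/
def nmap (i : Fin 3) : W →* W where
  toFun y := y * δ i • y * δ i • δ i • y
  map_one' := by simp
  map_mul' a b := by simp [mul_comm, mul_left_comm, mul_assoc]

theorem nmap_apply (i : Fin 3) (y : W) : nmap i y = y * δ i • y * δ i • δ i • y := rfl

theorem δδδ (i : Fin 3) (y : W) : δ i • δ i • δ i • y = y := by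
  rw [← mul_smul, ← mul_smul, δ3, one_smul]

/-- fixed points of a three-cycle -/
def FX (W : Type u) [CommGroup W] [MulDistribMulAction T3 W] (i : Fin 3) : Subgroup W where
  carrier := {y | δ i • y = y}
  one_mem' := smul_one _
  mul_mem' := fun {a b} (ha : _ = _) (hb : _ = _) => show _ = _ by rw [smul_mul', ha, hb]
  inv_mem' := fun {a} (ha : _ = _) => show _ = _ by rw [smul_inv', ha]

theorem δ_smul (i : Fin 3) (σ : T3) (y : W) : δ i • σ • y = σ • (σ⁻¹ * δ i * σ) • y := by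
  simp [mul_smul]

theorem FX_inv {i : Fin 3} (σ : T3) {y : W} (h : y ∈ FX W i) : σ • y ∈ FX W i := by
  change δ i • y = y at h
  change δ i • σ • y = σ • y
  rw [δ_smul]
  rcases δ_cj i σ with e | e <;> simp [e, mul_smul, h]

theorem KN_inv {i : Fin 3} (σ : T3) {y : W} (h : y ∈ (nmap i : W →* W).ker) :
    σ • y ∈ (nmap i : W →* W).ker := by
  rw [MonoidHom.mem_ker, nmap_apply] at h ⊢
  rw [δ_smul i σ y, δ_smul i σ, ← smul_mul', ← smul_mul']
  rcases δ_cj i σ with e | e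
  · rw [e, h, smul_one]
  · simp only [e, mul_smul, δδδ]
    rw [mul_right_comm, h, smul_one]

theorem nmap_FX (i : Fin 3) (y : W) : nmap i y ∈ FX W i := by
  change δ i • _ = _
  simp only [nmap_apply, smul_mul', δδδ]
  simp [mul_comm, mul_left_comm, mul_assoc]

variable (two : ∀ y : W, y * y = 1)
include two

theorem nmap_fix {i : Fin 3} {y : W} (h : y ∈ FX W i) : nmap i y = y := by
  change δ i • y = y at h
  rw [nmap_apply, h, h, two, one_mul]

theorem KN_FX (i : Fin 3) : (nmap i : W →* W).ker ⊓ FX W i = ⊥ :=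
  eq_bot_iff.2 fun _ hy => (nmap_fix two hy.2).symm.trans hy.1

theorem KN_sup (i : Fin 3) : (nmap i : W →* W).ker ⊔ FX W i = ⊤ := by
  refine eq_top_iff.2 fun y _ => ?_
  have : y = (y * nmap i y) * nmap i y := by rw [mul_assoc, two, mul_one]
  rw [this]
  refine mul_mem (mem_sup_left ?_) (mem_sup_right (nmap_FX i y))
  rw [MonoidHom.mem_ker, map_mul, nmap_fix two (nmap_FX i y), two]

/-- vectors in general position for the factor `i` -/
def PS (i : Fin 3) : Subgroup W where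
  carrier := {y | τ i • y = y ∧ τ i • ω i • y = y * ω i • y}
  one_mem' := by simp
  mul_mem' := fun {a b} ha hb => by
    refine ⟨by rw [smul_mul', ha.1, hb.1], ?_⟩
    rw [smul_mul', smul_mul', ha.2, hb.2, mul_mul_mul_comm]
  inv_mem' := fun {a} ha => by rwa [inv_self (two a)]

/-- the doubling construction -/
def dbl (i : Fin 3) (M : Subgroup W) : Subgroup W :=
  M ⊔ M.map (MulDistribMulAction.toMonoidHom W (ω i))

omit two in
theorem dbl_le {i : Fin 3} {M K : Subgroup W} (h1 : M ≤ K) (h2 : ∀ y ∈ M, ω i • y ∈ K) :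
    dbl i M ≤ K := sup_le h1 (by rintro _ ⟨y, hy, rfl⟩; exact h2 y hy)

theorem dbl_PS {i j : Fin 3} (h : i ≠ j) {M : Subgroup W} (h1 : M ≤ PS two j) :
    dbl i M ≤ PS two j := dbl_le h1 fun y hy => by
  obtain ⟨a, b⟩ := h1 hy
  obtain ⟨c, d⟩ := ω_comm i j h
  refine ⟨by rw [← mul_smul, c, mul_smul, a], ?_⟩
  rw [← mul_smul (ω j), d, mul_smul, ← mul_smul (τ j), c, mul_smul, b, smul_mul']

variable [Finite W]

theorem card_dbl {i : Fin 3} {M : Subgroup W} (h1 : M ≤ PS two i) :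
    Nat.card (dbl i M) = Nat.card M * Nat.card M := by
  rw [dbl, card_sup_of_inf_eq_bot (Or.inl (nrmW _ _)), card_map_of_injective
    (MulAction.injective (ω i))]
  rw [eq_bot_iff]
  rintro _ ⟨hm, y, hy, rfl⟩
  have e := (h1 hm).1.symm.trans (h1 hy).2
  simp only [MulDistribMulAction.toMonoidHom_apply] at e ⊢
  rw [mem_bot, right_eq_mul.1 e, smul_one]

omit two

/-- the configuration in the Frattini quotient -/
structure MX (v : W) (U A : Subgroup W) : Prop where
  two : ∀ y : W, y * y = 1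
  card : Nat.card W = 256
  v1 : v ≠ 1
  fix : ∀ σ : T3, σ • v = v ↔ E0 σ
  UA : U ≤ A
  cU : 16 ≤ Nat.card U
  cA : Nat.card A = 128
  hA : ∀ σ, E0 σ → ∀ a ∈ A, σ • a * a ∈ U
  hU : ∀ σ, E0 σ → ∀ u ∈ U, σ • u = u ∨ σ • u = u * v
  fx : ∀ u ∈ U, (∀ σ, E0 σ → σ • u = u) → u = 1 ∨ u = v

namespace MX
variable {v : W} {U A : Subgroup W} (h : MX v U A)
include h

theorem fixM {M : Subgroup W} (hM : ∀ (σ : T3), ∀ y ∈ M, σ • y ∈ M) (hv : v ∉ M) {a : W}
    (ha : a ∈ A ⊓ M) {σ : T3} (hσ : E0 σ) : σ • a = a := by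
  have h1 : σ • a * a ∈ M := mul_mem (hM σ a ha.2) ha.2
  have h2 := h.hA σ hσ a ha.1
  rcases h.fx _ h2 (fun ρ hρ => (h.hU ρ hρ _ h2).resolve_right fun e =>
    hv ((mul_mem_cancel_left h1).1 (e ▸ hM ρ _ h1))) with e | e
  · exact mul_right_cancel (e.trans (h.two a).symm)
  · exact absurd (e ▸ h1) hv

theorem halfM (M : Subgroup W) : Nat.card M ≤ 2 * Nat.card ↥(A ⊓ M) := by
  have h1 := card_sup_mul (Or.inl (nrmW A M))
  have h2 : Nat.card ↥(A ⊔ M) ≤ 256 := h.card ▸ card_le_card_group _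
  rw [h.cA] at h1
  nlinarith

theorem norm (i : Fin 3) : nmap i v = 1 := by
  by_contra hc
  have h1 : v ∉ FX W i := fun e => not_E0_δ i ((h.fix _).1 e)
  have c1 := card_sup_of_inf_eq_bot (Or.inl (nrmW _ _)) (KN_FX h.two i)
  rw [KN_sup h.two, card_top, h.card] at c1
  have c2 := h.halfM (nmap i : W →* W).ker
  have c3 := h.halfM (FX W i)
  have c4 := card_sup_of_inf_eq_bot (Or.inl (nrmW (A ⊓ (nmap i : W →* W).ker) (A ⊓ FX W i)))
    (eq_bot_iff.2 fun _ hy => (KN_FX h.two i).le ⟨hy.1.2, hy.2.2⟩)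
  set F := A ⊓ (nmap i : W →* W).ker ⊔ A ⊓ FX W i with hF
  have c5 := card_sup_mul (Or.inl (nrmW F U))
  have c6 : Nat.card ↥(F ⊔ U) ≤ 128 :=
    h.cA ▸ card_le_of_le (sup_le (sup_le inf_le_left inf_le_left) h.UA)
  have c7 : Nat.card ↥(F ⊓ U) ≤ 2 := card_le_two' (a := v) fun b hb => h.fx b hb.2 fun σ hσ => by
    obtain ⟨x, hx, y, hy, rfl⟩ := (mem_sup_nrm (nrmW _ _)).1 hb.1
    rw [smul_mul', h.fixM (fun σ _ => KN_inv σ) hc hx hσ, h.fixM (fun σ _ => FX_inv σ) h1 hy hσ]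
  have c8 := h.cU
  have c9 : 64 ≤ Nat.card F := by nlinarith
  nlinarith

theorem ps (i : Fin 3) : v ∈ PS h.two i := by
  have e := (h.fix _).2 (E0_τ i)
  refine ⟨e, ?_⟩
  rw [← mul_smul, (ω_eq i).2.1, (ω_eq i).1, mul_smul, mul_smul, e]
  have := h.norm i
  rw [nmap_apply, mul_right_comm] at this
  exact (mul_right_cancel (this.trans (h.two (δ i • v)).symm)).symm

theorem gen {M : Subgroup W} (h0 : v ∈ M) (h1 : ω 2 • v ∈ M) (h2 : ω 1 • v ∈ M)
    (h3 : ω 1 • ω 2 • v ∈ M) (h4 : ω 0 • v ∈ M) (h5 : ω 0 • ω 2 • v ∈ M) (h6 : ω 0 • ω 1 • v ∈ M)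
    (h7 : ω 0 • ω 1 • ω 2 • v ∈ M) : M = ⊤ := by
  have p : ∀ i, zpowers v ≤ PS h.two i := fun i => zpowers_le.2 (h.ps i)
  have c1 := card_dbl h.two (p 2)
  have c2 := card_dbl h.two (dbl_PS h.two (i := 2) (by decide) (p 1))
  have c3 := card_dbl h.two (dbl_PS h.two (i := 1) (by decide)
    (dbl_PS h.two (i := 2) (by decide) (p 0)))
  rw [c2, c1, card_zp h.v1 (h.two v)] at c3
  have k : ∀ (i : Fin 3) (K : Subgroup W), v ∈ K → ω i • v ∈ K → dbl i (zpowers v) ≤ K :=
    fun i K a b => dbl_le (zpowers_le.2 a) fun y hy => by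
      rcases (mem_zp (h.two v)).1 hy with rfl | rfl
      · rw [smul_one]; exact one_mem _
      · exact b
  have k2 : ∀ (K : Subgroup W), v ∈ K → ω 2 • v ∈ K → ω 1 • v ∈ K → ω 1 • ω 2 • v ∈ K →
      dbl 1 (dbl 2 (zpowers v)) ≤ K := fun K a b c d => dbl_le (k 2 K a b)
    (k 2 (K.comap (MulDistribMulAction.toMonoidHom W (ω 1))) c d)
  have : dbl 0 (dbl 1 (dbl 2 (zpowers v))) ≤ M := dbl_le (k2 M h0 h1 h2 h3)
    (k2 (M.comap (MulDistribMulAction.toMonoidHom W (ω 0))) h4 h5 h6 h7)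
  exact eq_top_of_le_card _ (by rw [h.card]; exact (c3.symm.le.trans' (by norm_num)).trans (card_le_of_le this))

theorem fpf (i : Fin 3) {y : W} (hy : δ i • y = y) : y = 1 := by
  have k := h.norm i
  have : (nmap i : W →* W).ker = ⊤ := h.gen k (KN_inv _ k) (KN_inv _ k) (KN_inv _ (KN_inv _ k))
    (KN_inv _ k) (KN_inv _ (KN_inv _ k)) (KN_inv _ (KN_inv _ k))
    (KN_inv _ (KN_inv _ (KN_inv _ k)))
  exact (KN_FX h.two i).le ⟨this.ge (mem_top y), hy⟩

end MX

end Mod

variable {G : Type u} [Group G]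

theorem LX.exists_mod [Finite G] {z : G} {Q : Subgroup G} {π : G → T3} (h : LX z Q π) :
    ∃ (W : Type u) (_ : CommGroup W) (_ : Finite W) (_ : MulDistribMulAction T3 W)
      (φ : Q →* W), (∀ y : W, y * y = 1) ∧ Nat.card W = 256 ∧ Function.Surjective φ ∧
      (∀ a, φ a = 1 ↔ (a : G) = 1 ∨ (a : G) = z) ∧
      ∀ g (hg : g ∈ C1 z) (a : Q), π g • φ a = φ ⟨g * a * g⁻¹, h.nrm hg a.2⟩ := by
  let Z : Subgroup Q := (zpowers z).subgroupOf Q
  have mZ : ∀ a : Q, a ∈ Z ↔ (a : G) = 1 ∨ (a : G) = z := fun a => mem_zp h.zz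
  haveI : Z.Normal := ⟨fun a ha g => by
    rw [mZ] at ha ⊢
    rcases ha with e | e
    · left; simp [e]
    · right; simp [e, h.zc g.2]⟩
  have k1 : ∀ a : Q, (QuotientGroup.mk a : Q ⧸ Z) = 1 ↔ (a : G) = 1 ∨ (a : G) = z := fun a => by
    rw [QuotientGroup.eq_one_iff, mZ]
  have two : ∀ y : Q ⧸ Z, y * y = 1 := fun y => by
    obtain ⟨a, rfl⟩ := QuotientGroup.mk_surjective y
    exact (k1 (a * a)).2 (h.sq a a.2)
  letI : CommGroup (Q ⧸ Z) := { (inferInstance : Group (Q ⧸ Z)) with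
    mul_comm := fun a b => comm_of_sq (X := ⊤) (fun x _ => two x) (mem_top a) (mem_top b) }
  choose l hl el using h.onto
  choose ψ hψ using QuotientGroup.mk_surjective (s := Z)
  let cj : ∀ g ∈ C1 z, Q →* Q := fun g hg =>
    { toFun := fun a => ⟨g * a * g⁻¹, h.nrm hg a.2⟩
      map_one' := by ext; simp
      map_mul' := fun a b => by ext; simp }
  have key : ∀ g (hg : g ∈ C1 z) (a : Q), (QuotientGroup.mk (cj (l (π g)) (hl _) (ψ a)) : Q ⧸ Z) =
      QuotientGroup.mk (cj g hg a) := by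
    intro g hg a
    have e1 : (QuotientGroup.mk (cj (l (π g)) (hl _) (ψ a)) : Q ⧸ Z) =
        QuotientGroup.mk (cj (l (π g)) (hl _) a) := by
      rw [QuotientGroup.eq, ← map_inv, ← map_mul, mZ]
      rcases (mZ _).1 (QuotientGroup.eq.1 (hψ a)) with e | e
      · left; change _ * (_ : G) * _ = _; rw [e]; simp
      · right; change _ * (_ : G) * _ = _; rw [e]; exact mem_C1_iff_conj.1 (hl _)
    have hq := (h.eq_iff hg (hl (π g))).1 (el _).symm
    have e2 : cj g hg a = ⟨_, hq⟩ * cj (l (π g)) (hl _) a * ⟨_, hq⟩⁻¹ := by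
      ext; simp [cj, mul_assoc]
    rw [e1, e2, QuotientGroup.mk_mul, QuotientGroup.mk_mul, QuotientGroup.mk_inv,
      mul_comm (QuotientGroup.mk _ : Q ⧸ Z), mul_inv_cancel_right]
  have key' : ∀ σ (a : Q), (QuotientGroup.mk (cj (l σ) (hl _) (ψ a)) : Q ⧸ Z) =
      QuotientGroup.mk (cj (l σ) (hl σ) a) := fun σ a => by
    have := key (l σ) (hl σ) a
    simpa only [el] using this
  letI : MulDistribMulAction T3 (Q ⧸ Z) :=
    { smul := fun σ y => QuotientGroup.mk (cj (l σ) (hl _) (ψ y))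
      one_smul := fun y => by
        obtain ⟨a, rfl⟩ := QuotientGroup.mk_surjective y
        have := key 1 (one_mem _) a
        simp only [h.one] at this
        exact this.trans (congrArg _ (by ext; simp [cj]))
      mul_smul := fun σ ρ y => by
        obtain ⟨a, rfl⟩ := QuotientGroup.mk_surjective y
        have := key _ (mul_mem (hl σ) (hl ρ)) a
        simp only [h.mul _ (hl σ) _ (hl ρ), el] at this
        change (QuotientGroup.mk (cj (l _) (hl _) (ψ _)) : Q ⧸ Z) =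
          QuotientGroup.mk (cj (l _) (hl _) (ψ (QuotientGroup.mk (cj (l _) (hl _) (ψ _)))))
        rw [this, key' ρ a, key']
        exact congrArg _ (by ext; simp [cj, mul_assoc])
      smul_mul := fun σ x y => by
        obtain ⟨a, rfl⟩ := QuotientGroup.mk_surjective x
        obtain ⟨b, rfl⟩ := QuotientGroup.mk_surjective y
        change (QuotientGroup.mk (cj (l _) (hl _) (ψ (QuotientGroup.mk (a * b)))) : Q ⧸ Z) =
          QuotientGroup.mk (cj (l _) (hl _) (ψ _)) * QuotientGroup.mk (cj (l _) (hl _) (ψ _))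
        rw [key', key', key', map_mul, QuotientGroup.mk_mul]
      smul_one := fun σ => by
        change (QuotientGroup.mk (cj (l _) (hl _) (ψ (QuotientGroup.mk (1 : Q)))) : Q ⧸ Z) = 1
        rw [key', map_one, QuotientGroup.mk_one] }
  refine ⟨Q ⧸ Z, inferInstance, inferInstance, inferInstance, QuotientGroup.mk' Z, two, ?_,
    QuotientGroup.mk_surjective, k1, key⟩
  have := card_eq_card_quotient_mul_card_subgroup Z
  rw [h.card, Nat.card_congr (subgroupOfEquivOfLe (zpowers_le.2 h.zQ)).toEquiv,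
    card_zp h.z1 h.zz] at this
  omega

end CfsgH2.O8
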