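import Cfsg.Agent.H2.O8C

/-! A conjugate inside the extraspecial group. -/

set_option autoImplicit false
set_option linter.style.haveILetI false
set_option linter.unusedSectionVars false

namespace CfsgH2.O8
open Subgroup CfsgH5 CfsgH6 CfsgFT CfsgH2.Fx

universe u
variable {G : Type u} [Group G]

theorem EX.cen2 {z : G} {Q : Subgroup G} (h : EX z Q) {y g : G} (hy : y ∈ Q) (y1 : y ≠ 1)
    (yz : y ≠ z) (yy : y * y = 1) (hg : g ∈ Q) (hc : ∀ a ∈ Q, a * y = y * a → g * a = a * g) :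
    g = 1 ∨ g = z ∨ g = y ∨ g = y * z := by
  obtain ⟨q, hq, e⟩ := h.ex_nc y1 yz
  have e1 := h.nc hq hy e
  have k : ∀ g', (∀ a ∈ Q, a * y = y * a → g' * a = a * g') → g' * q = q * g' →
      g' = 1 ∨ g' = z := fun g' h1 h2 => h.cen g' fun a ha => by
    by_cases c : a * y = y * a
    · exact h1 a ha c
    · have := h1 (q * a) (mul_mem hq ha) (by
        rw [← mul_inv_eq_iff_eq_mul]
        calc _ = q * (a * y * a⁻¹) * q⁻¹ := by group
          _ = q * y * q⁻¹ * (q * z * q⁻¹) := by rw [h.nc ha hy c]; group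
          _ = _ := by rw [e1, h.zc hq, mul_inv_cancel_right, mul_assoc, h.zz, mul_one])
      rw [← mul_assoc, h2, mul_assoc, mul_assoc] at this
      exact mul_left_cancel this
  by_cases c : q * g = g * q
  · rcases k g hc c.symm with e | e <;> simp [e]
  · rcases k (g * y) (fun a ha e => by rw [mul_assoc, ← e, ← mul_assoc, hc a ha e, mul_assoc]) (by
      symm
      rw [← mul_inv_eq_iff_eq_mul]
      calc _ = q * g * q⁻¹ * (q * y * q⁻¹) := by group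
        _ = g * (z * y) * z := by rw [h.nc hq hg c, e1]; group
        _ = _ := by rw [← h.zc hy, mul_assoc, mul_assoc, h.zz, mul_one]) with e | e
    · right; right; left
      rw [← yy] at e; exact mul_right_cancel e
    · right; right; right
      calc g = g * y * y := by rw [mul_assoc, yy, mul_one]
        _ = _ := by rw [e, h.zc hy]

/-- a conjugate `x` of `z` inside the group of `z` -/
structure Col (D : Set G) (Q : G → Subgroup G) (z x : G) : Prop where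
  sys : Sys D Q
  hz : z ∈ D
  hx : x ∈ D
  xq : x ∈ Q z
  ne : x ≠ z

theorem s3_t0 (e : S3) (h : Equiv.Perm.sign e = -1) : ∃ s : S3, s * e * s⁻¹ = t0 := by
  revert e; decide

theorem s3_c0 (e : S3) (h : e * t0 * e⁻¹ * t0 = 1) : e = 1 ∨ e = t0 := by revert e; decide

theorem E0_eq {a b : T3} (ha : E0 a) (hb : E0 b) (h : sg a = sg b) : a = b := funext fun i => by
  have : Equiv.Perm.sign (a i) = Equiv.Perm.sign (b i) := congrFun h i
  rcases ha i with e | e <;> rcases hb i with e' | e' <;> rw [e, e'] at this ⊢ <;>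
    exact absurd this (by decide)

namespace Col
variable [Finite G] {D : Set G} {Q : G → Subgroup G} {z x : G} (h : Col D Q z x)
include h

theorem ez : EX z (Q z) := h.sys.ex h.hz

theorem ex : EX x (Q x) := h.sys.ex h.hx

theorem symm : Col D Q x z := ⟨h.sys, h.hx, h.hz, h.sys.sym h.hz h.hx h.xq h.ne, h.ne.symm⟩

theorem xz : x * z = z * x := h.ez.zc h.xq

theorem mul : Col D Q z (x * z) :=
  ⟨h.sys, h.hz, h.sys.mul_mem h.hz h.hx h.xq h.ne, mul_mem h.xq h.ez.zQ,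
    fun e => h.ex.z1 (by simpa using e)⟩

theorem two {a b : G} (h1 : a = b ∨ a = b * z) (h2 : a = b ∨ a = b * x) : a = b :=
  h1.elim id fun e1 => h2.elim id fun e2 => absurd (mul_left_cancel (e2.symm.trans e1)) h.ne

theorem elU {a : G} (ha : a ∈ Q z ⊓ Q x) : a * a = 1 :=
  h.two (by simpa using h.ez.sq a ha.1) (by simpa using h.ex.sq a ha.2)

theorem abU : Ab (Q z ⊓ Q x) := ab_of_sq fun _ => h.elU

theorem zU : z ∈ Q z ⊓ Q x := ⟨h.ez.zQ, h.symm.xq⟩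

theorem xU : x ∈ Q z ⊓ Q x := ⟨h.xq, h.ex.zQ⟩

theorem cA : Nat.card ↥(Q z ⊓ C1 x) = 256 := h.ez.card_C1 h.xq h.ex.z1 h.ne

theorem eU : Q x ⊓ C1 z ⊓ Q z = Q z ⊓ Q x :=
  le_antisymm (fun _ ha => ⟨ha.2, ha.1.1⟩) fun _ ha => ⟨⟨ha.2, h.ez.le ha.1⟩, ha.1⟩

theorem cU : Nat.card ↥(Q z ⊓ Q x) = 32 := by
  obtain ⟨π, l⟩ := h.sys.lx z h.hz
  have h1 := l.le_eight (X := Q x ⊓ C1 z) inf_le_right fun a ha => h.ex.four ha.1
  have h2 := h.ez.ab_le inf_le_left h.zU h.abU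
  rw [h.symm.cA, h.eU] at h1
  omega

theorem onto {π : G → T3} (l : LX z (Q z) π) (e : Fin 3 → ℤˣ) :
    ∃ a ∈ Q x ⊓ C1 z, sg (π a) = e :=
  l.sg_onto inf_le_right (fun a ha => h.ex.four ha.1) (by rw [h.symm.cA, h.eU, h.cU]) e

theorem exists_nz' {π : G → T3} (l : LX z (Q z) π) :
    ∃ σ, ∀ c ∈ C1 z, c ∈ C1 x → E0 (σ * π c * σ⁻¹) := by
  obtain ⟨a, ha, ea⟩ := h.onto l (-1)
  choose σ hσ using fun i => s3_t0 (π a i) (congrFun ea i)
  refine ⟨σ, fun c hc hc' i => s3_c0 _ ?_⟩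
  have ha' : c * a * c⁻¹ * a ∈ Q x ⊓ C1 z :=
    mul_mem (⟨h.sys.nrm h.hx hc' ha.1, Subgroup.mul_mem _ (Subgroup.mul_mem _ hc ha.2)
      (Subgroup.inv_mem _ hc)⟩ : _ ∈ Q x ⊓ C1 z) ha
  have e7 : π (c * a * c⁻¹ * a) = π c * π a * (π c)⁻¹ * π a := by
    rw [l.mul _ (mul_mem (mul_mem hc ha.2) (inv_mem hc)) _ ha.2, l.cj hc ha.2]
  have e8 := l.kq (l.mem_of_sg ha'.2 (h.ex.four ha'.1) (by
    rw [e7]; simp only [map_mul, map_inv, ea]
    rw [mul_comm (sg (π c))]; simp))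
  have e9 := congrFun (e7.symm.trans e8) i
  simp only [Pi.mul_apply, Pi.inv_apply, Pi.one_apply] at e9 ⊢
  rw [← hσ i]
  calc _ = σ i * (π c i * π a i * (π c i)⁻¹ * π a i) * (σ i)⁻¹ := by group
    _ = 1 := by rw [e9]; group

theorem exists_nz : ∃ π, LX z (Q z) π ∧ ∀ c ∈ C1 z, c ∈ C1 x → E0 (π c) := by
  obtain ⟨π, l⟩ := h.sys.lx z h.hz
  obtain ⟨σ, hσ⟩ := h.exists_nz' l
  exact ⟨_, l.comp σ, hσ⟩

end Col

/-- the normalised projection -/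
structure Nz (D : Set G) (Q : G → Subgroup G) (z x : G) (π : G → T3) : Prop
    extends Col D Q z x where
  l : LX z (Q z) π
  e0 : ∀ c ∈ C1 z, c ∈ C1 x → E0 (π c)

namespace Nz
variable [Finite G] {D : Set G} {Q : G → Subgroup G} {z x : G} {π : G → T3} (h : Nz D Q z x π)
include h

theorem mul' : Nz D Q z (x * z) π :=
  ⟨h.toCol.mul, h.l, fun c hc hc' => h.e0 c hc (by
    rw [mem_C1] at hc hc' ⊢
    rw [← mul_assoc, mul_assoc x, ← hc, ← mul_assoc] at hc'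
    exact mul_right_cancel hc')⟩

theorem lift {σ : T3} (hσ : E0 σ) : ∃ a ∈ Q x ⊓ C1 z, π a = σ := by
  obtain ⟨a, ha, e⟩ := h.toCol.onto h.l (sg σ)
  exact ⟨a, ha, E0_eq (h.e0 a ha.2 (h.toCol.ex.le ha.1)) hσ e⟩

theorem dec {c : G} (hc : c ∈ C1 z) (hc' : c ∈ C1 x) :
    ∃ q ∈ Q z ⊓ C1 x, ∃ a ∈ Q x ⊓ C1 z, c = q * a := by
  obtain ⟨a, ha, e⟩ := h.lift (h.e0 c hc hc')
  exact ⟨c * a⁻¹, ⟨(h.l.eq_iff hc ha.2).1 e.symm, Subgroup.mul_mem _ hc'
    (Subgroup.inv_mem _ (h.toCol.ex.le ha.1))⟩, a, ha, by group⟩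

theorem cmA {a b : G} (ha : a ∈ Q z ⊓ C1 x) (hb : b ∈ Q x ⊓ C1 z) :
    b * a * b⁻¹ * a ∈ Q z ⊓ Q x := by
  refine ⟨Subgroup.mul_mem _ (h.l.nrm hb.2 ha.1) ha.1, ?_⟩
  rw [show b * a * b⁻¹ * a = b * (a * b⁻¹ * a⁻¹) * (a * a) by group]
  refine Subgroup.mul_mem _ (Subgroup.mul_mem _ hb.1
    (h.sys.nrm h.hx ha.2 (Subgroup.inv_mem _ hb.1))) ?_
  rcases h.l.sq a ha.1 with e | e <;> rw [e]
  exacts [one_mem _, h.toCol.zU.2]

theorem cmC {a c : G} (ha : a ∈ Q z ⊓ C1 x) (hc : c ∈ C1 z) (hc' : c ∈ C1 x) :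
    c * a * c⁻¹ * a ∈ Q z ⊓ Q x := by
  obtain ⟨q, hq, b, hb, rfl⟩ := h.dec hc hc'
  rw [show q * b * a * (q * b)⁻¹ * a = q * (b * a * b⁻¹) * q⁻¹ * a by group]
  rcases h.l.cm q hq.1 _ (h.l.nrm hb.2 ha.1) with e | e <;> rw [e]
  · exact h.cmA ha hb
  · rw [mul_assoc _ z, ← h.l.zc ha.1, ← mul_assoc]
    exact mul_mem (h.cmA ha hb) h.toCol.zU

end Nz

theorem Col.cent [Finite G] {D : Set G} {Q : G → Subgroup G} {z x : G} (k : Col D Q z x) {c : G}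
    (hc : c ∈ C (Q z ⊓ Q x)) : c ∈ Q z ⊓ Q x := by
  obtain ⟨π, l, e0⟩ := k.exists_nz
  have h : Nz D Q z x π := ⟨k, l, e0⟩
  obtain ⟨q, hq, a, ha, rfl⟩ := h.dec (C_le_C1 k.zU hc) (C_le_C1 k.xU hc)
  have e1 : a ∈ C (Q z ⊓ Q x) := mem_C.2 fun u hu => by
    have e2 : a * u * a⁻¹ = q⁻¹ * u * q⁻¹⁻¹ := by
      have := mem_C.1 hc u hu
      calc _ = q⁻¹ * (q * a * u) * a⁻¹ := by group
        _ = _ := by rw [← this]; group
    exact (mul_inv_eq_iff_eq_mul.1 (k.two (e2 ▸ l.cm _ (inv_mem hq.1) u hu.1)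
      (k.ex.cm a ha.1 u hu.2))).symm
  refine mul_mem ((k.ez.self_cent inf_le_left k.zU k.abU k.cU).le
    ⟨hq.1, (mul_mem_cancel_right e1).1 hc⟩)
    ((k.ex.self_cent inf_le_right k.xU k.abU k.cU).le ⟨ha.1, e1⟩)

namespace Nz
variable [Finite G] {D : Set G} {Q : G → Subgroup G} {z x : G} {π : G → T3} (h : Nz D Q z x π)
include h

theorem mx : (∀ i, ∀ d ∈ C1 z, π d = δ i → ∀ y ∈ Q z,
      (d * y * d⁻¹ = y → y = 1 ∨ y = z) ∧ (y * (d * y * d⁻¹) * (d * (d * y * d⁻¹) * d⁻¹) = 1 ∨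
        y * (d * y * d⁻¹) * (d * (d * y * d⁻¹) * d⁻¹) = z)) ∧
    ∀ w : Fin 3 → G, (∀ i, w i ∈ C1 z ∧ π (w i) = ω i) → ∀ M : Subgroup G, z ∈ M → x ∈ M →
      w 2 * x * (w 2)⁻¹ ∈ M → w 1 * x * (w 1)⁻¹ ∈ M → w 1 * (w 2 * x * (w 2)⁻¹) * (w 1)⁻¹ ∈ M →
      w 0 * x * (w 0)⁻¹ ∈ M → w 0 * (w 2 * x * (w 2)⁻¹) * (w 0)⁻¹ ∈ M →
      w 0 * (w 1 * x * (w 1)⁻¹) * (w 0)⁻¹ ∈ M →
      w 0 * (w 1 * (w 2 * x * (w 2)⁻¹) * (w 1)⁻¹) * (w 0)⁻¹ ∈ M → Q z ≤ M := by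
  obtain ⟨W, _, _, _, φ, two, cW, sur, ker, act⟩ := h.l.exists_mod
  have l := h.l
  have k := h.toCol
  have eq : ∀ a b : Q z, φ a = φ b → (a : G) = b ∨ (a : G) = b * z := fun a b e => by
    refine ((ker (b⁻¹ * a)).1 (by rw [map_mul, map_inv, e, inv_mul_cancel])).imp
      (fun e => ?_) fun e => ?_
    · exact (inv_mul_eq_one.1 e).symm
    · exact inv_mul_eq_iff_eq_mul.1 e
  have cd : ∀ (X : Subgroup G) (hX : X ≤ Q z), z ∈ X →
      2 * Nat.card (φ.comp (inclusion hX)).range = Nat.card X := fun X hX hz => by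
    rw [← card_range_mul (φ.comp (inclusion hX))]
    congr 1
    have : (φ.comp (inclusion hX)).ker = (zpowers z).subgroupOf X := by
      ext a
      rw [mem_subgroupOf, mem_zp l.zz]
      exact ker _
    rw [this, Nat.card_congr (subgroupOfEquivOfLe (zpowers_le.2 hz)).toEquiv, card_zp l.z1 l.zz]
  have m : MX (φ ⟨x, h.xq⟩) (φ.comp (inclusion (inf_le_left : Q z ⊓ Q x ≤ Q z))).range
      (φ.comp (inclusion (inf_le_left : Q z ⊓ C1 x ≤ Q z))).range := by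
    refine ⟨two, cW, fun e => ((ker _).1 e).elim k.ex.z1 h.ne, fun σ => ⟨fun e => ?_, fun e => ?_⟩,
      ?_, ?_, ?_, fun σ e => ?_, fun σ e => ?_, ?_⟩
    · obtain ⟨g, hg, rfl⟩ := l.onto σ
      rw [act g hg] at e
      rcases eq _ _ e with e | e
      · exact h.e0 g hg (mem_C1_iff_conj.2 e)
      · obtain ⟨q, hq, e'⟩ := l.ex_nc k.ex.z1 h.ne
        have := h.e0 (q⁻¹ * g) (mul_mem (inv_mem (l.le hq)) hg) (mem_C1_iff_conj.2 (by
          calc _ = q⁻¹ * (g * x * g⁻¹) * q := by group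
            _ = _ := by rw [show g * x * g⁻¹ = x * z from e, ← l.nc hq h.xq e']; group))
        rwa [l.mul _ (inv_mem (l.le hq)) _ hg, l.kq (inv_mem hq), one_mul] at this
    · obtain ⟨a, ha, rfl⟩ := h.lift e
      rw [act a ha.2]
      exact congrArg φ (Subtype.ext (mem_C1_iff_conj.1 (k.ex.le ha.1)))
    · rintro _ ⟨a, rfl⟩
      exact ⟨⟨a, a.2.1, k.ex.le a.2.2⟩, rfl⟩
    · have := cd _ (inf_le_left : Q z ⊓ Q x ≤ Q z) k.zU
      rw [k.cU] at this; omega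
    · have := cd _ (inf_le_left : Q z ⊓ C1 x ≤ Q z) ⟨l.zQ, k.ex.le k.zU.2⟩
      rw [k.cA] at this; omega
    · rintro _ ⟨a, rfl⟩
      obtain ⟨b, hb, rfl⟩ := h.lift e
      rw [MonoidHom.comp_apply, act b hb.2, ← map_mul]
      exact ⟨⟨_, h.cmA a.2 hb⟩, rfl⟩
    · rintro _ ⟨a, rfl⟩
      obtain ⟨b, hb, rfl⟩ := h.lift e
      rw [MonoidHom.comp_apply, act b hb.2, ← map_mul]
      exact (k.ex.cm b hb.1 a a.2.2).imp (fun e => congrArg φ (Subtype.ext e))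
        fun e => congrArg φ (Subtype.ext e)
    · rintro _ ⟨a, rfl⟩ ha
      rcases k.ex.cen2 k.zU.2 l.z1 h.ne.symm l.zz a.2.2 (fun b hb e => by
        have hb' : b ∈ C1 z := mem_C1.2 e
        have := ha _ (h.e0 b hb' (k.ex.le hb))
        rw [MonoidHom.comp_apply, act b hb'] at this
        exact (mul_inv_eq_iff_eq_mul.1 (k.two (eq _ _ this) (k.ex.cm b hb a a.2.2))).symm)
        with e | e | e | e
      · exact Or.inl ((ker _).2 (Or.inl e))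
      · exact Or.inr (congrArg φ (Subtype.ext e))
      · exact Or.inl ((ker _).2 (Or.inr e))
      · right
        rw [← one_mul (φ ⟨x, _⟩), ← (ker ⟨z, l.zQ⟩).2 (Or.inr rfl), ← map_mul]
        exact congrArg φ (Subtype.ext e)
  refine ⟨fun i d hd ed y hy => ⟨fun e => (ker ⟨y, hy⟩).1 (m.fpf i ?_), ?_⟩,
    fun w hw M hz h0 h1 h2 h3 h4 h5 h6 h7 y hy => ?_⟩
  · rw [← ed, act d hd]
    exact congrArg φ (Subtype.ext e)
  · have := m.fpf i (nmap_FX i (φ ⟨y, hy⟩))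
    rw [nmap_apply, ← ed, act d hd, act d hd, ← map_mul, ← map_mul] at this
    exact (ker _).1 this
  · have := m.gen (M := (M.subgroupOf (Q z)).map φ) ⟨_, h0, rfl⟩
      (by rw [← (hw 2).2, act _ (hw 2).1]; exact ⟨_, h1, rfl⟩)
      (by rw [← (hw 1).2, act _ (hw 1).1]; exact ⟨_, h2, rfl⟩)
      (by rw [← (hw 2).2, act _ (hw 2).1, ← (hw 1).2, act _ (hw 1).1]; exact ⟨_, h3, rfl⟩)
      (by rw [← (hw 0).2, act _ (hw 0).1]; exact ⟨_, h4, rfl⟩)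
      (by rw [← (hw 2).2, act _ (hw 2).1, ← (hw 0).2, act _ (hw 0).1]; exact ⟨_, h5, rfl⟩)
      (by rw [← (hw 1).2, act _ (hw 1).1, ← (hw 0).2, act _ (hw 0).1]; exact ⟨_, h6, rfl⟩)
      (by rw [← (hw 2).2, act _ (hw 2).1, ← (hw 1).2, act _ (hw 1).1, ← (hw 0).2,
        act _ (hw 0).1]; exact ⟨_, h7, rfl⟩)
    obtain ⟨a, ha, e⟩ := this.ge (mem_top (φ ⟨y, hy⟩))
    rcases eq _ _ e.symm with e | e <;> rw [show y = _ from e]
    exacts [ha, mul_mem ha hz]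

end Nz

theorem LX.lift3 {z : G} {Q : Subgroup G} {π : G → T3} (l : LX z Q π) {e : G} (he : e ∈ C1 z)
    {i : Fin 3} (h : π e = δ i) : π (e ^ 4) = δ i ∧ (e ^ 4) ^ 3 = 1 := by
  have e3 : δ i ^ 3 = 1 := by rw [pow_succ, pow_two, δ3]
  refine ⟨by rw [l.pow he, h, pow_succ, e3, one_mul], ?_⟩
  rw [← pow_mul, mul_comm, pow_mul]
  exact l.four ((l.ker _ (pow_mem he 3)).1 (by rw [l.pow he, h, e3]))

theorem LX.cube_z {z : G} {Q : Subgroup G} {π : G → T3} (l : LX z Q π) {e : G} (he : e ∈ C1 z) :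
    (e * z) ^ 3 = e ^ 3 * z := by
  rw [(show Commute e z from mem_C1.1 he).mul_pow, pow_succ z, pow_two z, l.zz, one_mul]

theorem LX.compl [Finite G] {z : G} {Q : Subgroup G} {π : G → T3} (l : LX z Q π)
    (fpf : ∀ d ∈ C1 z, π d = δ 0 → ∀ y ∈ Q, d * y * d⁻¹ = y → y = 1 ∨ y = z) :
    ∃ K : Subgroup G, K ≤ C1 z ∧ (∀ σ, ∃ k ∈ K, π k = σ) ∧
      ∀ a ∈ K, ∀ b ∈ K, π a = π b → a = b ∨ a = b * z := by
  obtain ⟨e, he, ee⟩ := l.onto (δ 0)
  obtain ⟨ed, d3⟩ := l.lift3 he ee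
  have hd : e ^ 4 ∈ C1 z := pow_mem he 4
  generalize e ^ 4 = d at ed d3 hd
  let K : Subgroup G :=
    { carrier := {g | g ∈ C1 z ∧ (g * d * g⁻¹ = d ∨ g * d * g⁻¹ = d⁻¹)}
      one_mem' := ⟨one_mem _, Or.inl (by simp)⟩
      mul_mem' := by
        rintro a b ⟨ha, ea⟩ ⟨hb, eb⟩
        refine ⟨mul_mem ha hb, ?_⟩
        rw [show a * b * d * (a * b)⁻¹ = a * (b * d * b⁻¹) * a⁻¹ by group]
        rcases eb with eb | eb <;> rw [eb]
        · exact ea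
        · rw [show a * d⁻¹ * a⁻¹ = (a * d * a⁻¹)⁻¹ by group]
          rcases ea with ea | ea <;> simp [ea]
      inv_mem' := by
        rintro a ⟨ha, ea⟩
        refine ⟨inv_mem ha, ea.imp (fun e => ?_) fun e => ?_⟩
        · conv_lhs => rw [← e]
          group
        · calc a⁻¹ * d * a⁻¹⁻¹ = a⁻¹ * (d⁻¹)⁻¹ * a := by group
            _ = _ := by rw [← e, e, ← e]; nth_rewrite 2 [e]; group }
  set S := {g | g ∈ C1 z ∧ π g = δ 0 ∧ g ^ 3 = 1} with hS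
  have c1 : 2 * S.ncard ≤ 512 := by
    have hdj : Disjoint S ((· * z) '' S) := by
      rw [Set.disjoint_left]
      rintro _ ha ⟨a, hb, rfl⟩
      have := ha.2.2
      rw [l.cube_z hb.1, hb.2.2, one_mul] at this
      exact l.z1 this
    have hs : S ∪ (· * z) '' S ⊆ (fun a => d * a) '' (Q : Set G) := by
      rintro _ (⟨ha, ea, -⟩ | ⟨a, ⟨ha, ea, -⟩, rfl⟩)
      · exact ⟨_, (l.eq_iff' hd ha).1 (ed.trans ea.symm), by simp⟩
      · exact ⟨_, mul_mem ((l.eq_iff' hd ha).1 (ed.trans ea.symm)) l.zQ, by simp [mul_assoc]⟩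
    have := Set.ncard_le_ncard hs
    rw [Set.ncard_union_eq hdj, Set.ncard_image_of_injective _ (mul_left_injective z),
      ncard_coset, l.card] at this
    omega
  have c2 : Nat.card ↥(Q ⊓ C1 d) ≤ 2 := card_le_two' fun b hb =>
    fpf d hd ed b hb.1 (mem_C1_iff_conj'.1 hb.2)
  have c3 := cls_onto Q d (s := S) (fun q hq => ⟨mul_mem (mul_mem (l.le hq) hd) (inv_mem (l.le hq)),
    by rw [l.cj (l.le hq) hd, l.kq hq, ed]; simp, by rw [conj_pow, d3]; simp⟩)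
    (by rw [l.card]; nlinarith)
  refine ⟨K, fun _ ha => ha.1, fun σ => ?_, fun a ha b hb e => ?_⟩
  · obtain ⟨g, hg, rfl⟩ := l.onto σ
    have hg' : g⁻¹ * d * g ∈ C1 z := mul_mem (mul_mem (inv_mem hg) hd) hg
    have e1 : π (g⁻¹ * d * g) = (π g)⁻¹ * δ 0 * π g := by
      rw [l.mul _ (mul_mem (inv_mem hg) hd) _ hg, l.mul _ (inv_mem hg) _ hd, l.inv hg, ed]
    have e2 : (g⁻¹ * d * g) ^ 3 = 1 := by
      rw [show g⁻¹ * d * g = g⁻¹ * d * g⁻¹⁻¹ by simp, conj_pow, d3]; simp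
    have e3 : ∀ q ∈ Q, π (g * q) = π g := fun q hq => by
      rw [l.mul _ hg _ (l.le hq), l.kq hq, mul_one]
    rcases δ_cj 0 (π g) with e | e
    · obtain ⟨q, hq, eq⟩ := c3 _ ⟨hg', e1.trans e, e2⟩
      refine ⟨g * q, ⟨mul_mem hg (l.le hq), Or.inl ?_⟩, e3 q hq⟩
      calc _ = g * (q * d * q⁻¹) * g⁻¹ := by group
        _ = _ := by rw [eq]; group
    · obtain ⟨q, hq, eq⟩ := c3 _ ⟨inv_mem hg', by
        rw [l.inv hg', e1, e]; exact inv_eq_of_mul_eq_one_right (δ3 0), by rw [inv_pow, e2, inv_one]⟩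
      refine ⟨g * q, ⟨mul_mem hg (l.le hq), Or.inr ?_⟩, e3 q hq⟩
      calc _ = g * (q * d * q⁻¹) * g⁻¹ := by group
        _ = _ := by rw [eq]; group
  · have hq := (l.eq_iff' hb.1 ha.1).1 e.symm
    rcases (K.mul_mem (K.inv_mem hb) ha).2 with e1 | e1
    · refine (fpf d hd ed _ hq (mem_C1_iff_conj'.1 (mem_C1_iff_conj.2 e1))).imp
        (fun e => (inv_mul_eq_one.1 e).symm) fun e => inv_mul_eq_iff_eq_mul.1 e
    · have := congrArg π e1
      rw [l.cj (l.le hq) hd, l.kq hq, l.inv hd, ed] at this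
      exact absurd this (by decide)

end CfsgH2.O8
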