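import Cfsg.Agent.H2.O8D

/-! Generators and relations for the centralizer. -/

set_option autoImplicit false
set_option linter.style.haveILetI false
set_option linter.unusedSectionVars false

namespace CfsgH2.O8
open Subgroup CfsgH5 CfsgH6 CfsgFT CfsgH2.Fx

universe u
variable {G : Type u} [Group G]

/-- the norm with respect to an element of order three -/
def nn (d y : G) : G := y * (d * y * d⁻¹) * (d * (d * y * d⁻¹) * d⁻¹)

theorem nn_mul {M : Subgroup G} (hM : Ab M) {e : G} (he : ∀ y ∈ M, e * y * e⁻¹ ∈ M) {a b : G}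
    (ha : a ∈ M) (hb : b ∈ M) : nn e (a * b) = nn e a * nn e b := by
  have h1 := hM.comm hb (he a ha)
  have h2 := hM.comm hb (he _ (he a ha))
  have h3 := hM.comm (he b hb) (he _ (he a ha))
  calc _ = a * (b * (e * a * e⁻¹)) * ((e * b * e⁻¹) * (e * (e * a * e⁻¹) * e⁻¹)) *
        (e * (e * b * e⁻¹) * e⁻¹) := by unfold nn; group
    _ = a * (e * a * e⁻¹) * (b * (e * (e * a * e⁻¹) * e⁻¹)) * (e * b * e⁻¹) *
        (e * (e * b * e⁻¹) * e⁻¹) := by rw [h1, h3]; group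
    _ = _ := by rw [h2]; unfold nn; group

theorem nn_cj {d e : G} (h : d * e = e * d) (y : G) : nn e (d * y * d⁻¹) = d * nn e y * d⁻¹ := by
  have k : ∀ y, e * (d * y * d⁻¹) * e⁻¹ = d * (e * y * e⁻¹) * d⁻¹ := fun y => by
    calc _ = (e * d) * y * (e * d)⁻¹ := by group
      _ = _ := by rw [← h]; group
  unfold nn
  rw [k, k]; group

theorem nn_z {d x z : G} (h1 : d * z = z * d) (h2 : x * z = z * x) (zz : z * z = 1) :
    nn d (x * z) = nn d x * z := by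
  have k : ∀ y, d * (y * z) * d⁻¹ = d * y * d⁻¹ * z := fun y => by
    calc _ = d * y * d⁻¹ * (d * z * d⁻¹) := by group
      _ = _ := by rw [h1]; group
  have c : ∀ y, y * z = z * y → d * y * d⁻¹ * z = z * (d * y * d⁻¹) := fun y hy => by
    rw [← k, hy, ← mul_assoc, h1]; group
  unfold nn
  rw [k, k, c x h2]
  calc _ = x * (z * z) * (d * x * d⁻¹) * (d * (d * x * d⁻¹) * d⁻¹) * z := by group
    _ = _ := by rw [zz]; group

theorem third (i j : Fin 3) : ∃ k, k ≠ i ∧ k ≠ j := by revert i j; decide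

/-- lifts of generators of the quotient -/
structure Pre (z : G) (π : G → T3) (d s : Fin 3 → G) : Prop where
  dC : ∀ i, d i ∈ C1 z
  sC : ∀ i, s i ∈ C1 z
  pd : ∀ i, π (d i) = δ i
  ps : ∀ i, π (s i) = τ i
  d3 : ∀ i, d i ^ 3 = 1
  dd : ∀ i j, d i * d j = d j * d i
  sd : ∀ i, s i * d i * (s i)⁻¹ = (d i)⁻¹
  sd' : ∀ i j, i ≠ j → s i * d j = d j * s i
  ss : ∀ i, s i * s i = 1 ∨ s i * s i = z
  ss' : ∀ i j, s i * s j * (s i)⁻¹ = s j ∨ s i * s j * (s i)⁻¹ = s j * z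

theorem τδ (i j : Fin 3) : τ i * δ i * (τ i)⁻¹ = (δ i)⁻¹ ∧ (i ≠ j → τ i * δ j * (τ i)⁻¹ = δ j) ∧
    δ i * δ j * (δ i)⁻¹ = δ j ∧ τ i * τ i = 1 ∧ τ i * τ j * (τ i)⁻¹ = τ j := by
  revert i j; decide

theorem LX.exists_pre [Finite G] {z : G} {Q : Subgroup G} {π : G → T3} (l : LX z Q π)
    (fpf : ∀ d ∈ C1 z, π d = δ 0 → ∀ y ∈ Q, d * y * d⁻¹ = y → y = 1 ∨ y = z) :
    ∃ d s, Pre z π d s := by
  obtain ⟨K, hK, on, inj⟩ := l.compl fpf
  choose k hk ek using on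
  have h3 : ∀ a ∈ K, ∀ b ∈ K, a ^ 3 = 1 → b ^ 3 = 1 → π a = π b → a = b := fun a ha b hb ea eb e =>
    (inj a ha b hb e).resolve_right fun e' => by
      rw [e', l.cube_z (hK hb), eb, one_mul] at ea
      exact l.z1 ea
  have hd : ∀ i, k (δ i) ^ 4 ∈ K := fun i => pow_mem (hk _) 4
  have pd := fun i => (l.lift3 (hK (hk _)) (ek (δ i))).1
  have d3 := fun i => (l.lift3 (hK (hk _)) (ek (δ i))).2
  have c : ∀ g ∈ K, ∀ j, (g * k (δ j) ^ 4 * g⁻¹) ^ 3 = 1 := fun g _ j => by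
    rw [conj_pow, d3]; simp
  refine ⟨fun i => k (δ i) ^ 4, fun i => k (τ i), fun i => hK (hd i), fun i => hK (hk _), pd,
    fun i => ek _, d3, fun i j => mul_inv_eq_iff_eq_mul.1 ?_, fun i => ?_,
    fun i j ne => mul_inv_eq_iff_eq_mul.1 ?_, fun i => ?_, fun i j => ?_⟩
  · exact h3 _ (mul_mem (mul_mem (hd i) (hd j)) (inv_mem (hd i))) _ (hd j) (c _ (hd i) j) (d3 j)
      (by rw [l.cj (hK (hd i)) (hK (hd j)), pd, pd, (τδ i j).2.2.1])
  · exact h3 _ (mul_mem (mul_mem (hk _) (hd i)) (inv_mem (hk _))) _ (inv_mem (hd i))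
      (c _ (hk _) i) (by rw [inv_pow, d3, inv_one])
      (by rw [l.cj (hK (hk _)) (hK (hd i)), l.inv (hK (hd i)), pd, ek, (τδ i i).1])
  · exact h3 _ (mul_mem (mul_mem (hk _) (hd j)) (inv_mem (hk _))) _ (hd j) (c _ (hk _) j) (d3 j)
      (by rw [l.cj (hK (hk _)) (hK (hd j)), pd, ek, (τδ i j).2.1 ne])
  · simpa using inj _ (mul_mem (hk (τ i)) (hk (τ i))) 1 (one_mem _)
      (by rw [l.mul _ (hK (hk _)) _ (hK (hk _)), ek, l.one, (τδ i i).2.2.2.1])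
  · exact inj _ (mul_mem (mul_mem (hk _) (hk _)) (inv_mem (hk _))) _ (hk _)
      (by rw [l.cj (hK (hk _)) (hK (hk _)), ek, ek, (τδ i j).2.2.2.2])

section
variable [Finite G] {D : Set G} {Q : G → Subgroup G} {z x : G} {π : G → T3} {d s : Fin 3 → G}
  (h : Nz D Q z x π) (p : Pre z π d s)
include h p

theorem Nz.nn1 (i : Fin 3) {y : G} (hy : y ∈ Q z) : nn (d i) y = 1 ∨ nn (d i) y = z :=
  (h.mx.1 i _ (p.dC i) (p.pd i) y hy).2

theorem Nz.nnc (i : Fin 3) {y g : G} (hy : y ∈ Q z) (hg : g ∈ C1 z) :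
    g * nn (d i) y * g⁻¹ = nn (d i) y := by
  rcases h.nn1 p i hy with e | e <;> rw [e]
  · simp
  · exact mem_C1_iff_conj.1 hg

theorem Nz.sx (i : Fin 3) : s i * x = x * s i := by
  obtain ⟨a, ha, ea⟩ := h.lift (E0_τ i)
  have hq := (h.l.eq_iff (p.sC i) ha.2).1 ((p.ps i).trans ea.symm)
  have e1 : s i * x * (s i)⁻¹ = s i * a⁻¹ * x * (s i * a⁻¹)⁻¹ := by
    conv_lhs => rw [← mem_C1_iff_conj.1 (inv_mem (h.toCol.ex.le ha.1))]
    group
  refine mul_inv_eq_iff_eq_mul.1 (((h.l.cm _ hq x h.xq).imp e1.trans e1.trans).resolve_right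
    fun e => ?_)
  obtain ⟨j, hj, -⟩ := third i i
  have e2 := nn_cj (p.sd' i j hj.symm) x
  rw [e, nn_z (mem_C1.1 (p.dC j)) h.toCol.xz h.l.zz, h.nnc p j h.xq (p.sC i)] at e2
  exact h.l.ne_mul _ e2

theorem Nz.abM (k : Fin 3) : Ab (Q z ⊓ C1 (s k)) := ab_iff.2 fun y hy v hv => by
  have hb := h.l.nrm (p.dC k) hy.1
  have e1 : d k * (d k * y * (d k)⁻¹) * (d k)⁻¹ = s k * (d k * y * (d k)⁻¹) * (s k)⁻¹ := by
    have e2 : (d k)⁻¹ = d k * d k := inv_eq_of_mul_eq_one_right (by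
      rw [← p.d3 k, pow_succ, pow_two, mul_assoc])
    calc _ = (d k * d k) * y * (d k * d k)⁻¹ := by group
      _ = (s k * d k * (s k)⁻¹) * (s k * y * (s k)⁻¹) * (s k * d k * (s k)⁻¹)⁻¹ := by
        rw [← e2, p.sd, mem_C1_iff_conj'.1 hy.2]
      _ = _ := by group
  have e3 := h.nnc p k hy.1 (h.l.le hv.1)
  unfold nn at e3
  rw [e1] at e3
  generalize d k * y * (d k)⁻¹ = b at hb e3
  have e4 : v * (s k * b * (s k)⁻¹) * v⁻¹ = s k * (v * b * v⁻¹) * (s k)⁻¹ := by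
    calc _ = (v * s k) * b * (v * s k)⁻¹ := by group
      _ = _ := by rw [mem_C1.1 hv.2]; group
  have e5 : v * (b * (s k * b * (s k)⁻¹)) * v⁻¹ = b * (s k * b * (s k)⁻¹) := by
    rw [show v * (b * (s k * b * (s k)⁻¹)) * v⁻¹ = v * b * v⁻¹ * (v * (s k * b * (s k)⁻¹) * v⁻¹) by
      group, e4]
    rcases h.l.cm v hv.1 b hb with e | e <;> rw [e]
    calc _ = b * (z * (s k * b * (s k)⁻¹)) * (s k * z * (s k)⁻¹) := by group
      _ = _ := by
        rw [mem_C1_iff_conj.1 (p.sC k), ← h.l.zc (h.l.nrm (p.sC k) hb), mul_assoc, mul_assoc _ z,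
          h.l.zz, mul_one]
  have e6 : v * y * v⁻¹ * (b * (s k * b * (s k)⁻¹)) = y * (b * (s k * b * (s k)⁻¹)) := by
    conv_lhs => rw [← e5]
    rw [← mul_assoc y, ← e3]; group
  exact (mul_inv_eq_iff_eq_mul.1 (mul_right_cancel e6)).symm

theorem Nz.xM (k : Fin 3) : x ∈ Q z ⊓ C1 (s k) := ⟨h.xq, mem_C1.2 (h.sx p k).symm⟩

theorem Nz.dM {k i : Fin 3} (ne : k ≠ i) : ∀ y ∈ Q z ⊓ C1 (s k), d i * y * (d i)⁻¹ ∈ Q z ⊓ C1 (s k) :=
  fun y hy => by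
    have : d i ∈ C1 (s k) := mem_C1.2 (p.sd' k i ne).symm
    exact ⟨h.l.nrm (p.dC i) hy.1, Subgroup.mul_mem _ (Subgroup.mul_mem _ this hy.2)
      (Subgroup.inv_mem _ this)⟩

theorem Nz.γeq (i j : Fin 3) : nn (d i) x = nn (d j) x := by
  obtain ⟨k, ki, kj⟩ := third i j
  have m := h.xM p k
  have a := h.dM p ki
  have c : ∀ i j, nn (d j) (nn (d i) x) = nn (d i) x := fun i j => by
    have e := h.nnc p i h.xq (p.dC j)
    have e' : nn (d i) x * nn (d i) x = 1 := by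
      rcases h.nn1 p i h.xq with e | e <;> rw [e]
      exacts [one_mul 1, h.l.zz]
    conv_lhs => unfold nn
    change nn (d i) x * (d j * nn (d i) x * _) * (d j * (d j * nn (d i) x * _) * _) = _
    rw [e, e, e', one_mul]
  have e1 := c i j
  conv_lhs at e1 => rw [nn.eq_1 (d i)]
  rw [nn_mul (h.abM p k) (h.dM p kj) (mul_mem m (a _ m)) (a _ (a _ m)),
    nn_mul (h.abM p k) (h.dM p kj) m (a _ m), nn_cj (p.dd i j) (d i * x * (d i)⁻¹),
    nn_cj (p.dd i j) x] at e1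
  exact e1.symm.trans (c j i)

end

theorem Col.exists_pre [Finite G] {D : Set G} {Q : G → Subgroup G} {z x : G} (k : Col D Q z x) :
    ∃ x π d s, Nz D Q z x π ∧ Pre z π d s ∧ ∀ i, nn (d i) x = 1 := by
  obtain ⟨π, l, e0⟩ := k.exists_nz
  have h : Nz D Q z x π := ⟨k, l, e0⟩
  obtain ⟨d, s, p⟩ := l.exists_pre fun d hd e y hy => (h.mx.1 0 d hd e y hy).1
  rcases h.nn1 p 0 h.xq with e | e
  · exact ⟨x, π, d, s, h, p, fun i => (h.γeq p i 0).trans e⟩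
  · exact ⟨x * z, π, d, s, h.mul', p, fun i => by
      rw [nn_z (mem_C1.1 (p.dC i)) k.xz l.zz, h.γeq p i 0, e, l.zz]⟩

/-- the final configuration in the centralizer -/
structure Cfg (D : Set G) (Q : G → Subgroup G) (z x : G) (π : G → T3) (s w : Fin 3 → G) : Prop
    extends Nz D Q z x π where
  sQ : ∀ i, s i ∈ Q x
  sC : ∀ i, s i ∈ C1 z
  wC : ∀ i, w i ∈ C1 z
  ps : ∀ i, π (s i) = τ i
  pw : ∀ i, π (w i) = ω i
  ss : ∀ i, s i * s i = 1
  ww : ∀ i, w i * w i = 1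
  sw : ∀ i, s i * w i * (s i * w i) * (s i * w i) = 1
  ss' : ∀ i j, s i * s j = s j * s i
  sw' : ∀ i j, i ≠ j → s i * w j = w j * s i
  ww' : ∀ i j, w i * w j = w j * w i
  su : ∀ i, s i * (w i * x * w i) * s i = w i * x * w i * x
  xm : ∀ i j, w i * (w j * x * w j) * w i * x = x * (w i * (w j * x * w j) * w i)
  uQ : ∀ i, w i * x * w i ∈ Q x

section
variable [Finite G] {D : Set G} {Q : G → Subgroup G} {z x : G} {π : G → T3} {d s : Fin 3 → G}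
  (h : Nz D Q z x π) (p : Pre z π d s) (γ : ∀ i, nn (d i) x = 1)

/-- the double conjugate -/
def c2 (d y : G) : G := d * (d * y * d⁻¹) * d⁻¹

include h p in
theorem Nz.c2M {k i : Fin 3} (ne : k ≠ i) {y : G} (hy : y ∈ Q z ⊓ C1 (s k)) :
    c2 (d i) y ∈ Q z ⊓ C1 (s k) := h.dM p ne _ (h.dM p ne _ hy)

include p in
theorem Pre.sc2 (i : Fin 3) {y : G} (hy : y ∈ C1 (s i)) :
    s i * c2 (d i) y * (s i)⁻¹ = d i * y * (d i)⁻¹ := by
  have e2 : d i = (d i)⁻¹ * (d i)⁻¹ := by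
    rw [← mul_inv_rev, eq_inv_iff_mul_eq_one, ← p.d3 i, pow_succ, pow_two, mul_assoc]
  calc _ = (s i * d i * (s i)⁻¹) * (s i * d i * (s i)⁻¹) * (s i * y * (s i)⁻¹) *
      ((s i * d i * (s i)⁻¹) * (s i * d i * (s i)⁻¹))⁻¹ := by unfold c2; group
    _ = _ := by rw [p.sd, ← e2, mem_C1_iff_conj'.1 hy]

include h p γ

theorem Nz.uU (j : Fin 3) : c2 (d j) x ∈ Q z ⊓ Q x := by
  obtain ⟨i, ij, -⟩ := third j j
  obtain ⟨k, ki, kj⟩ := third i j
  have m := h.c2M p ki (h.c2M p kj (h.xM p k))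
  have e := h.cmC ⟨m.1, mem_C1.2 ((h.abM p k).comm m (h.xM p k))⟩ (p.sC i) (mem_C1.2 (h.sx p i))
  rw [p.sc2 i (h.c2M p ij (h.xM p i)).2] at e
  have e1 : nn (d i) (c2 (d j) x) = 1 := by
    rw [c2, nn_cj (p.dd j i), nn_cj (p.dd j i), γ]; simp
  rw [nn, mul_assoc, mul_eq_one_iff_eq_inv] at e1
  exact e1 ▸ inv_mem e

theorem Nz.su (i : Fin 3) : s i * c2 (d i) x * (s i)⁻¹ = c2 (d i) x * x := by
  rw [p.sc2 i (h.xM p i).2]
  have e := γ i
  have e1 := h.toCol.abU.comm (h.uU p γ i) h.toCol.xU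
  change x * _ * c2 (d i) x = 1 at e
  calc _ = x⁻¹ * (x * (d i * x * (d i)⁻¹) * c2 (d i) x) * (c2 (d i) x)⁻¹ := by group
    _ = _ := by
      rw [e, mul_one, inv_self h.toCol.ex.zz, inv_self (h.toCol.elU (h.uU p γ i)), e1]

theorem Nz.genU {W : Subgroup G} (hz : z ∈ W) (hx : x ∈ W) (hu : ∀ i, c2 (d i) x ∈ W) :
    Q z ⊓ Q x ≤ W := by
  have k := h.toCol
  set V := W ⊓ (Q z ⊓ Q x)
  have n : ∀ i, c2 (d i) x ∉ C1 (s i) := fun i hi => by
    have := h.su p γ i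
    rw [mem_C1_iff_conj'.1 hi] at this
    exact k.ex.ne_mul _ this.symm
  have u : ∀ i, c2 (d i) x ∈ V := fun i => ⟨hu i, h.uU p γ i⟩
  have y : ∀ i j, i ≠ j → c2 (d j) x ∈ C1 (s i) := fun i j ne => (h.c2M p ne (h.xM p i)).2
  have zs : ∀ i, z ∈ C1 (s i) := fun i => mem_C1_comm.1 (p.sC i)
  have xs : ∀ i, x ∈ C1 (s i) := fun i => (h.xM p i).2
  have c0 : 2 * Nat.card (zpowers z) ≤ Nat.card ↥(V ⊓ C1 (s 0) ⊓ C1 (s 1) ⊓ C1 (s 2)) :=
    two_le (zpowers_le.2 ⟨⟨⟨⟨hz, k.zU⟩, zs 0⟩, zs 1⟩, zs 2⟩) (a := x)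
      ⟨⟨⟨⟨hx, k.xU⟩, xs 0⟩, xs 1⟩, xs 2⟩ fun e => ((mem_zp h.l.zz).1 e).elim k.ex.z1 k.ne
  have c1 : 2 * Nat.card ↥(V ⊓ C1 (s 0) ⊓ C1 (s 1) ⊓ C1 (s 2)) ≤
      Nat.card ↥(V ⊓ C1 (s 0) ⊓ C1 (s 1)) :=
    two_le inf_le_left ⟨⟨u 2, y 0 2 (by decide)⟩, y 1 2 (by decide)⟩ fun e => n 2 e.2
  have c2' : 2 * Nat.card ↥(V ⊓ C1 (s 0) ⊓ C1 (s 1)) ≤ Nat.card ↥(V ⊓ C1 (s 0)) :=
    two_le inf_le_left ⟨u 1, y 0 1 (by decide)⟩ fun e => n 1 e.2
  have c3 : 2 * Nat.card ↥(V ⊓ C1 (s 0)) ≤ Nat.card V := two_le inf_le_left (u 0) fun e => n 0 e.2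
  rw [card_zp h.l.z1 h.l.zz] at c0
  have := eq_of_le_of_card_le (inf_le_right : V ≤ _) (by rw [k.cU]; change _ ≤ Nat.card V; omega)
  exact this.ge.trans inf_le_left

theorem Nz.sQ (i : Fin 3) : s i ∈ Q x := by
  have k := h.toCol
  obtain ⟨q, hq, a, ha, e⟩ := h.dec (p.sC i) (mem_C1.2 (h.sx p i))
  have key : ∀ u ∈ Q z ⊓ Q x, (s i * u * (s i)⁻¹ = u ∨ s i * u * (s i)⁻¹ = u * x) → u ∈ C1 q := by
    intro u hu eu
    rw [mem_C1_iff_conj']
    refine k.two (h.l.cm q hq.1 u hu.1) ?_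
    have e1 : s i * u * (s i)⁻¹ = q * (a * u * a⁻¹) * q⁻¹ := by rw [e]; group
    have e2 : q * (u * x) * q⁻¹ = q * u * q⁻¹ * x := by
      conv_rhs => rw [← mem_C1_iff_conj.1 hq.2]
      group
    rcases k.ex.cm a ha.1 u hu.2 with e3 | e3 <;> rw [e3] at e1
    · exact e1 ▸ eu
    · rw [e2] at e1
      rcases eu with eu | eu <;> rw [eu] at e1
      · right; rw [← mul_inv_eq_iff_eq_mul, inv_self k.ex.zz, ← e1]
      · left; exact (mul_right_cancel e1).symm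
  have := h.genU p γ (W := C1 q) (key z k.zU (Or.inl (mem_C1_iff_conj.1 (p.sC i))))
    (key x k.xU (Or.inl (mul_inv_eq_iff_eq_mul.2 (h.sx p i)))) fun j => key _ (h.uU p γ j) (by
      by_cases ij : i = j
      · subst ij; exact Or.inr (h.su p γ i)
      · exact Or.inl (mem_C1_iff_conj'.1 (h.c2M p ij (h.xM p i)).2))
  exact e ▸ mul_mem (k.cent (le_C1_iff.1 this)).2 ha.1

theorem Nz.cfg : Cfg D Q z x π s fun i => d i * s i * (d i)⁻¹ := by
  have k := h.toCol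
  have sQ := h.sQ p γ
  have ss : ∀ i, s i * s i = 1 := fun i =>
    k.two (by simpa using p.ss i) (by simpa using k.ex.sq _ (sQ i))
  have ss' : ∀ i j, s i * s j = s j * s i := fun i j =>
    mul_inv_eq_iff_eq_mul.1 (k.two (p.ss' i j) (k.ex.cm _ (sQ i) _ (sQ j)))
  have ww : ∀ i, d i * s i * (d i)⁻¹ * (d i * s i * (d i)⁻¹) = 1 := fun i => by
    rw [show d i * s i * (d i)⁻¹ * (d i * s i * (d i)⁻¹) = d i * (s i * s i) * (d i)⁻¹ by group, ss]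
    simp
  have sw' : ∀ i j, i ≠ j → s i * (d j * s j * (d j)⁻¹) = d j * s j * (d j)⁻¹ * s i :=
    fun i j ne => (Commute.mul_right (Commute.mul_right (p.sd' i j ne) (ss' i j))
      (Commute.inv_right (p.sd' i j ne))).eq
  have wy : ∀ i, ∀ y ∈ C1 (s i), d i * s i * (d i)⁻¹ * y * (d i * s i * (d i)⁻¹) = c2 (d i) y := by
    intro i y hy
    have e : s i * (d i)⁻¹ * (s i)⁻¹ = d i := by
      rw [show s i * (d i)⁻¹ * (s i)⁻¹ = (s i * d i * (s i)⁻¹)⁻¹ by group, p.sd, inv_inv]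
    calc _ = d i * s i * (d i)⁻¹ * y * (d i * s i * (d i)⁻¹)⁻¹ := by rw [inv_self (ww i)]
      _ = d i * (s i * (d i)⁻¹ * (s i)⁻¹) * (s i * y * (s i)⁻¹) *
        (d i * (s i * (d i)⁻¹ * (s i)⁻¹))⁻¹ := by group
      _ = _ := by rw [e, mem_C1_iff_conj'.1 hy]; unfold c2; group
  refine ⟨h, sQ, p.sC, fun i => mul_mem (mul_mem (p.dC i) (p.sC i)) (inv_mem (p.dC i)), p.ps,
    fun i => by rw [h.l.cj (p.dC i) (p.sC i), p.pd, p.ps, ← (ω_eq i).2.2], ss, ww, fun i => ?_, ss',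
    sw', fun i j => ?_, fun i => ?_, fun i j => ?_, fun i => ?_⟩
  · have e : s i * (d i * s i * (d i)⁻¹) = (d i)⁻¹ * (d i)⁻¹ := by
      conv_rhs => enter [1]; rw [← p.sd, inv_self (ss i)]
      group
    rw [e]
    calc _ = (d i ^ 3 * d i ^ 3)⁻¹ := by group
      _ = 1 := by rw [p.d3]; simp
  · by_cases ij : i = j
    · rw [ij]
    have c : Commute (d i) (d j * s j * (d j)⁻¹) := Commute.mul_right (Commute.mul_right (p.dd i j)
      (p.sd' j i (Ne.symm ij)).symm) (Commute.inv_right (p.dd i j))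
    exact (Commute.mul_left (Commute.mul_left c (sw' i j ij)) c.inv_left).eq
  · rw [wy i x (h.xM p i).2, ← h.su p γ i, inv_self (ss i)]
  · obtain ⟨l, li, lj⟩ := third i j
    by_cases ij : i = j
    · subst ij
      rw [show ∀ a : G, a * (a * x * a) * a = (a * a) * x * (a * a) by intro a; group, ww]; simp
    rw [wy j x (h.xM p j).2, wy i _ (h.c2M p ij (h.xM p i)).2]
    exact (h.abM p l).comm (h.c2M p li (h.c2M p lj (h.xM p l))) (h.xM p l)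
  · rw [wy i x (h.xM p i).2]
    exact (h.uU p γ i).2

end

theorem Col.exists_cfg [Finite G] {D : Set G} {Q : G → Subgroup G} {z x : G} (k : Col D Q z x) :
    ∃ x π s w, Cfg D Q z x π s w := by
  obtain ⟨x, π, d, s, h, p, γ⟩ := k.exists_pre
  exact ⟨x, π, s, _, h.cfg p γ⟩

end CfsgH2.O8
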