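import Cfsg.Agent.H2.O8E
import Cfsg.Agent.H2.O8M2

/-! The relations in the centralizer. -/

set_option autoImplicit false
set_option linter.style.haveILetI false
set_option linter.unusedSectionVars false

namespace CfsgH2.O8
open Subgroup CfsgH5 CfsgH6 CfsgFT CfsgH2.Fx CfsgH3.TC CfsgH8 CfsgH9

universe u
variable {G : Type u} [Group G]

/-- the generators -/
def vG (s w : Fin 3 → G) (x r : G) (a : ℕ) : G :=
  [1, s 0, s 1, s 2, w 0, w 1, w 2, x, r].getD a 1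

/-- first layer -/
def uG (w : Fin 3 → G) (x : G) (i : Fin 3) : G := w i * x * w i

/-- second layer -/
def mG (w : Fin 3 → G) (x : G) : Fin 3 → G :=
  ![w 1 * uG w x 2 * w 1, w 0 * uG w x 2 * w 0, w 0 * uG w x 1 * w 0]

/-- third layer -/
def nG (w : Fin 3 → G) (x : G) : G := w 0 * (w 1 * uG w x 2 * w 1) * w 0

/-- the extended alphabet -/
def eG (s w : Fin 3 → G) (x r z : G) (a : ℕ) : G :=
  [1, s 0, s 1, s 2, w 0, w 1, w 2, x, z, uG w x 0, uG w x 1, uG w x 2, mG w x 0, mG w x 1,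
    mG w x 2, nG w x, r].getD a 1

theorem ext_vG {s w : Fin 3 → G} {x r z : G} (h : x * nG w x * x * nG w x = z) :
    ext (vG s w x r) = eG s w x r z := by
  funext a
  by_cases ha : a < 17
  · interval_cases a <;> simp [ext, exW, sval, vG, eG, uG, mG, nG, mul_assoc, ← h]
  · have e1 : exW.getD a [] = [] := List.getD_eq_default _ _ (by simp [exW]; omega)
    rw [ext, e1, eG, List.getD_eq_default _ _ (by simp; omega)]; rfl

/-- expansion of words -/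
def expand (w : List ℕ) : List ℕ := (w.map fun a => exW.getD a []).flatten

theorem wval_expand (v : ℕ → G) (w : List ℕ) : wval v (expand w) = ev (ext v) w := by
  induction w with
  | nil => rfl
  | cons a w ih => rw [ev_cons, ← ih]; simp [expand, ext]

theorem sat_expand {v : ℕ → G} (h0 : v 0 = 1) {L R : List (List ℕ)} (e : R = L.map expand)
    (h : ∀ w ∈ L, ev (ext v) w = 1) : Sat v R := ⟨h0, fun w hw => by
  obtain ⟨w', hw', rfl⟩ := List.mem_map.1 (e ▸ hw)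
  rw [wval_expand, h w' hw']⟩

theorem ic {a b : G} (ha : a * a = 1) (hb : b * b = 1) (h : a * b = b * a) : a * b * a * b = 1 := by
  rw [mul_assoc a b a, ← h, ← mul_assoc, ha, one_mul, hb]

/-- the third index -/
def th (i j : Fin 3) : Fin 3 := -(i + j)

theorem T3_le {P : Subgroup T3} {σ : T3} (h : ∀ i, Pi.mulSingle i (σ i) ∈ P) : σ ∈ P := by
  have : σ = Pi.mulSingle 0 (σ 0) * Pi.mulSingle 1 (σ 1) * Pi.mulSingle 2 (σ 2) := by
    funext j; fin_cases j <;> simp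
  rw [this]
  exact mul_mem (mul_mem (h 0) (h 1)) (h 2)

namespace Cfg
variable [Finite G] {D : Set G} {Q : G → Subgroup G} {z x : G} {π : G → T3} {s w : Fin 3 → G}
  (h : Cfg D Q z x π s w)
include h

theorem k : Col D Q z x := h.toNz.toCol

theorem wi (i : Fin 3) : (w i)⁻¹ = w i := inv_self (h.ww i)

theorem si (i : Fin 3) : (s i)⁻¹ = s i := inv_self (h.ss i)

theorem wQ (i : Fin 3) {y : G} (hy : y ∈ Q z) : w i * y * w i ∈ Q z := by
  have := h.l.nrm (h.wC i) hy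
  rwa [h.wi] at this

theorem uU (i : Fin 3) : uG w x i ∈ Q z ⊓ Q x := ⟨h.wQ i h.xq, h.uQ i⟩

theorem mQ (i : Fin 3) : mG w x i ∈ Q z := by
  fin_cases i <;> exact h.wQ _ (h.uU _).1

theorem nQ : nG w x ∈ Q z := h.wQ _ (h.wQ _ (h.uU _).1)

theorem mx' (i : Fin 3) : mG w x i * x = x * mG w x i := by
  fin_cases i <;> exact h.xm _ _

theorem genQ {M : Subgroup G} (hz : z ∈ M) (hx : x ∈ M) (hu : ∀ i, uG w x i ∈ M)
    (hm : ∀ i, mG w x i ∈ M) (hn : nG w x ∈ M) : Q z ≤ M := by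
  refine h.mx.2 w (fun i => ⟨h.wC i, h.pw i⟩) M hz hx ?_ ?_ ?_ ?_ ?_ ?_ ?_ <;> simp only [h.wi]
  exacts [hu 2, hu 1, hm 0, hu 0, hm 1, hm 2, hn]

theorem xn : x * nG w x * x * nG w x = z := by
  have e : x * nG w x ≠ nG w x * x := fun e => by
    have := h.genQ (M := C1 x) (h.k.ex.le h.k.zU.2) (self_mem_C1 x)
      (fun i => h.k.ex.le (h.uQ i)) (fun i => mem_C1.2 (h.mx' i)) (mem_C1.2 e.symm)
    exact (h.l.cen x fun a ha => (mem_C1.1 (this ha)).symm).elim h.k.ex.z1 h.ne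
  have e1 := h.l.nc h.xq h.nQ e
  rw [inv_self h.k.ex.zz] at e1
  have c : ∀ i (y : G), y * y = 1 → w i * y * w i * (w i * y * w i) = 1 := fun i y hy => by
    rw [show w i * y * w i * (w i * y * w i) = w i * (y * (w i * w i) * y) * w i by group, h.ww,
      mul_one, hy, mul_one, h.ww]
  rw [e1, mul_assoc, ← h.l.zc h.nQ, ← mul_assoc, nG, uG, c _ _ (c _ _ (c _ _ h.k.ex.zz)), one_mul]

theorem genC {M : Subgroup G} (hx : x ∈ M) (hs : ∀ i, s i ∈ M) (hw : ∀ i, w i ∈ M) :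
    C1 z ≤ M := by
  have c : ∀ i, ∀ y ∈ M, w i * y * w i ∈ M := fun i y hy => mul_mem (mul_mem (hw i) hy) (hw i)
  have hn : nG w x ∈ M := c _ _ (c _ _ (c _ _ hx))
  have hQ := h.genQ (h.xn ▸ mul_mem (mul_mem (mul_mem hx hn) hx) hn) hx (fun i => c _ _ hx)
    (fun i => by fin_cases i <;> exact c _ _ (c _ _ hx)) hn
  intro g hg
  obtain ⟨b, e⟩ : π g ∈ (h.l.hom (M ⊓ C1 z) inf_le_right).range := T3_le fun i => by
    let P := (h.l.hom (M ⊓ C1 z) inf_le_right).range.comap (MonoidHom.mulSingle (fun _ => S3) i)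
    have h1 : t0 ∈ P := ⟨⟨s i, hs i, h.sC i⟩, h.ps i⟩
    have h2 : c3 * t0 * c3⁻¹ ∈ P := ⟨⟨w i, hw i, h.wC i⟩, h.pw i⟩
    change π g i ∈ P
    rcases (by decide : ∀ a : S3, a = 1 ∨ a = t0 ∨ a = c3 * t0 * c3⁻¹ ∨ a = t0 * (c3 * t0 * c3⁻¹) ∨
      a = c3 * t0 * c3⁻¹ * t0 ∨ a = t0 * (c3 * t0 * c3⁻¹) * t0) (π g i) with
      e | e | e | e | e | e <;> rw [e]
    exacts [one_mem _, h1, h2, mul_mem h1 h2, mul_mem h2 h1, mul_mem (mul_mem h1 h2) h1]
  exact (mul_mem_cancel_right (M.inv_mem b.2.1)).1 (hQ ((h.l.eq_iff hg b.2.2).1 e.symm))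

theorem fix4 {g : G} (hg : g ∈ Q z ⊓ Q x) (hs : ∀ i, s i * g = g * s i) :
    g = 1 ∨ g = x ∨ g = z ∨ g = z * x := by
  refine h.k.ex.cen2 h.k.zU.2 h.l.z1 h.ne.symm h.l.zz hg.2 fun a ha e => ?_
  have ha' : a ∈ C1 z := mem_C1.2 e
  obtain ⟨b, eb⟩ : π a ∈ (h.l.hom (Q x ⊓ C1 g ⊓ C1 z) inf_le_right).range := T3_le fun i => by
    rcases h.e0 a ha' (h.k.ex.le ha) i with e | e <;> rw [e]
    · simp
    · exact ⟨⟨s i, ⟨h.sQ i, mem_C1.2 (hs i)⟩, h.sC i⟩, h.ps i⟩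
  have h1 : a * b⁻¹ ∈ C1 g := mem_C1.2 (h.k.abU.comm
    ⟨(h.l.eq_iff ha' b.2.2).1 eb.symm, Subgroup.mul_mem _ ha (Subgroup.inv_mem _ b.2.1.1)⟩ hg)
  exact (mem_C1.1 ((mul_mem_cancel_right ((C1 g).inv_mem b.2.1.2)).1 h1)).symm

theorem satC (r : G) : Sat (vG s w x r) (relS ++ relC) := by
  have xx := h.k.ex.zz
  have zz := h.l.zz
  have sx : ∀ i, x * s i = s i * x := fun i => (h.k.ex.zc (h.sQ i)).symm
  have mm : ∀ i, x * mG w x i * x * mG w x i = 1 := fun i => by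
    refine ic xx ((h.l.sq _ (h.mQ i)).resolve_right fun e => h.l.z1 ?_) (h.mx' i).symm
    rw [← e]
    have c : ∀ i (y : G), y * y = 1 → w i * y * w i * (w i * y * w i) = 1 := fun i y hy => by
      rw [show w i * y * w i * (w i * y * w i) = w i * (y * (w i * w i) * y) * w i by group, h.ww,
        mul_one, hy, mul_one, h.ww]
    fin_cases i <;> exact c _ _ (c _ _ xx)
  have su : ∀ i, s i * uG w x i * s i * uG w x i * x = 1 := fun i => by
    rw [uG, h.su, mul_assoc]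
    exact (mul_assoc _ _ _).symm.trans (ic (h.k.elU (h.uU i)) xx (h.k.abU.comm (h.uU i) h.k.xU))
  have sw : ∀ i, s i * w i * s i * w i * s i * w i = 1 := fun i => by
    simpa only [mul_assoc] using h.sw i
  refine sat_expand rfl (L := [[1, 1], [2, 2], [3, 3], [4, 4], [5, 5], [6, 6], [1, 4, 1, 4, 1, 4],
    [2, 5, 2, 5, 2, 5], [3, 6, 3, 6, 3, 6], [1, 2, 1, 2], [1, 3, 1, 3], [2, 3, 2, 3], [4, 5, 4, 5],
    [4, 6, 4, 6], [5, 6, 5, 6], [1, 5, 1, 5], [1, 6, 1, 6], [2, 4, 2, 4], [2, 6, 2, 6],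
    [3, 4, 3, 4], [3, 5, 3, 5], [7, 7], [7, 1, 7, 1], [7, 2, 7, 2], [7, 3, 7, 3], [1, 9, 1, 9, 7],
    [2, 10, 2, 10, 7], [3, 11, 3, 11, 7], [7, 12, 7, 12], [7, 13, 7, 13], [7, 14, 7, 14], [8, 8],
    [8, 1, 8, 1], [8, 2, 8, 2], [8, 3, 8, 3], [8, 4, 8, 4], [8, 5, 8, 5], [8, 6, 8, 6],
    [8, 7, 8, 7]]) (by decide) ?_
  rw [ext_vG h.xn]
  simp only [List.forall_mem_cons]
  exact ⟨h.ss 0, h.ss 1, h.ss 2, h.ww 0, h.ww 1, h.ww 2, sw 0, sw 1, sw 2,
    ic (h.ss 0) (h.ss 1) (h.ss' _ _), ic (h.ss 0) (h.ss 2) (h.ss' _ _),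
    ic (h.ss 1) (h.ss 2) (h.ss' _ _), ic (h.ww 0) (h.ww 1) (h.ww' _ _),
    ic (h.ww 0) (h.ww 2) (h.ww' _ _), ic (h.ww 1) (h.ww 2) (h.ww' _ _),
    ic (h.ss 0) (h.ww 1) (h.sw' _ _ (by decide)), ic (h.ss 0) (h.ww 2) (h.sw' _ _ (by decide)),
    ic (h.ss 1) (h.ww 0) (h.sw' _ _ (by decide)), ic (h.ss 1) (h.ww 2) (h.sw' _ _ (by decide)),
    ic (h.ss 2) (h.ww 0) (h.sw' _ _ (by decide)), ic (h.ss 2) (h.ww 1) (h.sw' _ _ (by decide)),
    xx, ic xx (h.ss 0) (sx 0), ic xx (h.ss 1) (sx 1), ic xx (h.ss 2) (sx 2), su 0, su 1, su 2,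
    mm 0, mm 1, mm 2, zz, ic zz (h.ss 0) (mem_C1.1 (h.sC 0)).symm,
    ic zz (h.ss 1) (mem_C1.1 (h.sC 1)).symm, ic zz (h.ss 2) (mem_C1.1 (h.sC 2)).symm,
    ic zz (h.ww 0) (mem_C1.1 (h.wC 0)).symm, ic zz (h.ww 1) (mem_C1.1 (h.wC 1)).symm,
    ic zz (h.ww 2) (mem_C1.1 (h.wC 2)).symm, ic zz xx h.k.xz.symm, by simp⟩

theorem tr (a b : List ℕ) (hc : idChk a b = true) :
    ev (eG s w x 1 z) a = ev (eG s w x 1 z) b :=
  ext_vG (s := s) (r := 1) h.xn ▸ transfer (h.satC 1) a b hc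

end Cfg

theorem eG_s (s w : Fin 3 → G) (x r z : G) (i : Fin 3) : eG s w x r z (1 + i) = s i := by
  fin_cases i <;> rfl

theorem eG_w (s w : Fin 3 → G) (x r z : G) (i : Fin 3) : eG s w x r z (4 + i) = w i := by
  fin_cases i <;> rfl

theorem eG_u (s w : Fin 3 → G) (x r z : G) (i : Fin 3) : eG s w x r z (9 + i) = uG w x i := by
  fin_cases i <;> rfl

theorem eG_m (s w : Fin 3 → G) (x r z : G) (i : Fin 3) : eG s w x r z (12 + i) = mG w x i := by
  fin_cases i <;> rfl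

theorem eG_7 (s w : Fin 3 → G) (x r z : G) : eG s w x r z 7 = x := rfl

theorem eG_8 (s w : Fin 3 → G) (x r z : G) : eG s w x r z 8 = z := rfl

theorem eG_15 (s w : Fin 3 → G) (x r z : G) : eG s w x r z 15 = nG w x := rfl

/-- identities in the centralizer -/
structure Fc (z x n : G) (s w u m : Fin 3 → G) : Prop where
  nn : n * n = 1
  nx : n * x * n = x * z
  nu : ∀ i, n * u i = u i * n
  ns : ∀ i, n * s i * n = s i * m i
  nm : ∀ i, n * m i = m i * n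
  sm : ∀ i, s i * m i = m i * s i
  uk : ∀ i, u i * s i * m i = s i * m i * u i * x * z
  uk' : ∀ i j, i ≠ j → u i * s j * m j = s j * m j * u i
  km : ∀ i j, i ≠ j → s j * m j * m i = m i * u (th i j) * s j * m j
  ks : ∀ i j, i ≠ j → s j * m j * s i = s i * u (th i j) * s j * m j
  um : ∀ i, u i * m i = m i * z * u i
  um' : ∀ i j, i ≠ j → u j * m i = m i * u j
  wu : ∀ i, w i * u i * w i = x
  wu' : ∀ i j, i ≠ j → w i * u j * w i = m (th i j)
  wm : ∀ i j, i ≠ j → w i * m j * w i = u (th i j)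
  wn : ∀ i, w i * n * w i = m i
  us : ∀ i j, i ≠ j → s j * u i = u i * s j
  c0 : ∀ i, w i * x * z * u i * s i * w i * x * z * u i * s i * w i * x * z * u i * s i = z
  fin : n * s 0 * s 1 * s 2 * n * s 0 * s 1 * s 2 * n * s 0 * s 1 * s 2 * n * s 0 * s 1 * s 2 = z

theorem Cfg.fc [Finite G] {D : Set G} {Q : G → Subgroup G} {z x : G} {π : G → T3}
    {s w : Fin 3 → G} (h : Cfg D Q z x π s w) : Fc z x (nG w x) s w (uG w x) (mG w x) := by
  have t1 : ∀ f g : Fin 3 → List ℕ, (∀ i, idChk (f i) (g i) = true) → ∀ i,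
      ev (eG s w x 1 z) (f i) = ev (eG s w x 1 z) (g i) := fun f g hc i => h.tr _ _ (hc i)
  have t2 : ∀ f g : Fin 3 → Fin 3 → List ℕ, (∀ i j, i ≠ j → idChk (f i j) (g i j) = true) → ∀ i j,
      i ≠ j → ev (eG s w x 1 z) (f i j) = ev (eG s w x 1 z) (g i j) :=
    fun f g hc i j ne => h.tr _ _ (hc i j ne)
  refine ⟨h.tr [15, 15] [] (by decide +kernel), h.tr [15, 7, 15] [7, 8] (by decide +kernel),
    ?_, ?_, ?_, ?_, ?_, ?_, ?_, ?_, ?_, ?_, ?_, ?_, ?_, ?_, ?_, ?_,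
    h.tr [15, 1, 2, 3, 15, 1, 2, 3, 15, 1, 2, 3, 15, 1, 2, 3] [8] (by decide +kernel)⟩
  · simpa only [ev, List.foldl, eG_s, eG_w, eG_u, eG_m, eG_7, eG_8, eG_15] using
      t1 (fun i => [15, 9 + i]) (fun i => [9 + i, 15]) (by decide +kernel)
  · simpa only [ev, List.foldl, eG_s, eG_w, eG_u, eG_m, eG_7, eG_8, eG_15] using
      t1 (fun i => [15, 1 + i, 15]) (fun i => [1 + i, 12 + i]) (by decide +kernel)
  · simpa only [ev, List.foldl, eG_s, eG_w, eG_u, eG_m, eG_7, eG_8, eG_15] using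
      t1 (fun i => [15, 12 + i]) (fun i => [12 + i, 15]) (by decide +kernel)
  · simpa only [ev, List.foldl, eG_s, eG_w, eG_u, eG_m, eG_7, eG_8, eG_15] using
      t1 (fun i => [1 + i, 12 + i]) (fun i => [12 + i, 1 + i]) (by decide +kernel)
  · simpa only [ev, List.foldl, eG_s, eG_w, eG_u, eG_m, eG_7, eG_8, eG_15] using
      t1 (fun i => [9 + i, 1 + i, 12 + i]) (fun i => [1 + i, 12 + i, 9 + i, 7, 8])
        (by decide +kernel)
  · simpa only [ev, List.foldl, eG_s, eG_w, eG_u, eG_m, eG_7, eG_8, eG_15] using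
      t2 (fun i j => [9 + i, 1 + j, 12 + j]) (fun i j => [1 + j, 12 + j, 9 + i])
        (by decide +kernel)
  · simpa only [ev, List.foldl, eG_s, eG_w, eG_u, eG_m, eG_7, eG_8, eG_15] using
      t2 (fun i j => [1 + j, 12 + j, 12 + i]) (fun i j => [12 + i, 9 + th i j, 1 + j, 12 + j])
        (by decide +kernel)
  · simpa only [ev, List.foldl, eG_s, eG_w, eG_u, eG_m, eG_7, eG_8, eG_15] using
      t2 (fun i j => [1 + j, 12 + j, 1 + i]) (fun i j => [1 + i, 9 + th i j, 1 + j, 12 + j])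
        (by decide +kernel)
  · simpa only [ev, List.foldl, eG_s, eG_w, eG_u, eG_m, eG_7, eG_8, eG_15] using
      t1 (fun i => [9 + i, 12 + i]) (fun i => [12 + i, 8, 9 + i]) (by decide +kernel)
  · simpa only [ev, List.foldl, eG_s, eG_w, eG_u, eG_m, eG_7, eG_8, eG_15] using
      t2 (fun i j => [9 + j, 12 + i]) (fun i j => [12 + i, 9 + j]) (by decide +kernel)
  · simpa only [ev, List.foldl, eG_s, eG_w, eG_u, eG_m, eG_7, eG_8, eG_15] using
      t1 (fun i => [4 + i, 9 + i, 4 + i]) (fun i => [7]) (by decide +kernel)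
  · simpa only [ev, List.foldl, eG_s, eG_w, eG_u, eG_m, eG_7, eG_8, eG_15] using
      t2 (fun i j => [4 + i, 9 + j, 4 + i]) (fun i j => [12 + th i j]) (by decide +kernel)
  · simpa only [ev, List.foldl, eG_s, eG_w, eG_u, eG_m, eG_7, eG_8, eG_15] using
      t2 (fun i j => [4 + i, 12 + j, 4 + i]) (fun i j => [9 + th i j]) (by decide +kernel)
  · simpa only [ev, List.foldl, eG_s, eG_w, eG_u, eG_m, eG_7, eG_8, eG_15] using
      t1 (fun i => [4 + i, 15, 4 + i]) (fun i => [12 + i]) (by decide +kernel)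
  · simpa only [ev, List.foldl, eG_s, eG_w, eG_u, eG_m, eG_7, eG_8, eG_15] using
      t2 (fun i j => [1 + j, 9 + i]) (fun i j => [9 + i, 1 + j]) (by decide +kernel)
  · simpa only [ev, List.foldl, eG_s, eG_w, eG_u, eG_m, eG_7, eG_8, eG_15] using
      t1 (fun i => [4 + i, 7, 8, 9 + i, 1 + i, 4 + i, 7, 8, 9 + i, 1 + i, 4 + i, 7, 8, 9 + i, 1 + i])
        (fun i => [8]) (by decide +kernel)

end CfsgH2.O8
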