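import Cfsg.Agent.H2.O8F

/-! The last generator. -/

set_option autoImplicit false
set_option linter.style.haveILetI false
set_option linter.unusedSectionVars false

namespace CfsgH2.O8
open Subgroup CfsgH5 CfsgH6 CfsgFT CfsgH2.Fx CfsgH3.TC CfsgH8 CfsgH9

universe u
variable {G : Type u} [Group G]

theorem EX.adj {y z : G} {Q : Subgroup G} (h : EX y Q) {r a b : G} {K : Subgroup G}
    (hr : r ∈ Q ∧ r ∈ K ∧ r ∉ C1 z) (ha : a ∈ Q) (hb : b ∈ Q) (nc : a * b ≠ b * a) (aK : a ∈ K)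
    (az : a ∈ C1 z) : ∃ r', r' ∈ Q ∧ r' ∈ K ⊓ C1 b ∧ r' ∉ C1 z := by
  by_cases c : r * b = b * r
  · exact ⟨r, hr.1, ⟨hr.2.1, mem_C1.2 c⟩, hr.2.2⟩
  refine ⟨r * a, mul_mem hr.1 ha, ⟨K.mul_mem hr.2.1 aK, mem_C1_iff_conj.2 ?_⟩,
    fun e => hr.2.2 ((mul_mem_cancel_right az).1 e)⟩
  calc _ = r * (a * b * a⁻¹) * r⁻¹ := by group
    _ = r * b * r⁻¹ * (r * y * r⁻¹) := by rw [h.nc ha hb nc]; group
    _ = b := by rw [h.nc hr.1 hb c, h.zc hr.1, mul_inv_cancel_right, mul_assoc, h.zz, mul_one]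

/-- properties of the last generator -/
structure Rc (z x r : G) (u : Fin 3 → G) : Prop where
  rr : r * r = 1
  rz : r * z * r = x
  ru : ∀ i, r * u i = u i * r

theorem Rc.rx {z x r : G} {u : Fin 3 → G} (h : Rc z x r u) : r * x * r = z := by
  rw [← h.rz, show r * (r * z * r) * r = (r * r) * z * (r * r) by group, h.rr]; simp

theorem flip_cj {w y ζ : G} (h1 : ζ * ζ = 1) (h2 : ζ * y = y * ζ) (h3 : ζ * w = w * ζ) :
    w * ζ * y * (w * ζ) = w * y * w := by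
  calc _ = w * (ζ * y) * (w * ζ) := by group
    _ = w * y * (ζ * ζ) * w := by rw [h2, ← h3]; group
    _ = _ := by rw [h1, mul_one]

namespace Cfg
variable [Finite G] {D : Set G} {Q : G → Subgroup G} {z x : G} {π : G → T3} {s w : Fin 3 → G}
  (h : Cfg D Q z x π s w)
include h

theorem ni : (nG w x)⁻¹ = nG w x := inv_self h.fc.nn

theorem nY {a : G} (ha : a ∈ Q x) : nG w x * a * nG w x ∈ Q (x * z) := by
  have := h.sys.eqv x h.hx (nG w x) a ha
  rwa [h.ni, h.fc.nx] at this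

theorem nU {a : G} (ha : a ∈ Q z ⊓ Q x) : nG w x * a * nG w x ∈ Q z ⊓ Q x := by
  rcases h.l.cm _ h.nQ a ha.1 with e | e <;> rw [h.ni] at e <;> rw [e]
  exacts [ha, mul_mem ha h.k.zU]

theorem ex_r0 : ∃ r, Rc z x r (uG w x) ∧ ∀ i, r * (s i * mG w x i) = s i * mG w x i * r := by
  have f := h.fc
  have c := h.k.mul
  have e := c.ex
  set u := uG w x
  set k := fun i => s i * mG w x i with hk
  have uY : ∀ i, u i ∈ Q (x * z) := fun i => by
    have := h.nY (h.uQ i)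
    change _ * u i * _ ∈ _ at this
    rwa [f.nu, mul_assoc, f.nn, mul_one] at this
  have kY : ∀ i, k i ∈ Q (x * z) := fun i => by
    have := h.nY (h.sQ i)
    rwa [f.ns] at this
  have uz : ∀ i, u i ∈ C1 z := fun i => h.l.le (h.uU i).1
  have kz : ∀ i, k i ∈ C1 z := fun i => mul_mem (h.sC i) (h.l.le (h.mQ i))
  have nc : ∀ i, u i * k i ≠ k i * u i := fun i e' => e.ne_mul (k i * u i) (by
    rw [← mul_assoc, ← f.uk, ← e', mul_assoc])
  have uu : ∀ i j, u i ∈ C1 (u j) := fun i j => mem_C1.2 (h.k.abU.comm (h.uU i) (h.uU j))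
  have uk : ∀ i j, i ≠ j → u i ∈ C1 (k j) := fun i j ne =>
    mem_C1.2 (by rw [hk, ← mul_assoc, f.uk' i j ne])
  have ku : ∀ i j, j ≠ i → k i ∈ C1 (u j) := fun i j ne => mem_C1_comm.1 (uk j i ne)
  have kk : ∀ i j, k i ∈ C1 (k j) := fun i j => mem_C1.2 (by
    simp only [hk, ← f.ns]
    calc _ = nG w x * s i * (nG w x * nG w x) * s j * nG w x := by group
      _ = nG w x * s j * (nG w x * nG w x) * s i * nG w x := by
        rw [f.nn, mul_one, mul_one, mul_assoc _ (s i), h.ss', ← mul_assoc]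
      _ = _ := by group)
  obtain ⟨r, hr, er⟩ := e.ex_nc h.l.z1 c.ne.symm
  obtain ⟨r, h1⟩ := e.adj (K := ⊤) ⟨hr, mem_top _, fun a => er (mem_C1.1 a)⟩ (kY 0) (uY 0)
    (nc 0).symm (mem_top _) (kz 0)
  obtain ⟨r, h1⟩ := e.adj h1 (uY 0) (kY 0) (nc 0) ⟨mem_top _, uu 0 0⟩ (uz 0)
  obtain ⟨r, h1⟩ := e.adj h1 (kY 1) (uY 1) (nc 1).symm
    ⟨⟨mem_top _, ku 1 0 (by decide)⟩, kk 1 0⟩ (kz 1)
  obtain ⟨r, h1⟩ := e.adj h1 (uY 1) (kY 1) (nc 1)
    ⟨⟨⟨mem_top _, uu 1 0⟩, uk 1 0 (by decide)⟩, uu 1 1⟩ (uz 1)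
  obtain ⟨r, h1⟩ := e.adj h1 (kY 2) (uY 2) (nc 2).symm
    ⟨⟨⟨⟨mem_top _, ku 2 0 (by decide)⟩, kk 2 0⟩, ku 2 1 (by decide)⟩, kk 2 1⟩ (kz 2)
  obtain ⟨r, hr, ⟨⟨⟨⟨⟨⟨-, a0⟩, b0⟩, a1⟩, b1⟩, a2⟩, b2⟩, hz⟩ := e.adj h1 (uY 2) (kY 2) (nc 2)
    ⟨⟨⟨⟨⟨mem_top _, uu 2 0⟩, uk 2 0 (by decide)⟩, uu 2 1⟩, uk 2 1 (by decide)⟩, uu 2 2⟩ (uz 2)
  have a : ∀ i, r ∈ C1 (u i) := fun i => by fin_cases i; exacts [a0, a1, a2]
  have b : ∀ i, r ∈ C1 (k i) := fun i => by fin_cases i; exacts [b0, b1, b2]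
  have key : ∀ r ∈ Q (x * z), r ∉ C1 z → r * z * r⁻¹ = x := fun r hr hz => by
    rw [e.nc hr c.zU.2 fun a => hz (mem_C1.2 a), h.k.xz, ← mul_assoc, h.l.zz, one_mul]
  rcases e.sq r hr with e1 | e1
  · exact ⟨r, ⟨e1, by rw [← key r hr hz, inv_self e1], fun i => mem_C1.1 (a i)⟩,
      fun i => mem_C1.1 (b i)⟩
  · have e2 : r * z * (r * z) = 1 := by
      calc _ = r * z * r⁻¹ * (r * r) * z := by group
        _ = 1 := by rw [key r hr hz, e1, ← mul_assoc, h.k.ex.zz, one_mul, h.l.zz]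
    refine ⟨r * z, ⟨e2, ?_, fun i => mem_C1.1 (mul_mem (a i) (mem_C1_comm.1 (uz i)))⟩,
      fun i => mem_C1.1 (mul_mem (b i) (mem_C1_comm.1 (kz i)))⟩
    have := key _ (mul_mem hr c.zU.2) fun a => hz ((mul_mem_cancel_right (self_mem_C1 z)).1 a)
    rwa [inv_self e2] at this

theorem rQ {r a : G} (c : Rc z x r (uG w x)) :
    (a ∈ Q z → r * a * r ∈ Q x) ∧ (a ∈ Q x → r * a * r ∈ Q z) := by
  refine ⟨fun ha => ?_, fun ha => ?_⟩
  · have := h.sys.eqv z h.hz r a ha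
    rwa [inv_self c.rr, c.rz] at this
  · have := h.sys.eqv x h.hx r a ha
    rwa [inv_self c.rr, c.rx] at this

theorem r_m {r : G} (c : Rc z x r (uG w x))
    (b : ∀ i, r * (s i * mG w x i) = s i * mG w x i * r) (i : Fin 3) :
    r * mG w x i * r = s i ∨ r * mG w x i * r = s i * (x * z) := by
  have f := h.fc
  set u := uG w x
  set m := mG w x
  have cj : ∀ a b : G, r * (a * b) * r = r * a * r * (r * b * r) := fun a b => by
    rw [show r * a * r * (r * b * r) = r * a * (r * r) * b * r by group, c.rr]; group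
  have fx : ∀ a : G, r * a = a * r → r * a * r = a := fun a e => by
    rw [e, mul_assoc, c.rr, mul_one]
  have e0 : r * s i * r * (r * m i * r) = s i * m i := by rw [← cj, fx _ (b i)]
  obtain ⟨g, eg⟩ : ∃ g, r * m i * r = s i * g := ⟨(s i)⁻¹ * (r * m i * r), by group⟩
  have hg : g ∈ Q z ⊓ Q x := by
    refine ⟨?_, (mul_mem_cancel_left (h.sQ i)).1 (eg ▸ (h.rQ c).1 (h.mQ i))⟩
    have : g = (s i)⁻¹ * (r * s i * r)⁻¹ * (s i)⁻¹⁻¹ * m i := by
      rw [inv_inv, mul_assoc _ (s i), ← e0, eg]; group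
    exact this ▸ mul_mem (h.l.nrm (inv_mem (h.sC i)) (inv_mem ((h.rQ c).2 (h.sQ i)))) (h.mQ i)
  have e1 : ∀ j, s j * m j * g = g * (s j * m j) := fun j => by
    by_cases ij : i = j
    · subst ij
      have e2 : s i * m i * (s i * g) = s i * g * (s i * m i) := by
        rw [← eg, ← fx _ (b i), ← cj, ← cj, ← mul_assoc (m i), ← f.sm]
      rw [← mul_assoc, mul_assoc (s i) (m i), ← f.sm, mul_assoc (s i), mul_assoc (s i) g] at e2
      exact mul_left_cancel e2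
    · have e2 : s j * m j * (s i * g) = s i * g * u (th i j) * (s j * m j) := by
        rw [← eg, ← fx _ (b j), ← fx _ (c.ru (th i j)), ← cj, ← cj, ← cj, f.km i j ij]; group
      rw [← mul_assoc, f.ks i j ij, mul_assoc (s i) g,
        show g * u (th i j) = u (th i j) * g from h.k.abU.comm hg (h.uU _)] at e2
      simpa only [mul_assoc, mul_right_inj] using e2
  have e3 := h.fix4 (h.nU hg) fun j => by
    have := e1 j
    rw [← f.ns] at this
    calc _ = (nG w x * nG w x) * s j * (nG w x * g * nG w x) := by rw [f.nn, one_mul]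
      _ = nG w x * (nG w x * s j * nG w x * g) * nG w x := by group
      _ = nG w x * g * nG w x * s j * (nG w x * nG w x) := by rw [this]; group
      _ = _ := by rw [f.nn, mul_one]
  have e4 : ∀ a, nG w x * g * nG w x = a → g = nG w x * a * nG w x := fun a e => by
    rw [← e, show nG w x * (nG w x * g * nG w x) * nG w x = (nG w x * nG w x) * g *
      (nG w x * nG w x) by group, f.nn]; simp
  have nz : nG w x * z * nG w x = z := by rw [h.l.zc h.nQ, mul_assoc, f.nn, mul_one]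
  have e5 : s i * g = g * s i → r * g * r = g := fun e => by
    have e6 : r * s i * r * (r * g * r) = m i := by
      rw [← cj, ← eg, show r * (r * m i * r) * r = (r * r) * m i * (r * r) by group, c.rr]; simp
    have : r * s i * r * (g * s i) = r * s i * r * (r * g * r * s i) := by
      rw [← e, ← eg, e0, f.sm, ← e6, mul_assoc]
    exact (mul_right_cancel (mul_left_cancel this)).symm
  rcases e3 with e | e | e | e
  · left; rw [eg, e4 _ e, mul_one, f.nn, mul_one]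
  · right; rw [eg, e4 _ e, f.nx]
  · rw [e4 _ e, nz] at e5
    exact absurd (c.rz.symm.trans (e5 (mem_C1.1 (h.sC i)))) h.ne
  · have : g = x := by
      rw [e4 _ e, show nG w x * (z * x) * nG w x = nG w x * z * (nG w x)⁻¹ * (nG w x * x * nG w x)
        by group, h.ni, nz, f.nx, h.k.xz, ← mul_assoc, h.l.zz, one_mul]
    rw [this] at e5
    exact absurd (c.rx.symm.trans (e5 (h.k.ex.zc (h.sQ i)))) h.ne.symm

theorem flip (ζ : Fin 3 → G) (hζ : ∀ i, ζ i = 1 ∨ ζ i = z) :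
    Cfg D Q z x π (fun i => s i * ζ i) (fun i => w i * ζ i) ∧
      uG (fun i => w i * ζ i) x = uG w x ∧ mG (fun i => w i * ζ i) x = mG w x := by
  have U : ∀ i, ζ i ∈ Q z ⊓ Q x := fun i => by
    rcases hζ i with e | e <;> rw [e]
    exacts [one_mem _, h.k.zU]
  have c : ∀ i, ∀ y ∈ C1 z, Commute (ζ i) y := fun i y hy => by
    rcases hζ i with e | e <;> rw [e]
    exacts [Commute.one_left _, (mem_C1.1 hy).symm]
  have zz : ∀ i, ζ i * ζ i = 1 := fun i => h.k.elU (U i)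
  have zC : ∀ i, ζ i ∈ C1 z := fun i => h.l.le (U i).1
  have fl : ∀ i, ∀ y ∈ C1 z, w i * ζ i * y * (w i * ζ i) = w i * y * w i := fun i y hy =>
    flip_cj (zz i) (c i y hy) (c i _ (h.wC i))
  have xC := h.l.le h.xq
  have eu : uG (fun i => w i * ζ i) x = uG w x := funext fun i => fl i x xC
  have cm : ∀ i j, ∀ a ∈ C1 z, ∀ b ∈ C1 z, a * b = b * a →
      a * ζ i * (b * ζ j) = b * ζ j * (a * ζ i) := fun i j a ha b hb e =>
    (Commute.mul_left (Commute.mul_right e (c j a ha).symm)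
      (Commute.mul_right (c i b hb) (c i _ (zC j)))).eq
  have pr : ∀ i a, ∀ b ∈ C1 z, a * ζ i * (b * ζ i) = a * b := fun i a b hb => by
    rw [mul_assoc, ← mul_assoc (ζ i), (c i b hb).eq, mul_assoc b, zz, mul_one]
  refine ⟨⟨h.toNz, fun i => mul_mem (h.sQ i) (U i).2, fun i => mul_mem (h.sC i) (zC i),
    fun i => mul_mem (h.wC i) (zC i),
    fun i => by rw [h.l.mul _ (h.sC i) _ (zC i), h.l.kq (U i).1, mul_one, h.ps],
    fun i => by rw [h.l.mul _ (h.wC i) _ (zC i), h.l.kq (U i).1, mul_one, h.pw],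
    fun i => by rw [pr i _ _ (h.sC i), h.ss], fun i => by rw [pr i _ _ (h.wC i), h.ww],
    fun i => by rw [pr i _ _ (h.wC i), h.sw],
    fun i j => cm i j _ (h.sC i) _ (h.sC j) (h.ss' i j),
    fun i j ne => cm i j _ (h.sC i) _ (h.wC j) (h.sw' i j ne),
    fun i j => cm i j _ (h.wC i) _ (h.wC j) (h.ww' i j), fun i => ?_, fun i j => ?_,
    fun i => by rw [fl i x xC]; exact h.uQ i⟩, eu, ?_⟩
  · rw [fl i x xC, flip_cj (zz i) (c i _ (h.l.le (h.wQ i h.xq))) (c i _ (h.sC i)), h.su]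
  · rw [fl j x xC, fl i _ (h.l.le (h.wQ j h.xq)), h.xm]
  · unfold mG
    rw [eu, fl _ _ (h.l.le (h.uU _).1), fl _ _ (h.l.le (h.uU _).1), fl _ _ (h.l.le (h.uU _).1)]

theorem ex_r : ∃ s' w' r, Cfg D Q z x π s' w' ∧ Rc z x r (uG w' x) ∧
    ∀ i, r * mG w' x i * r = s' i := by
  obtain ⟨r, c, b⟩ := h.ex_r0
  have f := h.fc
  have : ∀ i, ∃ t ζ, (ζ = 1 ∨ ζ = z) ∧ t ∈ Q z ⊓ Q x ∧ t ∈ C1 r ∧
      (∀ j, j ≠ i → t ∈ C1 (mG w x j)) ∧ r * (t * mG w x i * t⁻¹) * r = s i * ζ := fun i => by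
    rcases h.r_m c b i with e | e
    · exact ⟨1, 1, Or.inl rfl, one_mem _, one_mem _, fun _ _ => one_mem _, by simpa using e⟩
    · refine ⟨uG w x i, z, Or.inr rfl, h.uU i, mem_C1.2 (c.ru i).symm,
        fun j ne => mem_C1.2 (f.um' j i ne), ?_⟩
      rw [f.um, mul_inv_cancel_right]
      calc _ = r * mG w x i * (r * r) * z * r := by rw [c.rr]; group
        _ = r * mG w x i * r * (r * z * r) := by group
        _ = _ := by rw [e, c.rz, h.k.xz, mul_assoc, mul_assoc, h.k.ex.zz, mul_one]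
  choose t ζ hζ tU tr tm e using this
  obtain ⟨h1, eu, em⟩ := h.flip ζ hζ
  have TU : t 0 * t 1 * t 2 ∈ Q z ⊓ Q x := mul_mem (mul_mem (tU 0) (tU 1)) (tU 2)
  have Tr : t 0 * t 1 * t 2 ∈ C1 r := mul_mem (mul_mem (tr 0) (tr 1)) (tr 2)
  have k : ∀ y, r * (t 0 * t 1 * t 2) * y * (r * (t 0 * t 1 * t 2)) =
      r * (t 0 * t 1 * t 2 * y * (t 0 * t 1 * t 2)⁻¹) * r := fun y => by
    rw [inv_self (h.k.elU TU)]
    conv_lhs => enter [2]; rw [← mem_C1.1 Tr]
    group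
  refine ⟨_, _, r * (t 0 * t 1 * t 2), h1, ⟨?_, ?_, fun i => ?_⟩, fun i => ?_⟩
  · simpa [c.rr] using k 1
  · rw [k, mem_C1_iff_conj.1 (h.l.le TU.1), c.rz]
  · rw [eu, mul_assoc, h.k.abU.comm TU (h.uU i), ← mul_assoc, c.ru, mul_assoc]
  · rw [em, k, ← e i]
    congr 2
    have : (t i)⁻¹ * (t 0 * t 1 * t 2) ∈ C1 (mG w x i) := by
      fin_cases i
      · simpa [mul_assoc] using mul_mem (tm 1 0 (by decide)) (tm 2 0 (by decide))
      · rw [h.k.abU.comm (tU 0) (tU 1)]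
        simpa [mul_assoc] using mul_mem (tm 0 1 (by decide)) (tm 2 1 (by decide))
      · rw [h.k.abU.comm (mul_mem (tU 0) (tU 1)) (tU 2)]
        simpa [mul_assoc] using mul_mem (tm 0 2 (by decide)) (tm 1 2 (by decide))
    conv_rhs => rw [← mem_C1_iff_conj.1 this]
    group

end Cfg

theorem cube_c {ρ a b c : G} (h1 : ρ * a * ρ⁻¹ = b) (h2 : ρ * b * ρ⁻¹ = c) (h3 : ρ * c * ρ⁻¹ = a) :
    ρ ^ 3 * a = a * ρ ^ 3 := by
  rw [← mul_inv_eq_iff_eq_mul]
  calc _ = ρ * (ρ * (ρ * a * ρ⁻¹) * ρ⁻¹) * ρ⁻¹ := by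
        simp only [pow_succ, pow_zero, one_mul, mul_inv_rev, mul_assoc]
    _ = a := by rw [h1, h2, h3]

theorem cj2 {r n y : G} (rr : r * r = 1) (nn : n * n = 1) :
    r * n * y * (r * n)⁻¹ = r * (n * y * n) * r := by
  rw [mul_inv_rev, inv_self rr, inv_self nn]; group

theorem inv_cj {r a b : G} (rr : r * r = 1) (h : r * a * r = b) : r * b * r = a := by
  rw [← h, show r * (r * a * r) * r = (r * r) * a * (r * r) by group, rr]; simp

theorem com_cj {r a : G} (rr : r * r = 1) (h : r * a = a * r) : r * a * r = a := by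
  rw [h, mul_assoc, rr, mul_one]

namespace Cfg
variable [Finite G] {D : Set G} {Q : G → Subgroup G} {z x : G} {π : G → T3} {s w : Fin 3 → G}
  (h : Cfg D Q z x π s w) {r : G} (c : Rc z x r (uG w x)) (b : ∀ i, r * mG w x i * r = s i)
include h

theorem genU {W : Subgroup G} (hz : z ∈ W) (hx : x ∈ W) (hu : ∀ i, uG w x i ∈ W) :
    Q z ⊓ Q x ≤ W := by
  have k := h.k
  set V := W ⊓ (Q z ⊓ Q x)
  have n : ∀ i, uG w x i ∉ C1 (s i) := fun i hi => by
    have := mem_C1_iff_conj'.1 hi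
    rw [h.si] at this
    exact k.ex.ne_mul _ ((h.su i).symm.trans this)
  have u : ∀ i, uG w x i ∈ V := fun i => ⟨hu i, h.uU i⟩
  have y : ∀ i j, i ≠ j → uG w x j ∈ C1 (s i) := fun i j ne =>
    mem_C1.2 (h.fc.us j i ne.symm).symm
  have zs : ∀ i, z ∈ C1 (s i) := fun i => mem_C1_comm.1 (h.sC i)
  have xs : ∀ i, x ∈ C1 (s i) := fun i => mem_C1_comm.1 (k.ex.le (h.sQ i))
  have c0 : 2 * Nat.card (zpowers z) ≤ Nat.card ↥(V ⊓ C1 (s 0) ⊓ C1 (s 1) ⊓ C1 (s 2)) :=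
    two_le (zpowers_le.2 ⟨⟨⟨⟨hz, k.zU⟩, zs 0⟩, zs 1⟩, zs 2⟩) (a := x)
      ⟨⟨⟨⟨hx, k.xU⟩, xs 0⟩, xs 1⟩, xs 2⟩ fun e => ((mem_zp h.l.zz).1 e).elim k.ex.z1 k.ne
  have c1 : 2 * Nat.card ↥(V ⊓ C1 (s 0) ⊓ C1 (s 1) ⊓ C1 (s 2)) ≤
      Nat.card ↥(V ⊓ C1 (s 0) ⊓ C1 (s 1)) :=
    two_le inf_le_left ⟨⟨u 2, y 0 2 (by decide)⟩, y 1 2 (by decide)⟩ fun e => n 2 e.2
  have c2' : 2 * Nat.card ↥(V ⊓ C1 (s 0) ⊓ C1 (s 1)) ≤ Nat.card ↥(V ⊓ C1 (s 0)) :=
    two_le inf_le_left ⟨u 1, y 0 1 (by decide)⟩ fun e => n 1 e.2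
  have c3 : 2 * Nat.card ↥(V ⊓ C1 (s 0)) ≤ Nat.card V := two_le inf_le_left (u 0) fun e => n 0 e.2
  rw [card_zp h.l.z1 h.l.zz] at c0
  have := eq_of_le_of_card_le (inf_le_right : V ≤ _) (by rw [k.cU]; change _ ≤ Nat.card V; omega)
  exact this.ge.trans inf_le_left

include c b

theorem rn3 : (r * nG w x) ^ 3 = 1 := by
  have f := h.fc
  have nz : nG w x * z * nG w x = z := com_cj f.nn (h.l.zc h.nQ)
  have cj : ∀ a b : G, r * (a * b) * r = r * a * r * (r * b * r) := fun a b => by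
    rw [show r * a * r * (r * b * r) = r * a * (r * r) * b * r by group, c.rr]; group
  have e1 : r * nG w x * z * (r * nG w x)⁻¹ = x := by rw [cj2 c.rr f.nn, nz, c.rz]
  have e2 : r * nG w x * x * (r * nG w x)⁻¹ = z * x := by rw [cj2 c.rr f.nn, f.nx, cj, c.rz, c.rx]
  have e3 : r * nG w x * (z * x) * (r * nG w x)⁻¹ = z := by
    rw [show r * nG w x * (z * x) * (r * nG w x)⁻¹ = r * nG w x * z * (r * nG w x)⁻¹ *
      (r * nG w x * x * (r * nG w x)⁻¹) by group, e1, e2, ← h.k.xz, ← mul_assoc, h.k.ex.zz, one_mul]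
  have hg : (r * nG w x) ^ 3 ∈ Q z ⊓ Q x := h.k.cent (le_C1_iff.1 (h.genU
    (mem_C1.2 (cube_c e1 e2 e3).symm) (mem_C1.2 (cube_c e2 e3 e1).symm) fun i => by
      have : r * nG w x * uG w x i * (r * nG w x)⁻¹ = uG w x i := by
        rw [cj2 c.rr f.nn, com_cj f.nn (f.nu i), com_cj c.rr (c.ru i)]
      exact mem_C1.2 (cube_c this this this).symm))
  have e4 : r * nG w x * (r * nG w x) ^ 3 * (r * nG w x)⁻¹ = (r * nG w x) ^ 3 := by
    rw [← pow_succ', pow_succ, mul_inv_cancel_right]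
  rcases h.fix4 hg (fun i => (cube_c (b := s i * mG w x i) (c := mG w x i)
    (by rw [cj2 c.rr f.nn, f.ns, cj, b, inv_cj c.rr (b i), f.sm])
    (by rw [cj2 c.rr f.nn, inv_cj f.nn (f.ns i), inv_cj c.rr (b i)])
    (by rw [cj2 c.rr f.nn, com_cj f.nn (f.nm i), b])).symm) with e | e | e | e
  · exact e
  · rw [e, e2] at e4
    exact absurd (by simpa using e4) h.l.z1
  · rw [e, e1] at e4
    exact absurd e4 h.ne
  · rw [e, e3] at e4
    exact absurd (by simpa using e4) h.k.ex.z1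

theorem rw3 (i : Fin 3) : (r * w i) ^ 3 = 1 := by
  have f := h.fc
  have k := h.k
  set u := uG w x i with hu
  have e1 : r * w i * z * (r * w i)⁻¹ = x := by
    rw [cj2 c.rr (h.ww i), com_cj (h.ww i) (mem_C1.1 (h.wC i)), c.rz]
  have e2 : r * w i * x * (r * w i)⁻¹ = u := by
    rw [cj2 c.rr (h.ww i)]; exact com_cj c.rr (c.ru i)
  have e3 : r * w i * u * (r * w i)⁻¹ = z := by rw [cj2 c.rr (h.ww i), f.wu, c.rx]
  have th1 : ∀ j, i ≠ j → i ≠ th i j ∧ th i (th i j) = j :=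
    (by decide : ∀ i j : Fin 3, i ≠ j → i ≠ th i j ∧ th i (th i j) = j) i
  have e4 : ∀ j, i ≠ j → r * w i * uG w x j * (r * w i)⁻¹ = s (th i j) := fun j ne => by
    rw [cj2 c.rr (h.ww i), f.wu' i j ne, b]
  have e5 : ∀ j, i ≠ j → r * w i * s j * (r * w i)⁻¹ = mG w x j := fun j ne => by
    rw [cj2 c.rr (h.ww i), com_cj (h.ww i) (h.sw' j i ne.symm).symm, inv_cj c.rr (b j)]
  have e6 : ∀ j, i ≠ j → r * w i * mG w x j * (r * w i)⁻¹ = uG w x (th i j) := fun j ne => by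
    rw [cj2 c.rr (h.ww i), f.wm i j ne, com_cj c.rr (c.ru _)]
  have hg : (r * w i) ^ 3 ∈ Q z ⊓ Q x := h.k.cent (le_C1_iff.1 (h.genU
    (mem_C1.2 (cube_c e1 e2 e3).symm) (mem_C1.2 (cube_c e2 e3 e1).symm) fun j => by
      by_cases ij : i = j
      · subst ij; exact mem_C1.2 (cube_c e3 e1 e2).symm
      · exact mem_C1.2 (cube_c (e4 j ij) (e5 _ (th1 j ij).1)
          ((e6 _ (th1 j ij).1).trans (by rw [(th1 j ij).2]))).symm))
  have hs : ∀ j, i ≠ j → s j * (r * w i) ^ 3 = (r * w i) ^ 3 * s j := fun j ne =>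
    (cube_c (e5 j ne) (e6 j ne) ((e4 _ (th1 j ne).1).trans (by rw [(th1 j ne).2]))).symm
  have e7 : r * w i * (r * w i) ^ 3 * (r * w i)⁻¹ = (r * w i) ^ 3 := by
    rw [← pow_succ', pow_succ, mul_inv_cancel_right]
  have su : s i * u * (s i)⁻¹ = u * x := by rw [h.si]; exact h.su i
  have ux : u ≠ x := fun e => by
    rw [e, mem_C1_iff_conj.1 (k.ex.le (h.sQ i))] at su
    exact k.ex.ne_mul x su.symm
  have uz : u ≠ z := fun e => by
    rw [e, mem_C1_iff_conj.1 (h.sC i)] at su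
    exact k.ex.ne_mul z su.symm
  have m2 : ∀ a b : G, r * w i * (a * b) * (r * w i)⁻¹ =
      r * w i * a * (r * w i)⁻¹ * (r * w i * b * (r * w i)⁻¹) := fun a b => by group
  have xu := k.abU.comm k.xU (h.uU i)
  have zu := k.abU.comm k.zU (h.uU i)
  have uu := k.elU (h.uU i)
  rw [← hu] at xu zu uu
  generalize hg' : (r * w i) ^ 3 = g at hg hs e7
  rcases k.ex.cm _ (h.sQ i) g hg.2 with e | e
  · rcases h.fix4 hg (fun j => by
      by_cases ij : i = j
      · subst ij; exact mul_inv_eq_iff_eq_mul.1 e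
      · exact hs j ij) with e | e | e | e
    · exact e
    · rw [e, e2] at e7; exact absurd e7 ux
    · rw [e, e1] at e7; exact absurd e7 h.ne
    · rw [e, m2, e1, e2, ← k.xz] at e7; exact absurd (mul_left_cancel e7) uz
  exfalso
  have e8 : ∀ a, g * u = a → g = a * u := fun a e => by rw [← e, mul_assoc, uu, mul_one]
  rcases h.fix4 (mul_mem hg (h.uU i)) (fun j => by
    rw [← hu]
    by_cases ij : i = j
    · subst ij
      rw [← mul_inv_eq_iff_eq_mul, show s i * (g * u) * (s i)⁻¹ =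
        s i * g * (s i)⁻¹ * (s i * u * (s i)⁻¹) by group, e, su, ← xu, mul_assoc, ← mul_assoc x,
        k.ex.zz, one_mul]
    · rw [← mul_assoc, hs j ij, mul_assoc, f.us i j ij, mul_assoc]) with e | e | e | e <;>
    replace e := e8 _ e
  · rw [e, one_mul, e3] at e7; exact uz e7.symm
  · rw [e, m2, e2, e3, xu] at e7; exact h.ne (mul_left_cancel e7).symm
  · rw [e, m2, e1, e3, k.xz] at e7; exact ux (mul_left_cancel e7).symm
  have n3 := h.rn3 c b
  have ww := h.ww i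
  have rr := c.rr
  have e9 : w i * r * w i = r * w i * r * g := by
    rw [← hg']
    calc _ = (r * r) * w i * r * w i := by rw [rr, one_mul]
      _ = r * (w i * w i) * r * w i * r * w i := by rw [ww]; group
      _ = r * w i * (r * r) * w i * r * w i * r * w i := by rw [rr]; group
      _ = _ := by simp only [pow_succ, pow_zero, one_mul, mul_assoc]
  have e10 : r * g * r = g := by
    rw [e, show r * (z * x * u) * r = r * z * r⁻¹ * (r * x * r⁻¹) * (r * u * r) by group,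
      inv_self rr, c.rz, c.rx, com_cj rr (c.ru i), k.xz]
  have e11 : w i * x * z * u * s i = (r * w i) * (r * nG w x) * (r * w i)⁻¹ := by
    rw [cj2 rr ww]
    calc _ = w i * g * s i := by rw [e, ← k.xz]; group
      _ = (r * r) * w i * (r * g * r) * (r * mG w x i * r) := by rw [rr, e10, b, one_mul]
      _ = r * (r * w i * r * g * (r * r) * mG w x i) * r := by group
      _ = r * (w i * r * w i * (w i * nG w x * w i)) * r := by rw [rr, mul_one, e9, f.wn]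
      _ = r * (w i * r * (w i * w i) * nG w x * w i) * r := by group
      _ = _ := by rw [ww]; group
  have e12 : (w i * x * z * u * s i) ^ 3 = z := by
    simpa only [pow_succ, pow_zero, one_mul, mul_assoc, hu] using f.c0 i
  rw [e11, conj_pow, n3] at e12
  exact h.l.z1 (by simpa using e12.symm)

theorem satG : Sat (vG s w x r) ((relS ++ relC) ++ relR) := by
  refine ⟨rfl, fun v hv => (List.mem_append.1 hv).elim ((h.satC r).2 v) ((sat_expand rfl
    (L := [[16, 16], [16, 7, 16, 8], [16, 9, 16, 9], [16, 10, 16, 10], [16, 11, 16, 11],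
      [16, 12, 16, 1], [16, 13, 16, 2], [16, 14, 16, 3], [16, 15, 16, 15, 16, 15],
      [16, 4, 16, 4, 16, 4], [16, 5, 16, 5, 16, 5], [16, 6, 16, 6, 16, 6]]) (by decide) ?_).2 v)⟩
  rw [ext_vG h.xn]
  simp only [List.forall_mem_cons]
  have u : ∀ i, r * uG w x i * r * uG w x i = 1 := fun i => ic c.rr (h.k.elU (h.uU i)) (c.ru i)
  have m : ∀ i, r * mG w x i * r * s i = 1 := fun i => by rw [b, h.ss]
  have p : ∀ y, (r * y) ^ 3 = 1 → r * y * r * y * r * y = 1 := fun y e => by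
    simpa only [pow_succ, pow_zero, one_mul, mul_assoc] using e
  exact ⟨c.rr, show r * x * r * z = 1 by rw [c.rx, h.l.zz], u 0, u 1, u 2, m 0, m 1, m 2,
    p _ (h.rn3 c b), p _ (h.rw3 c b 0), p _ (h.rw3 c b 1), p _ (h.rw3 c b 2), by simp⟩

end Cfg

end CfsgH2.O8
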