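import Cfsg.Agent.H2.O8G
import Cfsg.Agent.SZ.ZS_fin
import Cfsg.Agent.FT.Main

/-! The endgame: an overgroup in which the long root elements fix unique points. -/

set_option autoImplicit false
set_option linter.style.haveILetI false
set_option linter.unusedSectionVars false

namespace CfsgH2.O8
open Subgroup CfsgH5 CfsgH6 CfsgFT CfsgH2.Fx CfsgSZ

universe u

section Odd
variable {B V : Type} [Group B] [AddCommGroup V] [DistribMulAction B V]

/-- fixed vectors -/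
def FA (V : Type) [AddCommGroup V] [DistribMulAction B V] (K : Subgroup B) : AddSubgroup V where
  carrier := {v | ∀ k ∈ K, k • v = v}
  zero_mem' := fun k _ => smul_zero k
  add_mem' := fun ha hb k hk => by rw [smul_add, ha k hk, hb k hk]
  neg_mem' := fun ha k hk => by rw [smul_neg, ha k hk]

theorem FA_cong [Finite V] {p : ℕ} [Fact p.Prime] {K : Subgroup B} (hK : IsPGroup p K)
    (S : AddSubgroup V) (hS : ∀ k ∈ K, ∀ v ∈ S, k • v ∈ S) :
    Nat.card S ≡ Nat.card ↥(S ⊓ FA V K) [MOD p] := by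
  letI : MulAction K S :=
    { smul := fun k v => ⟨k.1 • v.1, hS _ k.2 _ v.2⟩
      one_smul := fun v => Subtype.ext (one_smul B v.1)
      mul_smul := fun a b v => Subtype.ext (mul_smul a.1 b.1 v.1) }
  refine (hK.card_modEq_card_fixedPoints S).trans (by
    rw [Nat.card_congr (β := ↥(S ⊓ FA V K))]
    exact ⟨fun v => ⟨v.1.1, v.1.2, fun k hk => congrArg Subtype.val (v.2 ⟨k, hk⟩)⟩,
      fun v => ⟨⟨v.1, v.2.1⟩, fun k => Subtype.ext (v.2.2 k.1 k.2)⟩, fun _ => rfl, fun _ => rfl⟩)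

theorem no175 [Finite B] [Finite V] (cB : Nat.card B = 175) (cV : Nat.card V = 256)
    (ff : ∀ g : B, (∀ v : V, g • v = v) → g = 1) : False := by
  classical
  haveI : Fact (Nat.Prime 7) := ⟨by norm_num⟩
  haveI : Fact (Nat.Prime 5) := ⟨by norm_num⟩
  obtain ⟨P⟩ : Nonempty (Sylow 7 B) := inferInstance
  obtain ⟨R⟩ : Nonempty (Sylow 5 B) := inferInstance
  have cP : Nat.card P = 7 := by
    rw [P.card_eq_multiplicity, cB, show 175 = 7 ^ 1 * 25 by norm_num,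
      Nat.factorization_mul_apply_of_coprime (by norm_num), Nat.factorization_pow,
      Nat.factorization_eq_zero_of_not_dvd (by norm_num)]
    simp [Nat.Prime.factorization_self (show Nat.Prime 7 by norm_num)]
  have cR : Nat.card R = 25 := by
    rw [R.card_eq_multiplicity, cB, show 175 = 5 ^ 2 * 7 by norm_num,
      Nat.factorization_mul_apply_of_coprime (by norm_num), Nat.factorization_pow,
      Nat.factorization_eq_zero_of_not_dvd (n := 7) (by norm_num)]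
    simp [Nat.Prime.factorization_self (show Nat.Prime 5 by norm_num)]
  have n7 : Nat.card (Sylow 7 B) = 1 := by
    have h1 := P.card_dvd_index
    have h2 := card_sylow_modEq_one 7 B
    have h3 := P.1.card_mul_index
    rw [cP, cB] at h3
    rw [show P.1.index = 5 ^ 2 by omega, Nat.dvd_prime_pow (by norm_num)] at h1
    obtain ⟨k, hk, e⟩ := h1
    rw [e] at h2 ⊢
    interval_cases k <;> simp_all [Nat.ModEq]
  haveI : Subsingleton (Sylow 7 B) := (Nat.card_eq_one_iff_unique.1 n7).1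
  have nP : P.1.Normal := P.normal_of_subsingleton
  have pw : ∀ K : Subgroup B, K ≠ ⊥ → ∃ k < 8, Nat.card (FA V K) = 2 ^ k := fun K hK => by
    have h1 := AddSubgroup.card_addSubgroup_dvd_card (FA V K)
    rw [cV, show 256 = 2 ^ 8 by norm_num, Nat.dvd_prime_pow (by norm_num)] at h1
    obtain ⟨k, hk, e⟩ := h1
    refine ⟨k, lt_of_le_of_ne hk fun e' => hK (eq_bot_iff.2 fun g hg => ff g fun v => ?_), e⟩
    have : FA V K = ⊤ := AddSubgroup.eq_top_of_le_card _ (by rw [e, e', cV]; norm_num)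
    exact (this.ge (AddSubgroup.mem_top v)) g hg
  have cg : ∀ (p : ℕ) [Fact p.Prime] (K : Subgroup B), IsPGroup p K →
      256 ≡ Nat.card (FA V K) [MOD p] := fun p _ K hK => by
    have := FA_cong (V := V) hK ⊤ (by simp)
    rwa [top_inf_eq, AddSubgroup.card_top, cV] at this
  have c16 : ∀ K : Subgroup B, K ≤ R → K ≠ ⊥ → Nat.card (FA V K) = 16 := fun K hK ne => by
    obtain ⟨k, hk, e⟩ := pw K ne
    obtain ⟨l, hl, e'⟩ := pw P fun e => by rw [e] at cP; simp at cP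
    have h1 := cg 5 K (R.2.to_le hK)
    have h2 := cg 7 P P.2
    have h3 := FA_cong (V := V) (R.2.to_le hK) (FA V P.1) fun g _ v hv k hk => by
      have := hv _ (nP.conj_mem k hk g⁻¹)
      rw [← mul_smul, show k * g = g * (g⁻¹ * k * g⁻¹⁻¹) by group, mul_smul, this]
    have h4 : Nat.card ↥(FA V P.1 ⊓ FA V K) ≤ Nat.card (FA V K) :=
      AddSubgroup.card_le_of_le inf_le_right
    have h5 : 0 < Nat.card ↥(FA V P.1 ⊓ FA V K) := Nat.card_pos
    rw [e] at h1 h4 ⊢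
    rw [e'] at h2 h3
    generalize Nat.card ↥(FA V P.1 ⊓ FA V K) = c at h3 h4 h5
    unfold Nat.ModEq at h1 h2 h3
    interval_cases k <;> interval_cases l <;> omega
  generalize R.1 = R at c16 cR
  have := Fintype.ofFinite R
  have := Fintype.ofFinite V
  have := Fintype.ofFinite (MulAction.orbitRel.Quotient R V)
  have h := MulAction.sum_card_fixedBy_eq_card_orbits_mul_card_group R V
  rw [Finset.sum_congr rfl (g := fun a : R => 16 + if a = 1 then 240 else 0) fun a _ => by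
    split_ifs with e
    · rw [e, ← Nat.card_eq_fintype_card, MulAction.fixedBy_one_eq_univ, Nat.card_univ, cV]
    · rw [← Nat.card_eq_fintype_card, add_zero, ← c16 (zpowers a.1) (zpowers_le.2 a.2)
        (by simpa using e)]
      refine Nat.card_congr (Equiv.setCongr (Set.ext fun v => ⟨fun hv k hk => ?_,
        fun hv => hv _ (mem_zpowers _)⟩))
      exact zpowers_le.2 (show a.1 ∈ MulAction.stabilizer B v from hv) hk] at h
  rw [Finset.sum_add_distrib, Finset.sum_const, Finset.sum_ite_eq', Finset.card_univ,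
    ← Nat.card_eq_fintype_card, cR] at h
  simp at h
  omega

end Odd

theorem om_odd {N : Subgroup Om} (ho : Odd (Nat.card N)) : ¬ 175 ∣ Nat.card N := by
  intro hd
  obtain ⟨B, h1, h2, h3⟩ := exists_hall {5, 7} (feit_thompson N ho)
  have p : PiN {5, 7} 175 := fun p hp h => by
    rcases (Nat.Prime.dvd_mul hp).1 (show p ∣ 5 ^ 2 * 7 from h) with h | h
    · exact Or.inl ((Nat.prime_dvd_prime_iff_eq hp (by norm_num)).1 (hp.dvd_of_dvd_pow h))
    · exact Or.inr ((Nat.prime_dvd_prime_iff_eq hp (by norm_num)).1 h)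
  have c1 : 175 ∣ Nat.card B := p.dvd_of_dvd_mul h3 (card_mul_relIndex h1 ▸ hd)
  have c2 : Nat.card B ∣ 175 := PiN.dvd_of_dvd_mul (n := 2 ^ 12 * 3 ^ 5) h2 (fun p hp h => by
    rintro (rfl | rfl) <;> revert h <;> decide) (by
    have := card_subgroup_dvd_card B
    rwa [om_facts.2.2] at this)
  exact no175 (V := Fin 4 ⊕ Fin 4 → ZMod 2) (Nat.dvd_antisymm c2 c1) (by simp) fun g hg =>
    Subtype.ext (Subtype.ext (CfsgH1.Op_ext fun c => (hg _).trans (one_smul _ _).symm))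

variable {G : Type u} [Group G] [Finite G]

theorem dih2 {z y : G} (zz : z * z = 1) (yy : y * y = 1) {L : Subgroup G} (hz : z ∈ L)
    (hy : y ∈ L) : (∃ s ∈ L, s * z * s⁻¹ = y ∧ ∃ g, s = g * z * g⁻¹ ∨ s = g * y * g⁻¹) ∨
    ∃ w, w ≠ 1 ∧ w * w = 1 ∧ w * z = z * w ∧ w * y = y * w ∧ ∃ g ∈ L, ∃ k ∈ L,
      (w * z = g * y * g⁻¹ ∧ w * y = k * z * k⁻¹) ∨ (w * z = g * z * g⁻¹ ∧ w * y = k * y * k⁻¹) := by
  have k : ∀ s, s * s = 1 → s * (z * y) * s⁻¹ = (z * y)⁻¹ → ∀ a : ℕ,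
      (z * y) ^ a * s * ((z * y) ^ a)⁻¹ = (z * y) ^ (2 * a) * s := fun s ss e a => by
    have : s * ((z * y) ^ a)⁻¹ * s⁻¹ = (z * y) ^ a := by
      rw [← inv_pow, ← e, conj_pow]
      calc _ = s * s * (z * y) ^ a * (s * s)⁻¹ := by group
        _ = _ := by rw [ss]; simp
    rw [two_mul, pow_add, mul_assoc, mul_assoc, mul_right_inj, ← mul_inv_eq_iff_eq_mul, this]
  have kz := k z zz (by rw [← mul_assoc, zz, one_mul, mul_inv_rev, inv_self yy])
  have ky := k y yy (by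
    rw [mul_inv_rev, inv_self yy, inv_self zz, mul_assoc, mul_assoc, yy, mul_one])
  have ry : z * y * y = z := by rw [mul_assoc, yy, mul_one]
  have o := pow_orderOf_eq_one (z * y)
  have m : ∀ n : ℕ, (z * y) ^ n ∈ L := pow_mem (mul_mem hz hy)
  have k1 : ∀ j, (z * y) ^ (2 * j + 1) * z = (z * y) ^ (j + 1) * y * ((z * y) ^ (j + 1))⁻¹ :=
    fun j => by
      rw [ky, mul_add, mul_one, show 2 * j + 2 = 2 * j + 1 + 1 by ring, pow_succ _ (2 * j + 1),
        mul_assoc _ (z * y) y, ry]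
  rcases Nat.even_or_odd' (orderOf (z * y)) with ⟨n, e | e⟩
  · have w2 : (z * y) ^ n * (z * y) ^ n = 1 := by rw [← pow_add, ← two_mul, ← e, o]
    have c : ∀ s, (z * y) ^ n * s * ((z * y) ^ n)⁻¹ = (z * y) ^ (2 * n) * s →
        (z * y) ^ n * s = s * (z * y) ^ n := fun s q => by
      rwa [← e, o, one_mul, mul_inv_eq_iff_eq_mul] at q
    have p := orderOf_pos (z * y)
    refine Or.inr ⟨(z * y) ^ n, pow_ne_one_of_lt_orderOf (by omega) (by omega), w2, c z (kz n),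
      c y (ky n), ?_⟩
    rcases Nat.even_or_odd' n with ⟨j, rfl | rfl⟩
    · exact ⟨_, m j, _, m j, Or.inr ⟨(kz j).symm, (ky j).symm⟩⟩
    · exact ⟨_, m (j + 1), _, m j, Or.inl ⟨k1 j, by rw [kz, pow_succ, mul_assoc _ (z * y) y, ry]⟩⟩
  · refine Or.inl ⟨(z * y) ^ n * z, mul_mem (m n) hz, ?_, ?_⟩
    · calc _ = (z * y) ^ n * z * ((z * y) ^ n)⁻¹ := by group
        _ = (z * y) ^ (2 * n) * (z * y * y) := by rw [kz, ry]
        _ = y := by rw [← mul_assoc, ← pow_succ, ← e, o, one_mul]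
    · rcases Nat.even_or_odd' n with ⟨j, rfl | rfl⟩
      · exact ⟨_, Or.inl (kz j).symm⟩
      · exact ⟨_, Or.inr (k1 j)⟩

theorem fixp0 {z w : G} {H : Subgroup G} (e : (C1 z).relIndex H = 1575) (hw : w ∈ H)
    (ww : w * w = 1) : ∃ g ∈ H, w * (g * z * g⁻¹) = g * z * g⁻¹ * w := by
  classical
  by_contra hc
  push Not at hc
  rw [rel_C1, Set.ncard_eq_toFinset_card _ (Set.toFinite _)] at e
  have := Finset.sum_involution (s := (Set.toFinite {y | ∃ g ∈ H, g * z * g⁻¹ = y}).toFinset)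
    (f := fun _ => (1 : ZMod 2)) (fun a _ => w * a * w⁻¹) (fun _ _ => by decide)
    (fun a ha _ e => by
      obtain ⟨g, hg, rfl⟩ := (Set.Finite.mem_toFinset _).1 ha
      exact hc _ hg (mul_inv_eq_iff_eq_mul.1 e))
    (fun a ha => by
      obtain ⟨g, hg, rfl⟩ := (Set.Finite.mem_toFinset _).1 ha
      exact (Set.Finite.mem_toFinset _).2 ⟨w * g, mul_mem hw hg, by group⟩)
    (fun a _ => by
      rw [show w * (w * a * w⁻¹) * w⁻¹ = (w * w) * a * (w * w)⁻¹ by group, ww]; simp)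
  rw [Finset.sum_const, e] at this
  exact absurd this (by decide +kernel)

theorem sing1 : ∀ e < 64, sing e = true → sing (e ^^^ 3) = true →
    e = 1 ∨ e = 2 ∨ sing (e ^^^ 1) = true ∨ sing (e ^^^ 1 ^^^ 3) = true := by decide +kernel

/-- no anisotropic three-space -/
def sing3 (e c : ℕ) : Prop := ∀ f < 64, f ≠ 0 → sing (f ^^^ c) = true →
  sing f = true ∨ sing (f ^^^ 3) = true ∨ sing (f ^^^ e) = true ∨ sing (f ^^^ (e ^^^ 3)) = true

instance (e c : ℕ) : Decidable (sing3 e c) := by unfold sing3; infer_instance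

/-- a suitable singular vector -/
def sing4 (e : ℕ) : Prop := ∃ c < 64, sing c = true ∧ sing (c ^^^ 3) = false ∧ sing3 e c

instance (e : ℕ) : Decidable (sing4 e) := by unfold sing4; infer_instance

theorem sing2 : ∀ e < 64, e ≠ 0 → sing (e ^^^ 4) = true → sing e = false → sing (e ^^^ 3) = false →
    sing4 e := by decide +kernel

/-- the system of point stabilizers -/
structure Sy2 (D : Set G) (P : G → Subgroup G) : Prop where
  cj : ∀ y ∈ D, ∀ g, g * y * g⁻¹ ∈ D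
  sq : ∀ y ∈ D, y * y = 1
  ne : ∀ y ∈ D, y ≠ 1
  cen : ∀ y ∈ D, C1 y ≤ P y
  fus : ∀ y ∈ D, ∀ y' ∈ D, y' ∈ P y → ∃ g ∈ P y, g * y * g⁻¹ = y'
  eqv : ∀ y ∈ D, ∀ g, P (g * y * g⁻¹) = CfsgH5.cj g (P y)
  good : ∀ y ∈ D, ∀ a ∈ D, a ∈ C1 y → a ≠ y → a * y ∉ D → Good D (P y) (a * y)
  idx : ∀ y ∈ D, (C1 y).relIndex (P y) = 1575
  odd : ∀ y ∈ D, ∀ N ≤ P y, Odd (Nat.card N) → ¬ 175 ∣ Nat.card N

namespace Sy2
variable {D : Set G} {P : G → Subgroup G} (h : Sy2 D P)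
include h

theorem self {y : G} (hy : y ∈ D) : y ∈ P y := h.cen y hy (self_mem_C1 y)

theorem same {y a : G} (hy : y ∈ D) (ha : a ∈ D) (e : a ∈ P y) : P a = P y := by
  obtain ⟨g, hg, rfl⟩ := h.fus y hy a ha e
  rw [h.eqv y hy, cj_self hg]

theorem cj' {y g : G} (hy : g * y * g⁻¹ ∈ D) : y ∈ D := by
  simpa [mul_assoc] using h.cj _ hy g⁻¹

theorem nrm {y g : G} (hy : y ∈ D) (e : g * y * g⁻¹ ∈ P y) : g ∈ P y := by
  obtain ⟨k, hk, ek⟩ := h.fus y hy _ (h.cj y hy g) e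
  refine (mul_mem_cancel_left (inv_mem hk)).1 (h.cen y hy (mem_C1_iff_conj.2 ?_))
  calc _ = k⁻¹ * (g * y * g⁻¹) * k := by group
    _ = y := by rw [← ek]; group

theorem guniq {a b w : G} (ha : a ∈ D) (hb : b ∈ D) (g1 : Good D (P a) w) (g2 : Good D (P b) w) :
    P a = P b := by
  by_contra ne
  obtain ⟨φ, p1, p2, p3, p4, p5⟩ := g1
  obtain ⟨ψ, q1, q2, q3, q4, q5⟩ := g2
  have no : ∀ y, y ∈ P a → y ∈ P b → y ∉ D := fun y h1 h2 hy =>
    ne ((h.same ha hy h1).symm.trans (h.same hb hy h2))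
  have xl : ∀ a < 64, ∀ b < 64, a ^^^ b < 64 := fun a ha b hb => Nat.xor_lt_two_pow (n := 6) ha hb
  have z0 : ∀ φ : ℕ → G, (∀ a < 64, ∀ b < 64, φ (a ^^^ b) = φ a * φ b) → φ 0 = 1 := fun φ p => by
    simpa using p 0 (by norm_num) 0 (by norm_num)
  have cw : ∀ φ : ℕ → G, (∀ a < 64, ∀ b < 64, φ (a ^^^ b) = φ a * φ b) → φ 3 = w →
      ∀ a < 64, φ a ∈ C1 w := fun φ p e a ha => by
    rw [mem_C1, ← e, ← p a ha 3 (by norm_num), ← p 3 (by norm_num) a ha, Nat.xor_comm]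
  have b1 : ψ 1 ∈ D := (q3 1 (by norm_num)).2 (by decide)
  have b2 : ψ 1 * w ∈ D := by
    rw [← q4, ← q2 1 (by norm_num) 3 (by norm_num)]
    exact (q3 _ (by decide)).2 (by decide)
  have tw : ∀ g ∈ C1 w, g * ψ 1 * g⁻¹ * w ∈ D := fun g hg => by
    have := h.cj _ b2 g
    rwa [show g * (ψ 1 * w) * g⁻¹ = g * ψ 1 * g⁻¹ * (g * w * g⁻¹) by group,
      mem_C1_iff_conj.1 hg] at this
  have key : ∀ c < 64, sing c = true → sing (c ^^^ 3) = false →
      ∃ e < 64, e ≠ 0 ∧ sing (e ^^^ c) = true ∧ φ e ∈ P b := by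
    intro c hc s1 s2
    have c1 := (p3 c hc).2 s1
    have c2 : φ c * w ∉ D := by
      rw [← p4, ← p2 c hc 3 (by norm_num), p3 _ (xl c hc 3 (by norm_num)), s2]; simp
    rcases dih2 (h.sq _ c1) (h.sq _ b1) (cw φ p2 p4 c hc) (cw ψ q2 q4 1 (by norm_num)) with
      ⟨s, hs, e, -⟩ | ⟨v, v1, vv, vc, vb, g, hg, k, hk, e⟩
    · refine absurd (h.cj' (g := s) ?_) c2
      rwa [show s * (φ c * w) * s⁻¹ = s * φ c * s⁻¹ * (s * w * s⁻¹) by group, e,
        mem_C1_iff_conj.1 hs]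
    have va : v ∈ P a := h.same ha c1 (p1 c hc) ▸ h.cen _ c1 (mem_C1.2 vc)
    have vb' : v ∈ P b := h.same hb b1 (q1 1 (by norm_num)) ▸ h.cen _ b1 (mem_C1.2 vb)
    rcases e with ⟨e, -⟩ | ⟨e, e'⟩
    · obtain ⟨f, hf, ef⟩ := p5 _ (e ▸ h.cj _ b1 g) (mul_mem va (p1 c hc)) (e ▸ tw g hg)
      have e1 : φ (f ^^^ c) = v := by rw [p2 f hf c hc, ef, mul_assoc, h.sq _ c1, mul_one]
      refine ⟨f ^^^ c, xl f hf c hc, fun e0 => v1 (by rw [← e1, e0, z0 φ p2]), ?_, e1 ▸ vb'⟩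
      rw [Nat.xor_assoc, Nat.xor_self, Nat.xor_zero, ← p3 f hf, ef, e]
      exact h.cj _ b1 g
    exfalso
    obtain ⟨f, hf, ef⟩ := q5 _ (e' ▸ h.cj _ b1 k) (mul_mem vb' (q1 1 (by norm_num))) (e' ▸ tw k hk)
    have e1 : ψ (f ^^^ 1) = v := by
      rw [q2 f hf 1 (by norm_num), ef, mul_assoc, h.sq _ b1, mul_one]
    have wa : w ∈ P a := p4 ▸ p1 3 (by norm_num)
    rcases sing1 f hf ((q3 f hf).1 (by rw [ef, e']; exact h.cj _ b1 k))
      ((q3 _ (xl f hf 3 (by norm_num))).1 (by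
        rw [q2 f hf 3 (by norm_num), ef, q4, e']; exact tw k hk)) with rfl | rfl | s | s
    · exact v1 (e1.symm.trans (z0 ψ q2))
    · rw [← e1.symm.trans q4, ← vc, e] at c2
      exact c2 (h.cj _ c1 g)
    · exact no v va vb' (e1 ▸ (q3 _ (xl f hf 1 (by norm_num))).2 s)
    · have l1 := xl f hf 1 (by norm_num)
      have l2 := xl _ l1 3 (by norm_num)
      exact no _ (by rw [q2 _ l1 3 (by norm_num), e1, q4]; exact mul_mem va wa) (q1 _ l2)
        ((q3 _ l2).2 s)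
  have ns : ∀ e < 64, φ e ∈ P b → sing e ≠ true := fun e he hb s =>
    no _ (p1 e he) hb ((p3 e he).2 s)
  have m2 : ∀ e < 64, ∀ f < 64, φ e ∈ P b → φ f ∈ P b → φ (e ^^^ f) ∈ P b :=
    fun e he f hf h1 h2 => p2 e he f hf ▸ mul_mem h1 h2
  have w3 : φ 3 ∈ P b := p4 ▸ q4 ▸ q1 3 (by norm_num)
  obtain ⟨e, he, e0, s, eb⟩ := key 4 (by norm_num) (by decide) (by decide)
  have l3 := xl e he 3 (by norm_num)
  have e3 := m2 e he 3 (by norm_num) eb w3
  obtain ⟨c, hc, s1, s2, t⟩ := sing2 e he e0 s (by simpa using ns e he eb)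
    (by simpa using ns _ l3 e3)
  obtain ⟨f, hf, f0, s', fb⟩ := key c hc s1 s2
  rcases t f hf f0 s' with s | s | s | s
  exacts [ns f hf fb s, ns _ (xl f hf 3 (by norm_num)) (m2 f hf 3 (by norm_num) fb w3) s,
    ns _ (xl f hf e he) (m2 f hf e he fb eb) s, ns _ (xl f hf _ l3) (m2 f hf _ l3 fb e3) s]

theorem good' {a w : G} (ha : a ∈ D) (h1 : w * a ∈ D) (h2 : w * a = a * w) (w1 : w ≠ 1)
    (hw : w ∉ D) : Good D (P a) w := by
  have e : w * a * a = w := by rw [mul_assoc, h.sq a ha, mul_one]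
  have := h.good a ha _ h1 (mem_C1.2 (by rw [← mul_assoc, ← h2])) (by simpa using w1)
    (by rwa [e])
  rwa [e] at this

theorem far {a b : G} (ha : a ∈ D) (hb : b ∈ D) (ne : P a ≠ P b) {L : Subgroup G} (aL : a ∈ L)
    (bL : b ∈ L) : ∃ s ∈ L, s ∈ D ∧ s * a * s⁻¹ = b := by
  rcases dih2 (h.sq a ha) (h.sq b hb) aL bL with
    ⟨s, hs, e, g, eg⟩ | ⟨v, v1, vv, va, vb, g, hg, k, hk, e⟩
  · refine ⟨s, hs, ?_, e⟩
    rcases eg with rfl | rfl
    exacts [h.cj a ha g, h.cj b hb g]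
  have nv : v ∉ D := fun hv => ne ((h.same ha hv (h.cen a ha (mem_C1.2 va))).symm.trans
    (h.same hb hv (h.cen b hb (mem_C1.2 vb))))
  have : v * a ∈ D ∧ v * b ∈ D := by
    rcases e with ⟨e, e'⟩ | ⟨e, e'⟩ <;> rw [e, e']
    exacts [⟨h.cj b hb g, h.cj a ha k⟩, ⟨h.cj a ha g, h.cj b hb k⟩]
  exact absurd (h.guniq ha hb (h.good' ha this.1 va v1 nv) (h.good' hb this.2 vb v1 nv)) ne

theorem fixp {z w : G} (hz : z ∈ D) (hw : w ∈ P z) (ww : w * w = 1) :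
    ∃ a ∈ D, a ∈ P z ∧ w * a = a * w := by
  obtain ⟨g, hg, e⟩ := fixp0 (h.idx z hz) hw ww
  exact ⟨_, h.cj z hz g, mul_mem (mul_mem hg (h.self hz)) (inv_mem hg), e⟩

theorem top {z : G} (hz : z ∈ D) : P z = ⊤ := by
  by_contra hc
  obtain ⟨g0, hg0⟩ : ∃ g, g ∉ P z := by
    by_contra h1
    push Not at h1
    exact hc (eq_top_iff.2 fun g _ => h1 g)
  have hb := h.cj z hz g0
  have ne : P z ≠ P (g0 * z * g0⁻¹) := fun e => hg0 (h.nrm hz (e ▸ h.self hb))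
  generalize g0 * z * g0⁻¹ = b at hb ne
  let L : Subgroup G :=
    { carrier := {g | (CfsgH5.cj g (P z) = P z ∧ CfsgH5.cj g (P b) = P b) ∨
        (CfsgH5.cj g (P z) = P b ∧ CfsgH5.cj g (P b) = P z)}
      one_mem' := Or.inl ⟨cj_self (one_mem _), cj_self (one_mem _)⟩
      mul_mem' := by
        rintro x y (⟨a1, a2⟩ | ⟨a1, a2⟩) (⟨b1, b2⟩ | ⟨b1, b2⟩) <;>
          simp only [Set.mem_ofPred_eq, ← cj_cj, a1, a2, b1, b2, and_self, true_or, or_true]
      inv_mem' := by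
        rintro x (⟨a1, a2⟩ | ⟨a1, a2⟩)
        · exact Or.inl ⟨(cj_eq_iff.1 a1).symm, (cj_eq_iff.1 a2).symm⟩
        · exact Or.inr ⟨(cj_eq_iff.1 a2).symm, (cj_eq_iff.1 a1).symm⟩ }
  let J : G → Prop := fun j => j ∈ D ∧ CfsgH5.cj j (P z) = P b
  have J2 : ∀ j, J j → CfsgH5.cj j (P b) = P z := fun j hj => by
    rw [← hj.2, cj_cj, h.sq j hj.1, cj_self (one_mem _)]
  have JL : ∀ j, J j → j ∈ L := fun j hj => Or.inr ⟨hj.2, J2 j hj⟩
  have Jc : ∀ j, J j → ∀ g ∈ L, J (g * j * g⁻¹) := fun j hj g hg => ⟨h.cj j hj.1 g, by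
    rw [← cj_cj, ← cj_cj]
    rcases hg with ⟨a1, a2⟩ | ⟨a1, a2⟩
    · rw [← cj_eq_iff.1 a1, hj.2, a2]
    · rw [← cj_eq_iff.1 a2, J2 j hj, a1]⟩
  have nr : ∀ y ∈ D, ∀ g, CfsgH5.cj g (P y) = P y → g ∈ P y := fun y hy g e =>
    h.nrm hy (e ▸ conj_mem_cj.2 (h.self hy))
  have noc : ∀ j j', J j → J j' → j' * j = j * j' → j' = j := by
    intro j j' hj hj' e
    by_contra n
    have wa : j' * j ∈ P z := nr z hz _ (by rw [← cj_cj, hj.2, J2 _ hj'])
    have wb : j' * j ∈ P b := nr b hb _ (by rw [← cj_cj, J2 _ hj, hj'.2])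
    have wD : j' * j ∉ D := fun hw => ne ((h.same hz hw wa).symm.trans (h.same hb hw wb))
    have w1 : j' * j ≠ 1 := fun e1 => n (mul_right_cancel (e1.trans (h.sq j hj.1).symm))
    have wj : j' * j * j = j' := by rw [mul_assoc, h.sq j hj.1, mul_one]
    have wj' : j' * j * j = j * (j' * j) := by rw [← mul_assoc, ← e]
    obtain ⟨a, ha, az, ea⟩ := h.fixp hz wa (ic (h.sq _ hj'.1) (h.sq _ hj.1) e ▸ mul_assoc _ _ _ |>.symm)
    have n2 : P a ≠ P j := fun e1 => ne (by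
      rw [← hj.2, cj_self (h.same hz ha az ▸ e1 ▸ h.self hj.1)])
    obtain ⟨s, hs, -, es⟩ := h.far ha hj.1 n2 (L := C1 (j' * j)) (mem_C1.2 ea.symm)
      (mem_C1.2 wj'.symm)
    refine n2 (h.guniq ha hj.1 (h.good' ha (h.cj' (g := s) ?_) ea w1 wD)
      (h.good' hj.1 (wj.symm ▸ hj'.1) wj' w1 wD))
    rw [show s * (j' * j * a) * s⁻¹ = s * (j' * j) * s⁻¹ * (s * a * s⁻¹) by group, es,
      mem_C1_iff_conj.1 hs, wj]
    exact hj'.1
  have exJ : ∀ a ∈ D, a ∈ P z → ∃ j, J j ∧ j * a * j⁻¹ = b := fun a ha az => by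
    obtain ⟨s, -, hs, e⟩ := h.far ha hb (h.same hz ha az ▸ ne) (mem_top a) (mem_top b)
    exact ⟨s, ⟨hs, by rw [← h.same hz ha az, ← h.eqv a ha, e]⟩, e⟩
  obtain ⟨j0, hj0, ej0⟩ := exJ z hz (h.self hz)
  have zs := zstar (JL j0 hj0) (h.ne _ hj0.1) (h.sq _ hj0.1) fun g hg c =>
    noc _ _ hj0 (Jc _ hj0 g hg) c.eq.symm
  have hN : ∀ j, J j → j * j0⁻¹ ∈ Opc 2 L := fun j hj => by
    rcases dih2 (h.sq _ hj0.1) (h.sq _ hj.1) (JL _ hj0) (JL _ hj) with
      ⟨s, hs, e, -⟩ | ⟨v, v1, vv, va, vb, g, hg, k, hk, e⟩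
    · obtain ⟨n, hn, c, hc, rfl⟩ := (mem_sup_nrm' ((nrm_Opi _ L).mono inf_le_left)).1 (zs.ge hs)
      rw [← e, show n * c * j0 * (n * c)⁻¹ * j0⁻¹ = n * (c * j0 * c⁻¹ * n⁻¹ * j0⁻¹) by group,
        mem_C1_iff_conj.1 hc.2]
      exact mul_mem hn (nrm_Opi _ L j0 (JL _ hj0) _ (inv_mem hn))
    · have : J (v * j0) := by
        rcases e with ⟨e, -⟩ | ⟨e, -⟩ <;> rw [e]
        exacts [Jc _ hj g hg, Jc _ hj0 g hg]
      exact absurd (by simpa using noc _ _ hj0 this (by rw [← mul_assoc, ← va])) v1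
  have o : Odd (Nat.card (Opc 2 L)) :=
    Nat.odd_iff.2 (by have := not_dvd_card_Opc Nat.prime_two L; omega)
  have Nz : Opc 2 L ≤ P z := fun n hn => by
    have h1 : n * n ∈ P z := nr z hz _ (by
      rcases Opi_le _ _ hn with ⟨a1, a2⟩ | ⟨a1, a2⟩ <;> rw [← cj_cj, a1]
      exacts [a1, a2])
    obtain ⟨k, hk⟩ := o
    have h2 : n ^ (2 * k + 1) = 1 := by
      rw [← hk]; exact orderOf_dvd_iff_pow_eq_one.1 (orderOf_dvd_card' hn)
    have : n = ((n * n) ^ k)⁻¹ := by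
      rw [eq_inv_iff_mul_eq_one, ← pow_two, ← pow_mul, ← pow_succ', h2]
    exact this ▸ inv_mem (pow_mem h1 k)
  refine h.odd z hz _ Nz o (Dvd.dvd.trans ?_ (relIndex_dvd_card' (C1 z) _))
  have : (C1 z).relIndex (Opc 2 L) = (C1 z).relIndex (P z) := by
    rw [rel_C1, rel_C1]
    congr 1
    refine Set.Subset.antisymm (fun _ ⟨g, hg, e⟩ => ⟨g, Nz hg, e⟩) ?_
    rintro _ ⟨g, hg, rfl⟩
    obtain ⟨j, hj, ej⟩ := exJ _ (h.cj z hz g) (mul_mem (mul_mem hg (h.self hz)) (inv_mem hg))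
    refine ⟨j * j0⁻¹, hN j hj, ?_⟩
    rw [inv_self (h.sq _ hj0.1)]
    calc _ = j * (j0 * z * j0⁻¹) * j⁻¹ := by group
      _ = (j * j) * (g * z * g⁻¹) * (j * j)⁻¹ := by rw [ej0, ← ej]; group
      _ = _ := by rw [h.sq j hj.1]; simp
  rw [this, h.idx z hz]
  norm_num

end Sy2

end CfsgH2.O8
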