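import Cfsg.Agent.H2.O8H

/-! Recognition of `Ω⁺(8,2)`. -/

set_option autoImplicit false
set_option linter.style.haveILetI false
set_option linter.unusedSectionVars false

namespace CfsgH2.O8
open Subgroup CfsgH5 CfsgH6 CfsgFT CfsgH2.Fx CfsgSZ CfsgH3.TC CfsgH8 CfsgH9

universe u
variable {G : Type u} [Group G] [Finite G]

theorem top_of {D : Set G} {z : G} {H : Subgroup G} (cj : ∀ y ∈ D, ∀ g, g * y * g⁻¹ ∈ D)
    (hz : z ∈ D) (one : ∀ y ∈ D, ∃ g, g * z * g⁻¹ = y) (zz : z * z = 1) (z1 : z ≠ 1)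
    (cen : C1 z ≤ H) (fus : ∀ y ∈ D, y ∈ H → ∃ g ∈ H, g * z * g⁻¹ = y)
    (good : ∀ a ∈ D, a ∈ C1 z → a ≠ z → a * z ∉ D → Good D H (a * z))
    (idx : (C1 z).relIndex H = 1575) (odd : ∀ N ≤ H, Odd (Nat.card N) → ¬ 175 ∣ Nat.card N) :
    H = ⊤ := by
  let P : G → Subgroup G := fun y => ⨅ g : {g : G // g * z * g⁻¹ = y}, CfsgH5.cj g.1 H
  have e : ∀ g, P (g * z * g⁻¹) = CfsgH5.cj g H := fun g => by
    refine le_antisymm (iInf_le (fun k : {k : G // k * z * k⁻¹ = g * z * g⁻¹} => CfsgH5.cj k.1 H)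
      ⟨g, rfl⟩) (le_iInf fun ⟨k, hk'⟩ a ha => ?_)
    have hk : k⁻¹ * g ∈ H := cen (mem_C1_iff_conj.2 (by
      calc _ = k⁻¹ * (g * z * g⁻¹) * k := by group
        _ = _ := by rw [← hk']; group))
    have := mul_mem (mul_mem hk (mem_cj.1 ha)) (inv_mem hk)
    rw [mem_cj]
    simpa [mul_assoc] using this
  have cj' : ∀ y ∈ D, ∀ g, g⁻¹ * y * g ∈ D := fun y hy g => by simpa using cj y hy g⁻¹
  have s : Sy2 D P := by
    refine ⟨cj, fun y hy => ?_, fun y hy => ?_, fun y hy => ?_, fun y hy a ha ay => ?_,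
      fun y hy k => ?_, fun y hy a ha c n n' => ?_, fun y hy => ?_, fun y hy N hN o => ?_⟩ <;>
      obtain ⟨g, rfl⟩ := one y hy
    · rw [show g * z * g⁻¹ * (g * z * g⁻¹) = g * (z * z) * g⁻¹ by group, zz]; simp
    · simpa using z1
    · rw [e, ← cj_C1]; exact cj_mono cen
    · rw [e] at ay ⊢
      obtain ⟨k, hk, ek⟩ := fus _ (cj' a ha g) (mem_cj.1 ay)
      refine ⟨_, conj_mem_cj.2 hk, ?_⟩
      calc _ = g * (k * z * k⁻¹) * g⁻¹ := by group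
        _ = a := by rw [ek]; group
    · rw [show k * (g * z * g⁻¹) * k⁻¹ = (k * g) * z * (k * g)⁻¹ by group, e, e, cj_cj]
    · rw [← cj_C1, mem_cj] at c
      have e1 : a * (g * z * g⁻¹) = g * (g⁻¹ * a * g * z) * g⁻¹ := by group
      rw [e, e1]
      exact (good _ (cj' a ha g) c (fun e2 => n (by rw [← e2]; group))
        fun e2 => n' (e1 ▸ cj _ e2 g)).conj cj g
    · have h1 := card_inf_mul_relIndex (C1 (g * z * g⁻¹)) (CfsgH5.cj g H)
      have h2 := card_inf_mul_relIndex (C1 z) H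
      rw [e]
      conv_lhs at h1 => enter [1]; rw [← cj_C1, ← cj_inf, card_cj]
      rw [card_cj, ← h2, idx] at h1
      exact Nat.eq_of_mul_eq_mul_left (card_pos _) h1
    · rw [e] at hN
      rw [← card_cj g⁻¹] at o ⊢
      exact odd _ (le_cj_iff.1 hN) o
  have := s.top hz
  rwa [show P z = P (1 * z * 1⁻¹) by simp, e, cj_self (one_mem _)] at this

theorem ker_bot {f : Om →* G} (h : f.ker ⊓ C1 z0 = ⊥) : Function.Injective f := by
  have h1 : ∀ y ∈ D0, ∀ k ∈ f.ker, k ∈ C1 y → k = 1 := by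
    rintro _ ⟨g, rfl⟩ k hk hc
    rw [← cj_C1, mem_cj] at hc
    have : g⁻¹ * k * g = 1 := h.le ⟨by simpa using (MonoidHom.normal_ker f).conj_mem k hk g⁻¹, hc⟩
    calc k = g * (g⁻¹ * k * g) * g⁻¹ := by group
      _ = 1 := by rw [this]; simp
  have h2 : ∀ y ∈ D0, y * y = 1 → ∀ k ∈ f.ker, y * k * y⁻¹ = k⁻¹ := fun y hy yy k hk => by
    let φ : f.ker → f.ker := fun l => ⟨l⁻¹ * (y * l * y⁻¹),
      mul_mem (inv_mem l.2) ((MonoidHom.normal_ker f).conj_mem _ l.2 y)⟩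
    have : Function.Injective φ := fun a b e => by
      have e1 : (a : Om)⁻¹ * (y * a * y⁻¹) = (b : Om)⁻¹ * (y * b * y⁻¹) := congrArg Subtype.val e
      refine Subtype.ext (mul_inv_eq_one.1 (h1 y hy _ (mul_mem a.2 (inv_mem b.2))
        (mem_C1_iff_conj'.2 ?_)))
      calc _ = a * ((a : Om)⁻¹ * (y * a * y⁻¹)) * (y * b * y⁻¹)⁻¹ := by group
        _ = _ := by rw [e1]; group
    obtain ⟨l, e⟩ := Finite.injective_iff_surjective.1 this ⟨k, hk⟩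
    rw [← show (l : Om)⁻¹ * (y * l * y⁻¹) = k from congrArg Subtype.val e]
    calc _ = y * (l : Om)⁻¹ * y⁻¹ * ((y * y) * l * (y * y)⁻¹) := by group
      _ = _ := by rw [yy]; group
  have e7 := enc_ext 7 (by norm_num)
  have e8 : oM.enc z0 = cE.get 8 := enc_ext 8 (by norm_num)
  have sq : ∀ y : Om, Nat.beq (oM.mul (oM.enc y) (oM.enc y)) oM.one = true → y * y = 1 :=
    fun y e => oM.enc_inj (by rw [oM.enc_mul, oM.enc_one]; exact Nat.eq_of_beq_eq_true e)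
  refine (injective_iff_map_eq_one f).2 fun k hk => h1 (ext vH 7 * z0)
    (mem_D0.2 (by rw [oM.enc_mul, e7, e8]; decide +kernel)) k hk (mem_C1_iff_conj'.2 ?_)
  calc _ = ext vH 7 * (z0 * k * z0⁻¹) * (ext vH 7)⁻¹ := by group
    _ = k := by
      rw [h2 z0 ⟨1, by simp⟩ (sq _ (by rw [e8]; decide +kernel)) k hk,
        h2 _ (mem_D0.2 (by rw [e7]; decide +kernel)) (sq _ (by rw [e7]; decide +kernel)) _
        (inv_mem hk), inv_inv]

theorem wval_congr {v v' : ℕ → G} {n : ℕ} (h : ∀ a, a ≤ n → v a = v' a) {w : List ℕ}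
    (hw : ∀ l ∈ w, l ≤ 2 * n + 1) : wval v w = wval v' w := by
  induction w with
  | nil => rfl
  | cons l w ih =>
    rw [wval_cons, wval_cons, ih fun l hl => hw l (by simp [hl]), sval, sval,
      h _ (by have := hw l (by simp); omega)]

theorem τ3 (i : Fin 3) : (τ 0 * τ 1 * τ 2) i = t0 := by revert i; decide

namespace Cfg
variable {D : Set G} {Q : G → Subgroup G} {z x : G} {π : G → T3} {s w : Fin 3 → G}
  (h : Cfg D Q z x π s w)
include h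

theorem inQ {y : G} (hy : y ∈ D) (hq : y ∈ Q z) :
    y = z ∨ ∃ g ∈ C1 z, g * x * g⁻¹ = y := by
  refine (eq_or_ne y z).imp id fun ne => ?_
  have k : Col D Q z y := ⟨h.sys, h.hz, hy, hq, ne⟩
  have l := h.l
  obtain ⟨σ, hσ⟩ := k.exists_nz' l
  obtain ⟨g, hg, rfl⟩ := l.onto σ
  have n : Nz D Q z (g * y * g⁻¹) π := ⟨⟨h.sys, h.hz, h.sys.cj y hy g, l.nrm hg hq, fun e => ne (by
      rw [← mem_C1_iff_conj.1 (inv_mem hg), ← e]; group)⟩, l, fun c hc hc' => by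
    have hc1 : g⁻¹ * c * g⁻¹⁻¹ ∈ C1 z := mul_mem (mul_mem (inv_mem hg) hc) (inv_mem (inv_mem hg))
    have := hσ _ hc1 (by rw [← cj_C1, mem_cj] at hc'; simpa using hc')
    rwa [l.cj (inv_mem hg) hc, l.inv hg, show π g * ((π g)⁻¹ * π c * (π g)⁻¹⁻¹) * (π g)⁻¹ = π c
      by group] at this⟩
  suffices ∃ g' ∈ C1 z, g' * x * g'⁻¹ = g * y * g⁻¹ by
    obtain ⟨g', hg', e⟩ := this
    refine ⟨g⁻¹ * g', mul_mem (inv_mem hg) hg', ?_⟩
    calc _ = g⁻¹ * (g' * x * g'⁻¹) * g := by group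
      _ = y := by rw [e]; group
  generalize g * y * g⁻¹ = y at n
  have fx : ∀ c ∈ C1 z, E0 (π c) → c * y * c⁻¹ = y ∨ c * y * c⁻¹ = y * z := fun c hc e => by
    obtain ⟨a, ha, ea⟩ := n.lift e
    have := l.cm _ ((l.eq_iff hc ha.2).1 ea.symm) y n.xq
    rwa [show c * a⁻¹ * y * (c * a⁻¹)⁻¹ = c * (a⁻¹ * y * a⁻¹⁻¹) * c⁻¹ by group,
      mem_C1_iff_conj.1 (inv_mem (n.toCol.ex.le ha.1))] at this
  have cm : ∀ i, ∀ b ∈ Q z, s i * b * s i * b ∈ C1 y := fun i b hb => by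
    have hb' := l.nrm (h.sC i) hb
    have e1 : ∀ a ∈ Q z, a * (y * z) * a⁻¹ = a * y * a⁻¹ * z := fun a ha => by
      rw [mul_assoc _ a⁻¹ z, l.zc (inv_mem ha)]; group
    have e2 : s i * b * s i * y * (s i * b * s i)⁻¹ = b * y * b⁻¹ := by
      rw [show s i * b * s i * y * (s i * b * s i)⁻¹ = s i * (b * (s i * y * (s i)⁻¹) * b⁻¹) * (s i)⁻¹
        by group]
      have e3 : s i * (y * z) * (s i)⁻¹ = s i * y * (s i)⁻¹ * z := by
        conv_rhs => rw [← mem_C1_iff_conj.1 (h.sC i)]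
        group
      rcases fx _ (h.sC i) (h.ps i ▸ E0_τ i) with e | e <;> rcases l.cm b hb y n.xq with e' | e' <;>
        simp only [e, e', e1 b hb, e3, mul_assoc _ z z, l.zz, mul_one]
    rw [h.si] at hb'
    rw [mem_C1_iff_conj, show s i * b * s i * b * y * (s i * b * s i * b)⁻¹ =
      s i * b * s i * (b * y * b⁻¹) * (s i * b * s i)⁻¹ by group]
    rcases l.cm b hb y n.xq with e' | e' <;> rw [e'] at e2 ⊢
    · exact e2
    · rw [e1 _ hb', e2, mul_assoc, l.zz, mul_one]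
  have f := h.fc
  have uu := fun i => h.k.elU (h.uU i)
  have hU : y ∈ Q z ⊓ Q x := h.k.cent (le_C1_iff.1 (h.genU (mem_C1_comm.1 (l.le n.xq)) (by
    have := cm 0 _ (h.uU 0).1
    rwa [uG, h.su, ← uG, mul_assoc, ← h.k.abU.comm (h.uU 0) h.k.xU, ← mul_assoc, uu, one_mul]
      at this) fun i => by
    obtain ⟨j, k, jk, e⟩ := (by decide : ∀ i : Fin 3, ∃ j k, j ≠ k ∧ th j k = i) i
    have := cm k _ (h.mQ j)
    have e' := h.tr [1 + k, 12 + j, 1 + k, 12 + j] [9 + th j k]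
      ((by decide +kernel : ∀ j k : Fin 3, j ≠ k →
        idChk [1 + k, 12 + j, 1 + k, 12 + j] [9 + th j k] = true) j k jk)
    simp only [ev, List.foldl, eG_s, eG_m, eG_u] at e'
    rwa [e', e] at this))
  rcases h.k.ex.cen2 h.k.zU.2 l.z1 h.ne.symm l.zz hU.2 (fun a ha e => by
    have ha' : a ∈ C1 z := mem_C1.2 e
    exact (mul_inv_eq_iff_eq_mul.1 (h.k.two (fx a ha' (h.e0 a ha' (h.k.ex.le ha)))
      (h.k.ex.cm a ha y hU.2))).symm) with e | e | e | e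
  · exact absurd e n.toCol.ex.z1
  · exact ⟨1, one_mem _, by simp [e]⟩
  · exact absurd e n.ne
  · exact ⟨_, l.le h.nQ, by rw [h.ni, f.nx, e, h.k.xz]⟩

theorem not_far {u : G} (f1 : Far D Q z u) (f2 : Far D Q u z) : False := by
  have l := h.l
  have wt := f1.wt f2 l
  choose σ hσ using fun i => s3_t0 (π u i) (congrFun wt i)
  obtain ⟨g, hg, rfl⟩ := l.onto σ
  have hs : s 0 * s 1 * s 2 ∈ C1 z := mul_mem (mul_mem (h.sC 0) (h.sC 1)) (h.sC 2)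
  have hu : g * u * g⁻¹ ∈ C1 z := mul_mem (mul_mem hg f1.cm) (inv_mem hg)
  have hq := (l.eq_iff hu hs).1 (by
    rw [l.cj hg f1.cm, l.mul _ (mul_mem (h.sC 0) (h.sC 1)) _ (h.sC 2), l.mul _ (h.sC 0) _ (h.sC 1),
      h.ps, h.ps, h.ps]
    funext i
    rw [τ3, ← hσ i]; rfl)
  have hn : g⁻¹ * nG w x * g⁻¹⁻¹ ∈ Q z := l.nrm (inv_mem hg) h.nQ
  have e := f2.el (f2.sA hn)
  have fin := h.fc.fin
  have ss : (s 0 * s 1 * s 2)⁻¹ = s 0 * s 1 * s 2 := by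
    rw [mul_inv_rev, mul_inv_rev, h.si, h.si, h.si, ← h.ss' 0 1, ← mul_assoc, ← h.ss' 0 2,
      mul_assoc, ← h.ss' 1 2, mul_assoc]
  have e1 : nG w x * (s 0 * s 1 * s 2 * nG w x * (s 0 * s 1 * s 2)⁻¹) *
      (nG w x * (s 0 * s 1 * s 2 * nG w x * (s 0 * s 1 * s 2)⁻¹)) = z := by
    rw [ss]; simpa only [mul_assoc] using fin
  have hb := l.nrm hs h.nQ
  have ni := h.ni
  have nQ := h.nQ
  generalize s 0 * s 1 * s 2 = t at hq e1 hb
  generalize nG w x = n at e e1 hb ni nQ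
  have e2 : n * (g * u * g⁻¹ * t⁻¹ * (t * n * t⁻¹) * (g * u * g⁻¹ * t⁻¹)⁻¹) *
      (n * (g * u * g⁻¹ * t⁻¹ * (t * n * t⁻¹) * (g * u * g⁻¹ * t⁻¹)⁻¹)) = 1 := by
    calc _ = g * (g⁻¹ * n * g⁻¹⁻¹ * u * (g⁻¹ * n⁻¹⁻¹ * g⁻¹⁻¹) * u⁻¹ *
          (g⁻¹ * n * g⁻¹⁻¹ * u * (g⁻¹ * n⁻¹⁻¹ * g⁻¹⁻¹) * u⁻¹)) * g⁻¹ := by group
      _ = g * (g⁻¹ * n * g⁻¹⁻¹ * u * (g⁻¹ * n * g⁻¹⁻¹)⁻¹ * u *
          (g⁻¹ * n * g⁻¹⁻¹ * u * (g⁻¹ * n * g⁻¹⁻¹)⁻¹ * u)) * g⁻¹ := by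
        rw [h.sys.inv f1.hu, ni]; group
      _ = 1 := by rw [e]; simp
  rcases l.cm _ hq _ hb with e3 | e3 <;> rw [e3] at e2
  · exact l.z1 (e1.symm.trans e2)
  · refine l.z1 (e1.symm.trans (e2.symm.trans ?_).symm)
    rw [← mul_assoc n _ z]
    generalize hm : n * (t * n * t⁻¹) = m
    rw [mul_assoc m z, ← mul_assoc z, ← l.zc (hm ▸ mul_mem nQ hb), mul_assoc m z z, l.zz, mul_one]

theorem iso : Nonempty (G ≃* Om) := by
  obtain ⟨s, w, r, h, c, b⟩ := h.ex_r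
  have l := h.l
  obtain ⟨f, hf, ef⟩ := exists_hom_of_bound (h.satG c b) vH_sat gen_top fun hs =>
    ⟨(boundG hs).1, om_facts.2.2 ▸ (boundG hs).2⟩
  have ef' : ∀ a, a ≤ 8 → f (vH a) = vG s w x r a := fun a ha => by
    rcases Nat.eq_zero_or_pos a with rfl | h0
    · rw [vH_sat.1, map_one]; rfl
    · exact ef a h0 ha
  have fz : f z0 = z := by
    rw [z0, ext, map_wval, wval_congr ef' (by decide)]
    exact congrFun (ext_vG h.xn) 8
  have fC : (C1 z0).map f = C1 z := le_antisymm (by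
    rintro _ ⟨a, ha, rfl⟩
    rw [mem_C1, ← fz, ← map_mul, ← map_mul, mem_C1.1 ha]) (by
    have m : ∀ a, 1 ≤ a → a ≤ 7 → vG s w x r a ∈ (C1 z0).map f := fun a h1 h2 =>
      ⟨_, gen7_le (mem_Gen vH h1 h2), ef a h1 (by omega)⟩
    refine h.genC (m 7 (by norm_num) (by norm_num)) (fun i => ?_) fun i => ?_ <;> fin_cases i
    exacts [m 1 (by norm_num) (by norm_num), m 2 (by norm_num) (by norm_num),
      m 3 (by norm_num) (by norm_num), m 4 (by norm_num) (by norm_num),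
      m 5 (by norm_num) (by norm_num), m 6 (by norm_num) (by norm_num)])
  have inj : Function.Injective f := ker_bot (by
    have h1 := card_range_mul (f.comp (C1 z0).subtype)
    rw [MonoidHom.range_comp, range_subtype, fC, l.card_C, om_facts.2.1, card_gen7] at h1
    rw [om_facts.2.1, eq_bot_iff]
    intro a ha
    have : (⟨a, ha.2⟩ : Gen 7 vH) = 1 := (eq_bot_of_card_le _ (by omega)).le
      (show (⟨a, ha.2⟩ : Gen 7 vH) ∈ (f.comp (Gen 7 vH).subtype).ker from ha.1)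
    exact congrArg Subtype.val this)
  have cen : C1 z ≤ f.range := fC ▸ map_le_range f _
  have idx : (C1 z).relIndex f.range = 1575 := by
    have h1 := card_mul_relIndex cen
    rw [l.card_C, ← Nat.card_congr (MonoidHom.ofInjective inj).toEquiv, om_facts.2.2] at h1
    omega
  have hr : r ∈ f.range := ⟨_, ef 8 (by norm_num) le_rfl⟩
  have f1 : ∀ y ∈ D, y ∈ Q z → ∃ g ∈ f.range, g * z * g⁻¹ = y := fun y hy hq => by
    rcases h.inQ hy hq with rfl | ⟨g, hg, rfl⟩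
    · exact ⟨1, one_mem _, by simp⟩
    · refine ⟨g * r, mul_mem (cen hg) hr, ?_⟩
      rw [← c.rz, mul_inv_rev, inv_self c.rr]; group
  have f2 : ∀ y ∈ D, y ∈ C1 z → ∃ g ∈ f.range, g * z * g⁻¹ = y := fun y hy hc => by
    by_cases hq : y ∈ Q z
    · exact f1 y hy hq
    obtain ⟨a, ha, a1, a2, -, a4⟩ := (h.sys.far_or h.hz hy hc hq).resolve_left
      fun e => h.not_far e.1 e.2
    obtain ⟨g, hg, rfl⟩ := f1 a ha a1
    have := h.sys.eqv _ ha g⁻¹ y (h.sys.sym hy ha a2 a4)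
    rw [show g⁻¹ * (g * z * g⁻¹) * g⁻¹⁻¹ = z by group] at this
    obtain ⟨k, hk, e⟩ := f1 _ (h.sys.cj y hy g⁻¹) this
    refine ⟨g * k, mul_mem hg hk, ?_⟩
    calc _ = g * (k * z * k⁻¹) * g⁻¹ := by group
      _ = y := by rw [e]; group
  have fus : ∀ y ∈ D, y ∈ f.range → ∃ g ∈ f.range, g * z * g⁻¹ = y := fun y hy hH => by
    obtain ⟨g, hg, e⟩ := fixp0 idx hH (h.sys.ex hy).zz
    obtain ⟨k, hk, e'⟩ := f2 _ (h.sys.cj y hy g⁻¹) (by
      have := mem_C1.2 e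
      rw [← cj_C1, mem_cj] at this
      simpa using this)
    refine ⟨g * k, mul_mem hg hk, ?_⟩
    calc _ = g * (k * z * k⁻¹) * g⁻¹ := by group
      _ = y := by rw [e']; group
  have mD : ∀ a, f a ∈ D ↔ a ∈ D0 := fun a => ⟨fun ha => by
    obtain ⟨_, ⟨g, rfl⟩, e⟩ := fus _ ha ⟨a, rfl⟩
    exact ⟨g, inj (by rw [map_mul, map_mul, map_inv, fz, e])⟩, by
    rintro ⟨g, rfl⟩
    rw [map_mul, map_mul, map_inv, fz]
    exact h.sys.cj z h.hz _⟩
  have := top_of h.sys.cj h.hz (h.sys.one z h.hz) l.zz l.z1 cen fus (fun a ha hc n n' => by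
    obtain ⟨a, ha', rfl⟩ := fC.ge hc
    obtain ⟨φ, -, p2, p3, p4, p5⟩ := good_D0 ((mD a).1 ha) ha' (fun e => n (by rw [e, fz]))
      fun e => n' (by rw [← fz, ← map_mul]; exact (mD _).2 e)
    refine ⟨fun k => f (φ k), fun k _ => ⟨_, rfl⟩, fun k hk l hl => by simp only [p2 k hk l hl,
      map_mul], fun k hk => (mD _).trans (p3 k hk), by simp only [p4, map_mul, fz], ?_⟩
    rintro _ hy ⟨y, rfl⟩ hw
    obtain ⟨k, hk, e⟩ := p5 y ((mD _).1 hy) (mem_top _)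
      ((mD _).1 (by rwa [map_mul, map_mul, fz]))
    exact ⟨k, hk, congrArg f e⟩) idx fun N hN o => by
      rw [← map_comap_eq_self hN, card_map_of_injective inj] at o ⊢
      exact om_odd o
  exact ⟨(MulEquiv.ofBijective f ⟨inj, MonoidHom.range_eq_top.1 this⟩).symm⟩

end Cfg

theorem LX.recog {z : G} {Q : Subgroup G} {π : G → T3} (l : LX z Q π) :
    (∀ g : G, g * z * g⁻¹ * z⁻¹ ∈ Cfsg.oddCore G) ∨ Nonempty (G ≃* Om) := by
  by_cases hi : ∀ g ∈ (⊤ : Subgroup G), Commute z (g * z * g⁻¹) → g * z * g⁻¹ = z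
  · left
    intro g
    obtain ⟨n, hn, c, hc, rfl⟩ := (mem_sup_nrm' ((nrm_Opi _ ⊤).mono inf_le_left)).1
      ((zstar (mem_top z) l.z1 l.zz hi).ge (mem_top g))
    have : Opc 2 (⊤ : Subgroup G) ≤ Cfsg.oddCore G := le_sSup ⟨nrm_top_iff.1 (nrm_Opi _ ⊤),
      ((Nat.Prime.coprime_iff_not_dvd Nat.prime_two).2 (not_dvd_card_Opc Nat.prime_two _)).symm⟩
    rw [show n * c * z * (n * c)⁻¹ * z⁻¹ = n * (c * z * c⁻¹ * n⁻¹ * z⁻¹) by group,
      mem_C1_iff_conj.1 hc.2]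
    exact this (mul_mem hn (nrm_Opi _ ⊤ z (mem_top z) _ (inv_mem hn)))
  push Not at hi
  obtain ⟨g, -, c, ne⟩ := hi
  obtain ⟨Q', h⟩ := l.sys
  have hz : z ∈ {y | ∃ g, g * z * g⁻¹ = y} := ⟨1, by simp⟩
  obtain ⟨x, hx, xq, xz⟩ := h.exq hz ⟨g, rfl⟩ (mem_C1.2 c.eq.symm) ne
  obtain ⟨x, π, s, w, k⟩ := Col.exists_cfg ⟨h, hz, hx, xq, xz⟩
  exact Or.inr k.iso

end CfsgH2.O8
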