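import Cfsg.Agent.H2.O8I
import Cfsg.Prelude.Def_Local

/-! Translation of the hypothesis. -/

set_option autoImplicit false
set_option linter.style.haveILetI false
set_option linter.unusedSectionVars false

namespace CfsgH2.O8
open Subgroup CfsgH5 CfsgH6 CfsgFT CfsgH2.Fx

universe u
variable {G : Type u} [Group G] [Finite G]

theorem gfit_eq {p : ℕ} (hp : p.Prime) (h : IsPGroup p (Cfsg.generalizedFittingSubgroup G)) :
    Cfsg.generalizedFittingSubgroup G = Cfsg.pCore p G := by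
  haveI := Fact.mk hp
  have h1 : Cfsg.layer G = ⊥ := eq_bot_iff.2 (sSup_le fun K hK => by
    have h2 : IsPGroup p K := h.to_le ((le_sSup hK).trans le_sup_left)
    haveI := h2.isNilpotent
    by_contra hc
    haveI : Nontrivial K := (nontrivial_iff_ne_bot K).2 fun e => hc e.le
    exact (Group.IsSolvable.commutator_lt_top_of_nontrivial K).ne hK.2.1.commutator_eq_top)
  refine le_antisymm (le_pCore ?_ h) ((pCore_le_fitting hp).trans le_sup_right)
  rw [Cfsg.generalizedFittingSubgroup, h1, bot_sup_eq]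
  exact sSup_normal _ fun _ h => h.1

theorem ex_of {t : G} (ht : orderOf t = 2) {F : Subgroup (C1 t)}
    (hF : Cfsg.IsExtraspecial 2 F) (hcc : C (F.map (C1 t).subtype) ≤ F.map (C1 t).subtype) :
    t ≠ 1 ∧ t * t = 1 ∧ t ∈ F.map (C1 t).subtype ∧
    (∀ a ∈ F.map (C1 t).subtype, a * a = 1 ∨ a * a = t) ∧
    (∀ a ∈ F.map (C1 t).subtype, ∀ b ∈ F.map (C1 t).subtype,
      a * b * a⁻¹ = b ∨ a * b * a⁻¹ = b * t) ∧
    ∀ g, (∀ a ∈ F.map (C1 t).subtype, g * a = a * g) → g = 1 ∨ g = t := by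
  have t1 : t ≠ 1 := fun e => by simp [e] at ht
  have tt : t * t = 1 := by rw [← pow_two, ← ht, pow_orderOf_eq_one]
  have le : F.map (C1 t).subtype ≤ C1 t := map_subtype_le F
  have tQ : t ∈ F.map (C1 t).subtype := hcc (le_C1_iff.1 le)
  have cen : ∀ g, (∀ a ∈ F.map (C1 t).subtype, g * a = a * g) → g = 1 ∨ g = t := by
    intro g hg
    obtain ⟨a, ha, rfl⟩ := hcc (mem_C.2 fun a ha => (hg a ha).symm)
    obtain ⟨b, hb, eb⟩ := tQ
    have k : ∀ (a : C1 t) (ha : a ∈ F), (∀ c ∈ F.map (C1 t).subtype, a.1 * c = c * a.1) →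
        (⟨a, ha⟩ : F) ∈ center F := fun a ha h => mem_center_iff.2 fun c =>
      Subtype.ext (Subtype.ext (h _ ⟨c.1, c.2, rfl⟩).symm)
    have e : zpowers (⟨b, hb⟩ : F) = center F := eq_of_le_of_card_le
      (zpowers_le.2 (k b hb fun c hc => by rw [show b.1 = t from eb]; exact (mem_C1.1 (le hc)).symm))
      (by
        rw [hF.2, card_zp (fun e => t1 (eb.symm.trans (congrArg (fun x : F => x.1.1) e)))
          (Subtype.ext (Subtype.ext (by simp [show b.1 = t from eb, tt])))])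
    rcases (mem_zp (Subtype.ext (Subtype.ext (by simp [show b.1 = t from eb, tt])))).1
      (e.ge (k a ha hg)) with e1 | e1
    · exact Or.inl (congrArg (fun x : F => x.1.1) e1)
    · exact Or.inr ((congrArg (fun x : F => x.1.1) e1).trans eb)
  have cm : ∀ a ∈ F.map (C1 t).subtype, ∀ b ∈ F.map (C1 t).subtype,
      a * b * a⁻¹ = b ∨ a * b * a⁻¹ = b * t := by
    rintro _ ⟨a, ha, rfl⟩ _ ⟨b, hb, rfl⟩
    have h1 : (⟨b, hb⟩ : F)⁻¹ * ⟨a, ha⟩ * (⟨b, hb⟩ : F)⁻¹⁻¹ * (⟨a, ha⟩ : F)⁻¹ ∈ center F :=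
      hF.1.2.2 ▸ commutator_mem_commutator (mem_top _) (mem_top _)
    refine (cen (b.1⁻¹ * a.1 * b.1⁻¹⁻¹ * a.1⁻¹) ?_).imp (fun e => ?_) fun e => ?_
    · rintro _ ⟨c, hc, rfl⟩
      exact (congrArg (fun x : F => x.1.1) (mem_center_iff.1 h1 ⟨c, hc⟩)).symm
    · exact (show a.1 * b.1 * a.1⁻¹ = b.1 * (b.1⁻¹ * a.1 * b.1⁻¹⁻¹ * a.1⁻¹) by group).trans
        ((congrArg (b.1 * ·) e).trans (mul_one _))
    · exact (show a.1 * b.1 * a.1⁻¹ = b.1 * (b.1⁻¹ * a.1 * b.1⁻¹⁻¹ * a.1⁻¹) by group).trans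
        (congrArg (b.1 * ·) e)
  refine ⟨t1, tt, tQ, fun a ha => cen _ fun b hb => mul_inv_eq_iff_eq_mul.1 ?_, cm, cen⟩
  rw [show a * a * b * (a * a)⁻¹ = a * (a * b * a⁻¹) * a⁻¹ by group]
  rcases cm a ha b hb with e | e <;> rw [e]
  · exact e
  · rw [show a * (b * t) * a⁻¹ = a * b * a⁻¹ * (a * t * a⁻¹) by group, e,
      mem_C1_iff_conj.1 (le ha), mul_assoc, tt, mul_one]

theorem exists_lx {t : G} (ht : orderOf t = 2)
    (hF : Cfsg.IsExtraspecial 2 (Cfsg.generalizedFittingSubgroup (C1 t)))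
    (hc : Nat.card (Cfsg.generalizedFittingSubgroup (C1 t)) = 2 ^ 9)
    (e : C1 t ⧸ Cfsg.pCore 2 (C1 t) ≃* S3 × S3 × S3)
    (hcc : C ((Cfsg.pCore 2 (C1 t)).map (C1 t).subtype) ≤
      (Cfsg.pCore 2 (C1 t)).map (C1 t).subtype) :
    ∃ π, LX t ((Cfsg.pCore 2 (C1 t)).map (C1 t).subtype) π := by
  classical
  have e0 := gfit_eq Nat.prime_two hF.1.1
  rw [e0] at hF hc
  obtain ⟨h1, h2, h3, h4, h5, h6⟩ := ex_of ht hF hcc
  let ρ : S3 × S3 × S3 → T3 := fun p => ![p.1, p.2.1, p.2.2]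
  refine ⟨fun a => if h : a ∈ C1 t then ρ (e (QuotientGroup.mk ⟨a, h⟩)) else 1,
    ⟨h1, h2, h3, by rw [card_map_of_injective (subtype_injective _), hc]; norm_num,
      map_subtype_le _, h4, h5, h6⟩, fun a ha b hb => ?_, fun a ha => ?_, fun σ => ?_⟩
  · rw [dif_pos ha, dif_pos hb, dif_pos (mul_mem ha hb),
      show (⟨a * b, mul_mem ha hb⟩ : C1 t) = ⟨a, ha⟩ * ⟨b, hb⟩ from rfl, QuotientGroup.mk_mul, map_mul]
    funext i; fin_cases i <;> rfl
  · rw [dif_pos ha, show a ∈ (Cfsg.pCore 2 (C1 t)).map (C1 t).subtype ↔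
      (⟨a, ha⟩ : C1 t) ∈ Cfsg.pCore 2 (C1 t) from mem_map_iff_mem (x := (⟨a, ha⟩ : C1 t))
        (subtype_injective _), ← QuotientGroup.eq_one_iff, ← e.map_eq_one_iff]
    refine ⟨fun h => Prod.ext (congrFun h 0) (Prod.ext (congrFun h 1) (congrFun h 2)), fun h => ?_⟩
    rw [h]; funext i; fin_cases i <;> rfl
  · obtain ⟨a, ha⟩ := QuotientGroup.mk_surjective (e.symm (σ 0, σ 1, σ 2))
    refine ⟨a, a.2, ?_⟩
    rw [dif_pos a.2, Subtype.coe_eta, ha, e.apply_symm_apply]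
    funext i; fin_cases i <;> rfl

end CfsgH2.O8
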