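import Mathlib.Tactic
import Mathlib.Data.Nat.Prime.Basic
import Mathlib.Data.Nat.ModEq

/-! Arithmetic of the divisors of `p ^ 4 - 1`. -/

set_option autoImplicit false

namespace CfsgQ97

theorem fac4 {p : ℕ} (h : 1 ≤ p) : p ^ 4 - 1 = (p - 1) * (p + 1) * (p ^ 2 + 1) := by
  obtain ⟨n, rfl⟩ := Nat.exists_eq_add_of_le h
  have : (1 + n) ^ 4 = n * (1 + n + 1) * ((1 + n) ^ 2 + 1) + 1 := by ring
  rw [this]; simp

theorem pow_dvd_or {r i a b : ℕ} (hr : r.Prime) (h : r ^ i ∣ a * b) (hn : ¬ (r ∣ a ∧ r ∣ b)) :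
    r ^ i ∣ a ∨ r ^ i ∣ b := by
  by_cases ha : r ∣ a
  · have hb : ¬ r ∣ b := fun e => hn ⟨ha, e⟩
    exact Or.inl (((Nat.Prime.coprime_iff_not_dvd hr).mpr hb).pow_left i |>.dvd_of_dvd_mul_right h)
  · exact Or.inr (((Nat.Prime.coprime_iff_not_dvd hr).mpr ha).pow_left i |>.dvd_of_dvd_mul_left h)

theorem ge_of_modEq {n p : ℕ} (h : n ≡ 1 [MOD p]) (h1 : 1 < n) : ∃ k, 1 ≤ k ∧ n = k * p + 1 := by
  obtain ⟨k, hk⟩ := (Nat.modEq_iff_dvd' h1.le).mp h.symm
  refine ⟨k, Nat.pos_of_ne_zero fun e => ?_, by rw [mul_comm]; omega⟩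
  subst e; omega

theorem ar_pow {p r i : ℕ} (hp : p.Prime) (h5 : 5 < p) (hr : r.Prime) (hi : 1 < r ^ i)
    (h1 : r ^ i ≡ 1 [MOD p]) (h2 : 2 * r ^ i ∣ p ^ 4 - 1) : r = 2 ∧ r ^ i = p + 1 := by
  obtain ⟨k, hk1, hk⟩ := ge_of_modEq h1 hi
  obtain ⟨m, hm⟩ := hp.odd_of_ne_two (by omega)
  rw [fac4 hp.one_le] at h2
  have e1 : p - 1 = 2 * m := by omega
  have e2 : p + 1 = 2 * (m + 1) := by omega
  have e3 : p ^ 2 + 1 = 2 * (2 * (m * (m + 1)) + 1) := by rw [hm]; ring
  have m0 : 2 < m := by omega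
  have i0 : i ≠ 0 := by rintro rfl; simp at hi
  have kp : p ≤ k * p := Nat.le_mul_of_pos_left _ hk1
  by_cases r2 : r = 2
  · subst r2
    refine ⟨rfl, ?_⟩
    have h3 : 2 ^ i ∣ (p - 1) * (p + 1) := by
      rw [e3, mul_left_comm] at h2
      refine (pow_dvd_or Nat.prime_two (Nat.dvd_of_mul_dvd_mul_left two_pos h2)
        (by omega)).elim id fun e => ?_
      have := (dvd_pow_self 2 i0).trans e
      omega
    have h4 : 2 ^ i ≤ 2 * p + 2 := by
      rw [e1, e2] at h3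
      rcases Nat.even_or_odd m with ⟨j, hj⟩ | ⟨j, hj⟩
      · rw [show 2 * m * (2 * (m + 1)) = 4 * m * (m + 1) by ring] at h3
        rcases pow_dvd_or Nat.prime_two h3 (by omega) with e | e
        · have := Nat.le_of_dvd (by omega) e; omega
        · have := Nat.le_of_dvd (by omega) e; omega
      · rw [show 2 * m * (2 * (m + 1)) = m * (4 * (m + 1)) by ring] at h3
        rcases pow_dvd_or Nat.prime_two h3 (by omega) with e | e
        · have := Nat.le_of_dvd (by omega) e; omega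
        · have := Nat.le_of_dvd (by omega) e; omega
    have h6 := dvd_pow_self 2 i0
    have : k < 3 := by
      by_contra c
      have : 3 * p ≤ k * p := Nat.mul_le_mul_right _ (by omega)
      omega
    interval_cases k <;> omega
  exfalso
  have ro : Odd (r ^ i) := (hr.odd_of_ne_two r2).pow
  have n2 : ¬ r ∣ 2 := fun e => r2 ((Nat.prime_dvd_prime_iff_eq hr Nat.prime_two).mp e)
  have h3 := (Dvd.intro_left _ rfl).trans h2
  have c1 : ¬ (r ∣ p - 1 ∧ r ∣ p + 1) := fun ⟨a, b⟩ => n2 (by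
    have := Nat.dvd_sub b a
    rwa [show p + 1 - (p - 1) = 2 by omega] at this)
  have c2 : ¬ (r ∣ (p - 1) * (p + 1) ∧ r ∣ p ^ 2 + 1) := fun ⟨a, b⟩ => n2 (by
    have := Nat.dvd_sub b a
    rwa [show p ^ 2 + 1 - (p - 1) * (p + 1) = 2 by
      rw [e1, e2, e3, show 2 * (2 * (m * (m + 1)) + 1) = 2 * m * (2 * (m + 1)) + 2 by ring]
      simp] at this)
  obtain ⟨j, hj⟩ := ro
  rcases pow_dvd_or hr h3 c2 with e | ⟨s, e⟩
  · rcases pow_dvd_or hr e c1 with e | e
    · have := Nat.le_of_dvd (by omega) e; omega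
    · have := Nat.le_of_dvd (by omega) e; omega
  have s1 : s ≡ 1 [MOD p] := by
    have a : r ^ i * s ≡ 1 * s [MOD p] := h1.mul_right s
    have b : p ^ 2 + 1 ≡ 0 + 1 [MOD p] :=
      Nat.ModEq.add_right 1 ((Nat.modEq_zero_iff_dvd).mpr (dvd_pow_self p two_ne_zero))
    rw [← e, one_mul] at a
    exact a.symm.trans b
  have s0 : s ≠ 0 := by rintro rfl; simp at e
  have s2 : s ≠ 1 := by rintro rfl; omega
  obtain ⟨l, hl1, hl⟩ := ge_of_modEq s1 (by omega)
  have lp : p ≤ l * p := Nat.le_mul_of_pos_left _ hl1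
  have : (p + 1) * (p + 1) ≤ r ^ i * s := Nat.mul_le_mul (by omega) (by omega)
  nlinarith

theorem ar_k {p k : ℕ} (h : k * p + 1 ∣ p ^ 4 - 1) (h2 : 2 ≤ k) (hk : k < p) :
    p ≤ k ^ 2 + k + 1 := by
  have p1 : 1 ≤ p ^ 4 := Nat.one_le_pow _ _ (by omega)
  have h' : ((k : ℤ) * p + 1) ∣ (p : ℤ) ^ 4 - 1 := by
    have := Int.natCast_dvd_natCast.mpr h
    rwa [Nat.cast_sub p1] at this
    <;> skip
  have h3 : ((k : ℤ) * p + 1) ∣ (p : ℤ) ^ 2 - k ^ 2 := by
    have := (h'.mul_left ((k : ℤ) ^ 2)).sub (Dvd.intro_left ((p : ℤ) ^ 2 * (k * p - 1)) rfl)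
    rwa [show (k : ℤ) ^ 2 * (p ^ 4 - 1) - p ^ 2 * (k * p - 1) * (k * p + 1) = p ^ 2 - k ^ 2 by ring]
      at this
  obtain ⟨i, hi⟩ := h3
  have k2 : (2 : ℤ) ≤ k := by exact_mod_cast h2
  have kp : (k : ℤ) < p := by exact_mod_cast hk
  have i0 : 0 < i := by
    by_contra c
    have : ((k : ℤ) * p + 1) * i ≤ 0 := mul_nonpos_of_nonneg_of_nonpos (by positivity) (by omega)
    nlinarith
  have d : (p : ℤ) ∣ k ^ 2 + i := ⟨p - k * i, by linear_combination -hi⟩
  have e1 := Int.le_of_dvd (by positivity) d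
  have e2 : (k : ℤ) * i < p := by
    by_contra c
    have : (p : ℤ) * p ≤ k * i * p := mul_le_mul_of_nonneg_right (by omega) (by positivity)
    nlinarith
  have e3 : ((k : ℤ) - 1) * p ≤ (k - 1) * (k ^ 2 + k + 1) := by nlinarith
  have := le_of_mul_le_mul_left e3 (by omega)
  exact_mod_cast this

theorem ar_ti {p n : ℕ} (hp : 1 < p) (h1 : n ≡ 1 [MOD p ^ 2]) (h2 : n ∣ p ^ 4 - 1) (h3 : 1 < n) :
    n = p ^ 2 + 1 := by
  obtain ⟨k, hk1, hk⟩ := ge_of_modEq h1 h3
  obtain ⟨s, hs⟩ := h2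
  have p2 : 1 < p ^ 2 := Nat.one_lt_pow two_ne_zero hp
  have p4 : p ^ 4 = p ^ 2 * p ^ 2 := by ring
  generalize p ^ 2 = q at *
  have e : q * q = (k * q + 1) * s + 1 := by
    have : 0 < q * q := by positivity
    rw [← hk, ← hs]; omega
  have d : q ∣ s + 1 := (Nat.dvd_add_right (Dvd.intro (k * s) rfl)).mp
    (by rw [show q * (k * s) + (s + 1) = q * q by rw [e]; ring]; exact Dvd.intro _ rfl)
  have := Nat.le_of_dvd (by omega) d
  have k1 : k < 2 := by
    by_contra c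
    have : (2 * q + 1) * s ≤ (k * q + 1) * s :=
      Nat.mul_le_mul_right _ (Nat.succ_le_succ (Nat.mul_le_mul_right _ (by omega)))
    nlinarith
  rw [hk, show k = 1 by omega, one_mul]

theorem ar_count {p n w u : ℕ} (hp : 1 < p) (h1 : n * w = p ^ 4 - 1)
    (h2 : p ^ 2 ∣ n + (p ^ 2 - 1) + p * (u * (p - 1))) (h3 : w ≤ u * (p - 1)) (h4 : u ≤ p + 1) :
    w = p - 1 := by
  have p1 : 1 ≤ p ^ 4 := Nat.one_le_pow _ _ (by omega)
  have p2 : 1 ≤ p ^ 2 := Nat.one_le_pow _ _ (by omega)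
  obtain ⟨c, hc⟩ := h2
  zify [p1, p2, hp.le] at h1 hc h3 h4 ⊢
  have P : (1 : ℤ) < p := by exact_mod_cast hp
  have w0 : (0 : ℤ) ≤ w := by positivity
  have u0 : (0 : ℤ) ≤ u := by positivity
  have e1 : (w : ℤ) + 1 = p * (p ^ 3 - w * u - p * w * (c - 1 - u)) := by
    linear_combination h1 - w * hc
  generalize hs : (p : ℤ) ^ 3 - w * u - p * w * (c - 1 - u) = s at e1
  have e2 : (u : ℤ) - s = p * (-p ^ 2 + s * u + w * (c - 1 - u)) := by
    linear_combination hs + u * e1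
  generalize -(p : ℤ) ^ 2 + s * u + w * (c - 1 - u) = d at e2
  have s1 : 1 ≤ s := by
    by_contra c
    have : (p : ℤ) * s ≤ 0 := mul_nonpos_of_nonneg_of_nonpos (by omega) (by omega)
    omega
  have s2 : s ≤ 1 := by
    rcases lt_trichotomy d 0 with e | e | e
    · have : (p : ℤ) * d ≤ p * (-1) := mul_le_mul_of_nonneg_left (by omega) (by omega)
      nlinarith
    · subst e
      have : (u : ℤ) = s := by omega
      subst this
      nlinarith
    · have : (p : ℤ) * 1 ≤ p * d := mul_le_mul_of_nonneg_left (by omega) (by omega)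
      omega
  have : s = 1 := by omega
  subst this
  omega

theorem ar_ek {p e k : ℕ} (h : 2 * (e * (k * p + 1)) ^ 2 ≤ p ^ 4) (hp : 0 < p) : e * k < p := by
  by_contra c
  have : p * p ≤ e * (k * p + 1) := by nlinarith
  have h2 : (p * p) ^ 2 ≤ (e * (k * p + 1)) ^ 2 := Nat.pow_le_pow_left this 2
  have : 0 < p ^ 4 := by positivity
  nlinarith

theorem ar_fin {p e τ k : ℕ} (hp : p.Prime) (h5 : 5 < p) (h1 : e * τ + 1 = p) (he : 2 ≤ e)
    (hk : 2 ≤ k) (h2 : τ ≤ k + 1) (h3 : 2 * (e * (k * p + 1)) ^ 2 ≤ p ^ 4)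
    (h4 : k * p + 1 ∣ p ^ 4 - 1) (h6 : 4 ∣ p * e * (k * p + 1)) : False := by
  have key : ∀ A : ℕ, A ≤ e * (k * p + 1) → p ^ 4 < 2 * A ^ 2 → False := fun A a b => by
    have := Nat.pow_le_pow_left a 2
    omega
  by_cases c : τ ≤ k
  · refine key ((p - 1) * p) ?_ ?_
    · have : e * τ ≤ e * k := Nat.mul_le_mul_left _ c
      have : (p - 1) * p ≤ e * k * p := Nat.mul_le_mul_right _ (by omega)
      nlinarith
    · obtain ⟨n, rfl⟩ : ∃ n, p = n + 6 := ⟨p - 6, by omega⟩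
      rw [show n + 6 - 1 = n + 5 by omega]
      nlinarith [Nat.zero_le (n ^ 4), Nat.zero_le (n ^ 3), Nat.zero_le (n ^ 2)]
  obtain rfl : τ = k + 1 := by omega
  by_cases c2 : k = 2
  · subst c2
    have p1 : 1 ≤ p ^ 4 := Nat.one_le_pow _ _ (by omega)
    have d : 2 * p + 1 ∣ 15 := by
      have h' : (2 * (p : ℤ) + 1) ∣ (p : ℤ) ^ 4 - 1 := by
        have := Int.natCast_dvd_natCast.mpr h4
        rwa [Nat.cast_sub p1] at this
        <;> skip
      have := (Dvd.intro_left ((2 * (p : ℤ) - 1) * (4 * p ^ 2 + 1)) rfl).sub (h'.mul_left 16)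
      have e : (2 * (p : ℤ) - 1) * (4 * p ^ 2 + 1) * (2 * p + 1) - 16 * (p ^ 4 - 1) = 15 := by ring
      rw [e] at this
      exact_mod_cast this
    have := Nat.le_of_dvd (by omega) d
    have : p = 7 := by
      have : p ≠ 6 := by rintro rfl; norm_num at hp
      omega
    subst this
    have : e = 2 := by omega
    subst this
    omega
  have k3 : 3 ≤ k := by omega
  by_cases c3 : p < 13
  · have : e * 4 ≤ e * (k + 1) := Nat.mul_le_mul_left _ (by omega)
    have e3 : e < 3 := by omega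
    obtain rfl : e = 2 := by omega
    have : k < 5 := by omega
    interval_cases k
    · obtain rfl : p = 9 := by omega
      norm_num at hp
    · obtain rfl : p = 11 := by omega
      norm_num at h3
  have e4 : e * 4 ≤ e * (k + 1) := Nat.mul_le_mul_left _ (by omega)
  obtain ⟨n, rfl⟩ : ∃ n, p = n + 13 := ⟨p - 13, by omega⟩
  have a1 : (n + 12) * (3 * n + 40) ≤ 4 * (e * (k * (n + 13) + 1)) := by
    have : e * k + e = n + 12 := by nlinarith
    have b : 4 * (e * (k * (n + 13) + 1)) = 4 * (e * k) * (n + 13) + 4 * e := by ring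
    rw [b, show e * k = n + 12 - e by omega]
    obtain ⟨f, hf⟩ : ∃ f, n + 12 = 4 * e + f := ⟨n + 12 - 4 * e, by omega⟩
    rw [show n + 12 - e = 3 * e + f by omega, hf, show n + 13 = 4 * e + f + 1 by omega,
      show 3 * n + 40 = 3 * (4 * e + f) + 4 by omega]
    nlinarith [Nat.zero_le (e * f), Nat.zero_le (f * f)]
  have a2 := Nat.pow_le_pow_left a1 2
  nlinarith [Nat.zero_le (n ^ 4), Nat.zero_le (n ^ 3), Nat.zero_le (n ^ 2)]

theorem ar_neg {p e k a c z w : ℤ} (h1 : z * w = e * (k * p + 1)) (h2 : z = p * a + c) (hc : c < 0)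
    (h3 : 0 ≤ a + c) (hw : 0 < w) (he : 0 ≤ e) (hp : 1 ≤ p) : p - 1 ≤ e * (k + 1) := by
  subst h2
  have e1 : c * w = e + p * (e * k - a * w) := by linear_combination h1
  generalize hj : e * k - a * w = j at e1
  have : c * w < 0 := mul_neg_of_neg_of_pos hc hw
  have j0 : j < 0 := by
    by_contra f
    have : 0 ≤ p * j := mul_nonneg (by omega) (by omega)
    omega
  have : 0 ≤ (a + c) * w := mul_nonneg h3 hw.le
  nlinarith

theorem ar_theta {p e k a z w : ℕ} (hp : p.Prime) (h1 : z * w = e * (k * p + 1))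
    (h2 : z = p * a + e) (he : 0 < e) (hk : 0 < k) (h3 : p < z)
    (h4 : z * z ≤ p * e * (k * p + 1)) (h5 : e * k < p) : False := by
  have ep : e < p := lt_of_le_of_lt (Nat.le_mul_of_pos_right _ hk) h5
  have w1 : w ≡ 1 [MOD p] := by
    refine Nat.ModEq.cancel_left_of_coprime (c := e) ((Nat.Prime.coprime_iff_not_dvd hp).mpr
      fun d => absurd (Nat.le_of_dvd he d) (by omega)) ?_
    have a : p * (a * w) + e * w = p * (e * k) + e * 1 := by rw [h2] at h1; linarith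
    have := congrArg (· % p) a
    simp only [Nat.mul_add_mod] at this
    exact this
  have w0 : w ≠ 0 := by
    rintro rfl
    have : 0 < e * (k * p + 1) := by positivity
    omega
  by_cases c : w = 1
  · subst c
    rw [mul_one] at h1
    rw [mul_assoc, ← h1] at h4
    nlinarith
  obtain ⟨l, hl1, hl⟩ := ge_of_modEq w1 (by omega)
  have lp : p ≤ l * p := Nat.le_mul_of_pos_left _ hl1
  have : (p + 1) * (p + 1) ≤ z * w := Nat.mul_le_mul (by omega) (by omega)
  nlinarith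

end CfsgQ97
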