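import Cfsg.Agent.H9.Loc3K
import Cfsg.Agent.H8.Pres
import Cfsg.Agent.H9.Pres

/-! The 3-local frame of `Ω⁺₈(2).3` and `Ω⁺₈(2).Sym(3)`. -/

set_option autoImplicit false

namespace CfsgH2.T3

open Subgroup CfsgH5 CfsgH6 CfsgFT CfsgH7 CfsgH9 Matrix

universe u

/-- coordinates in `J` -/
abbrev V4 : Type := Fin 4 → ZMod 3
/-- matrices acting on `J` -/
abbrev M4 : Type := Matrix (Fin 4) (Fin 4) (ZMod 3)

def mX : M4 := !![0, 0, 1, 0; 1, 0, 0, 0; 0, 1, 0, 0; 0, 0, 0, 1]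
def mT : M4 := !![1, 0, 0, 0; 0, 0, 1, 0; 0, 1, 0, 0; 0, 0, 0, 1]
def mU : M4 := !![1, 0, 0, 0; 0, -1, 0, 0; 0, 0, -1, 0; 0, 0, 0, 1]
def mY : M4 := !![1, 0, 0, 0; 0, 1, 0, 0; 0, 0, 0, 1; 0, 0, 1, 0]
def mS : M4 := !![1, 0, 0, 0; 0, 1, 0, 0; 0, 0, 1, 0; 0, 0, 0, -1]
def mR : M4 := !![-1, 1, 1, 1; 1, -1, 1, 1; 1, 1, -1, 1; -1, -1, -1, 1]
/-- the invariant form -/
def nm (v : V4) : ZMod 3 := v 0 * v 0 + v 1 * v 1 + v 2 * v 2 + v 3 * v 3

/-- generators -/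
structure FD (G : Type*) where
  a : G
  b : G
  c : G
  d : G
  x : G
  t : G
  u : G
  y : G
  w : G
  ν : G
  τ : G
  s : G

variable {G : Type u} [Group G]

namespace FD
variable (f : FD G)

def jv (v : V4) : G := f.a ^ (v 0).val * f.b ^ (v 1).val * f.c ^ (v 2).val * f.d ^ (v 3).val
def J : Subgroup G := closure {f.a, f.b, f.c, f.d}
def z : G := f.a * f.b * f.c
def e : G := f.b⁻¹ * f.c
def Act (g : G) (A : M4) : Prop := ∀ v, g * f.jv v * g⁻¹ = f.jv (A *ᵥ v)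
def val : ℕ → G := lv [f.a, f.b, f.c, f.d, f.x, f.t, f.u, f.ν, f.w, f.y]
/-- the subgroup `Ω⁺₈(2)` -/
def H : Subgroup G := CfsgH8.Gen 10 f.val
/-- its extension -/
def M : Subgroup G := f.H ⊔ zpowers f.τ ⊔ zpowers f.s
/-- the Sylow 3-subgroup -/
def S : Subgroup G := f.J ⊔ zpowers f.x ⊔ zpowers f.τ

theorem jv_zero : f.jv 0 = 1 := by simp [jv]
theorem jv_a : f.jv ![1, 0, 0, 0] = f.a := by simp [jv, ZMod.val_one]
theorem jv_b : f.jv ![0, 1, 0, 0] = f.b := by simp [jv, ZMod.val_one]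
theorem jv_c : f.jv ![0, 0, 1, 0] = f.c := by simp [jv, ZMod.val_one]
theorem jv_d : f.jv ![0, 0, 0, 1] = f.d := by simp [jv, ZMod.val_one]
theorem jv_z : f.jv ![1, 1, 1, 0] = f.z := by simp [jv, ZMod.val_one, z]
theorem a_mem : f.a ∈ f.J := subset_closure (by simp)
theorem b_mem : f.b ∈ f.J := subset_closure (by simp)
theorem c_mem : f.c ∈ f.J := subset_closure (by simp)
theorem d_mem : f.d ∈ f.J := subset_closure (by simp)
theorem jv_mem (v : V4) : f.jv v ∈ f.J :=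
  mul_mem (mul_mem (mul_mem (pow_mem f.a_mem _) (pow_mem f.b_mem _)) (pow_mem f.c_mem _))
    (pow_mem f.d_mem _)
theorem J_le {K : Subgroup G} (h1 : f.a ∈ K) (h2 : f.b ∈ K) (h3 : f.c ∈ K) (h4 : f.d ∈ K) :
    f.J ≤ K := (closure_le K).2 (by rintro _ (rfl | rfl | rfl | rfl) <;> assumption)
theorem mH (k : ℕ) (h1 : 1 ≤ k) (h2 : k ≤ 10) : f.val k ∈ f.H := CfsgH8.mem_Gen _ h1 h2
theorem J_le_H : f.J ≤ f.H :=
  f.J_le (f.mH 1 le_rfl (by norm_num)) (f.mH 2 (by norm_num) (by norm_num))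
    (f.mH 3 (by norm_num) (by norm_num)) (f.mH 4 (by norm_num) (by norm_num))
theorem x_mem : f.x ∈ f.H := f.mH 5 (by norm_num) (by norm_num)
theorem t_mem : f.t ∈ f.H := f.mH 6 (by norm_num) (by norm_num)
theorem u_mem : f.u ∈ f.H := f.mH 7 (by norm_num) (by norm_num)
theorem ν_mem : f.ν ∈ f.H := f.mH 8 (by norm_num) (by norm_num)
theorem w_mem : f.w ∈ f.H := f.mH 9 (by norm_num) (by norm_num)
theorem y_mem : f.y ∈ f.H := f.mH 10 (by norm_num) (by norm_num)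
theorem H_le_M : f.H ≤ f.M := le_sup_left.trans le_sup_left
theorem τ_mem : f.τ ∈ f.M := mem_sup_left (mem_sup_right (mem_zpowers _))
theorem s_mem : f.s ∈ f.M := mem_sup_right (mem_zpowers _)

variable {f}

theorem Act.one : f.Act 1 1 := fun v => by simp
theorem Act.mul {g h : G} {A B : M4} (h1 : f.Act g A) (h2 : f.Act h B) : f.Act (g * h) (A * B) :=
  fun v => by rw [← mulVec_mulVec, ← h1, ← h2]; group
theorem Act.inv {g : G} {A B : M4} (h1 : f.Act g A) (e : A * B = 1) : f.Act g⁻¹ B := fun v => by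
  have := h1 (B *ᵥ v)
  rw [mulVec_mulVec, e, one_mulVec] at this
  rw [← this]; group
theorem Act.pow {g : G} {A : M4} (h1 : f.Act g A) (n : ℕ) : f.Act (g ^ n) (A ^ n) := by
  induction n with
  | zero => simpa using Act.one
  | succ n ih => rw [pow_succ, pow_succ]; exact ih.mul h1
theorem Act.cast {g : G} {A B : M4} (h : f.Act g A) (e : A = B) : f.Act g B := e ▸ h

end FD

/-- the elementary abelian group `J` of order 81 -/
structure J81 (f : FD G) : Prop where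
  add : ∀ v v', f.jv (v + v') = f.jv v * f.jv v'
  inj : Function.Injective f.jv

/-- the normalizer of `J` -/
structure FrN (f : FD G) : Prop extends J81 f where
  cJ : C f.J ≤ f.J
  ax : f.Act f.x mX
  at' : f.Act f.t mT
  au : f.Act f.u mU
  ay : f.Act f.y mY
  aν : f.Act f.ν (-1)
  aτ : f.Act f.τ mR
  as : f.s = 1 ∨ f.Act f.s mS
  νν : f.ν * f.ν = 1
  νx : f.x ∈ C1 f.ν
  νt : f.t ∈ C1 f.ν
  νu : f.u ∈ C1 f.ν
  νy : f.y ∈ C1 f.ν
  ντ : f.τ ∈ C1 f.ν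
  νs : f.s ∈ C1 f.ν
  iso : ∀ g A, f.Act g A → Aᵀ * A = 1
  nr : f.s = 1 → ∀ g, ¬ f.Act g mS
  fus : ∀ g v v', g * f.jv v * g⁻¹ = f.jv v' → ∃ n A, f.Act n A ∧ A *ᵥ v = v'

/-- the full frame -/
structure Fr [Finite G] (f : FD G) : Prop extends FrN f where
  ww : f.w * f.w = f.t
  wz : f.w * f.z * f.w⁻¹ = f.z
  we : f.w * f.e * f.w⁻¹ = f.x
  wa : (f.w * f.a) ^ 3 = 1
  wd : f.w * f.d * f.w⁻¹ = f.d
  νw : f.ν * f.w * f.ν⁻¹ = f.w⁻¹
  τw : f.τ * f.w * f.τ⁻¹ = f.w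
  sw : f.s * f.w * f.s⁻¹ = f.w
  sig : Sig3 f.J
  syl : SylIn 3 f.S ⊤
  cz : C1 f.z ≤ f.S ⊔ zpowers f.w ⊔ zpowers f.s
  czd : C1 f.z ⊓ C1 f.d ≤ f.J ⊔ zpowers f.x ⊔ zpowers f.w
  cze : C1 f.z ⊓ C1 f.e ≤ N f.J
  nτ : ∀ (g : G) (v v' : V4) (k : ℕ), v 0 + v 1 + v 2 = 0 →
    g * (f.jv v * f.x ^ k * f.τ) * g⁻¹ ≠ f.jv v'

namespace J81
variable {f : FD G} (h : J81 f)
include h

theorem neg (v : V4) : f.jv (-v) = (f.jv v)⁻¹ :=
  eq_inv_of_mul_eq_one_left (by rw [← h.add, neg_add_cancel, FD.jv_zero])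

theorem nsmul (n : ℕ) (v : V4) : f.jv (n • v) = f.jv v ^ n := by
  induction n with
  | zero => simp [FD.jv_zero]
  | succ n ih => rw [succ_nsmul, h.add, ih, pow_succ]

theorem smul (k : ZMod 3) (v : V4) : f.jv (k • v) = f.jv v ^ k.val := by
  rw [← h.nsmul, ← Nat.cast_smul_eq_nsmul (ZMod 3), ZMod.natCast_zmod_val]

theorem jv_e : f.jv ![0, -1, 1, 0] = f.e := by
  rw [FD.e, ← f.jv_b, ← f.jv_c, ← h.neg, ← h.add]; congr 1; decide

theorem surj {g : G} (hg : g ∈ f.J) : ∃ v, f.jv v = g := by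
  let K : Subgroup G :=
    { carrier := Set.range f.jv
      mul_mem' := by rintro _ _ ⟨v, rfl⟩ ⟨v', rfl⟩; exact ⟨_, h.add v v'⟩
      one_mem' := ⟨0, f.jv_zero⟩
      inv_mem' := by rintro _ ⟨v, rfl⟩; exact ⟨_, h.neg v⟩ }
  exact f.J_le (K := K) ⟨_, f.jv_a⟩ ⟨_, f.jv_b⟩ ⟨_, f.jv_c⟩ ⟨_, f.jv_d⟩ hg

theorem comm (v v' : V4) : f.jv v * f.jv v' = f.jv v' * f.jv v := by
  rw [← h.add, add_comm, h.add]

theorem ab : Ab f.J := ab_iff.2 fun x hx y hy => by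
  obtain ⟨v, rfl⟩ := h.surj hx
  obtain ⟨v', rfl⟩ := h.surj hy
  exact h.comm _ _

theorem cube (v : V4) : f.jv v ^ 3 = 1 := by
  rw [← h.nsmul, ← f.jv_zero]
  congr 1
  revert v; decide +kernel

theorem exp (j : G) (hj : j ∈ f.J) : j ^ 3 = 1 := by
  obtain ⟨v, rfl⟩ := h.surj hj
  exact h.cube v

theorem isP : IsPGroup 3 f.J := fun a => ⟨1, Subtype.ext (by simpa using h.exp a a.2)⟩

theorem ne {v : V4} (hv : v ≠ 0) : f.jv v ≠ 1 := fun e => hv (h.inj (e.trans f.jv_zero.symm))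

theorem card : Nat.card f.J = 81 := by
  rw [← Nat.card_congr (Equiv.ofBijective (fun v : V4 => (⟨f.jv v, f.jv_mem v⟩ : f.J))
    ⟨fun v v' e => h.inj (congrArg Subtype.val e), fun g => by
      obtain ⟨v, hv⟩ := h.surj g.2
      exact ⟨v, Subtype.ext hv⟩⟩)]
  simp

theorem mem_zp {v w : V4} : f.jv w ∈ zpowers (f.jv v) ↔ w = 0 ∨ w = v ∨ w = -v := by
  constructor
  · intro hw
    rcases CfsgH8.mem_zpowers_three (h.cube v) hw with e | e | e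
    exacts [Or.inl (h.inj (e.trans f.jv_zero.symm)), Or.inr (Or.inl (h.inj e)),
      Or.inr (Or.inr (h.inj (e.trans (h.neg v).symm)))]
  · rintro (rfl | rfl | rfl)
    exacts [f.jv_zero ▸ one_mem _, mem_zpowers _, h.neg v ▸ inv_mem (mem_zpowers _)]

theorem act_of {g : G} {A : M4} (h1 : g * f.a * g⁻¹ = f.jv (fun i => A i 0))
    (h2 : g * f.b * g⁻¹ = f.jv (fun i => A i 1)) (h3 : g * f.c * g⁻¹ = f.jv (fun i => A i 2))
    (h4 : g * f.d * g⁻¹ = f.jv (fun i => A i 3)) : f.Act g A := fun v => by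
  have e : A *ᵥ v = v 0 • (fun i => A i 0) + v 1 • (fun i => A i 1) + v 2 • (fun i => A i 2) +
      v 3 • (fun i => A i 3) := by
    ext i
    simp [mulVec, dotProduct, Fin.sum_univ_four, mul_comm]
  rw [e, h.add, h.add, h.add, h.smul, h.smul, h.smul, h.smul, ← h1, ← h2, ← h3, ← h4, conj_pow,
    conj_pow, conj_pow, conj_pow, FD.jv]
  group

theorem act_J {j : G} (hj : j ∈ f.J) : f.Act j 1 := fun v => by
  rw [h.ab.comm hj (f.jv_mem v)]; simp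

theorem act_uniq {g : G} {A B : M4} (h1 : f.Act g A) (h2 : f.Act g B) : A = B := by
  have : ∀ v, A *ᵥ v = B *ᵥ v := fun v => h.inj ((h1 v).symm.trans (h2 v))
  ext i j
  simpa using congrFun (this (Pi.single j 1)) i

theorem act_congr {g k : G} {A : M4} (h1 : f.Act k A) (e : g * k⁻¹ ∈ f.J) : f.Act g A := by
  simpa using (h.act_J e).mul h1

theorem exists_act {g : G} (hg : g ∈ N f.J) : ∃ A, f.Act g A := by
  obtain ⟨v0, h0⟩ := h.surj (conj_mem_of_mem_N hg f.a_mem)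
  obtain ⟨v1, h1⟩ := h.surj (conj_mem_of_mem_N hg f.b_mem)
  obtain ⟨v2, h2⟩ := h.surj (conj_mem_of_mem_N hg f.c_mem)
  obtain ⟨v3, h3⟩ := h.surj (conj_mem_of_mem_N hg f.d_mem)
  exact ⟨fun i j => ![v0, v1, v2, v3] j i, h.act_of h0.symm h1.symm h2.symm h3.symm⟩

theorem mem_N [Finite G] {g : G} {A : M4} (h1 : f.Act g A) : g ∈ N f.J :=
  mem_N_of_conj fun j hj => by
    obtain ⟨v, rfl⟩ := h.surj hj
    rw [h1]; exact f.jv_mem _

theorem fix_iff {g : G} {A : M4} (hA : f.Act g A) {v : V4} : g ∈ C1 (f.jv v) ↔ A *ᵥ v = v := by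
  rw [mem_C1_iff_conj, hA]; exact h.inj.eq_iff

end J81

namespace FrN
variable {f : FD G} (h : FrN f)
include h

theorem mem_J {g : G} (h1 : f.Act g 1) : g ∈ f.J := h.cJ (mem_C.2 fun j hj => by
  obtain ⟨v, rfl⟩ := h.surj hj
  have := h1 v
  rw [one_mulVec, mul_inv_eq_iff_eq_mul] at this
  exact this.symm)

theorem div_mem_J {g k : G} {A : M4} (h1 : f.Act g A) (h2 : f.Act k A) : g * k⁻¹ ∈ f.J :=
  h.mem_J ((h1.mul (h2.inv (B := Aᵀ) (mul_eq_one_comm.1 (h.iso _ _ h1)))).cast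
    (mul_eq_one_comm.1 (h.iso _ _ h1)))

theorem eq_one {g : G} (hg : g ∈ f.J) (hν : g ∈ C1 f.ν) : g = 1 := by
  obtain ⟨v, rfl⟩ := h.surj hg
  have := (h.fix_iff h.aν).1 (mem_C1_comm.1 hν)
  rw [show v = 0 by clear hg hν; revert v; decide +kernel, f.jv_zero]

/-- elements of the complement `C_{N(J)}(ν)` are determined by their action -/
theorem eq_of_act {g k : G} {A : M4} (h1 : f.Act g A) (h2 : f.Act k A) (hg : g ∈ C1 f.ν)
    (hk : k ∈ C1 f.ν) : g = k :=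
  mul_inv_eq_one.1 (h.eq_one (h.div_mem_J h1 h2) (mul_mem hg (inv_mem hk)))

end FrN

end CfsgH2.T3
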